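import Mathlib.Algebra.BigOperators.Fin
import Mathlib.Algebra.BigOperators.Ring.Finset
import Mathlib.Data.Fintype.BigOperators
import Mathlib.Algebra.Order.BigOperators.Group.Finset
import Mathlib.Logic.Equiv.Defs
import Mathlib.Algebra.Order.Ring.Int
import Mathlib.Data.Fintype.Card
import Mathlib.Tactic.Linarith
import Mathlib.Tactic.Ring
import Mathlib.Tactic.IntervalCases
import Mathlib.Tactic.LinearCombination

/-!
# Integer vectors with prescribed inner products
-/

set_option autoImplicit false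

namespace Cfsg.Agent.H31.Extra27

variable {ι : Type*} [Fintype ι] [DecidableEq ι]

/-- The unit vector at `a`, scaled. -/
def pt (s : ℤ) (a : ι) : ι → ℤ := fun x => if x = a then s else 0

theorem pt_self (s : ℤ) (a : ι) : pt s a a = s := if_pos rfl

theorem pt_ne (s : ℤ) {a x : ι} (h : x ≠ a) : pt s a x = 0 := if_neg h

theorem sum_pt_mul (s : ℤ) (a : ι) (v : ι → ℤ) : ∑ x, pt s a x * v x = s * v a := by
  simp [pt, ite_mul]

theorem sq_unit {s : ℤ} (hs : s = 1 ∨ s = -1) : s * s = 1 := by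
  rcases hs with rfl | rfl <;> norm_num

theorem unit_of_sq {s : ℤ} (hs : s * s = 1) : s = 1 ∨ s = -1 := mul_self_eq_one_iff.1 hs

/-- A vector of norm one is a signed unit vector. -/
theorem exists_pt_of_norm_one {v : ι → ℤ} (h : ∑ x, v x * v x = 1) :
    ∃ s a, (s = 1 ∨ s = -1) ∧ v = pt s a := by
  obtain ⟨a, ha⟩ : ∃ a, v a ≠ 0 := by
    by_contra hc
    push Not at hc
    simp [hc] at h
  have h1 : (0 : ℤ) < v a * v a := mul_self_pos.2 ha
  have h2 := Finset.add_sum_erase Finset.univ (fun x => v x * v x) (Finset.mem_univ a)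
  rw [h] at h2
  have h3 : 0 ≤ ∑ x ∈ Finset.univ.erase a, v x * v x := Finset.sum_nonneg fun x _ => mul_self_nonneg _
  refine ⟨v a, a, unit_of_sq (by omega), funext fun x => ?_⟩
  by_cases hx : x = a
  · rw [hx, pt_self]
  · rw [pt_ne _ hx]
    exact mul_self_eq_zero.1 ((Finset.sum_eq_zero_iff_of_nonneg fun x _ => mul_self_nonneg _).1
      (by omega) x (Finset.mem_erase.2 ⟨hx, Finset.mem_univ x⟩))

/-- A vector of norm two has two entries `±1` and the rest zero. -/
theorem exists_pt_of_norm_two {v : ι → ℤ} (h : ∑ x, v x * v x = 2) :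
    ∃ s a t b, (s = 1 ∨ s = -1) ∧ (t = 1 ∨ t = -1) ∧ a ≠ b ∧ v = pt s a + pt t b := by
  obtain ⟨a, ha⟩ : ∃ a, v a ≠ 0 := by
    by_contra hc
    push Not at hc
    simp [hc] at h
  have h1 : (0 : ℤ) < v a * v a := mul_self_pos.2 ha
  have h2 := Finset.add_sum_erase Finset.univ (fun x => v x * v x) (Finset.mem_univ a)
  rw [h] at h2
  have h3 : 0 ≤ ∑ x ∈ Finset.univ.erase a, v x * v x := Finset.sum_nonneg fun x _ => mul_self_nonneg _
  have hva : v a * v a = 1 := by
    rcases lt_or_ge (v a) 0 with hn | hn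
    · by_contra hne
      have : v a ≤ -2 := by
        rcases eq_or_lt_of_le (show v a ≤ -1 by omega) with e | e
        · exact absurd (by rw [e]; norm_num) hne
        · omega
      nlinarith
    · by_contra hne
      have : 2 ≤ v a := by
        rcases eq_or_lt_of_le (show 1 ≤ v a by omega) with e | e
        · exact absurd (by rw [← e]; norm_num) hne
        · omega
      nlinarith
  obtain ⟨t, b, ht, hb⟩ := exists_pt_of_norm_one (v := fun x => if x = a then 0 else v x) (by
    rw [← Finset.add_sum_erase Finset.univ _ (Finset.mem_univ a)]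
    rw [Finset.sum_congr rfl fun x hx => by rw [if_neg (Finset.mem_erase.1 hx).1]]
    simp only [if_true, mul_zero, zero_add]
    omega)
  have hab : a ≠ b := fun e => by
    have := congrFun hb b
    rw [pt_self, ← e, if_pos rfl] at this
    omega
  refine ⟨v a, a, t, b, unit_of_sq hva, ht, hab, funext fun x => ?_⟩
  have := congrFun hb x
  by_cases hx : x = a
  · rw [hx, Pi.add_apply, pt_self, pt_ne _ hab, add_zero]
  · rw [Pi.add_apply, pt_ne _ hx, zero_add, ← this, if_neg hx]

/-- Eight vectors of norm two with pairwise inner products one involve at least nine entries. -/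
theorem nine_le_card_support {κ : Type*} [Fintype κ] [DecidableEq κ] (v : κ → ι → ℤ)
    (hκ : 4 ≤ Fintype.card κ)
    (h : ∀ i j, ∑ x, v i x * v j x = if i = j then 2 else 1) :
    Fintype.card κ + 1 ≤ (Finset.univ.filter fun x => ∃ i, v i x ≠ 0).card := by
  have hsupp : ∀ i, (Finset.univ.filter fun x => v i x ≠ 0).card = 2 ∧
      ∀ x, v i x ≠ 0 → v i x * v i x = 1 := by
    intro i
    obtain ⟨s, a, t, b, hs, ht, hab, e⟩ := exists_pt_of_norm_two (by rw [h i i, if_pos rfl])
    have hs0 : s ≠ 0 := by rcases hs with rfl | rfl <;> norm_num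
    have ht0 : t ≠ 0 := by rcases ht with rfl | rfl <;> norm_num
    have hset : (Finset.univ.filter fun x => v i x ≠ 0) = {a, b} := by
      ext x
      simp only [Finset.mem_filter, Finset.mem_univ, true_and, Finset.mem_insert, Finset.mem_singleton,
        e, Pi.add_apply, pt]
      by_cases h1 : x = a
      · subst h1; simp [hab, hs0]
      · by_cases h2 : x = b <;> simp [h1, h2, ht0, Ne.symm hab]
    refine ⟨by rw [hset, Finset.card_pair hab], fun x hx => ?_⟩
    have hx' : x ∈ ({a, b} : Finset ι) := hset ▸ Finset.mem_filter.2 ⟨Finset.mem_univ x, hx⟩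
    rcases Finset.mem_insert.1 hx' with rfl | hx'
    · rw [e, Pi.add_apply, pt_self, pt_ne _ hab, add_zero, sq_unit hs]
    · rw [Finset.mem_singleton.1 hx', e, Pi.add_apply, pt_self, pt_ne _ hab.symm, zero_add,
        sq_unit ht]
  set S := fun i => Finset.univ.filter fun x => v i x ≠ 0 with hS
  have hmem : ∀ {i x}, x ∈ S i ↔ v i x ≠ 0 := fun {i x} => by simp [hS]
  -- distinct members meet in one point
  have hmeet : ∀ i j, i ≠ j → ∃ x, S i ∩ S j = {x} := by
    intro i j hij
    refine Finset.card_eq_one.1 ?_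
    have h1 := h i j
    rw [if_neg hij, ← Finset.sum_subset (Finset.subset_univ (S i ∩ S j)) fun x _ hx => by
      simp only [Finset.mem_inter, hmem, not_and_or, not_not] at hx
      rcases hx with hx | hx <;> simp [hx]] at h1
    have h2 : (S i ∩ S j).card ≤ 2 := (Finset.card_le_card Finset.inter_subset_left).trans (hsupp i).1.le
    rcases Nat.lt_or_ge (S i ∩ S j).card 1 with h0 | h0
    · rw [Finset.card_eq_zero.1 (show (S i ∩ S j).card = 0 by omega), Finset.sum_empty] at h1
      omega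
    rcases Nat.lt_or_ge (S i ∩ S j).card 2 with h3 | h3
    · omega
    obtain ⟨a, b, hab, e⟩ := Finset.card_eq_two.1 (le_antisymm h2 h3)
    rw [e, Finset.sum_pair hab] at h1
    have ha := Finset.mem_inter.1 (e.ge (Finset.mem_insert_self a _))
    have hb := Finset.mem_inter.1 (e.ge (Finset.mem_insert_of_mem (Finset.mem_singleton_self b)))
    rcases mul_self_eq_one_iff.1 ((hsupp i).2 a (hmem.1 ha.1)) with x1 | x1 <;>
      rcases mul_self_eq_one_iff.1 ((hsupp j).2 a (hmem.1 ha.2)) with x2 | x2 <;>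
      rcases mul_self_eq_one_iff.1 ((hsupp i).2 b (hmem.1 hb.1)) with x3 | x3 <;>
      rcases mul_self_eq_one_iff.1 ((hsupp j).2 b (hmem.1 hb.2)) with x4 | x4 <;>
      rw [x1, x2, x3, x4] at h1 <;> omega
  -- a common point
  haveI : Nonempty κ := Fintype.card_pos_iff.1 (by omega)
  obtain ⟨i₁⟩ := ‹Nonempty κ›
  obtain ⟨a, b, hab, e₁⟩ := Finset.card_eq_two.1 (hsupp i₁).1
  obtain ⟨c, hc⟩ : ∃ c, ∀ i, c ∈ S i := by
    by_contra hc
    push Not at hc
    obtain ⟨i₂, hi₂⟩ := hc a
    obtain ⟨i₃, hi₃⟩ := hc b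
    have hne2 : i₂ ≠ i₁ := fun e => hi₂ (by rw [e, hS]; simp only; rw [e₁]; simp)
    have hne3 : i₃ ≠ i₁ := fun e => hi₃ (by rw [e, hS]; simp only; rw [e₁]; simp)
    have hone : ∀ i, i ≠ i₁ → a ∈ S i ∨ b ∈ S i := by
      intro i hi
      obtain ⟨x, hx⟩ := hmeet i₁ i (Ne.symm hi)
      have hx' := Finset.mem_inter.1 (hx.ge (Finset.mem_singleton_self x))
      have hx1 : x ∈ ({a, b} : Finset ι) := e₁ ▸ hx'.1
      rcases Finset.mem_insert.1 hx1 with rfl | h1
      · exact Or.inl hx'.2
      · exact Or.inr (Finset.mem_singleton.1 h1 ▸ hx'.2)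
    have hb2 : b ∈ S i₂ := (hone i₂ hne2).resolve_left hi₂
    have ha3 : a ∈ S i₃ := (hone i₃ hne3).resolve_right hi₃
    have h23 : i₂ ≠ i₃ := fun e => hi₂ (e ▸ ha3)
    obtain ⟨d, hd⟩ := hmeet i₂ i₃ h23
    have hd' := Finset.mem_inter.1 (hd.ge (Finset.mem_singleton_self d))
    have hS2 : S i₂ = {b, d} := (Finset.eq_of_subset_of_card_le
      (Finset.insert_subset_iff.2 ⟨hb2, Finset.singleton_subset_iff.2 hd'.1⟩)
      (by rw [Finset.card_pair fun e : b = d => hi₃ (e ▸ hd'.2)]; exact (hsupp i₂).1.le)).symm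
    have hS3 : S i₃ = {a, d} := (Finset.eq_of_subset_of_card_le
      (Finset.insert_subset_iff.2 ⟨ha3, Finset.singleton_subset_iff.2 hd'.2⟩)
      (by rw [Finset.card_pair fun e : a = d => hi₂ (e ▸ hd'.1)]; exact (hsupp i₃).1.le)).symm
    have hsub : ∀ i, i = i₁ ∨ i = i₂ ∨ i = i₃ := by
      intro i
      by_contra hne
      push Not at hne
      obtain ⟨g1, g2, g3⟩ := hne
      obtain ⟨x, hx⟩ := hmeet i₁ i (Ne.symm g1)
      obtain ⟨y, hy⟩ := hmeet i₂ i (Ne.symm g2)
      obtain ⟨w, hw⟩ := hmeet i₃ i (Ne.symm g3)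
      rw [show S i₁ = {a, b} from e₁] at hx
      rw [hS2] at hy
      rw [hS3] at hw
      by_cases ha : a ∈ S i <;> by_cases hb : b ∈ S i <;> by_cases hdd : d ∈ S i
      all_goals
        first
        | (have := (hone i g1); tauto)
        | (have h1 : a ∈ ({x} : Finset ι) := hx ▸ Finset.mem_inter.2 ⟨by simp, ha⟩
           have h2 : b ∈ ({x} : Finset ι) := hx ▸ Finset.mem_inter.2 ⟨by simp, hb⟩
           exact hab ((Finset.mem_singleton.1 h1).trans (Finset.mem_singleton.1 h2).symm))
        | (have h1 : a ∈ ({w} : Finset ι) := hw ▸ Finset.mem_inter.2 ⟨by simp, ha⟩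
           have h2 : d ∈ ({w} : Finset ι) := hw ▸ Finset.mem_inter.2 ⟨by simp, hdd⟩
           exact hi₂ ((Finset.mem_singleton.1 h1).trans (Finset.mem_singleton.1 h2).symm ▸ hd'.1))
        | (have h1 : b ∈ ({y} : Finset ι) := hy ▸ Finset.mem_inter.2 ⟨by simp, hb⟩
           have h2 : d ∈ ({y} : Finset ι) := hy ▸ Finset.mem_inter.2 ⟨by simp, hdd⟩
           exact hi₃ ((Finset.mem_singleton.1 h1).trans (Finset.mem_singleton.1 h2).symm ▸ hd'.2))
        | (have h1 : y ∈ ({b, d} : Finset ι) ∩ S i := hy.ge (Finset.mem_singleton_self y)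
           simp only [Finset.mem_inter, Finset.mem_insert, Finset.mem_singleton] at h1
           obtain ⟨rfl | rfl, h⟩ := h1 <;> contradiction)
        | (have h1 : w ∈ ({a, d} : Finset ι) ∩ S i := hw.ge (Finset.mem_singleton_self w)
           simp only [Finset.mem_inter, Finset.mem_insert, Finset.mem_singleton] at h1
           obtain ⟨rfl | rfl, h⟩ := h1 <;> contradiction)
    have : Fintype.card κ ≤ ({i₁, i₂, i₃} : Finset κ).card := by
      refine Finset.card_le_card fun i _ => ?_
      rcases hsub i with rfl | rfl | rfl <;> simp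
    have := this.trans Finset.card_le_three
    omega
  -- the other points are distinct
  have hex : ∀ i, ∃ x, S i = {c, x} ∧ c ≠ x := by
    intro i
    obtain ⟨x, y, hxy, e⟩ := Finset.card_eq_two.1 (hsupp i).1
    have hc' : c ∈ ({x, y} : Finset ι) := e ▸ hc i
    rcases Finset.mem_insert.1 hc' with rfl | h1
    · exact ⟨y, e, hxy⟩
    · obtain rfl := Finset.mem_singleton.1 h1
      exact ⟨x, by rw [Finset.pair_comm]; exact e, hxy.symm⟩
  choose g hg hgc using hex
  have hinj : Function.Injective g := by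
    intro i j hij
    by_contra hne
    obtain ⟨x, hx⟩ := hmeet i j hne
    have h1 : (S i ∩ S j).card = 1 := by rw [hx, Finset.card_singleton]
    rw [hg i, hg j, hij, Finset.inter_self, Finset.card_pair (hgc j)] at h1
    omega
  have hsub : insert c (Finset.univ.image g) ⊆ Finset.univ.filter fun x => ∃ i, v i x ≠ 0 := by
    intro x hx
    rcases Finset.mem_insert.1 hx with rfl | hx
    · exact Finset.mem_filter.2 ⟨Finset.mem_univ _, i₁, hmem.1 (hc i₁)⟩
    · obtain ⟨i, -, rfl⟩ := Finset.mem_image.1 hx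
      exact Finset.mem_filter.2 ⟨Finset.mem_univ _, i, hmem.1 (by rw [hg i]; simp)⟩
  refine le_trans ?_ (Finset.card_le_card hsub)
  rw [Finset.card_insert_of_notMem fun hm => by
    obtain ⟨i, -, hi⟩ := Finset.mem_image.1 hm
    exact hgc i hi.symm, Finset.card_image_of_injective _ hinj, Finset.card_univ]

variable {J X : Type*} [Fintype J] [Fintype X] [DecidableEq J] [DecidableEq X]

/-- The shape of the coefficient vectors `u j i`. -/
structure Shape (σ : ι ≃ ι) (o : ι) (j₀ : J) (u : J → X → ι → ℤ) where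
  a : J → ι
  s : J → ℤ
  B : X → ι
  b : X → ℤ
  C : J → ι
  g : J → ℤ
  s_unit : ∀ j, s j = 1 ∨ s j = -1
  b_unit : ∀ i, b i = 1 ∨ b i = -1
  g_unit : ∀ j, g j = 1 ∨ g j = -1
  C_zero : C j₀ = o
  g_zero : g j₀ = -1
  B_fix : ∀ i, σ (B i) = B i
  C_fix : ∀ j, σ (C j) = C j
  a_move : ∀ j, σ (a j) ≠ a j
  inj : Function.Injective (Sum.elim (Sum.elim a (σ ∘ a)) (Sum.elim B C))
  eq : ∀ j i, u j i = pt (s j) (a j) + pt (b i) (B i) + pt (g j) (C j)

/-- The inner products force the shape. -/
theorem exists_shape (σ : ι ≃ ι) (hσ : ∀ x, σ (σ x) = x) (o : ι) (j₀ : J) (ho : σ o = o)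
    (u : J → X → ι → ℤ)
    (hG : ∀ j i k l, ∑ x, u j i x * u k l x =
      2 * (if j = k then 1 else 0) + (if i = l then 1 else 0))
    (hG' : ∀ j i k l, ∑ x, u j i x * u k l (σ x) =
      (if j = k then 1 else 0) + (if i = l then 1 else 0))
    (huo : ∀ j i, u j i o = if j = j₀ then -1 else 0)
    (hJ : 2 ≤ Fintype.card J) (hX : 1 ≤ Fintype.card X)
    (hc : 2 ≤ Fintype.card X ∨ 3 ≤ Fintype.card J) : Nonempty (Shape σ o j₀ u) := by
  classical
  obtain ⟨i₀⟩ : Nonempty X := Fintype.card_pos_iff.1 hX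
  set t : J → X → ι → ℤ := fun j i x => u j i x - u j i (σ x) with ht
  have hsum : ∀ f : ι → ℤ, ∑ x, f (σ x) = ∑ x, f x := fun f => Equiv.sum_comp σ f
  have htt : ∀ j i k l, ∑ x, t j i x * t k l x = 2 * (if j = k then 1 else 0) := by
    intro j i k l
    simp only [ht, sub_mul, mul_sub, Finset.sum_sub_distrib]
    rw [hsum fun x => u j i x * u k l x, hG, hG']
    have e : ∑ x, u j i (σ x) * u k l x =
        (if j = k then 1 else 0) + (if i = l then 1 else 0) := by
      rw [show (if j = k then (1 : ℤ) else 0) = if k = j then 1 else 0 by simp [eq_comm],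
        show (if i = l then (1 : ℤ) else 0) = if l = i then 1 else 0 by simp [eq_comm], ← hG' k l j i]
      exact Finset.sum_congr rfl fun x _ => mul_comm _ _
    rw [e]; ring
  have hti : ∀ j i, t j i = t j i₀ := by
    intro j i
    have h0 : ∑ x, (t j i x - t j i₀ x) * (t j i x - t j i₀ x) = 0 := by
      simp only [sub_mul, mul_sub, Finset.sum_sub_distrib, htt, if_pos]
      ring
    funext x
    have := (Finset.sum_eq_zero_iff_of_nonneg fun x _ => mul_self_nonneg _).1 h0 x (Finset.mem_univ x)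
    exact sub_eq_zero.1 (mul_self_eq_zero.1 this)
  have hanti : ∀ j i x, t j i (σ x) = -t j i x := fun j i x => by simp only [ht, hσ]; ring
  -- the pairs
  have hpair : ∀ j, ∃ p, σ p ≠ p ∧ t j i₀ p * t j i₀ p = 1 ∧
      ∀ x, x ≠ p → x ≠ σ p → t j i₀ x = 0 := by
    intro j
    obtain ⟨e₁, p, e₂, q, he₁, he₂, hpq, e⟩ := exists_pt_of_norm_two
      (v := t j i₀) (by rw [htt, if_pos rfl]; rfl)
    have htp : t j i₀ p = e₁ := by rw [e, Pi.add_apply, pt_self, pt_ne _ hpq, add_zero]
    have hne : σ p ≠ p := fun h => by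
      have := hanti j i₀ p
      rw [h, htp] at this
      rcases he₁ with rfl | rfl <;> omega
    have hq : q = σ p := by
      by_contra hq
      have := hanti j i₀ p
      rw [htp, e, Pi.add_apply, pt_ne _ hne, pt_ne _ (Ne.symm hq)] at this
      rcases he₁ with rfl | rfl <;> omega
    refine ⟨p, hne, by rw [htp, sq_unit he₁], fun x h1 h2 => ?_⟩
    rw [e, Pi.add_apply, pt_ne _ h1, pt_ne _ (hq ▸ h2), add_zero]
  choose p hpne hp1 hp0 using hpair
  have hdisj : ∀ j k, j ≠ k → t k i₀ (p j) = 0 := by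
    intro j k hjk
    have h1 := htt j i₀ k i₀
    rw [if_neg hjk, mul_zero, ← Finset.sum_subset (Finset.subset_univ {p j, σ (p j)}) fun x _ hx => by
      simp only [Finset.mem_insert, Finset.mem_singleton, not_or] at hx
      rw [hp0 j x hx.1 hx.2, zero_mul], Finset.sum_pair (Ne.symm (hpne j)), hanti, hanti] at h1
    have : t j i₀ (p j) ≠ 0 := fun h => by simpa [h] using hp1 j
    have h2 : t j i₀ (p j) * t k i₀ (p j) = 0 := by linarith
    exact (mul_eq_zero.1 h2).resolve_left this
  -- split off the moved part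
  have hsplit : ∀ j i, ∃ a s, (a = p j ∨ a = σ (p j)) ∧ (s = 1 ∨ s = -1) ∧ s = t j i₀ a ∧
      (∀ x, (u j i - pt s a) (σ x) = (u j i - pt s a) x) ∧
      ∑ x, (u j i - pt s a) x * (u j i - pt s a) x = 2 ∧ u j i (σ a) = 0 := by
    intro j i
    set w := u j i with hw
    have hdiff : w (p j) - w (σ (p j)) = t j i₀ (p j) := by rw [← hti j i]
    have hle : w (p j) * w (p j) + w (σ (p j)) * w (σ (p j)) ≤ 3 := by
      rw [← Finset.sum_pair (f := fun x => w x * w x) (Ne.symm (hpne j))]
      have h3 : ∑ x, w x * w x = 3 := by rw [hw, hG, if_pos rfl, if_pos rfl]; rfl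
      exact h3 ▸ Finset.sum_le_sum_of_subset_of_nonneg (Finset.subset_univ _)
        fun x _ _ => mul_self_nonneg _
    have hcase : w (p j) = 0 ∨ w (σ (p j)) = 0 := by
      by_contra hc
      push Not at hc
      have hy1 : w (σ (p j)) ≤ 1 := by nlinarith [mul_self_nonneg (w (p j))]
      have hy2 : -1 ≤ w (σ (p j)) := by nlinarith [mul_self_nonneg (w (p j))]
      have hx1 : w (p j) ≤ 1 := by nlinarith [mul_self_nonneg (w (σ (p j)))]
      have hx2 : -1 ≤ w (p j) := by nlinarith [mul_self_nonneg (w (σ (p j)))]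
      obtain ⟨hc1, hc2⟩ := hc
      rcases mul_self_eq_one_iff.1 (hp1 j) with e | e <;> rw [e] at hdiff <;> omega
    obtain ⟨a, ha, hwa⟩ : ∃ a, (a = p j ∨ a = σ (p j)) ∧ w (σ a) = 0 := by
      rcases hcase with h | h
      · exact ⟨σ (p j), Or.inr rfl, by rw [hσ, h]⟩
      · exact ⟨p j, Or.inl rfl, h⟩
    have hta : w a = t j i₀ a := by
      rw [← hti j i]
      show w a = w a - w (σ a)
      rw [hwa, sub_zero]
    have hs : t j i₀ a * t j i₀ a = 1 := by
      rcases ha with rfl | rfl
      · exact hp1 j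
      · rw [hanti, neg_mul_neg, hp1]
    have hane : σ a ≠ a := by
      rcases ha with rfl | rfl
      · exact hpne j
      · rw [hσ]; exact Ne.symm (hpne j)
    refine ⟨a, t j i₀ a, ha, unit_of_sq hs, rfl, fun x => ?_, ?_, hwa⟩
    · simp only [Pi.sub_apply]
      by_cases h1 : x = a
      · rw [h1, pt_self, pt_ne _ hane, hwa, ← hta]; ring
      by_cases h2 : x = σ a
      · rw [h2, hσ, pt_self, pt_ne _ hane, hwa, ← hta]; ring
      rw [pt_ne _ h1, pt_ne _ (fun e => h2 (by rw [← e, hσ])), sub_zero, sub_zero]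
      have : t j i x = 0 := by
        rw [hti]
        refine hp0 j x ?_ ?_
        · rcases ha with rfl | rfl
          exacts [h1, fun e => h2 (by rw [hσ]; exact e)]
        · rcases ha with rfl | rfl
          exacts [h2, h1]
      exact (sub_eq_zero.1 this).symm
    · simp only [Pi.sub_apply, sub_mul, mul_sub, Finset.sum_sub_distrib, sum_pt_mul]
      rw [show ∑ x, w x * pt (t j i₀ a) a x = t j i₀ a * w a by
        rw [← sum_pt_mul]; exact Finset.sum_congr rfl fun x _ => mul_comm _ _]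
      rw [hG, if_pos rfl, if_pos rfl, hta, pt_self, hs]
      norm_num
  choose a s ha hs hst hR hR2 hu0 using hsplit
  set R : J → X → ι → ℤ := fun j i => u j i - pt (s j i) (a j i) with hRdef
  have hu : ∀ j i, u j i = pt (s j i) (a j i) + R j i := fun j i => by simp [hRdef]
  have hamove : ∀ j i, σ (a j i) ≠ a j i := by
    intro j i
    rcases ha j i with h | h <;> rw [h]
    · exact hpne j
    · rw [hσ]; exact Ne.symm (hpne j)
  have haj : ∀ j i k l, j ≠ k → a j i ≠ a k l ∧ σ (a j i) ≠ a k l := by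
    intro j i k l hjk
    have h1 : ∀ x, (x = p k ∨ x = σ (p k)) → t k i₀ x ≠ 0 := by
      rintro x (rfl | rfl) h
      · simpa [h] using hp1 k
      · rw [hanti, neg_eq_zero] at h
        simpa [h] using hp1 k
    have h2 : t k i₀ (a j i) = 0 := by
      rcases ha j i with h | h <;> rw [h]
      · exact hdisj j k hjk
      · rw [hanti, hdisj j k hjk, neg_zero]
    exact ⟨fun e => h1 _ (ha k l) (e ▸ h2), fun e => h1 _ (ha k l) (by rw [← e, hanti, h2, neg_zero])⟩
  -- the vectors of `j₀`
  have h₀ : ∀ i, ∃ b B, (b = 1 ∨ b = -1) ∧ σ B = B ∧ B ≠ o ∧ R j₀ i = pt b B + pt (-1) o := by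
    intro i
    obtain ⟨e₁, x₁, e₂, x₂, he₁, he₂, hx, e⟩ := exists_pt_of_norm_two (hR2 j₀ i)
    have hRo : R j₀ i o = -1 := by
      simp only [hRdef, Pi.sub_apply]
      rw [huo, if_pos rfl, pt_ne _ (fun h => hamove j₀ i (by rw [← h, ho])), sub_zero]
    obtain ⟨b, B, hb, hBo, eB⟩ : ∃ b B, (b = 1 ∨ b = -1) ∧ B ≠ o ∧
        R j₀ i = pt b B + pt (-1) o := by
      rw [show R j₀ i = pt e₁ x₁ + pt e₂ x₂ from e, Pi.add_apply] at hRo
      by_cases h1 : o = x₁
      · subst h1
        rw [pt_self, pt_ne _ hx, add_zero] at hRo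
        exact ⟨e₂, x₂, he₂, Ne.symm hx, by rw [show R j₀ i = _ from e, hRo, add_comm]⟩
      · rw [pt_ne _ h1, zero_add] at hRo
        by_cases h2 : o = x₂
        · subst h2
          rw [pt_self] at hRo
          exact ⟨e₁, x₁, he₁, hx, by rw [show R j₀ i = _ from e, hRo]⟩
        · rw [pt_ne _ h2] at hRo; omega
    refine ⟨b, B, hb, ?_, hBo, eB⟩
    by_contra hB
    have := hR j₀ i B
    change R j₀ i (σ B) = R j₀ i B at this
    rw [eB, Pi.add_apply, Pi.add_apply, pt_ne _ hB, pt_self,
      pt_ne _ (fun e => hBo (by rw [← hσ B, e, ho])), pt_ne _ hBo] at this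
    rcases hb with rfl | rfl <;> omega
  choose b B hb hBfix hBo hR₀ using h₀
  have hfixa : ∀ {x}, σ x = x → ∀ j i, x ≠ a j i := fun hx j i e => hamove j i (e ▸ hx)
  -- inner products with the vectors of `j₀`
  have hin : ∀ j i l, j ≠ j₀ → s j₀ l * R j i (a j₀ l) + b l * R j i (B l) =
      if i = l then 1 else 0 := by
    intro j i l hj
    have h1 := hG j i j₀ l
    rw [if_neg hj, mul_zero, zero_add, hu j₀ l, hR₀] at h1
    simp only [Pi.add_apply, mul_add, Finset.sum_add_distrib, mul_comm (u j i _) (pt _ _ _),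
      sum_pt_mul] at h1
    rw [huo, if_neg hj, mul_zero, add_zero] at h1
    have e1 : u j i (a j₀ l) = R j i (a j₀ l) := by
      rw [hu, Pi.add_apply, pt_ne _ (haj j₀ l j i (Ne.symm hj)).1, zero_add]
    have e2 : u j i (B l) = R j i (B l) := by
      rw [hu, Pi.add_apply, pt_ne _ (hfixa (hBfix l) j i), zero_add]
    rw [e1, e2] at h1
    exact h1
  -- a vector of norm two fixed by σ moving a point is that pair
  have hpairR : ∀ j i x, σ x ≠ x → R j i x ≠ 0 → ∀ y, σ y = y → R j i y = 0 := by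
    intro j i x hx hne y hy
    by_contra hy0
    have h1 := hR2 j i
    have hxy : y ≠ x := fun e => hx (e ▸ hy)
    have hxy' : y ≠ σ x := fun e => hx (by
      have := congrArg σ e
      rw [hy, hσ, e] at this
      exact this)
    have h2 : ∑ z ∈ ({x, σ x, y} : Finset ι), R j i z * R j i z ≤ 2 := h1 ▸
      Finset.sum_le_sum_of_subset_of_nonneg (Finset.subset_univ _) fun z _ _ => mul_self_nonneg _
    rw [Finset.sum_insert (by simp [Ne.symm hx, Ne.symm hxy]), Finset.sum_pair (Ne.symm hxy'),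
      show R j i (σ x) = R j i x from hR j i x] at h2
    nlinarith [mul_self_pos.2 hne, mul_self_pos.2 hy0]
  have hnot : ∀ j i l, j ≠ j₀ → R j i (a j₀ l) = 0 := by
    intro j i l hj
    by_contra hne
    have hfix0 := hpairR j i _ (hamove j₀ l) hne
    have hval : ∀ l', s j₀ l' * R j i (a j₀ l') = if i = l' then 1 else 0 := fun l' => by
      have := hin j i l' hj
      rwa [hfix0 _ (hBfix l'), mul_zero, add_zero] at this
    have hsame : ∀ l', R j i (a j₀ l') = R j i (p j₀) := by
      intro l'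
      rcases ha j₀ l' with h | h <;> rw [h]
      exact hR j i _
    by_cases hX2 : 2 ≤ Fintype.card X
    · haveI : Nontrivial X := Fintype.one_lt_card_iff_nontrivial.1 hX2
      obtain ⟨l', hl'⟩ := exists_ne i
      have := hval l'
      rw [if_neg (Ne.symm hl'), hsame] at this
      rw [hsame] at hne
      rcases hs j₀ l' with e | e <;> rw [e] at this <;> omega
    have hJ3 : 3 ≤ Fintype.card J := hc.resolve_left hX2
    obtain ⟨k, hk, hkj⟩ : ∃ k, k ≠ j₀ ∧ k ≠ j := by
      have : (Finset.univ \ ({j₀, j} : Finset J)).Nonempty := by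
        rw [← Finset.card_pos]
        have := Finset.le_card_sdiff ({j₀, j} : Finset J) Finset.univ
        have := Finset.card_le_two (a := j₀) (b := j)
        rw [Finset.card_univ] at *
        omega
      obtain ⟨k, hk⟩ := this
      simp only [Finset.mem_sdiff, Finset.mem_insert, Finset.mem_singleton, not_or] at hk
      exact ⟨k, hk.2.1, hk.2.2⟩
    haveI : Subsingleton X := Fintype.card_le_one_iff_subsingleton.1 (by omega)
    obtain rfl : l = i := Subsingleton.elim _ _
    have hRj : R j l = pt (s j₀ l) (a j₀ l) + pt (s j₀ l) (σ (a j₀ l)) := by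
      obtain ⟨e₁, x₁, e₂, x₂, he₁, he₂, hx, e⟩ := exists_pt_of_norm_two (hR2 j l)
      have hv : R j l (a j₀ l) = s j₀ l := by
        have := hval l
        rw [if_pos rfl] at this
        rcases hs j₀ l with e' | e' <;> rw [e'] at this ⊢ <;> omega
      have hv' : R j l (σ (a j₀ l)) = s j₀ l := (hR j l _).trans hv
      funext x
      simp only [Pi.add_apply]
      by_cases h1 : x = a j₀ l
      · rw [h1, pt_self, pt_ne _ (Ne.symm (hamove j₀ l)), hv, add_zero]
      by_cases h2 : x = σ (a j₀ l)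
      · rw [h2, pt_self, pt_ne _ (hamove j₀ l), hv', zero_add]
      rw [pt_ne _ h1, pt_ne _ h2, add_zero]
      by_contra h3
      have h4 : ∑ z ∈ ({a j₀ l, σ (a j₀ l), x} : Finset ι), R j l z * R j l z ≤ 2 := hR2 j l ▸
        Finset.sum_le_sum_of_subset_of_nonneg (Finset.subset_univ _) fun z _ _ => mul_self_nonneg _
      rw [Finset.sum_insert (by simp [Ne.symm (hamove j₀ l), Ne.symm h1]),
        Finset.sum_pair (Ne.symm h2), hv, hv', sq_unit (hs j₀ l)] at h4
      nlinarith [mul_self_pos.2 h3]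
    have h1 := hG j l k l
    rw [if_neg (Ne.symm hkj), if_pos rfl, hu j l, hRj] at h1
    simp only [Pi.add_apply, add_mul, Finset.sum_add_distrib, sum_pt_mul] at h1
    rw [hu k l] at h1
    simp only [Pi.add_apply] at h1
    rw [pt_ne _ (haj j l k l (Ne.symm hkj)).1, pt_ne _ (haj j₀ l k l (Ne.symm hk)).1,
      pt_ne _ (haj j₀ l k l (Ne.symm hk)).2, show R k l (σ (a j₀ l)) = R k l (a j₀ l) from hR k l _]
      at h1
    -- the other coefficients
    have h2 := hin k l l hk
    rw [if_pos rfl] at h2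
    by_cases h3 : R k l (a j₀ l) = 0
    · rw [h3] at h1 h2
      by_cases h4 : R k l (a j l) = 0
      · rw [h4] at h1; simp at h1
      · have := hpairR k l _ (hamove j l) h4 _ (hBfix l)
        rw [this] at h2; simp at h2
    · have hfix := hpairR k l _ (hamove j₀ l) h3
      rw [hfix _ (hBfix l), mul_zero, add_zero] at h2
      have h4 : R k l (a j l) = 0 := by
        by_contra h4
        have h5 : ∑ z ∈ ({a j₀ l, σ (a j₀ l), a j l} : Finset ι), R k l z * R k l z ≤ 2 := hR2 k l ▸
          Finset.sum_le_sum_of_subset_of_nonneg (Finset.subset_univ _) fun z _ _ => mul_self_nonneg _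
        rw [Finset.sum_insert (by simp [Ne.symm (hamove j₀ l), (haj j₀ l j l (Ne.symm hj)).1]),
          Finset.sum_pair (haj j₀ l j l (Ne.symm hj)).2,
          show R k l (σ (a j₀ l)) = R k l (a j₀ l) from hR k l _] at h5
        nlinarith [mul_self_pos.2 h4, mul_self_pos.2 h3]
      rw [h4] at h1
      nlinarith
  have hBC : ∀ j i, j ≠ j₀ → R j i (B i) = b i ∧ ∀ l, l ≠ i → R j i (B l) = 0 := by
    intro j i hj
    refine ⟨?_, fun l hl => ?_⟩
    · have := hin j i i hj
      rw [hnot j i i hj, mul_zero, zero_add, if_pos rfl] at this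
      rcases hb i with e | e <;> rw [e] at this ⊢ <;> omega
    · have := hin j i l hj
      rw [hnot j i l hj, mul_zero, zero_add, if_neg (Ne.symm hl)] at this
      rcases hb l with e | e <;> rw [e] at this <;> omega
  obtain ⟨j₁, hj₁⟩ : ∃ j, j ≠ j₀ := by
    haveI : Nontrivial J := Fintype.one_lt_card_iff_nontrivial.1 hJ
    exact exists_ne j₀
  have hBinj : Function.Injective B := by
    intro i l h
    by_contra hne
    have h1 := (hBC j₁ i hj₁).1
    rw [h, (hBC j₁ i hj₁).2 l (Ne.symm hne)] at h1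
    rcases hb i with e | e <;> omega
  have hC : ∀ j i, ∃ g C, (g = 1 ∨ g = -1) ∧ σ C = C ∧ (∀ l, C ≠ B l) ∧
      (j = j₀ → g = -1 ∧ C = o) ∧ (j ≠ j₀ → C ≠ o) ∧ R j i = pt (b i) (B i) + pt g C := by
    intro j i
    by_cases hj : j = j₀
    · subst hj
      exact ⟨-1, o, Or.inr rfl, ho, fun l => Ne.symm (hBo l), fun _ => ⟨rfl, rfl⟩,
        fun h => absurd rfl h, hR₀ i⟩
    obtain ⟨e₁, x₁, e₂, x₂, he₁, he₂, hx, e⟩ := exists_pt_of_norm_two (hR2 j i)
    obtain ⟨g, C, hg, hCB, eC⟩ : ∃ g C, (g = 1 ∨ g = -1) ∧ C ≠ B i ∧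
        R j i = pt (b i) (B i) + pt g C := by
      have h1 := (hBC j i hj).1
      rw [show R j i = pt e₁ x₁ + pt e₂ x₂ from e, Pi.add_apply] at h1
      by_cases k1 : B i = x₁
      · rw [← k1] at h1 hx
        rw [pt_self, pt_ne _ hx, add_zero] at h1
        exact ⟨e₂, x₂, he₂, Ne.symm hx, by rw [show R j i = _ from e, ← k1, h1]⟩
      · rw [pt_ne _ k1, zero_add] at h1
        by_cases k2 : B i = x₂
        · rw [← k2] at h1 hx
          rw [pt_self] at h1
          exact ⟨e₁, x₁, he₁, hx, by rw [show R j i = _ from e, ← k2, h1, add_comm]⟩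
        · rw [pt_ne _ k2] at h1
          rcases hb i with k | k <;> omega
    have hval : R j i C = g := by rw [eC, Pi.add_apply, pt_self, pt_ne _ hCB, zero_add]
    refine ⟨g, C, hg, ?_, fun l hl => ?_, fun h => absurd h hj, fun _ hl => ?_, eC⟩
    · by_contra hCm
      have := hpairR j i C hCm (by rw [hval]; rcases hg with rfl | rfl <;> omega) _ (hBfix i)
      rw [(hBC j i hj).1] at this
      rcases hb i with k | k <;> omega
    · have hli : l ≠ i := fun k => hCB (k ▸ hl)
      rw [hl, (hBC j i hj).2 l hli] at hval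
      rcases hg with rfl | rfl <;> omega
    · rw [hl] at hval
      simp only [hRdef, Pi.sub_apply] at hval
      rw [huo, if_neg hj, pt_ne _ (hfixa ho j i)] at hval
      rcases hg with rfl | rfl <;> omega
  choose g C hg hCfix hCB hC0 hCo hRC using hC
  -- independence of the second index
  have hsame : ∀ j i, a j i = a j i₀ ∧ s j i = s j i₀ ∧ C j i = C j i₀ ∧ g j i = g j i₀ := by
    intro j i
    by_cases hi : i = i₀
    · subst hi; exact ⟨rfl, rfl, rfl, rfl⟩
    have h1 := hG j i j i₀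
    rw [if_pos rfl, if_neg hi, hu j i, hRC j i] at h1
    simp only [Pi.add_apply, add_mul, Finset.sum_add_distrib, sum_pt_mul] at h1
    rw [hu j i₀, hRC j i₀] at h1
    simp only [Pi.add_apply] at h1
    rw [pt_ne (b i₀) (Ne.symm (hfixa (hBfix i₀) j i)), pt_ne (g j i₀) (Ne.symm (hfixa (hCfix j i₀) j i)),
      pt_ne (s j i₀) (hfixa (hBfix i) j i₀), pt_ne (b i₀) (hBinj.ne hi),
      pt_ne (g j i₀) (Ne.symm (hCB j i₀ i)), pt_ne (s j i₀) (hfixa (hCfix j i) j i₀),
      pt_ne (b i₀) (hCB j i i₀)] at h1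
    simp only [add_zero, zero_add, mul_zero] at h1
    by_cases k1 : a j i = a j i₀
    · rw [k1, pt_self] at h1
      have hss : s j i = s j i₀ := by rw [hst, hst, k1]
      by_cases k2 : C j i = C j i₀
      · refine ⟨k1, hss, k2, ?_⟩
        rw [k2, pt_self, hss, sq_unit (hs j i₀)] at h1
        rcases hg j i with k | k <;> rcases hg j i₀ with k' | k' <;> rw [k, k'] at h1 <;> omega
      · rw [pt_ne _ k2, hss, sq_unit (hs j i₀)] at h1
        omega
    · rw [pt_ne _ k1] at h1
      by_cases k2 : C j i = C j i₀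
      · rw [k2, pt_self] at h1
        rcases hg j i with k | k <;> rcases hg j i₀ with k' | k' <;> rw [k, k'] at h1 <;> omega
      · rw [pt_ne _ k2] at h1
        omega
  have hCinj : ∀ j k, j ≠ k → C j i₀ ≠ C k i₀ := by
    intro j k hjk hCC
    by_cases hj : j = j₀
    · exact hCo k i₀ (fun h => hjk (hj.trans h.symm)) (hCC.symm.trans (hC0 j i₀ hj).2)
    by_cases hk : k = j₀
    · exact hCo j i₀ hj (hCC.trans (hC0 k i₀ hk).2)
    have h1 := hG j i₀ k i₀
    rw [if_neg hjk, if_pos rfl, hu j, hRC j] at h1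
    simp only [Pi.add_apply, add_mul, Finset.sum_add_distrib, sum_pt_mul] at h1
    rw [hu k, hRC k] at h1
    simp only [Pi.add_apply] at h1
    rw [pt_ne _ (haj j i₀ k i₀ hjk).1, pt_ne _ (Ne.symm (hfixa (hBfix i₀) j i₀)),
      pt_ne _ (Ne.symm (hfixa (hCfix k i₀) j i₀)), pt_ne _ (hfixa (hBfix i₀) k i₀), pt_self,
      pt_ne _ (Ne.symm (hCB k i₀ i₀)), pt_ne _ (hfixa (hCfix j i₀) k i₀),
      pt_ne _ (hCB j i₀ i₀), hCC, pt_self] at h1
    simp only [zero_add, add_zero, mul_zero, sq_unit (hb i₀)] at h1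
    rcases hg j i₀ with k' | k' <;> rcases hg k i₀ with k'' | k'' <;> rw [k', k''] at h1 <;> omega
  refine ⟨{
    a := fun j => a j i₀, s := fun j => s j i₀, B := B, b := b, C := fun j => C j i₀
    g := fun j => g j i₀, s_unit := fun j => hs j i₀, b_unit := hb, g_unit := fun j => hg j i₀
    C_zero := (hC0 j₀ i₀ rfl).2, g_zero := (hC0 j₀ i₀ rfl).1, B_fix := hBfix
    C_fix := fun j => hCfix j i₀, a_move := fun j => hamove j i₀, inj := ?_, eq := ?_ }⟩
  · intro x y hxy
    rcases x with (j | j) | (i | j) <;> rcases y with (k | k) | (l | k) <;>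
      simp only [Sum.elim_inl, Sum.elim_inr, Function.comp_apply] at hxy
    all_goals
      first
      | (rw [hBinj hxy]; done)
      | exact absurd hxy (hCB _ i₀ _)
      | exact absurd hxy.symm (hCB _ i₀ _)
      | exact absurd hxy (hfixa (hBfix _) _ _)
      | exact absurd hxy.symm (hfixa (hBfix _) _ _)
      | exact absurd hxy (hfixa (hCfix _ i₀) _ _)
      | exact absurd hxy.symm (hfixa (hCfix _ i₀) _ _)
      | exact absurd (by rw [hσ]; exact (congrArg σ hxy).trans (hBfix _) : _ = _) (Ne.symm (hfixa (hBfix _) _ _))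
      | (have e := congrArg σ hxy
         simp only [hσ, hBfix, hCfix] at e
         first
         | exact absurd e (hfixa (hBfix _) _ _)
         | exact absurd e.symm (hfixa (hBfix _) _ _)
         | exact absurd e (hfixa (hCfix _ i₀) _ _)
         | exact absurd e.symm (hfixa (hCfix _ i₀) _ _))
      | (by_cases hjk : j = k
         · subst hjk
           first
           | rfl
           | exact absurd hxy (hamove _ _)
           | exact absurd hxy.symm (hamove _ _)
         · first
           | exact absurd hxy (haj _ _ _ _ hjk).1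
           | exact absurd hxy (haj _ _ _ _ hjk).2
           | exact absurd hxy.symm (haj _ _ _ _ (Ne.symm hjk)).2
           | exact absurd (σ.injective hxy) (haj _ _ _ _ hjk).1
           | exact absurd hxy (hCinj _ _ hjk))
  · intro j i
    obtain ⟨e1, e2, e3, e4⟩ := hsame j i
    rw [hu, hRC, e1, e2, e3, e4, add_assoc]

/-- The equations and the norm of a column determine it. -/
theorem column_eq {J X : Type*} [Fintype J] [Fintype X] [DecidableEq J] (j₀ : J)
    (hcard : Fintype.card J + Fintype.card X = 6) (hX : 1 ≤ Fintype.card X)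
    (Δ β : X → ℤ) (α γ : J → ℤ) (hD1 : ∑ i, Δ i = 3) (hD2 : ∑ i, Δ i * Δ i = 9)
    (hγ : γ j₀ = -1) (heq : ∀ j i, α j + β i + γ j = -Δ i)
    (hnorm : ∑ i, β i * β i + ∑ j, (2 * (α j * α j) + γ j * γ j) ≤ 9) :
    (∀ j, α j = 0) ∧ (∀ j, γ j = -1) ∧ ∀ i, β i = 1 - Δ i := by
  classical
  set b := 1 - α j₀ with hb
  have hβ : ∀ i, β i = b - Δ i := fun i => by have := heq j₀ i; rw [hγ] at this; omega
  obtain ⟨i₁⟩ : Nonempty X := Fintype.card_pos_iff.1 hX
  have hγ' : ∀ j, γ j = -b - α j := fun j => by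
    have := heq j i₁; rw [hβ] at this; omega
  have h1 : ∑ i, β i * β i = (Fintype.card X : ℤ) * (b * b) - 6 * b + 9 := by
    simp only [hβ, sub_mul, mul_sub, Finset.sum_sub_distrib, ← Finset.mul_sum, ← Finset.sum_mul,
      hD1, hD2, Finset.sum_const, Finset.card_univ, nsmul_eq_mul]
    ring
  have hterm : ∀ j, 2 * (b * b) ≤ 3 * (2 * (α j * α j) + γ j * γ j) := fun j => by
    rw [hγ']; nlinarith [mul_self_nonneg (3 * α j + b)]
  have h2 : 3 * (2 * (α j₀ * α j₀) + γ j₀ * γ j₀) + 2 * ((Fintype.card J : ℤ) - 1) * (b * b) ≤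
      3 * ∑ j, (2 * (α j * α j) + γ j * γ j) := by
    rw [← Finset.add_sum_erase Finset.univ _ (Finset.mem_univ j₀)]
    simp only [mul_add (3 : ℤ) (2 * (α j₀ * α j₀) + γ j₀ * γ j₀) _, Finset.mul_sum]
    refine add_le_add le_rfl ?_
    refine le_trans (le_of_eq ?_) (Finset.sum_le_sum fun j _ => hterm j)
    rw [Finset.sum_const, Finset.card_erase_of_mem (Finset.mem_univ _), Finset.card_univ,
      nsmul_eq_mul, Nat.cast_sub (Fintype.card_pos_iff.2 ⟨j₀⟩)]
    push_cast; ring
  have hα₀ : α j₀ = 1 - b := by omega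
  have hr : (1 : ℤ) ≤ Fintype.card X := by exact_mod_cast hX
  have hm : (Fintype.card J : ℤ) = 6 - Fintype.card X := by omega
  rw [hγ, hα₀, hm] at h2
  have hquad : ((16 : ℤ) + Fintype.card X) * (b * b) - 30 * b + 9 ≤ 0 := by nlinarith
  have hb1 : b = 1 := by
    have h17 : 17 * (b * b) - 30 * b + 9 ≤ 0 := by nlinarith [mul_self_nonneg b]
    rcases lt_trichotomy b 1 with h | h | h
    · nlinarith [mul_self_nonneg b]
    · exact h
    · nlinarith
  have hnn : ∀ j, 0 ≤ 3 * (α j * α j) + 2 * α j := fun j => by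
    rcases lt_trichotomy (α j) 0 with h | h | h <;> nlinarith
  have hsum : ∑ j, (3 * (α j * α j) + 2 * α j) = 0 := by
    have e : ∑ j, (2 * (α j * α j) + γ j * γ j) =
        ∑ j, (3 * (α j * α j) + 2 * α j) + Fintype.card J := by
      rw [← Finset.card_univ, Finset.card_eq_sum_ones, Nat.cast_sum, ← Finset.sum_add_distrib]
      exact Finset.sum_congr rfl fun j _ => by rw [hγ', hb1]; push_cast; ring
    rw [h1, e, hb1, hm] at hnorm
    refine le_antisymm ?_ (Finset.sum_nonneg fun j _ => hnn j)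
    linarith
  have hα : ∀ j, α j = 0 := fun j => by
    have := (Finset.sum_eq_zero_iff_of_nonneg fun j _ => hnn j).1 hsum j (Finset.mem_univ j)
    rcases lt_trichotomy (α j) 0 with h | h | h <;> nlinarith
  exact ⟨hα, fun j => by rw [hγ', hα, hb1]; norm_num, fun i => by rw [hβ, hb1]⟩

/-- A determined column has norm nine. -/
theorem column_norm {J X : Type*} [Fintype J] [Fintype X]
    (hcard : Fintype.card J + Fintype.card X = 6) (Δ β : X → ℤ) (α γ : J → ℤ)
    (hD1 : ∑ i, Δ i = 3) (hD2 : ∑ i, Δ i * Δ i = 9) (hα : ∀ j, α j = 0) (hγ : ∀ j, γ j = -1)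
    (hβ : ∀ i, β i = 1 - Δ i) : ∑ i, β i * β i + ∑ j, (2 * (α j * α j) + γ j * γ j) = 9 := by
  simp only [hα, hγ, hβ, sub_mul, mul_sub, one_mul, mul_one, Finset.sum_sub_distrib,
    Finset.sum_const, Finset.card_univ, nsmul_eq_mul, hD1, hD2]
  norm_num
  omega

end Cfsg.Agent.H31.Extra27
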