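import Cfsg.Agent.H31.Extra27.Fusion
import Cfsg.Agent.H28.AbelianSection

/-!
# The quotient of a group by a central element of order three in its extraspecial Sylow subgroup
-/

set_option autoImplicit false
set_option linter.unusedSectionVars false

open Subgroup

namespace Cfsg.Agent.H31.Extra27

variable {K : Type*} [Group K] [Finite K] [hp : Fact (Nat.Prime 3)] {P : Sylow 3 K} {z : K}

theorem normal_zpowers (hc : ∀ w : K, w * z = z * w) : (zpowers z).Normal := by
  refine ⟨fun n hn g => ?_⟩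
  obtain ⟨i, rfl⟩ := mem_zpowers_iff.1 hn
  rw [((show Commute g z from hc g).zpow_right i).eq, mul_inv_cancel_right]
  exact zpow_mem (mem_zpowers z) i

/-- The Sylow subgroup of the quotient. -/
noncomputable abbrev qSylow (P : Sylow 3 K) (z : K) [(zpowers z).Normal] :
    Sylow 3 (K ⧸ zpowers z) :=
  P.mapSurjective (QuotientGroup.mk'_surjective (zpowers z))

namespace Setup

variable (h : Setup P z) (hc : ∀ w : K, w * z = z * w) [(zpowers z).Normal]
include h

theorem mk_mem_qSylow {y : K} (hy : y ∈ (P : Subgroup K)) :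
    ((y : K ⧸ zpowers z)) ∈ (qSylow P z : Subgroup (K ⧸ zpowers z)) :=
  ⟨y, hy, rfl⟩

theorem mem_of_mk_mem {y : K} (hy : (y : K ⧸ zpowers z) ∈ (qSylow P z : Subgroup (K ⧸ zpowers z))) :
    y ∈ (P : Subgroup K) := by
  obtain ⟨x, hx, hxy⟩ := hy
  have : x⁻¹ * y ∈ zpowers z := QuotientGroup.eq.1 hxy
  have h2 : x * (x⁻¹ * y) ∈ (P : Subgroup K) := mul_mem hx (h.Z_le this)
  rwa [mul_inv_cancel_left] at h2

theorem exists_lift {q : K ⧸ zpowers z}
    (hq : q ∈ (qSylow P z : Subgroup (K ⧸ zpowers z))) : ∃ y ∈ (P : Subgroup K), (y : K ⧸ zpowers z) = q :=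
  hq

theorem card_qSylow : Nat.card (qSylow P z : Subgroup (K ⧸ zpowers z)) = 9 := by
  have h1 : ((qSylow P z : Subgroup (K ⧸ zpowers z))).comap (QuotientGroup.mk' (zpowers z)) =
      (P : Subgroup K) := by
    ext y
    exact ⟨fun hy => h.mem_of_mk_mem hy, fun hy => h.mk_mem_qSylow hy⟩
  have h2 := Subgroup.index_comap_of_surjective (qSylow P z : Subgroup (K ⧸ zpowers z))
    (QuotientGroup.mk'_surjective (zpowers z))
  rw [h1] at h2
  have h3 := (P : Subgroup K).card_mul_index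
  have h4 := (qSylow P z : Subgroup (K ⧸ zpowers z)).card_mul_index
  have h5 := Subgroup.card_eq_card_quotient_mul_card_subgroup (zpowers z)
  rw [h.card, h2] at h3
  rw [h.card_Z, ← h4, ← h3] at h5
  have h6 : 0 < (qSylow P z : Subgroup (K ⧸ zpowers z)).index :=
    Nat.pos_of_ne_zero Subgroup.index_ne_zero_of_finite
  nlinarith

theorem exp_qSylow (q : ↥(qSylow P z : Subgroup (K ⧸ zpowers z))) : q ^ 3 = 1 := by
  obtain ⟨y, hy, hyq⟩ := h.exists_lift q.2
  refine Subtype.ext ?_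
  rw [SubmonoidClass.coe_pow, ← hyq, ← QuotientGroup.mk_pow, h.exp y hy]
  rfl

theorem comm_qSylow : IsMulCommutative (qSylow P z) := by
  refine ⟨⟨fun a b => Subtype.ext ?_⟩⟩
  obtain ⟨x, hx, hxa⟩ := h.exists_lift a.2
  obtain ⟨y, hy, hyb⟩ := h.exists_lift b.2
  show (a : K ⧸ zpowers z) * b = b * a
  rw [← hxa, ← hyb, ← QuotientGroup.mk_mul, ← QuotientGroup.mk_mul]
  refine QuotientGroup.eq.2 ?_
  have h3 : (x * y)⁻¹ * (y * x) = y⁻¹ * x⁻¹ * y * x := by group
  have h4 := h.derived y⁻¹ (inv_mem hy) x⁻¹ (inv_mem hx)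
  rw [h3]
  simpa using h4

/-- A noncentral element is outside `⟨z⟩` in the quotient. -/
theorem mk_eq_one_iff {y : K} : (y : K ⧸ zpowers z) = 1 ↔ y ∈ zpowers z :=
  QuotientGroup.eq_one_iff y

theorem mem_normalizer_of_mk {n : K}
    (hn : (n : K ⧸ zpowers z) ∈ normalizer ((qSylow P z : Subgroup (K ⧸ zpowers z)) : Set _)) :
    n ∈ normalizer ((P : Subgroup K) : Set K) := by
  rw [mem_normalizer_iff] at hn ⊢
  intro x
  constructor
  · intro hx
    refine h.mem_of_mk_mem ?_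
    rw [QuotientGroup.mk_mul, QuotientGroup.mk_mul, QuotientGroup.mk_inv]
    exact (hn _).1 (h.mk_mem_qSylow hx)
  · intro hx
    refine h.mem_of_mk_mem ((hn _).2 ?_)
    have := h.mk_mem_qSylow hx
    rwa [QuotientGroup.mk_mul, QuotientGroup.mk_mul, QuotientGroup.mk_inv] at this

theorem mk_mem_normalizer {n : K} (hn : n ∈ normalizer ((P : Subgroup K) : Set K)) :
    (n : K ⧸ zpowers z) ∈ normalizer ((qSylow P z : Subgroup (K ⧸ zpowers z)) : Set _) := by
  rw [mem_normalizer_iff] at hn ⊢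
  intro q
  obtain ⟨x, rfl⟩ := QuotientGroup.mk_surjective q
  rw [← QuotientGroup.mk_inv, ← QuotientGroup.mk_mul, ← QuotientGroup.mk_mul]
  exact ⟨fun hx => h.mk_mem_qSylow ((hn _).1 (h.mem_of_mk_mem hx)),
    fun hx => h.mk_mem_qSylow ((hn _).2 (h.mem_of_mk_mem hx))⟩

theorem closure_pair {a b : K} (ha : a ∈ (P : Subgroup K)) (haZ : a ∉ zpowers z)
    (hb : b ∈ (P : Subgroup K)) (hba : b ∉ cP P a) {L : Subgroup K} (haL : a ∈ L) (hbL : b ∈ L)
    (hzL : z ∈ L) : (P : Subgroup K) ≤ L := by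
  have hlt : cP P a < (P : Subgroup K) ⊓ L := by
    refine lt_of_le_of_ne ?_ fun e => hba (e.ge ⟨hb, hbL⟩)
    rw [h.cP_eq ha haZ]
    exact sup_le (zpowers_le.2 ⟨ha, haL⟩) (zpowers_le.2 ⟨h.z_mem, hzL⟩)
  obtain ⟨k, -, hk⟩ := (Nat.dvd_prime_pow Nat.prime_three).1
    (show Nat.card ((P : Subgroup K) ⊓ L : Subgroup K) ∣ 3 ^ 3 from
      (card_dvd_of_le inf_le_left).trans (by rw [h.card]; norm_num))
  have h9 : 9 < Nat.card ((P : Subgroup K) ⊓ L : Subgroup K) := by
    rw [← h.card_cP ha haZ]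
    refine lt_of_le_of_ne (card_le_of_le hlt.le) fun e => hlt.ne ?_
    exact eq_of_le_of_card_ge hlt.le e.ge
  have h27 : 27 ≤ Nat.card ((P : Subgroup K) ⊓ L : Subgroup K) := by
    rw [hk] at h9 ⊢
    have : 3 ≤ k := by
      by_contra hk3
      have := Nat.pow_le_pow_right (show 1 ≤ 3 by norm_num) (show k ≤ 2 by omega)
      omega
    exact le_trans (by norm_num) (Nat.pow_le_pow_right (show 1 ≤ 3 by norm_num) this)
  have := eq_of_le_of_card_ge (inf_le_left : (P : Subgroup K) ⊓ L ≤ _) (by rw [h.card]; exact h27)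
  exact this ▸ inf_le_right

include hc

/-- An element of the normaliser acting trivially on `P / ⟨z⟩` is in `P C(P)`. -/
theorem mem_sup_of_trivial {n : K}
    (hn : ∀ x ∈ (P : Subgroup K), n * x * n⁻¹ * x⁻¹ ∈ zpowers z) :
    n ∈ (P : Subgroup K) ⊔ centralizer ((P : Subgroup K) : Set K) := by
  obtain ⟨a, ha, haZ⟩ : ∃ a ∈ (P : Subgroup K), a ∉ zpowers z := by
    by_contra hh
    push Not at hh
    have := card_le_of_le (show (P : Subgroup K) ≤ zpowers z from hh)
    rw [h.card, h.card_Z] at this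
    omega
  obtain ⟨b, hb, hab⟩ := h.exists_conj_eq_mul ha haZ (mem_zpowers z)
  -- `a` moves `b` by a generator of `⟨z⟩`
  have hba : b ∉ cP P a := fun hh => by
    rw [mem_centralizer_singleton_iff.1 hh.2, mul_inv_cancel_right] at hab
    exact h.z_ne (mul_eq_left.1 hab.symm)
  have hzc : ∀ g : K, ∀ w ∈ zpowers z, Commute g w := fun g w hw => by
    obtain ⟨i, rfl⟩ := mem_zpowers_iff.1 hw
    exact (show Commute g z from hc g).zpow_right i
  obtain ⟨p₁, hp₁, hp₁a⟩ := h.exists_conj_eq_mul ha haZ (hn a ha)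
  -- correct `b` by a power of `a`
  have hconjb : a * b * a⁻¹ = b * z⁻¹ := by
    calc a * b * a⁻¹ = (a * z) * z⁻¹ * b * a⁻¹ := by group
      _ = (b * a * b⁻¹) * z⁻¹ * b * a⁻¹ := by rw [hab]
      _ = b * a * (b⁻¹ * (z⁻¹ * b)) * a⁻¹ := by group
      _ = b * a * (b⁻¹ * (b * z⁻¹)) * a⁻¹ := by rw [((hzc b z (mem_zpowers z)).inv_right).eq]
      _ = b * (a * z⁻¹) * a⁻¹ := by group
      _ = b * (z⁻¹ * a) * a⁻¹ := by rw [((hzc a z (mem_zpowers z)).inv_right).eq]
      _ = b * z⁻¹ := by group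
  obtain ⟨i, hi⟩ : ∃ i : ℤ, z⁻¹ ^ i = (p₁ * b * p₁⁻¹ * b⁻¹)⁻¹ * (n * b * n⁻¹ * b⁻¹) := by
    refine mem_zpowers_iff.1 ?_
    rw [zpowers_inv]
    exact mul_mem (inv_mem (h.derived p₁ hp₁ b hb)) (hn b hb)
  have hai : ∀ j : ℤ, a ^ j * b * (a ^ j)⁻¹ = b * z⁻¹ ^ j := by
    intro j
    have hcz : ∀ k : ℤ, Commute b (z⁻¹ ^ k) := fun k => ((hzc b z (mem_zpowers z)).inv_right).zpow_right k
    have hcza : ∀ k : ℤ, Commute a (z⁻¹ ^ k) := fun k => ((hzc a z (mem_zpowers z)).inv_right).zpow_right k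
    induction j using Int.induction_on with
    | zero => simp
    | succ j ih =>
      calc a ^ ((j : ℤ) + 1) * b * (a ^ ((j : ℤ) + 1))⁻¹
          = a * (a ^ (j : ℤ) * b * (a ^ (j : ℤ))⁻¹) * a⁻¹ := by
            rw [add_comm, zpow_add, zpow_one]; group
        _ = (a * b * a⁻¹) * z⁻¹ ^ (j : ℤ) := by
            rw [ih, mul_assoc (a * b) a⁻¹, ((hcza _).inv_left).eq]; group
        _ = b * z⁻¹ ^ ((j : ℤ) + 1) := by
            rw [hconjb, add_comm, zpow_add, zpow_one, mul_assoc]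
    | pred j ih =>
      have e1 : a⁻¹ * b * a = b * z := by
        calc a⁻¹ * b * a = a⁻¹ * ((b * z⁻¹) * z) * a := by group
          _ = a⁻¹ * ((a * b * a⁻¹) * z) * a := by rw [hconjb]
          _ = b * (a⁻¹ * (z * a)) := by group
          _ = b * (a⁻¹ * (a * z)) := by rw [(hzc a z (mem_zpowers z)).eq]
          _ = b * z := by group
      calc a ^ (-(j : ℤ) - 1) * b * (a ^ (-(j : ℤ) - 1))⁻¹
          = a⁻¹ * (a ^ (-(j : ℤ)) * b * (a ^ (-(j : ℤ)))⁻¹) * a := by
            rw [show -(j : ℤ) - 1 = (-1) + -(j : ℤ) by ring, zpow_add, zpow_neg_one]; group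
        _ = (a⁻¹ * b * a) * z⁻¹ ^ (-(j : ℤ)) := by
            rw [ih, mul_assoc _ _ a, mul_assoc b, ← (hcza _).eq]; group
        _ = b * z⁻¹ ^ (-(j : ℤ) - 1) := by
            rw [e1, show -(j : ℤ) - 1 = (-1) + -(j : ℤ) by ring, zpow_add, zpow_neg_one, inv_inv,
              mul_assoc]
  set x := p₁ * a ^ i with hx
  have hxP : x ∈ (P : Subgroup K) := mul_mem hp₁ (zpow_mem ha i)
  have hxa : x * a * x⁻¹ = n * a * n⁻¹ := by
    calc x * a * x⁻¹ = p₁ * a * p₁⁻¹ := by rw [hx]; group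
      _ = a * (n * a * n⁻¹ * a⁻¹) := hp₁a
      _ = (n * a * n⁻¹ * a⁻¹) * a := (hzc a _ (hn a ha)).eq
      _ = n * a * n⁻¹ := by group
  have hxb : x * b * x⁻¹ = n * b * n⁻¹ := by
    have hw : (p₁ * b * p₁⁻¹ * b⁻¹)⁻¹ * (n * b * n⁻¹ * b⁻¹) ∈ zpowers z :=
      mul_mem (inv_mem (h.derived p₁ hp₁ b hb)) (hn b hb)
    calc x * b * x⁻¹ = p₁ * (a ^ i * b * (a ^ i)⁻¹) * p₁⁻¹ := by rw [hx]; group
      _ = p₁ * (b * ((p₁ * b * p₁⁻¹ * b⁻¹)⁻¹ * (n * b * n⁻¹ * b⁻¹))) * p₁⁻¹ := by rw [hai, hi]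
      _ = p₁ * b * (((p₁ * b * p₁⁻¹ * b⁻¹)⁻¹ * (n * b * n⁻¹ * b⁻¹)) * p₁⁻¹) := by group
      _ = p₁ * b * (p₁⁻¹ * ((p₁ * b * p₁⁻¹ * b⁻¹)⁻¹ * (n * b * n⁻¹ * b⁻¹))) := by
          rw [(hzc p₁⁻¹ _ hw).eq]
      _ = (p₁ * b * p₁⁻¹ * b⁻¹) * b * (p₁ * b * p₁⁻¹ * b⁻¹)⁻¹ * (n * b * n⁻¹ * b⁻¹) := by group
      _ = b * (n * b * n⁻¹ * b⁻¹) := by
          rw [← (hzc b _ (h.derived p₁ hp₁ b hb)).eq, mul_inv_cancel_right]
      _ = (n * b * n⁻¹ * b⁻¹) * b := (hzc b _ (hn b hb)).eq
      _ = n * b * n⁻¹ := by group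
  have key : ∀ u, x * u * x⁻¹ = n * u * n⁻¹ → Commute (x⁻¹ * n) u := fun u e => by
    show x⁻¹ * n * u = u * (x⁻¹ * n)
    calc x⁻¹ * n * u = x⁻¹ * (n * u * n⁻¹) * n := by group
      _ = x⁻¹ * (x * u * x⁻¹) * n := by rw [e]
      _ = u * (x⁻¹ * n) := by group
  have hC : x⁻¹ * n ∈ centralizer ((P : Subgroup K) : Set K) := by
    rw [← zpowers_le, le_centralizer_iff]
    refine h.closure_pair ha haZ hb hba ?_ ?_ ?_ <;>
      rw [mem_centralizer_iff] <;> intro g hg <;> obtain ⟨k, rfl⟩ := mem_zpowers_iff.1 hg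
    · exact ((key a hxa).zpow_left k).eq
    · exact ((key b hxb).zpow_left k).eq
    · exact ((show Commute (x⁻¹ * n) z from hc _).zpow_left k).eq
  rw [show n = x * (x⁻¹ * n) by group]
  exact mul_mem (mem_sup_left hxP) (mem_sup_right hC)

theorem mk_mem_centralizer_iff {n : K} :
    (n : K ⧸ zpowers z) ∈ centralizer ((qSylow P z : Subgroup (K ⧸ zpowers z)) : Set _) ↔
      n ∈ (P : Subgroup K) ⊔ centralizer ((P : Subgroup K) : Set K) := by
  constructor
  · intro hn
    refine h.mem_sup_of_trivial hc fun x hx => ?_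
    rw [← QuotientGroup.eq_one_iff]
    have e := mem_centralizer_iff.1 hn _ (h.mk_mem_qSylow hx)
    simp only [QuotientGroup.mk_mul, QuotientGroup.mk_inv]
    rw [← e]
    group
  · intro hn
    have hle : (P : Subgroup K) ⊔ centralizer ((P : Subgroup K) : Set K) ≤
        (centralizer ((qSylow P z : Subgroup (K ⧸ zpowers z)) : Set _)).comap
          (QuotientGroup.mk' (zpowers z)) := by
      refine sup_le (fun x hx => ?_) fun x hx => ?_ <;>
        refine mem_centralizer_iff.2 fun q hq => ?_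
      · exact congrArg Subtype.val (h.comm_qSylow.is_comm.comm ⟨q, hq⟩ ⟨_, h.mk_mem_qSylow hx⟩)
      · obtain ⟨y, hy, rfl⟩ := h.exists_lift hq
        show (y : K ⧸ zpowers z) * (x : K ⧸ zpowers z) = (x : K ⧸ zpowers z) * y
        rw [← QuotientGroup.mk_mul, ← QuotientGroup.mk_mul, mem_centralizer_iff.1 hx y hy]
    exact hle hn

/-- The automiser of the quotient Sylow subgroup. -/
theorem ctx_quotient {e : ℕ}
    (he : ((P : Subgroup K) ⊔ centralizer ((P : Subgroup K) : Set K)).relIndex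
      (normalizer ((P : Subgroup K) : Set K)) = e) : H28.Ab.Ctx (qSylow P z) e := by
  set π := QuotientGroup.mk' (zpowers z)
  set Qb : Subgroup (K ⧸ zpowers z) := (qSylow P z : Subgroup (K ⧸ zpowers z))
  refine ⟨h.comm_qSylow, ?_, ?_⟩
  · have h1 : (normalizer ((P : Subgroup K) : Set K)).map π = normalizer (Qb : Set (K ⧸ zpowers z)) := by
      refine le_antisymm ?_ fun q hq => ?_
      · rintro _ ⟨n, hn, rfl⟩
        exact h.mk_mem_normalizer hn
      · obtain ⟨n, rfl⟩ := QuotientGroup.mk_surjective q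
        exact ⟨n, h.mem_normalizer_of_mk hq, rfl⟩
    have h2 : (centralizer (Qb : Set (K ⧸ zpowers z))).comap π =
        (P : Subgroup K) ⊔ centralizer ((P : Subgroup K) : Set K) := by
      ext n
      exact h.mk_mem_centralizer_iff hc
    rw [← h1, ← relIndex_comap, h2, he]
  · intro q hq hq1
    refine le_antisymm ?_ ?_
    · rintro g ⟨hgq, hgN⟩
      obtain ⟨y, hy, rfl⟩ := h.exists_lift hq
      obtain ⟨n, rfl⟩ := QuotientGroup.mk_surjective g
      have hyZ : y ∉ zpowers z := fun hh => hq1 ((QuotientGroup.eq_one_iff y).2 hh)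
      have hnN := h.mem_normalizer_of_mk hgN
      -- adjust by an element of `P` to centralise `y`
      have hw : y⁻¹ * (n * y * n⁻¹) ∈ zpowers z := by
        rw [← QuotientGroup.eq_one_iff]
        have e := mem_centralizer_singleton_iff.1 hgq
        simp only [QuotientGroup.mk_mul, QuotientGroup.mk_inv]
        rw [e]
        group
      obtain ⟨p, hp', hpy⟩ := h.exists_conj_eq_mul hy hyZ hw
      set m := p⁻¹ * n with hm
      have hpn : p * y * p⁻¹ = n * y * n⁻¹ := hpy.trans (by group)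
      have hmy : m * y = y * m := by
        calc m * y = p⁻¹ * (n * y * n⁻¹) * n := by rw [hm]; group
          _ = p⁻¹ * (p * y * p⁻¹) * n := by rw [hpn]
          _ = y * m := by rw [hm]; group
      have hmN : m ∈ normalizer ((P : Subgroup K) : Set K) :=
        mul_mem (inv_mem (le_normalizer hp')) hnN
      obtain ⟨x, hx, hxy⟩ : ∃ x ∈ (P : Subgroup K), x ∉ cP P y := by
        by_contra hh
        push Not at hh
        have := card_le_of_le (show (P : Subgroup K) ≤ cP P y from hh)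
        rw [h.card, h.card_cP hy hyZ] at this
        omega
      set d := x⁻¹ * (m * x * m⁻¹) with hd
      have hdc : d ∈ cP P y := by
        refine ⟨(P : Subgroup K).mul_mem ((P : Subgroup K).inv_mem hx)
            ((mem_normalizer_iff.1 hmN _).1 hx),
          mem_centralizer_singleton_iff.2 ?_⟩
        have hw' : y⁻¹ * (x * y * x⁻¹) ∈ zpowers z := by
          have h1 := h.derived x hx y hy
          obtain ⟨k, hk⟩ := mem_zpowers_iff.1 h1
          have : y⁻¹ * (x * y * x⁻¹) = y⁻¹ * ((x * y * x⁻¹ * y⁻¹) * y) := by group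
          rw [this, ← hk, ← ((show Commute y z from hc y).zpow_right k).eq]
          simpa using zpow_mem (mem_zpowers z) k
        obtain ⟨k, hk⟩ := mem_zpowers_iff.1 hw'
        have hxy' : x * y * x⁻¹ = y * z ^ k := by rw [hk]; group
        have hmxy : (m * x * m⁻¹) * y * (m * x * m⁻¹)⁻¹ = x * y * x⁻¹ := by
          have e1 : m⁻¹ * y * m = y := by rw [mul_assoc, ← hmy, inv_mul_cancel_left]
          calc (m * x * m⁻¹) * y * (m * x * m⁻¹)⁻¹ = m * (x * (m⁻¹ * y * m) * x⁻¹) * m⁻¹ := by group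
            _ = m * (y * z ^ k) * m⁻¹ := by rw [e1, hxy']
            _ = (m * y * m⁻¹) * (m * z ^ k * m⁻¹) := by group
            _ = y * z ^ k := by
              rw [hmy, mul_inv_cancel_right, ((show Commute m z from hc m).zpow_right k).eq,
                mul_inv_cancel_right]
            _ = x * y * x⁻¹ := hxy'.symm
        calc d * y = x⁻¹ * ((m * x * m⁻¹) * y * (m * x * m⁻¹)⁻¹) * (m * x * m⁻¹) := by rw [hd]; group
          _ = x⁻¹ * (x * y * x⁻¹) * (m * x * m⁻¹) := by rw [hmxy]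
          _ = y * d := by rw [hd]; group
      have hmd : m * d = d * m := by
        have h1 : cP P y ≤ centralizer ({m} : Set K) := by
          rw [h.cP_eq hy hyZ]
          refine sup_le (zpowers_le.2 ?_) (zpowers_le.2 ?_) <;>
            refine mem_centralizer_singleton_iff.2 ?_
          · exact hmy.symm
          · exact (hc m).symm
        exact (mem_centralizer_singleton_iff.1 (h1 hdc)).symm
      have hd3 : d ^ 3 = 1 := h.exp d hdc.1
      have hmxd : m * x * m⁻¹ = x * d := by rw [hd]; group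
      have hm3 : m ^ 3 ∈ centralizer ((P : Subgroup K) : Set K) := by
        rw [← zpowers_le, le_centralizer_iff]
        have hxm : Commute (m ^ 3) x := by
          show m ^ 3 * x = x * m ^ 3
          have e0 : m * x = x * (d * m) := by rw [← mul_assoc, ← hmxd]; group
          have e1 : ∀ w, m * (x * w) = x * (d * (m * w)) := fun w => by
            rw [← mul_assoc, e0]; group
          have e2 : ∀ w, m * (d * w) = d * (m * w) := fun w => by
            rw [← mul_assoc, hmd, mul_assoc]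
          have e3 : ∀ w, d * (d * (d * w)) = w := fun w => by
            rw [← mul_assoc, ← mul_assoc, ← pow_two, ← pow_succ, hd3, one_mul]
          simp only [pow_succ, pow_zero, one_mul, mul_assoc, e0, e1, e2, e3]
        refine h.closure_pair hy hyZ hx hxy ?_ ?_ ?_ <;>
          rw [mem_centralizer_iff] <;> intro g hg <;> obtain ⟨k, rfl⟩ := mem_zpowers_iff.1 hg
        · exact (((show Commute m y from hmy).pow_left 3).zpow_left k).eq
        · exact (hxm.zpow_left k).eq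
        · exact (((show Commute m z from hc m).pow_left 3).zpow_left k).eq
      -- the image has order prime to three modulo the centralizer
      set CQ := (centralizer (Qb : Set (K ⧸ zpowers z))).subgroupOf (normalizer (Qb : Set (K ⧸ zpowers z)))
      haveI : CQ.Normal := by
        refine ⟨fun c hc' w => ?_⟩
        refine mem_subgroupOf.2 (mem_centralizer_iff.2 fun v hv => ?_)
        have hv' : (w : K ⧸ zpowers z)⁻¹ * v * w ∈ Qb := by
          have := (mem_normalizer_iff''.1 w.2 v).1 hv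
          exact this
        have e := mem_centralizer_iff.1 (mem_subgroupOf.1 hc') _ hv'
        push_cast
        calc v * ((w : K ⧸ zpowers z) * c * (w : K ⧸ zpowers z)⁻¹)
            = w * (((w : K ⧸ zpowers z)⁻¹ * v * w) * c) * (w : K ⧸ zpowers z)⁻¹ := by group
          _ = w * ((c : K ⧸ zpowers z) * ((w : K ⧸ zpowers z)⁻¹ * v * w)) *
                (w : K ⧸ zpowers z)⁻¹ := by rw [e]
          _ = (w : K ⧸ zpowers z) * c * (w : K ⧸ zpowers z)⁻¹ * v := by group
      let mb : ↥(normalizer (Qb : Set (K ⧸ zpowers z))) := ⟨(m : K ⧸ zpowers z), h.mk_mem_normalizer hmN⟩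
      have h3 : (QuotientGroup.mk mb : _ ⧸ CQ) ^ 3 = 1 := by
        rw [← QuotientGroup.mk_pow, QuotientGroup.eq_one_iff, mem_subgroupOf]
        push_cast
        rw [← QuotientGroup.mk_pow]
        exact (h.mk_mem_centralizer_iff hc).2 (mem_sup_right hm3)
      have hndvd : ¬ 3 ∣ CQ.index := by
        intro hd'
        have hle : Qb.subgroupOf (normalizer (Qb : Set (K ⧸ zpowers z))) ≤ CQ := fun v hv =>
          mem_subgroupOf.2 (mem_centralizer_iff.2 fun u hu =>
            congrArg Subtype.val (h.comm_qSylow.is_comm.comm ⟨u, hu⟩ ⟨_, hv⟩))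
        have h4 := hd'.trans (Subgroup.index_dvd_of_le hle)
        exact (qSylow P z).not_dvd_index
          (h4.trans (Subgroup.relIndex_dvd_index_of_le le_normalizer))
      have hm1 : (QuotientGroup.mk mb : _ ⧸ CQ) = 1 := by
        refine orderOf_eq_one_iff.1 (Nat.eq_one_of_dvd_coprimes
          ((Nat.prime_three.coprime_iff_not_dvd).2 hndvd) (orderOf_dvd_of_pow_eq_one h3) ?_)
        rw [index_eq_card]
        exact orderOf_dvd_natCard _
      rw [QuotientGroup.eq_one_iff, mem_subgroupOf] at hm1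
      have hmc := (h.mk_mem_centralizer_iff hc).1 hm1
      refine (h.mk_mem_centralizer_iff hc).2 ?_
      rw [show n = p * m by rw [hm]; group]
      exact mul_mem (mem_sup_left hp') hmc
    · intro g hg
      exact ⟨mem_centralizer_singleton_iff.2 (mem_centralizer_iff.1 hg q hq).symm,
        centralizer_le_normalizer _ hg⟩

/-- Elements of `P` with conjugate images are conjugate. -/
theorem isConj_of_mk {y y' : K} (hy' : y' ∈ (P : Subgroup K)) (hy'Z : y' ∉ zpowers z)
    (hyy : IsConj (y : K ⧸ zpowers z) (y' : K ⧸ zpowers z)) : IsConj y y' := by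
  obtain ⟨g, hg⟩ := isConj_iff.1 hyy
  obtain ⟨c, rfl⟩ := QuotientGroup.mk_surjective g
  rw [← QuotientGroup.mk_inv, ← QuotientGroup.mk_mul, ← QuotientGroup.mk_mul] at hg
  have hw : y'⁻¹ * (c * y * c⁻¹) ∈ zpowers z := QuotientGroup.eq.1 hg.symm
  obtain ⟨p, -, hp'⟩ := h.exists_conj_eq_mul hy' hy'Z hw
  refine (isConj_iff.2 ⟨c, ?_⟩ : IsConj y (c * y * c⁻¹)).trans
    ((isConj_iff.2 ⟨p, ?_⟩ : IsConj y' (c * y * c⁻¹)).symm)
  · rfl
  · rw [hp']; group

open scoped Classical in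
/-- The noncentral classes against the nontrivial classes of the quotient. -/
theorem sum_reps_mul [Fintype K] [Fintype ↥(qSylow P z : Subgroup (K ⧸ zpowers z))] {e : ℕ}
    (hctx : H28.Ab.Ctx (qSylow P z) e) {T : Finset K} (hTP : ∀ t ∈ T, t ∈ (P : Subgroup K))
    (hTZ : ∀ t ∈ T, t ∉ zpowers z)
    (hTex : ∀ y ∈ (P : Subgroup K), y ∉ zpowers z → ∃ t ∈ T, IsConj y t)
    (hTu : ∀ t ∈ T, ∀ t' ∈ T, IsConj t t' → t = t')
    {f : ↥(qSylow P z : Subgroup (K ⧸ zpowers z)) → ℂ} (hf : H28.Ab.Inv (qSylow P z) f) :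
    ∑ q, f q = f 1 + (e : ℂ) * ∑ t ∈ T.attach, f ⟨_, h.mk_mem_qSylow (hTP t.1 t.2)⟩ := by
  let j : {t // t ∈ T} → ↥(qSylow P z : Subgroup (K ⧸ zpowers z)) := fun t =>
    ⟨_, h.mk_mem_qSylow (hTP t.1 t.2)⟩
  have hj1 : ∀ t, j t ≠ 1 := fun t e' =>
    hTZ t.1 t.2 ((QuotientGroup.eq_one_iff t.1).1 (congrArg Subtype.val e'))
  have hex : ∀ q : ↥(qSylow P z : Subgroup (K ⧸ zpowers z)), q ≠ 1 →
      ∃! t : {t // t ∈ T}, IsConj (j t : K ⧸ zpowers z) (q : K ⧸ zpowers z) := by
    intro q hq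
    obtain ⟨y, hy, hyq⟩ := h.exists_lift q.2
    have hyZ : y ∉ zpowers z := fun hh =>
      hq (Subtype.ext (hyq.symm.trans ((QuotientGroup.eq_one_iff y).2 hh)))
    obtain ⟨t, ht, hyt⟩ := hTex y hy hyZ
    refine ⟨⟨t, ht⟩, ?_, fun t' ht' => Subtype.ext ?_⟩
    · rw [← hyq]
      exact MonoidHom.map_isConj (QuotientGroup.mk' (zpowers z)) hyt.symm
    · refine hTu t'.1 t'.2 t ht ((h.isConj_of_mk hc hy hyZ ?_).trans hyt)
      rw [hyq]
      exact ht'
  rw [← Finset.add_sum_erase Finset.univ _ (Finset.mem_univ 1)]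
  congr 1
  have hmap : ∀ q ∈ (Finset.univ.erase (1 : ↥(qSylow P z : Subgroup (K ⧸ zpowers z)))),
      q ∈ (Finset.univ : Finset {t // t ∈ T}).biUnion
        (fun t => Finset.univ.filter fun q' : ↥(qSylow P z : Subgroup (K ⧸ zpowers z)) =>
          IsConj (j t : K ⧸ zpowers z) (q' : K ⧸ zpowers z)) := by
    intro q hq
    obtain ⟨t, ht, -⟩ := hex q (Finset.mem_erase.1 hq).1
    exact Finset.mem_biUnion.2 ⟨t, Finset.mem_univ _, Finset.mem_filter.2 ⟨Finset.mem_univ _, ht⟩⟩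
  have heq : Finset.univ.erase (1 : ↥(qSylow P z : Subgroup (K ⧸ zpowers z))) =
      (Finset.univ : Finset {t // t ∈ T}).biUnion
        (fun t => Finset.univ.filter fun q' : ↥(qSylow P z : Subgroup (K ⧸ zpowers z)) =>
          IsConj (j t : K ⧸ zpowers z) (q' : K ⧸ zpowers z)) := by
    refine Finset.Subset.antisymm hmap fun q hq => Finset.mem_erase.2 ⟨?_, Finset.mem_univ _⟩
    obtain ⟨t, -, ht⟩ := Finset.mem_biUnion.1 hq
    intro e'
    have ht' := (Finset.mem_filter.1 ht).2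
    rw [e'] at ht'
    exact hj1 t (Subtype.ext (isConj_one_left.1 ht'))
  rw [heq, Finset.sum_biUnion ?_, Finset.univ_eq_attach, Finset.mul_sum]
  · refine Finset.sum_congr rfl fun t _ => ?_
    rw [Finset.sum_congr rfl fun q hq => hctx.inv_eq hf (Finset.mem_filter.1 hq).2,
      Finset.sum_const, nsmul_eq_mul, ← Fintype.card_subtype, ← Nat.card_eq_fintype_card,
      hctx.card_conj (hj1 t)]
  · intro t _ t' _ htt
    show Disjoint _ _
    rw [Finset.disjoint_left]
    intro q hq hq'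
    have h1 := (Finset.mem_filter.1 hq).2
    have h2 := (Finset.mem_filter.1 hq').2
    have hq1 : q ≠ 1 := fun e' => hj1 t (Subtype.ext (isConj_one_left.1 (by simpa [e'] using h1)))
    exact htt ((hex q hq1).unique h1 h2)

end Setup

end Cfsg.Agent.H31.Extra27
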