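import Cfsg.Agent.H22.Fusion
import Cfsg.Agent.H22.AbelianSylow
import Mathlib.GroupTheory.Perm.Cycle.Type
import Mathlib.GroupTheory.SpecificGroups.Cyclic
import Mathlib.GroupTheory.Transfer
import Mathlib.GroupTheory.PGroup
import Mathlib.Tactic.Group

/-!
# Fusion in an extraspecial Sylow 3-subgroup of order 27 with unfused centre
-/

set_option autoImplicit false

namespace Cfsg.Agent.H31.Extra27

open Subgroup

variable {G : Type*} [Group G]

/-- `P` is a non-abelian Sylow 3-subgroup of order 27 and exponent 3, with centre generated by `z`,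
centralised by `N(P)`. -/
structure Setup (P : Sylow 3 G) (z : G) : Prop where
  card : Nat.card (P : Subgroup G) = 27
  exp : ∀ x ∈ (P : Subgroup G), x ^ 3 = 1
  z_mem : z ∈ (P : Subgroup G)
  z_ne : z ≠ 1
  z_comm : ∀ x ∈ (P : Subgroup G), x * z = z * x
  center : ∀ x ∈ (P : Subgroup G), (∀ y ∈ (P : Subgroup G), x * y = y * x) → x ∈ zpowers z
  derived : ∀ x ∈ (P : Subgroup G), ∀ y ∈ (P : Subgroup G), x * y * x⁻¹ * y⁻¹ ∈ zpowers z
  norm : ∀ n ∈ normalizer ((P : Subgroup G) : Set G), n * z = z * n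

variable [Finite G] {P : Sylow 3 G} {z : G}

namespace Setup

variable (h : Setup P z)
include h

theorem orderOf_z : orderOf z = 3 :=
  haveI := Fact.mk Nat.prime_three
  orderOf_eq_prime (h.exp z h.z_mem) h.z_ne

theorem card_Z : Nat.card (zpowers z) = 3 := by rw [Nat.card_zpowers, h.orderOf_z]

theorem Z_le : zpowers z ≤ (P : Subgroup G) := zpowers_le.2 h.z_mem

theorem commute_of_mem_Z {x w : G} (hx : x ∈ (P : Subgroup G)) (hw : w ∈ zpowers z) :
    Commute x w := by
  obtain ⟨i, rfl⟩ := mem_zpowers_iff.1 hw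
  exact Commute.zpow_right (h.z_comm x hx) i

/-- A noncentral element moves by the whole centre. -/
theorem exists_conj_eq_mul {y : G} (hy : y ∈ (P : Subgroup G)) (hyZ : y ∉ zpowers z) {w : G}
    (hw : w ∈ zpowers z) : ∃ x ∈ (P : Subgroup G), x * y * x⁻¹ = y * w := by
  obtain ⟨x, hx, hxy⟩ : ∃ x ∈ (P : Subgroup G), x * y ≠ y * x := by
    by_contra hc
    push Not at hc
    exact hyZ (h.center y hy fun v hv => (hc v hv).symm)
  set d := x * y * x⁻¹ * y⁻¹ with hd
  have hdZ : d ∈ zpowers z := h.derived x hx y hy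
  have hd1 : d ≠ 1 := fun e => hxy (by
    calc x * y = d * (y * x) := by rw [hd]; group
      _ = y * x := by rw [e, one_mul])
  have hxd : x * y * x⁻¹ = y * d := by
    rw [(h.commute_of_mem_Z hy hdZ).eq, hd]; group
  have hpow : ∀ k : ℕ, x ^ k * y * (x ^ k)⁻¹ = y * d ^ k := by
    intro k
    induction k with
    | zero => simp
    | succ k ih =>
      rw [pow_succ', pow_succ d, show x * x ^ k * y * (x * x ^ k)⁻¹ =
        x * (x ^ k * y * (x ^ k)⁻¹) * x⁻¹ by group, ih, ← mul_assoc y]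
      have hc : Commute x (d ^ k) := (h.commute_of_mem_Z hx hdZ).pow_right k
      calc x * (y * d ^ k) * x⁻¹ = (x * y * x⁻¹) * (x * d ^ k * x⁻¹) := by group
        _ = y * d * d ^ k := by rw [hxd, hc.eq]; group
        _ = y * d ^ k * d := by rw [mul_assoc y, mul_assoc y, pow_mul_comm']
  haveI := Fact.mk Nat.prime_three
  have hw' : (⟨w, hw⟩ : zpowers z) ∈ zpowers (⟨d, hdZ⟩ : zpowers z) :=
    mem_zpowers_of_prime_card h.card_Z fun e => hd1 (congrArg Subtype.val e)
  obtain ⟨k, hk⟩ := (mem_powers_iff_mem_zpowers).2 hw'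
  have hk' : d ^ k = w := congrArg Subtype.val hk
  exact ⟨x ^ k, pow_mem hx k, by rw [hpow, hk']⟩

omit h in
/-- The centralizer of `y` in `P`. -/
abbrev cP (P : Sylow 3 G) (y : G) : Subgroup G :=
  (P : Subgroup G) ⊓ centralizer ({y} : Set G)

theorem self_mem_cP {y : G} (hy : y ∈ (P : Subgroup G)) : y ∈ cP P y :=
  ⟨hy, mem_centralizer_singleton_iff.2 rfl⟩

theorem Z_le_cP {y : G} (hy : y ∈ (P : Subgroup G)) : zpowers z ≤ cP P y := fun w hw =>
  ⟨h.Z_le hw, mem_centralizer_singleton_iff.2 (h.commute_of_mem_Z hy hw).eq.symm⟩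

/-- The centralizer of a noncentral element in `P` has order 9. -/
theorem card_cP {y : G} (hy : y ∈ (P : Subgroup G)) (hyZ : y ∉ zpowers z) :
    Nat.card (cP P y) = 9 := by
  haveI := Fact.mk Nat.prime_three
  have hne : cP P y ≠ (P : Subgroup G) := by
    intro e
    obtain ⟨x, hx, hxy⟩ := h.exists_conj_eq_mul hy hyZ (mem_zpowers z)
    have hxc : x * y = y * x := mem_centralizer_singleton_iff.1 (e.ge hx).2
    rw [hxc, mul_inv_cancel_right] at hxy
    exact h.z_ne (mul_eq_left.1 hxy.symm)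
  have hdvd : Nat.card (cP P y) ∣ 3 ^ 3 :=
    (show (3 : ℕ) ^ 3 = 27 by norm_num) ▸ h.card ▸ card_dvd_of_le inf_le_left
  obtain ⟨k, hk, hc⟩ := (Nat.dvd_prime_pow Nat.prime_three).1 hdvd
  have h3 : Nat.card (zpowers z) ∣ Nat.card (cP P y) := card_dvd_of_le (h.Z_le_cP hy)
  have hlt : Nat.card (zpowers z) < Nat.card (cP P y) := by
    refine lt_of_le_of_ne (Nat.le_of_dvd Nat.card_pos h3) fun e => hyZ ?_
    rw [eq_of_le_of_card_ge (h.Z_le_cP hy) e.ge]
    exact h.self_mem_cP hy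
  rw [h.card_Z] at hlt
  have hne27 : Nat.card (cP P y) ≠ 27 := fun e =>
    hne (eq_of_le_of_card_ge inf_le_left (by rw [e, h.card]))
  interval_cases k <;> omega

/-- The centralizer of a noncentral element in `P` is generated by it and the centre. -/
theorem cP_eq {y : G} (hy : y ∈ (P : Subgroup G)) (hyZ : y ∉ zpowers z) :
    cP P y = zpowers y ⊔ zpowers z := by
  have hle : zpowers y ⊔ zpowers z ≤ cP P y :=
    sup_le (zpowers_le.2 (h.self_mem_cP hy)) (h.Z_le_cP hy)
  refine (eq_of_le_of_card_ge hle ?_).symm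
  rw [h.card_cP hy hyZ]
  haveI := Fact.mk Nat.prime_three
  obtain ⟨k, hk, hc⟩ := (Nat.dvd_prime_pow Nat.prime_three).1
    (show Nat.card (zpowers y ⊔ zpowers z : Subgroup G) ∣ 3 ^ 2 from
      (card_dvd_of_le hle).trans (h.card_cP hy hyZ).dvd)
  have h3 : Nat.card (zpowers z) < Nat.card (zpowers y ⊔ zpowers z : Subgroup G) := by
    refine lt_of_le_of_ne (Nat.le_of_dvd Nat.card_pos (card_dvd_of_le le_sup_right)) fun e => hyZ ?_
    rw [eq_of_le_of_card_ge le_sup_right e.ge]
    exact (le_sup_left : zpowers y ≤ zpowers y ⊔ zpowers z) (mem_zpowers y)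
  rw [h.card_Z] at h3
  interval_cases k <;> omega

theorem cP_comm {y : G} (hy : y ∈ (P : Subgroup G)) (hyZ : y ∉ zpowers z) :
    ∀ a ∈ cP P y, ∀ b ∈ cP P y, Commute a b := by
  haveI := Fact.mk Nat.prime_three
  intro a ha b hb
  exact congrArg Subtype.val (IsPGroup.commutative_of_card_eq_prime_sq (p := 3)
    (G := cP P y) (by rw [h.card_cP hy hyZ]; norm_num) ⟨a, ha⟩ ⟨b, hb⟩)

/-- Two elements of `Z` conjugate in `G` are equal. -/
theorem eq_of_conj_Z {v w g : G} (hv : v ∈ zpowers z) (hw : w ∈ zpowers z)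
    (hg : g * v * g⁻¹ = w) : v = w := by
  haveI := Fact.mk Nat.prime_three
  have hc : ∀ u ∈ zpowers z, u ∈ centralizer ((P : Subgroup G) : Set G) := fun u hu =>
    mem_centralizer_iff.2 fun x hx => (h.commute_of_mem_Z hx hu).eq
  obtain ⟨n, hn, e⟩ := H22.burnside_fusion_central P (hc v hv) g (hg ▸ hc w hw)
  obtain ⟨i, rfl⟩ := mem_zpowers_iff.1 hv
  rw [← hg, ← e, (Commute.zpow_right (h.norm n hn) i).eq]
  group

/-- A noncentral element of `P` is not conjugate to `z`. -/
theorem not_conj_z {y g : G} (hy : y ∈ (P : Subgroup G)) (hyZ : y ∉ zpowers z) :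
    g * z * g⁻¹ ≠ y := by
  intro hg
  haveI := Fact.mk Nat.prime_three
  set K := centralizer ({y} : Set G)
  -- a Sylow subgroup of `G` containing `cP P y` and centralising `y`
  have hgK : ((g • P : Sylow 3 G) : Subgroup G) ≤ K := fun x hx => by
    rw [H22.mem_smul_sylow] at hx
    refine mem_centralizer_singleton_iff.2 ?_
    have e := h.z_comm _ hx
    calc x * y = g * ((g⁻¹ * x * g) * z) * g⁻¹ := by rw [← hg]; group
      _ = g * (z * (g⁻¹ * x * g)) * g⁻¹ := by rw [e]
      _ = y * x := by rw [← hg]; group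
  obtain ⟨Q₀, hQ₀⟩ := (IsPGroup.to_le P.2 (inf_le_left (a := (P : Subgroup G))
    (b := K))).comap_subtype (K := K).exists_le_sylow
  obtain ⟨c, hcK, hQ⟩ : ∃ c ∈ K, ∀ a ∈ cP P y,
      a ∈ ((c * g) • P : Sylow 3 G).toSubgroup := by
    obtain ⟨c, hc⟩ := MulAction.exists_smul_eq K ((g • P).subtype hgK) Q₀
    refine ⟨c, c.2, fun a ha => ?_⟩
    have h1 : (⟨a, ha.2⟩ : K) ∈ (Q₀ : Subgroup K) := hQ₀ ha
    rw [← hc, Sylow.smul_subtype] at h1
    rw [mul_smul]
    exact h1
  set Q : Sylow 3 G := (c * g) • P with hQdef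
  have hQy : ∀ x ∈ (Q : Subgroup G), x * y = y * x := fun x hx => by
    rw [hQdef, H22.mem_smul_sylow] at hx
    have e := h.z_comm _ hx
    have hcy : c * y * c⁻¹ = y := by
      rw [mem_centralizer_singleton_iff.1 hcK, mul_inv_cancel_right]
    have hy' : y = (c * g) * z * (c * g)⁻¹ := by
      conv_lhs => rw [← hcy, ← hg]
      group
    calc x * y = (c * g) * (((c * g)⁻¹ * x * (c * g)) * z) * (c * g)⁻¹ := by rw [hy']; group
      _ = (c * g) * (z * ((c * g)⁻¹ * x * (c * g))) * (c * g)⁻¹ := by rw [e]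
      _ = y * x := by rw [hy']; group
  have hzQ : z ∈ (Q : Subgroup G) := hQ z (h.Z_le_cP hy (mem_zpowers z))
  -- an element of `Q` moving `z`
  obtain ⟨q, hqQ, hqz⟩ : ∃ q ∈ (Q : Subgroup G), q * z ≠ z * q := by
    by_contra hc'
    push Not at hc'
    have h1 : ∀ v ∈ (P : Subgroup G), (c * g)⁻¹ * z * (c * g) * v = v * ((c * g)⁻¹ * z * (c * g)) := by
      intro v hv
      have hv' : (c * g) * v * (c * g)⁻¹ ∈ (Q : Subgroup G) := H22.conj_mem_smul_sylow hv
      have e := hc' _ hv'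
      calc (c * g)⁻¹ * z * (c * g) * v
          = (c * g)⁻¹ * (z * ((c * g) * v * (c * g)⁻¹)) * (c * g) := by group
        _ = (c * g)⁻¹ * (((c * g) * v * (c * g)⁻¹) * z) * (c * g) := by rw [e]
        _ = v * ((c * g)⁻¹ * z * (c * g)) := by group
    have hmem : (c * g)⁻¹ * z * (c * g) ∈ zpowers z := by
      refine h.center _ ?_ h1
      rw [hQdef, H22.mem_smul_sylow] at hzQ
      exact hzQ
    have h2 := h.eq_of_conj_Z (g := c * g) hmem (mem_zpowers z) (by group)
    have hcy : c * y * c⁻¹ = y := by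
      rw [mem_centralizer_singleton_iff.1 hcK, mul_inv_cancel_right]
    refine hyZ ?_
    have h3 : (c * g) * z * (c * g)⁻¹ = z := by
      conv_lhs => rw [← h2]
      group
    have h4 : (c * g) * z * (c * g)⁻¹ = y := by
      conv_rhs => rw [← hcy, ← hg]
      group
    rw [← h4, h3]
    exact mem_zpowers z
  -- the commutator lies in `⟨y⟩`
  have hy' : y = (c * g) * z * (c * g)⁻¹ := by
    have hcy : c * y * c⁻¹ = y := by
      rw [mem_centralizer_singleton_iff.1 hcK, mul_inv_cancel_right]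
    conv_lhs => rw [← hcy, ← hg]
    group
  have hcomm : q * z * q⁻¹ * z⁻¹ ∈ zpowers y := by
    have h1 := h.derived ((c * g)⁻¹ * q * (c * g)) (by rwa [hQdef, H22.mem_smul_sylow] at hqQ)
      ((c * g)⁻¹ * z * (c * g)) (by rwa [hQdef, H22.mem_smul_sylow] at hzQ)
    obtain ⟨i, hi⟩ := mem_zpowers_iff.1 h1
    refine mem_zpowers_iff.2 ⟨i, ?_⟩
    rw [hy', conj_zpow, hi]
    group
  set d := q * z * q⁻¹ * z⁻¹ with hd
  have hd1 : d ≠ 1 := fun e => hqz (by
    calc q * z = d * (z * q) := by rw [hd]; group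
      _ = z * q := by rw [e, one_mul])
  have hy3 : Nat.card (zpowers y) = 3 := by
    rw [Nat.card_zpowers]
    exact orderOf_eq_prime (h.exp y hy) fun e => hyZ (e ▸ one_mem _)
  have hdy : (⟨y, mem_zpowers y⟩ : zpowers y) ∈ zpowers (⟨d, hcomm⟩ : zpowers y) :=
    mem_zpowers_of_prime_card hy3 fun e => hd1 (congrArg Subtype.val e)
  obtain ⟨k, hk⟩ := (mem_powers_iff_mem_zpowers).2 hdy
  have hk' : d ^ k = y := congrArg Subtype.val hk
  have hcd : Commute q d := by
    obtain ⟨i, hi⟩ := mem_zpowers_iff.1 hcomm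
    rw [← hi]
    exact Commute.zpow_right (hQy q hqQ) i
  have hcz : Commute z d := by
    obtain ⟨i, hi⟩ := mem_zpowers_iff.1 hcomm
    rw [← hi]
    exact Commute.zpow_right (h.z_comm y hy).symm i
  have hqz' : q * z * q⁻¹ = z * d := by rw [hcz.eq, hd]; group
  -- `r` fixes `y` and sends `z` to `z * y⁻¹`
  set r := (q ^ k)⁻¹ with hr
  have hqk : ∀ j : ℕ, q ^ j * z * (q ^ j)⁻¹ = z * d ^ j := by
    intro j
    induction j with
    | zero => simp
    | succ j ih =>
      rw [pow_succ', show q * q ^ j * z * (q * q ^ j)⁻¹ = q * (q ^ j * z * (q ^ j)⁻¹) * q⁻¹ by group,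
        ih]
      calc q * (z * d ^ j) * q⁻¹ = (q * z * q⁻¹) * (q * d ^ j * q⁻¹) := by group
        _ = z * (d * d ^ j) := by rw [hqz', (hcd.pow_right j).eq]; group
        _ = z * d ^ (j + 1) := by rw [← pow_succ']
  have hry : r * y * r⁻¹ = y := by
    have hc2 : Commute (q ^ k) y := (show Commute q y from hQy q hqQ).pow_left k
    rw [hr, inv_inv, mul_assoc, ← hc2.eq]
    group
  have hrz : r * z * r⁻¹ = z * y⁻¹ := by
    have e := hqk k
    rw [hk'] at e
    have hc2 : r * y⁻¹ * r⁻¹ = y⁻¹ := by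
      calc r * y⁻¹ * r⁻¹ = (r * y * r⁻¹)⁻¹ := by group
        _ = y⁻¹ := by rw [hry]
    calc r * z * r⁻¹ = r * (q ^ k * z * (q ^ k)⁻¹ * y⁻¹) * r⁻¹ := by rw [e]; group
      _ = z * (r * y⁻¹ * r⁻¹) := by rw [hr]; group
      _ = z * y⁻¹ := by rw [hc2]
  -- `x` fixes `z` and sends `y` to `y * z`
  obtain ⟨x, hx, hxy⟩ := h.exists_conj_eq_mul hy hyZ (mem_zpowers z)
  have hxz : x * z * x⁻¹ = z := by rw [h.z_comm x hx, mul_inv_cancel_right]
  set φ : G → G → G := fun g a => g * a * g⁻¹ with hφ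
  have hφm : ∀ g a b, φ g (a * b) = φ g a * φ g b := fun g a b => by simp only [hφ]; group
  have hφi : ∀ g a, φ g a⁻¹ = (φ g a)⁻¹ := fun g a => by simp only [hφ]; group
  have hzy : Commute z y := (h.z_comm y hy).symm
  set w := x * r * x with hw
  have hwz : φ w z = y⁻¹ := by
    have e : φ w z = φ x (φ r (φ x z)) := by simp only [hφ, hw]; group
    rw [e, show φ x z = z from hxz, show φ r z = z * y⁻¹ from hrz, hφm x z y⁻¹, hφi x y,
      show φ x z = z from hxz, show φ x y = y * z from hxy, mul_inv_rev]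
    group
  have hwy : φ w y = z := by
    have e : φ w y = φ x (φ r (φ x y)) := by simp only [hφ, hw]; group
    rw [e, show φ x y = y * z from hxy, hφm r y z, show φ r y = y from hry,
      show φ r z = z * y⁻¹ from hrz, hφm x y (z * y⁻¹), hφm x z y⁻¹, hφi x y,
      show φ x z = z from hxz, show φ x y = y * z from hxy, mul_inv_rev]
    calc y * z * (z * (z⁻¹ * y⁻¹)) = y * z * y⁻¹ := by group
      _ = z := by rw [← hzy.eq, mul_inv_cancel_right]
  set n := w * w with hn
  have hnz : φ n z = z⁻¹ := by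
    rw [show φ n z = φ w (φ w z) by simp only [hφ, hn]; group, hwz, hφi w y, hwy]
  have hny : φ n y = y⁻¹ := by
    rw [show φ n y = φ w (φ w y) by simp only [hφ, hn]; group, hwy, hwz]
  -- Frattini
  set A := cP P y
  set L := centralizer ({z} : Set G) ⊓ normalizer (A : Set G) with hL
  have hPL : (P : Subgroup G) ≤ L := by
    intro v hv
    refine ⟨mem_centralizer_singleton_iff.2 (h.z_comm v hv), ?_⟩
    have key : ∀ v ∈ (P : Subgroup G), ∀ a ∈ A, v * a * v⁻¹ ∈ A := by
      intro v hv a ha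
      have h1 := h.derived v hv a ha.1
      have h2 : v * a * v⁻¹ * a⁻¹ ∈ A := h.Z_le_cP hy h1
      have h3 := mul_mem h2 ha
      rwa [inv_mul_cancel_right] at h3
    refine mem_normalizer_iff.2 fun a => ⟨key v hv a, fun ha => ?_⟩
    have := key v⁻¹ (inv_mem hv) _ ha
    simpa [mul_assoc] using this
  have hnA : n ∈ normalizer (A : Set G) := by
    have hA : (A : Subgroup G) = zpowers y ⊔ zpowers z := h.cP_eq hy hyZ
    have hmap : A.map (MulAut.conj n).toMonoidHom = A := by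
      rw [hA, Subgroup.map_sup, MonoidHom.map_zpowers, MonoidHom.map_zpowers]
      simp only [MulEquiv.coe_toMonoidHom, MulAut.conj_apply]
      rw [show n * y * n⁻¹ = y⁻¹ from hny, show n * z * n⁻¹ = z⁻¹ from hnz, zpowers_inv,
        zpowers_inv]
    rw [mem_normalizer_iff]
    intro a
    conv_rhs => rw [← hmap]
    simp only [mem_map, MulEquiv.coe_toMonoidHom, MulAut.conj_apply]
    exact ⟨fun ha => ⟨a, ha, rfl⟩, fun ⟨b, hb, e⟩ => mul_left_cancel (mul_right_cancel e) ▸ hb⟩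
  have hnP : ((n • P : Sylow 3 G) : Subgroup G) ≤ L := by
    intro v hv
    rw [H22.mem_smul_sylow] at hv
    obtain ⟨h1, h2⟩ := hPL hv
    refine ⟨mem_centralizer_singleton_iff.2 ?_, ?_⟩
    · have e : (n⁻¹ * v * n) * z = z * (n⁻¹ * v * n) := mem_centralizer_singleton_iff.1 h1
      have e' : Commute (n⁻¹ * v * n) z⁻¹ := Commute.inv_right e
      have hz' : z = n * z⁻¹ * n⁻¹ := by
        rw [show n * z⁻¹ * n⁻¹ = (φ n z)⁻¹ by simp only [hφ]; group, hnz, inv_inv]
      calc v * z = n * ((n⁻¹ * v * n) * z⁻¹) * n⁻¹ := by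
            conv_lhs => rw [hz']
            group
        _ = n * (z⁻¹ * (n⁻¹ * v * n)) * n⁻¹ := by rw [e'.eq]
        _ = z * v := by
            conv_rhs => rw [hz']
            group
    · have := mul_mem (mul_mem hnA h2) (inv_mem hnA)
      show v ∈ normalizer (A : Set G)
      simpa [mul_assoc] using this
  obtain ⟨l, hl, hlP⟩ := H22.exists_mem_smul_eq L (n • P) P hnP hPL
  rw [← mul_smul] at hlP
  have hN : l * n ∈ normalizer ((P : Subgroup G) : Set G) :=
    Sylow.smul_eq_iff_mem_normalizer.1 hlP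
  have hlz : Commute l z := mem_centralizer_singleton_iff.1 hl.1
  have e1 : φ (l * n) z = z := by simp only [hφ]; rw [h.norm _ hN]; group
  have e2 : φ (l * n) z = z⁻¹ := by
    rw [show φ (l * n) z = φ l (φ n z) by simp only [hφ]; group, hnz]
    simp only [hφ]
    rw [hlz.inv_right.eq, mul_inv_cancel_right]
  have e3 : z = z⁻¹ := e1.symm.trans e2
  have h2 : z ^ 2 = 1 := by
    rw [sq]
    nth_rewrite 1 [e3]
    exact inv_mul_cancel z
  have := orderOf_dvd_of_pow_eq_one h2
  rw [h.orderOf_z] at this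
  omega

/-- The only conjugates of central elements in `P` are themselves. -/
theorem conj_Z_mem {v g : G} (hv : v ∈ zpowers z) (hg : g * v * g⁻¹ ∈ (P : Subgroup G)) :
    g * v * g⁻¹ = v := by
  haveI := Fact.mk Nat.prime_three
  by_cases hv1 : v = 1
  · simp [hv1]
  obtain ⟨i, rfl⟩ := mem_zpowers_iff.1 hv
  -- `z` is a power of `v`
  obtain ⟨j, hj⟩ := mem_zpowers_iff.1 (mem_zpowers_of_prime_card h.card_Z
    (g := (⟨z ^ i, hv⟩ : zpowers z)) (g' := ⟨z, mem_zpowers z⟩) fun e => hv1 (congrArg Subtype.val e))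
  have hj' : (z ^ i) ^ j = z := congrArg Subtype.val hj
  have hzP : g * z * g⁻¹ ∈ (P : Subgroup G) := by
    rw [← hj', ← conj_zpow]
    exact zpow_mem hg j
  have hzZ : g * z * g⁻¹ ∈ zpowers z := by
    by_contra hc
    exact h.not_conj_z hzP hc rfl
  rw [← conj_zpow, ← h.eq_of_conj_Z (mem_zpowers z) hzZ rfl]

theorem not_conj_Z {y v : G} (hy : y ∈ (P : Subgroup G)) (hyZ : y ∉ zpowers z)
    (hv : v ∈ zpowers z) : ¬ IsConj v y := fun hc => by
  obtain ⟨g, hg⟩ := isConj_iff.1 hc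
  exact hyZ (by rw [← hg, h.conj_Z_mem hv (hg.symm ▸ hy)]; exact hv)

/-- `C_P(y)` is a Sylow subgroup of `C(y)`. -/
theorem index_cP {y : G} (hy : y ∈ (P : Subgroup G)) (hyZ : y ∉ zpowers z) :
    ∃ A : Sylow 3 (centralizer ({y} : Set G)),
      (A : Subgroup (centralizer ({y} : Set G))).map (centralizer ({y} : Set G)).subtype = cP P y := by
  haveI := Fact.mk Nat.prime_three
  set K := centralizer ({y} : Set G)
  have hA : IsPGroup 3 ((cP P y).subgroupOf K) :=
    (IsPGroup.to_le P.2 inf_le_left).comap_subtype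
  obtain ⟨A, hA'⟩ := hA.exists_le_sylow
  refine ⟨A, (eq_of_le_of_card_ge ?_ ?_).symm⟩
  · intro a ha
    exact ⟨⟨a, ha.2⟩, hA' ha, rfl⟩
  rw [card_map_of_injective K.subtype_injective, h.card_cP hy hyZ]
  obtain ⟨T, hT⟩ := (A.2.map K.subtype).exists_le_sylow
  have hT27 : Nat.card (T : Subgroup G) = 27 := by
    rw [T.card_eq_multiplicity, ← P.card_eq_multiplicity, h.card]
  have hdvd : Nat.card A ∣ 3 ^ 3 := by
    rw [← card_map_of_injective K.subtype_injective, show (3 : ℕ) ^ 3 = 27 by norm_num, ← hT27]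
    exact card_dvd_of_le hT
  obtain ⟨k, hk, hc⟩ := (Nat.dvd_prime_pow Nat.prime_three).1 hdvd
  by_contra hlt
  have h27 : Nat.card (A : Subgroup K) = 27 := by
    interval_cases k <;> omega
  have hTK : (T : Subgroup G) = (A : Subgroup K).map K.subtype :=
    (eq_of_le_of_card_ge hT (by rw [hT27, card_map_of_injective K.subtype_injective, h27])).symm
  have hyT : y ∈ (T : Subgroup G) := by
    rw [hTK]
    exact ⟨⟨y, (h.self_mem_cP hy).2⟩, hA' (h.self_mem_cP hy), rfl⟩
  obtain ⟨c, hc⟩ := MulAction.exists_smul_eq G P T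
  rw [← hc, H22.mem_smul_sylow] at hyT
  refine h.not_conj_Z hy hyZ (v := c⁻¹ * y * c) (h.center _ hyT fun v hv => ?_)
    (isConj_iff.2 ⟨c, by group⟩)
  have hv' : c * v * c⁻¹ ∈ (T : Subgroup G) := hc ▸ H22.conj_mem_smul_sylow hv
  rw [hTK] at hv'
  obtain ⟨⟨u, hu⟩, -, hu'⟩ := hv'
  have e : u * y = y * u := mem_centralizer_singleton_iff.1 hu
  simp only [coe_subtype] at hu'
  rw [hu'] at e
  calc c⁻¹ * y * c * v = c⁻¹ * (y * (c * v * c⁻¹)) * c := by group
    _ = c⁻¹ * ((c * v * c⁻¹) * y) * c := by rw [e]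
    _ = v * (c⁻¹ * y * c) := by group

/-- The centralizer of a noncentral element of `P` has a normal 3-complement of index 9. -/
theorem exists_complement {y : G} (hy : y ∈ (P : Subgroup G)) (hyZ : y ∉ zpowers z) :
    ∃ O : Subgroup (centralizer ({y} : Set G)), O.Normal ∧ ¬ 3 ∣ Nat.card O ∧ O.index = 9 := by
  haveI := Fact.mk Nat.prime_three
  obtain ⟨A, hA⟩ := h.index_cP hy hyZ
  have hburn : normalizer (A : Set (centralizer ({y} : Set G))) ≤
      centralizer (A : Set (centralizer ({y} : Set G))) := by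
    intro n hn
    have hz : (n : G) * z * (n : G)⁻¹ = z := by
      have hzA : z ∈ cP P y := h.Z_le_cP hy (mem_zpowers z)
      rw [← hA] at hzA
      obtain ⟨a, ha, hae⟩ := hzA
      have h1 := (mem_normalizer_iff.1 hn a).1 ha
      have h2 : (n : G) * z * (n : G)⁻¹ ∈ cP P y := by
        rw [← hA, ← hae]
        exact ⟨_, h1, rfl⟩
      exact h.conj_Z_mem (mem_zpowers z) h2.1
    have hgen : cP P y ≤ centralizer ({(n : G)} : Set G) := by
      rw [h.cP_eq hy hyZ, sup_le_iff, zpowers_le, zpowers_le]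
      exact ⟨mem_centralizer_singleton_iff.2 (mem_centralizer_singleton_iff.1 n.2).symm,
        mem_centralizer_singleton_iff.2 (mul_inv_eq_iff_eq_mul.1 hz).symm⟩
    rw [mem_centralizer_iff]
    intro a ha
    refine Subtype.ext ?_
    exact mem_centralizer_singleton_iff.1 (hgen (hA.le ⟨a, ha, rfl⟩))
  have hcompl := MonoidHom.ker_transferSylow_isComplement' A hburn
  refine ⟨_, MonoidHom.normal_ker _, MonoidHom.not_dvd_card_ker_transferSylow A hburn, ?_⟩
  rw [hcompl.symm.index_eq_card]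
  show Nat.card A.toSubgroup = 9
  rw [← card_map_of_injective (centralizer ({y} : Set G)).subtype_injective, hA,
    h.card_cP hy hyZ]

/-- Fusion of noncentral elements happens in `C(z)`. -/
theorem exists_conj_centralizer {y y' g : G} (hy : y ∈ (P : Subgroup G)) (hyZ : y ∉ zpowers z)
    (hy' : y' ∈ (P : Subgroup G)) (hg : g * y * g⁻¹ = y') :
    ∃ c ∈ centralizer ({z} : Set G), c * y * c⁻¹ = y' := by
  haveI := Fact.mk Nat.prime_three
  have hy'Z : y' ∉ zpowers z := fun hc => h.not_conj_Z hy hyZ hc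
    (isConj_iff.2 ⟨g, hg⟩).symm
  set K := centralizer ({y'} : Set G)
  obtain ⟨A, hA⟩ := h.index_cP hy' hy'Z
  have hB : (cP P y).map (MulAut.conj g).toMonoidHom ≤ K := by
    rintro _ ⟨a, ha, rfl⟩
    refine mem_centralizer_singleton_iff.2 ?_
    have e : a * y = y * a := mem_centralizer_singleton_iff.1 ha.2
    simp only [MulEquiv.coe_toMonoidHom, MulAut.conj_apply]
    calc g * a * g⁻¹ * y' = g * (a * y) * g⁻¹ := by rw [← hg]; group
      _ = g * (y * a) * g⁻¹ := by rw [e]
      _ = y' * (g * a * g⁻¹) := by rw [← hg]; group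
  obtain ⟨T, hT⟩ := (((IsPGroup.to_le P.2 inf_le_left : IsPGroup 3 (cP P y)).map
    (MulAut.conj g).toMonoidHom).comap_subtype (K := K)).exists_le_sylow
  obtain ⟨k, hk⟩ := MulAction.exists_smul_eq K T A
  have hzT : (⟨g * z * g⁻¹, hB ⟨z, h.Z_le_cP hy (mem_zpowers z), rfl⟩⟩ : K) ∈ (T : Subgroup K) :=
    hT ⟨z, h.Z_le_cP hy (mem_zpowers z), rfl⟩
  have h1 := H22.conj_mem_smul_sylow (g := k) hzT
  rw [hk] at h1
  have h2 : ((k : G) * g) * z * ((k : G) * g)⁻¹ ∈ (P : Subgroup G) := by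
    refine (hA.le ⟨_, h1, ?_⟩).1
    simp [mul_assoc]
  have h3 := h.conj_Z_mem (mem_zpowers z) h2
  refine ⟨(k : G) * g, mem_centralizer_singleton_iff.2 (mul_inv_eq_iff_eq_mul.1 h3), ?_⟩
  calc (k : G) * g * y * ((k : G) * g)⁻¹ = k * (g * y * g⁻¹) * (k : G)⁻¹ := by group
    _ = y' := by rw [hg, mem_centralizer_singleton_iff.1 k.2, mul_inv_cancel_right]

end Setup

end Cfsg.Agent.H31.Extra27
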