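import Cfsg.Agent.H31.Extra27.Phi
import Cfsg.Agent.H41.RegularInner
import Cfsg.Agent.S0923

/-!
# Exceptional functions on the group from functions on the centraliser of the centre
-/

set_option autoImplicit false
set_option linter.unusedSectionVars false

open Subgroup
open scoped ComplexConjugate

namespace Cfsg.Agent.H31.Extra27

variable {G : Type*} [Group G] [Finite G] [hp : Fact (Nat.Prime 3)] {P : Sylow 3 G} {z : G}
  {M : Ideal Cfsg.AlgInt}

open scoped Classical in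
/-- Extension by zero. -/
noncomputable def ext0 (C : Subgroup G) (φ : C → ℂ) (g : G) : ℂ :=
  if hg : g ∈ C then φ ⟨g, hg⟩ else 0

theorem ext0_of_mem {C : Subgroup G} (φ : C → ℂ) {g : G} (hg : g ∈ C) :
    ext0 C φ g = φ ⟨g, hg⟩ := by
  classical
  exact dif_pos hg

theorem ext0_coe {C : Subgroup G} (φ : C → ℂ) (g : C) : ext0 C φ g = φ g :=
  ext0_of_mem φ g.2

namespace Setup

variable (h : Setup P z)
include h

theorem P_le : (P : Subgroup G) ≤ centralizer ({z} : Set G) := fun x hx =>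
  mem_centralizer_singleton_iff.2 (h.z_comm x hx)

/-- The setup inside the centraliser of `z`. -/
theorem sub : Setup (P.subtype h.P_le)
    (⟨z, h.P_le h.z_mem⟩ : centralizer ({z} : Set G)) := by
  set C := centralizer ({z} : Set G)
  set zC : C := ⟨z, h.P_le h.z_mem⟩
  have hZ : ∀ x : C, x ∈ zpowers zC ↔ (x : G) ∈ zpowers z := by
    intro x
    simp only [mem_zpowers_iff]
    exact exists_congr fun i => ⟨fun e => by simp [← e, zC], fun e => Subtype.ext (by simpa [zC] using e)⟩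
  have hmem : ∀ {x : C}, x ∈ (P.subtype h.P_le : Subgroup C) ↔ (x : G) ∈ (P : Subgroup G) := by
    intro x
    rw [Sylow.coe_subtype, mem_subgroupOf]
  refine ⟨?_, fun x hx => Subtype.ext ?_, hmem.2 h.z_mem, fun e => h.z_ne (congrArg Subtype.val e),
    fun x hx => Subtype.ext ?_, fun x hx hy => (hZ x).2 ?_, fun x hx y hy => (hZ _).2 ?_,
    fun n _ => Subtype.ext ?_⟩
  · rw [Sylow.coe_subtype, Nat.card_congr (subgroupOfEquivOfLe h.P_le).toEquiv, h.card]
  · push_cast
    exact h.exp _ (hmem.1 hx)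
  · exact h.z_comm _ (hmem.1 hx)
  · refine h.center _ (hmem.1 hx) fun y hy' => ?_
    exact congrArg Subtype.val (hy ⟨y, h.P_le hy'⟩ (hmem.2 hy'))
  · push_cast
    exact h.derived _ (hmem.1 hx) _ (hmem.1 hy)
  · exact mem_centralizer_singleton_iff.1 n.2

theorem sub_central : ∀ w : centralizer ({z} : Set G),
    w * (⟨z, h.P_le h.z_mem⟩ : centralizer ({z} : Set G)) = ⟨z, h.P_le h.z_mem⟩ * w := fun w =>
  Subtype.ext (mem_centralizer_singleton_iff.1 w.2)

/-- A function on the centraliser of `z` ready to be transferred. -/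
structure Local (h : Setup P z) (φ : centralizer ({z} : Set G) → ℂ) : Prop where
  class_fun : Cfsg.IsClassFunction _ φ
  regular : ∀ w : centralizer ({z} : Set G), ¬ 3 ∣ orderOf w → φ w = 0
  flat : Flat (P.subtype h.P_le) (⟨z, h.P_le h.z_mem⟩ : centralizer ({z} : Set G)) φ

theorem mem_zpowers_sub {x : centralizer ({z} : Set G)} :
    x ∈ zpowers (⟨z, h.P_le h.z_mem⟩ : centralizer ({z} : Set G)) ↔ (x : G) ∈ zpowers z := by
  simp only [mem_zpowers_iff]
  exact exists_congr fun i => ⟨fun e => by simp [← e], fun e => Subtype.ext (by simpa using e)⟩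

/-- A function flat in the centraliser, read in the group. -/
theorem local_flat {φ : centralizer ({z} : Set G) → ℂ} (hφ : Local h φ) {w x y : G}
    (hw : w ∈ centralizer ({z} : Set G)) (hx : Cfsg.IsPPart 3 w x) (hy : y ∈ (P : Subgroup G))
    (hyZ : y ∉ zpowers z) {c : G} (hc : c ∈ centralizer ({z} : Set G)) (hxy : c * x * c⁻¹ = y) :
    ext0 _ φ w = ext0 _ φ y := by
  have hxC : x ∈ centralizer ({z} : Set G) := H40.mem_of_isPPart hx hw
  rw [ext0_of_mem φ hw, ext0_of_mem φ (h.P_le hy)]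
  refine hφ.flat ⟨w, hw⟩ ⟨x, hxC⟩ ⟨y, h.P_le hy⟩ (H40.isPPart_coe_iff.1 hx) ?_ ?_ ?_
  · rw [Sylow.coe_subtype, mem_subgroupOf]
    exact hy
  · exact fun e => hyZ (h.mem_zpowers_sub.1 e)
  · exact isConj_iff.2 ⟨⟨c, hc⟩, Subtype.ext hxy⟩

theorem local_class {φ : centralizer ({z} : Set G) → ℂ} (hφ : Local h φ) {w c : G}
    (hw : w ∈ centralizer ({z} : Set G)) (hc : c ∈ centralizer ({z} : Set G)) :
    ext0 _ φ (c * w * c⁻¹) = ext0 _ φ w := by
  rw [ext0_of_mem φ hw, ext0_of_mem φ (mul_mem (mul_mem hc hw) (inv_mem hc))]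
  exact hφ.class_fun ⟨w, hw⟩ ⟨c, hc⟩

theorem exists_conj_pp (g : G) : ∃ c : G, c * pp g * c⁻¹ ∈ (P : Subgroup G) := by
  obtain ⟨y, x, hx, hxy⟩ := H28.Ab.exists_rep P g
  obtain ⟨c, hc⟩ := isConj_iff.1 hxy
  exact ⟨c, by rw [pp_eq hx, hc]; exact y.2⟩

open scoped Classical in
/-- The function on the group. -/
noncomputable def ind (h : Setup P z) (φ : centralizer ({z} : Set G) → ℂ) (g : G) : ℂ :=
  if 3 ∣ orderOf g then
    (if (h.exists_conj_pp g).choose * pp g * (h.exists_conj_pp g).choose⁻¹ ∈ zpowers z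
      then ext0 _ φ ((h.exists_conj_pp g).choose * g * (h.exists_conj_pp g).choose⁻¹)
      else ext0 _ φ ((h.exists_conj_pp g).choose * pp g * (h.exists_conj_pp g).choose⁻¹))
  else 0

theorem ind_regular (φ : centralizer ({z} : Set G) → ℂ) {g : G} (hg : ¬ 3 ∣ orderOf g) :
    h.ind φ g = 0 := by
  classical
  exact if_neg hg

theorem mem_centralizer_of_commute {v w : G} (hv : v ∈ zpowers z) (hv1 : v ≠ 1)
    (hw : Commute w v) : w ∈ centralizer ({z} : Set G) := by
  obtain ⟨j, hj⟩ := mem_zpowers_iff.1 (mem_zpowers_of_prime_card h.card_Z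
    (g := (⟨v, hv⟩ : zpowers z)) (g' := ⟨z, mem_zpowers z⟩) fun e => hv1 (congrArg Subtype.val e))
  have hj' : v ^ j = z := congrArg Subtype.val hj
  rw [← hj']
  exact mem_centralizer_singleton_iff.2 (hw.zpow_right j).eq

/-- The value at any representative. -/
theorem ind_spec {φ : centralizer ({z} : Set G) → ℂ} (hφ : Local h φ) {g c : G}
    (hg : 3 ∣ orderOf g) (hc : c * pp g * c⁻¹ ∈ (P : Subgroup G)) :
    (c * pp g * c⁻¹ ∈ zpowers z → c * g * c⁻¹ ∈ centralizer ({z} : Set G) ∧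
      h.ind φ g = ext0 _ φ (c * g * c⁻¹)) ∧
    (c * pp g * c⁻¹ ∉ zpowers z → h.ind φ g = ext0 _ φ (c * pp g * c⁻¹)) := by
  classical
  have hne : pp g ≠ 1 := fun e => ((H40.regular_iff_pPart_eq_one (pp_spec g)).2 e) hg
  have hcomm : ∀ u : G, Commute (u * g * u⁻¹) (u * pp g * u⁻¹) := fun u => by
    obtain ⟨v, hv, hcv, -, -⟩ := H40.isPPart_conj u (pp_spec g)
    rw [← hv]
    exact ((Commute.refl _).mul_left hcv.symm)
  set c₀ := (h.exists_conj_pp g).choose with hc₀def
  have hc₀ : c₀ * pp g * c₀⁻¹ ∈ (P : Subgroup G) := (h.exists_conj_pp g).choose_spec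
  set u := c * c₀⁻¹ with hu
  have hux : u * (c₀ * pp g * c₀⁻¹) * u⁻¹ = c * pp g * c⁻¹ := by rw [hu]; group
  have hug : u * (c₀ * g * c₀⁻¹) * u⁻¹ = c * g * c⁻¹ := by rw [hu]; group
  have hconj : IsConj (c₀ * pp g * c₀⁻¹) (c * pp g * c⁻¹) := isConj_iff.2 ⟨u, hux⟩
  have hdef : h.ind φ g = if c₀ * pp g * c₀⁻¹ ∈ zpowers z then ext0 _ φ (c₀ * g * c₀⁻¹)
      else ext0 _ φ (c₀ * pp g * c₀⁻¹) := if_pos hg
  refine ⟨fun hZ => ?_, fun hZ => ?_⟩
  · have h0 : c₀ * pp g * c₀⁻¹ ∈ zpowers z := by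
      by_contra h0
      exact h.not_conj_Z hc₀ h0 hZ hconj.symm
    have hv : c₀ * pp g * c₀⁻¹ = c * pp g * c⁻¹ := h.eq_of_conj_Z h0 hZ hux
    have hne' : c * pp g * c⁻¹ ≠ 1 := fun e => hne (conj_eq_one_iff.1 e)
    have huC : u ∈ centralizer ({z} : Set G) := by
      refine h.mem_centralizer_of_commute hZ hne' (show u * _ = _ * u from ?_)
      conv_lhs => arg 2; rw [← hv]
      conv_rhs => arg 1; rw [← hux]
      group
    refine ⟨h.mem_centralizer_of_commute hZ hne' (hcomm c), ?_⟩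
    rw [hdef, if_pos h0, ← hug, h.local_class hφ ?_ huC]
    exact h.mem_centralizer_of_commute h0 (fun e => hne (conj_eq_one_iff.1 e)) (hcomm c₀)
  · have h0 : c₀ * pp g * c₀⁻¹ ∉ zpowers z := fun h0 => h.not_conj_Z hc hZ h0 hconj
    obtain ⟨a, ha, hay⟩ := h.exists_conj_centralizer hc₀ h0 hc hux
    rw [hdef, if_neg h0]
    refine h.local_flat hφ (h.P_le hc₀) ?_ hc hZ ha hay
    exact h.isPPart_self hc₀

theorem ind_class {φ : centralizer ({z} : Set G) → ℂ} (hφ : Local h φ) :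
    Cfsg.IsClassFunction G (h.ind φ) := by
  intro g a
  have ho : orderOf (a * g * a⁻¹) = orderOf g := by rw [← MulAut.conj_apply, MulEquiv.orderOf_eq]
  by_cases hg : 3 ∣ orderOf g
  · obtain ⟨c, hc⟩ := h.exists_conj_pp g
    have e1 : c * a⁻¹ * pp (a * g * a⁻¹) * (c * a⁻¹)⁻¹ = c * pp g * c⁻¹ := by rw [pp_conj]; group
    have e2 : c * a⁻¹ * (a * g * a⁻¹) * (c * a⁻¹)⁻¹ = c * g * c⁻¹ := by group
    obtain ⟨h1, h2⟩ := h.ind_spec hφ hg hc
    obtain ⟨h3, h4⟩ := h.ind_spec hφ (g := a * g * a⁻¹) (c := c * a⁻¹) (by rwa [ho]) (by rwa [e1])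
    rw [e1, e2] at h3
    rw [e1] at h4
    by_cases hZ : c * pp g * c⁻¹ ∈ zpowers z
    · rw [(h1 hZ).2, (h3 hZ).2]
    · rw [h2 hZ, h4 hZ]
  · rw [h.ind_regular φ hg, h.ind_regular φ (by rwa [ho])]

theorem ind_flat {φ : centralizer ({z} : Set G) → ℂ} (hφ : Local h φ) :
    Flat P z (h.ind φ) := by
  intro g x y hx hy hyZ hxy
  obtain ⟨c, hc⟩ := isConj_iff.1 hxy
  have key : ∀ w : G, c * pp w * c⁻¹ = y → h.ind φ w = ext0 _ φ y := by
    intro w hw
    have hg : 3 ∣ orderOf w := by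
      by_contra hh
      rw [pp_of_regular hh] at hw
      exact hyZ (by rw [← hw]; simp)
    rw [(h.ind_spec hφ hg (c := c) (by rwa [hw])).2 (by rwa [hw]), hw]
  rw [key g (by rw [pp_eq hx, hc])]
  have hy1 : 3 ∣ orderOf y := H28.Ab.dvd_orderOf_of_ne_one hy (h.ne_one_of_notMem hyZ)
  rw [(h.ind_spec hφ hy1 (c := 1) (by simpa [pp_eq (h.isPPart_self hy)])).2
    (by simpa [pp_eq (h.isPPart_self hy)])]
  simp [pp_eq (h.isPPart_self hy)]

/-- In the centraliser the transferred function is the given one. -/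
theorem ind_coe {φ : centralizer ({z} : Set G) → ℂ} (hφ : Local h φ)
    (w : centralizer ({z} : Set G)) : h.ind φ (w : G) = φ w := by
  by_cases hw : 3 ∣ orderOf (w : G)
  swap
  · rw [h.ind_regular φ hw, hφ.regular w (by rwa [← Subgroup.orderOf_coe])]
  obtain ⟨y, x, hx, hxy⟩ := H28.Ab.exists_rep (P.subtype h.P_le) w
  obtain ⟨c, hc⟩ := isConj_iff.1 hxy
  have hxG : Cfsg.IsPPart 3 (w : G) (x : G) := H40.isPPart_coe_iff.2 hx
  have hcy : (c : G) * (x : G) * (c : G)⁻¹ = ((y : centralizer ({z} : Set G)) : G) := by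
    simpa using congrArg Subtype.val hc
  have hyP : ((y : centralizer ({z} : Set G)) : G) ∈ (P : Subgroup G) := by
    exact (mem_subgroupOf (K := centralizer ({z} : Set G))).1
      (show (y : centralizer ({z} : Set G)) ∈ (P : Subgroup G).subgroupOf _ from y.2)
  obtain ⟨h1, h2⟩ := h.ind_spec hφ hw (c := (c : G)) (by rwa [pp_eq hxG, hcy])
  rw [pp_eq hxG, hcy] at h1 h2
  by_cases hZ : ((y : centralizer ({z} : Set G)) : G) ∈ zpowers z
  · rw [(h1 hZ).2, h.local_class hφ w.2 c.2, ext0_coe]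
  · rw [h2 hZ, ← h.local_flat hφ w.2 hxG hyP hZ c.2 hcy, ext0_coe]

/-- Brauer's characterization for the transferred function. -/
theorem ind_gen {φ : centralizer ({z} : Set G) → ℂ} (hφ : Local h φ)
    (hgen : Cfsg.IsGeneralizedCharacter _ φ) : Cfsg.IsGeneralizedCharacter G (h.ind φ) := by
  classical
  haveI := Fintype.ofFinite G
  refine H27.mem_genChars_of_elementary (h.ind_class hφ) fun E q hq hE => ?_
  obtain ⟨ρ, σ, hρ, hσ, hR, hcomm⟩ := exists_parts_hom hq hE
  obtain ⟨S, hS⟩ := hR.exists_le_sylow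
  obtain ⟨c, hcS⟩ := MulAction.exists_smul_eq G S P
  have hcP : ∀ b : E, c * ρ b * c⁻¹ ∈ (P : Subgroup G) := fun b => by
    rw [← hcS]
    exact H22.conj_mem_smul_sylow (hS ⟨b, rfl⟩)
  have hdec : ∀ b : E, c * (b : G) * c⁻¹ = (c * ρ b * c⁻¹) * (c * σ b * c⁻¹) := fun b => by
    rw [hρ, hσ]
    conv_lhs => rw [← pp_mul_rp (b : G)]
    group
  by_cases hA : ∃ b : E, c * ρ b * c⁻¹ ∈ zpowers z ∧ ρ b ≠ 1
  · obtain ⟨b₀, hb₀, hb₀'⟩ := hA
    have hmem : ∀ b : E, c * (b : G) * c⁻¹ ∈ centralizer ({z} : Set G) := by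
      intro b
      rw [hdec]
      refine mul_mem (h.P_le (hcP b)) (h.mem_centralizer_of_commute hb₀
        (fun e => hb₀' (conj_eq_one_iff.1 e)) ?_)
      exact ((hcomm b₀ b).symm.map (MulAut.conj c).toMonoidHom)
    let θ : E →* centralizer ({z} : Set G) :=
      ((MulAut.conj c).toMonoidHom.comp E.subtype).codRestrict _ hmem
    refine (congrArg (Cfsg.IsGeneralizedCharacter E) (funext fun b => ?_)).mp (gen_comp hgen θ)
    show φ (θ b) = h.ind φ (b : G)
    rw [← h.ind_coe hφ (θ b)]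
    show h.ind φ (c * (b : G) * c⁻¹) = _
    rw [h.ind_class hφ]
  · push Not at hA
    let θ : E →* centralizer ({z} : Set G) :=
      ((MulAut.conj c).toMonoidHom.comp ρ).codRestrict _ fun b => h.P_le (hcP b)
    refine (congrArg (Cfsg.IsGeneralizedCharacter E) (funext fun b => ?_)).mp (gen_comp hgen θ)
    show φ (θ b) = h.ind φ (b : G)
    by_cases hb : 3 ∣ orderOf (b : G)
    · have hne : ρ b ≠ 1 := by
        rw [hρ]
        exact fun e => ((H40.regular_iff_pPart_eq_one (pp_spec _)).2 e) hb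
      have hnZ : c * ρ b * c⁻¹ ∉ zpowers z := fun e => hne (hA b e)
      rw [hρ] at hnZ
      rw [(h.ind_spec hφ hb (c := c) (by rw [← hρ]; exact hcP b)).2 hnZ,
        ext0_of_mem φ (h.P_le (by rw [← hρ]; exact hcP b))]
      refine congrArg φ (Subtype.ext ?_)
      show c * ρ b * c⁻¹ = c * pp (b : G) * c⁻¹
      rw [hρ]
    · rw [h.ind_regular φ hb]
      have e1 : θ b = 1 := Subtype.ext (by
        show c * ρ b * c⁻¹ = 1
        rw [hρ, pp_of_regular hb]; simp)
      rw [e1, hφ.regular 1 (by simp)]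

open scoped Classical in
/-- The subtype of representatives in the centraliser. -/
theorem isReps_sub [Fintype G] {T : Finset G} (hT : IsReps P z T) :
    IsReps (P.subtype h.P_le) (⟨z, h.P_le h.z_mem⟩ : centralizer ({z} : Set G))
      (T.subtype (· ∈ centralizer ({z} : Set G))) := by
  refine ⟨fun t ht => ?_, fun t ht e => ?_, fun y hy hyZ => ?_, fun t ht t' ht' e => ?_⟩
  · rw [Sylow.coe_subtype, mem_subgroupOf]
    exact hT.mem _ (Finset.mem_subtype.1 ht)
  · exact hT.notMem _ (Finset.mem_subtype.1 ht) (h.mem_zpowers_sub.1 e)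
  · rw [Sylow.coe_subtype, mem_subgroupOf] at hy
    have hyZ' : (y : G) ∉ zpowers z := fun e => hyZ (h.mem_zpowers_sub.2 e)
    obtain ⟨t, ht, hyt⟩ := hT.exists_conj (y : G) hy hyZ'
    obtain ⟨g, hg⟩ := isConj_iff.1 hyt
    obtain ⟨a, ha, hay⟩ := h.exists_conj_centralizer hy hyZ' (hT.mem t ht) hg
    exact ⟨⟨t, h.P_le (hT.mem t ht)⟩, Finset.mem_subtype.2 ht,
      isConj_iff.2 ⟨⟨a, ha⟩, Subtype.ext hay⟩⟩
  · exact Subtype.ext (hT.unique _ (Finset.mem_subtype.1 ht) _ (Finset.mem_subtype.1 ht')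
      (MonoidHom.map_isConj (centralizer ({z} : Set G)).subtype e))

theorem centralizer_sub :
    centralizer ({(⟨z, h.P_le h.z_mem⟩ : centralizer ({z} : Set G))} :
      Set (centralizer ({z} : Set G))) = ⊤ := by
  ext w
  simp only [mem_centralizer_singleton_iff, mem_top, iff_true]
  exact h.sub_central w

open scoped Classical in
/-- Inner products with functions constant on noncentral sections. -/
theorem inner_ind [Fintype G] {φ : centralizer ({z} : Set G) → ℂ} (hφ : Local h φ) {K : G → ℂ}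
    (hK : Cfsg.IsClassFunction G K) (hKflat : Flat P z K) :
    Cfsg.classInner (h.ind φ) K =
      Cfsg.classInner φ (fun w : centralizer ({z} : Set G) => K w) := by
  obtain ⟨T, hT⟩ := exists_isReps P z
  have hf : Cfsg.IsClassFunction G fun g => h.ind φ g * conj (K g) := fun g a => by
    show h.ind φ (a * g * a⁻¹) * conj (K (a * g * a⁻¹)) = h.ind φ g * conj (K g)
    rw [h.ind_class hφ g a, hK g a]
  have hflat : Flat P z fun g => h.ind φ g * conj (K g) := fun g x y hx hy hyZ hxy => by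
    show h.ind φ g * conj (K g) = h.ind φ y * conj (K y)
    rw [h.ind_flat hφ g x y hx hy hyZ hxy, hKflat g x y hx hy hyZ hxy]
  have hf' : Cfsg.IsClassFunction ↥(centralizer ({z} : Set G)) fun w => φ w * conj (K w) := fun w a => by
    show φ (a * w * a⁻¹) * conj (K ((a * w * a⁻¹ : ↥(centralizer ({z} : Set G))) : G)) = φ w * conj (K w)
    rw [hφ.class_fun w a, Subgroup.coe_mul, Subgroup.coe_mul, Subgroup.coe_inv, hK (w : G) a]
  have hflat' : Flat (P.subtype h.P_le) (⟨z, h.P_le h.z_mem⟩ : ↥(centralizer ({z} : Set G))) fun w => φ w * conj (K w) := by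
    intro w x y hx hy hyZ hxy
    have h1 := hφ.flat w x y hx hy hyZ hxy
    have h2 := hKflat (w : G) x y (H40.isPPart_coe_iff.2 hx)
      (by rwa [Sylow.coe_subtype, mem_subgroupOf] at hy) (fun e => hyZ (h.mem_zpowers_sub.2 e))
      (MonoidHom.map_isConj (centralizer ({z} : Set G)).subtype hxy)
    show φ w * conj (K w) = φ y * conj (K y)
    rw [h1, h2]
  have hGne : (Nat.card G : ℂ) ≠ 0 := Nat.cast_ne_zero.2 Nat.card_pos.ne'
  have hCne : (Nat.card ↥(centralizer ({z} : Set G)) : ℂ) ≠ 0 := Nat.cast_ne_zero.2 Nat.card_pos.ne'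
  rw [Cfsg.classInner, Cfsg.classInner, h.sum_eq hT hf hflat,
    h.sub.sum_eq (h.isReps_sub hT) hf' hflat']
  rw [Finset.sum_eq_zero (s := Finset.univ.filter fun g : G => Cfsg.IsPRegular 3 g) fun g hg => by
      rw [h.ind_regular φ (Finset.mem_filter.1 hg).2, zero_mul],
    Finset.sum_eq_zero (s := Finset.univ.filter fun g : ↥(centralizer ({z} : Set G)) => Cfsg.IsPRegular 3 g)
      (f := fun g => φ g * conj (K g)) fun g hg => by
      rw [hφ.regular g (Finset.mem_filter.1 hg).2, zero_mul]]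
  rw [show Nat.card (centralizer ({(⟨z, h.P_le h.z_mem⟩ : ↥(centralizer ({z} : Set G)))} : Set ↥(centralizer ({z} : Set G)))) = Nat.card ↥(centralizer ({z} : Set G)) by
      rw [h.centralizer_sub, Subgroup.card_top],
    sum_top_subgroup h.centralizer_sub fun w : ↥(centralizer ({z} : Set G)) =>
      (fun v : ↥(centralizer ({z} : Set G)) => φ v * conj (K v)) (⟨z, h.P_le h.z_mem⟩ * w) +
        (fun v : ↥(centralizer ({z} : Set G)) => φ v * conj (K v)) ((⟨z, h.P_le h.z_mem⟩ : ↥(centralizer ({z} : Set G)))⁻¹ * w)]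
  have hTsum : ∑ t ∈ T.subtype (· ∈ centralizer ({z} : Set G)), φ t * conj (K t) =
      ∑ t ∈ T, h.ind φ t * conj (K t) := by
    refine Finset.sum_bij (fun t _ => (t : G)) (fun t ht => Finset.mem_subtype.1 ht)
      (fun _ _ _ _ e => Subtype.ext e) (fun t ht => ⟨⟨t, h.P_le (hT.mem t ht)⟩,
        Finset.mem_subtype.2 ht, rfl⟩) fun t _ => by rw [h.ind_coe hφ]
  have hzsum : ∑ s ∈ Finset.univ.filter (fun s : ↥(centralizer ({z} : Set G)) => Cfsg.IsPRegular 3 s),
      (φ (⟨z, h.P_le h.z_mem⟩ * s) * conj (K ((⟨z, h.P_le h.z_mem⟩ * s : ↥(centralizer ({z} : Set G))) : G)) +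
        φ ((⟨z, h.P_le h.z_mem⟩ : ↥(centralizer ({z} : Set G)))⁻¹ * s) *
          conj (K (((⟨z, h.P_le h.z_mem⟩ : ↥(centralizer ({z} : Set G)))⁻¹ * s : ↥(centralizer ({z} : Set G))) : G))) =
      ∑ s ∈ Finset.univ.filter (fun s : ↥(centralizer ({z} : Set G)) => Cfsg.IsPRegular 3 s),
        (h.ind φ (z * s) * conj (K (z * s)) + h.ind φ (z⁻¹ * s) * conj (K (z⁻¹ * s))) := by
    refine Finset.sum_congr rfl fun s _ => ?_
    rw [← h.ind_coe hφ, ← h.ind_coe hφ]
    rfl
  simp only [zero_add]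
  rw [← hTsum, hzsum]
  field_simp

open scoped Classical in
/-- Central sections outside the principal block. -/
theorem sum_center_eq_zero [Fintype G] (hM : Cfsg.IsPModular 3 M) {η : Cfsg.IrrCharacter G}
    {v : G} (hv : v = z ∨ v = z⁻¹)
    {ψ : Cfsg.IrrCharacter (centralizer ({z} : Set G))}
    (hne : ¬ (η ∈ Cfsg.principalBlock M G ↔
      ψ ∈ Cfsg.principalBlock M (centralizer ({z} : Set G)))) :
    ∑ s ∈ Finset.univ.filter (fun s : centralizer ({z} : Set G) => Cfsg.IsPRegular 3 s),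
      η.1 (v * s) * conj (ψ.1 s) = 0 := by
  haveI := hM.2.1
  have hvP : v ∈ (P : Subgroup G) := by
    rcases hv with rfl | rfl
    exacts [h.z_mem, inv_mem h.z_mem]
  have hC : centralizer ({z} : Set G) = centralizer ({v} : Set G) := by
    rcases hv with rfl | rfl
    · rfl
    · ext g
      simp only [mem_centralizer_singleton_iff]
      exact ⟨fun e => (Commute.inv_right (show Commute g z from e)).eq,
        fun e => by simpa using (Commute.inv_right (show Commute g z⁻¹ from e)).eq⟩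
  have main : ∀ (L : Subgroup G), L = centralizer ({v} : Set G) → ∀ ξ : Cfsg.IrrCharacter L,
      ¬ (η ∈ Cfsg.principalBlock M G ↔ ξ ∈ Cfsg.principalBlock M L) → ∀ x : L, ¬ 3 ∣ orderOf x →
      Cfsg.blockPart (Cfsg.blockOf M (ξ : L → ℂ)) (fun c : L => η.1 (v * (c : G))) x = 0 := by
    intro L hL
    subst hL
    intro ξ hξ x hx
    refine Cfsg.Agent.S0923.result 3 M hM v (h.exists_pow_three hvP) _ ⟨η, rfl⟩ η
      (H41.mem_blockOf_self η) _ (H41.isPBlock_blockOf ξ) (fun hi => hξ ?_) x hx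
    haveI := Fintype.ofFinite (centralizer ({v} : Set G))
    have hiff := H41.isInducedBlock_principal_iff _ hM
      (H40.exists_isInducedBlock_centralizer hM (h.exists_pow_three hvP) (H41.isPBlock_blockOf ξ))
    constructor
    · intro hη
      rw [← H41.eq_blockOf_of_mem H41.isPBlock_principalBlock hη] at hi
      exact hiff.1 hi ▸ H41.mem_blockOf_self ξ
    · intro hξ'
      exact H32.isInducedBlock_unique
        (hiff.2 (H41.eq_blockOf_of_mem H41.isPBlock_principalBlock hξ').symm) hi ▸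
        H41.mem_blockOf_self η
  set θ : ↥(centralizer ({z} : Set G)) → ℂ := fun s => η.1 (v * s) with hθ
  have hθc : Cfsg.IsClassFunction ↥(centralizer ({z} : Set G)) θ := fun s a => by
    have hcv : (a : G) * v = v * a :=
      mem_centralizer_singleton_iff.1 (show (a : G) ∈ centralizer ({v} : Set G) from hC ▸ a.2)
    simp only [hθ, Subgroup.coe_mul, Subgroup.coe_inv]
    rw [← H26.irr_conj η (v * s) a]
    refine congrArg η.1 ?_
    calc v * ((a : G) * s * (a : G)⁻¹) = (v * a) * s * (a : G)⁻¹ := by group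
      _ = (a * v) * s * (a : G)⁻¹ := by rw [hcv]
      _ = (a : G) * (v * s) * (a : G)⁻¹ := by group
  have hzero := main (centralizer ({z} : Set G)) hC ψ hne
  rw [Finset.sum_congr rfl fun (s : ↥(centralizer ({z} : Set G))) _ => show η.1 (v * (s : G)) * conj (ψ.1 s) =
    ∑ ξ : Cfsg.IrrCharacter ↥(centralizer ({z} : Set G)), Cfsg.classInner θ ξ.1 * (ξ.1 s * conj (ψ.1 s)) by
      have e := congrFun (H26.class_function_expansion θ hθc) s
      rw [Finset.sum_apply] at e
      show θ s * conj (ψ.1 s) = _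
      rw [e, Finset.sum_mul]
      refine Finset.sum_congr rfl fun ξ _ => ?_
      simp only [Pi.smul_apply, smul_eq_mul]
      ring]
  rw [Finset.sum_comm, ← Finset.sum_filter_add_sum_filter_not Finset.univ
    (· ∈ Cfsg.blockOf M (ψ : ↥(centralizer ({z} : Set G)) → ℂ))]
  have h2 : ∑ ξ ∈ Finset.univ.filter (fun ξ : Cfsg.IrrCharacter ↥(centralizer ({z} : Set G)) => ξ ∉ Cfsg.blockOf M (ψ : ↥(centralizer ({z} : Set G)) → ℂ)),
      ∑ s ∈ Finset.univ.filter (fun s : ↥(centralizer ({z} : Set G)) => Cfsg.IsPRegular 3 s),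
        Cfsg.classInner θ ξ.1 * (ξ.1 s * conj (ψ.1 s)) = 0 := by
    refine Finset.sum_eq_zero fun ξ hξ => ?_
    rw [← Finset.mul_sum]
    refine mul_eq_zero_of_right _ (Eq.trans ?_ (H41.sum_regular_mul_conj_eq_zero hM
      (χ := ξ) (ψ := ψ) fun hsame => (Finset.mem_filter.1 hξ).2 ?_))
    · exact Finset.sum_congr (Finset.filter_congr fun _ _ => Iff.rfl) fun _ _ => rfl
    · rw [← H41.blockOf_eq_of_sameBlock hsame]
      exact H41.mem_blockOf_self ξ
  rw [h2, add_zero, Finset.sum_comm]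
  refine Finset.sum_eq_zero fun s hs => ?_
  have e := hzero s (Finset.mem_filter.1 hs).2
  rw [H32.blockPart_eq_sum] at e
  simp only [← mul_assoc, ← Finset.sum_mul]
  rw [show (∑ ξ ∈ Finset.univ.filter (fun ξ : Cfsg.IrrCharacter ↥(centralizer ({z} : Set G)) => ξ ∈ Cfsg.blockOf M (ψ : ↥(centralizer ({z} : Set G)) → ℂ)),
    Cfsg.classInner θ ξ.1 * ξ.1 s) = 0 from e, zero_mul]

end Setup

end Cfsg.Agent.H31.Extra27
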