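import Cfsg.Agent.H31.Extra27.Principal
import Cfsg.Agent.H32.PrincipalNilpotent
import Cfsg.Agent.H32.PrincipalGalois
import Cfsg.Agent.H42.SolvableBlock
import Cfsg.Agent.H45.GaloisPrincipal
import Cfsg.Agent.H26.CharLinear
import Cfsg.Agent.S0079
import Mathlib.GroupTheory.GroupAction.CardCommute

/-!
# Inertial index one
-/

set_option autoImplicit false
set_option linter.unusedSectionVars false

open Subgroup
open scoped commutatorElement
open Cfsg.Agent.H44 (inflate)

namespace Cfsg.Agent.H31.Extra27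

variable {G : Type*} [Group G] [Fintype G] [hp : Fact (Nat.Prime 3)] {P : Sylow 3 G} {z : G}
  {M : Ideal Cfsg.AlgInt}

namespace Setup

variable (h : Setup P z)
include h

/-- With trivial inertial quotient the Sylow subgroup controls fusion. -/
theorem conj_of_trivial
    (he : ((P : Subgroup G) ⊔ centralizer ((P : Subgroup G) : Set G)).relIndex
      (normalizer ((P : Subgroup G) : Set G)) = 1) {x y g : G}
    (hx : x ∈ (P : Subgroup G)) (hy : y ∈ (P : Subgroup G)) (hg : g * x * g⁻¹ = y) :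
    ∃ p ∈ (P : Subgroup G), p * x * p⁻¹ = y := by
  by_cases hxZ : x ∈ zpowers z
  · refine ⟨1, one_mem _, ?_⟩
    rw [← hg] at hy ⊢
    rw [h.conj_Z_mem hxZ hy]
    group
  obtain ⟨c, hc, hcxy⟩ := h.exists_conj_centralizer hx hxZ hy hg
  set C := centralizer ({z} : Set G)
  set zC : C := ⟨z, h.P_le h.z_mem⟩ with hzC
  haveI : (zpowers zC).Normal := normal_zpowers h.sub_central
  have hctx := h.sub.ctx_quotient h.sub_central (h.relIndex_sub he)
  set Qb := qSylow (P.subtype h.P_le) zC
  have hcen : ∀ a ∈ (Qb : Subgroup (C ⧸ zpowers zC)),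
      a ∈ centralizer ((Qb : Subgroup (C ⧸ zpowers zC)) : Set (C ⧸ zpowers zC)) := fun a ha =>
    mem_centralizer_iff.2 fun b hb =>
      congrArg Subtype.val (hctx.comm.is_comm.comm ⟨b, hb⟩ ⟨a, ha⟩)
  have hmem : ∀ {a : G} (ha : a ∈ (P : Subgroup G)),
      ((⟨a, h.P_le ha⟩ : C) : C ⧸ zpowers zC) ∈ (Qb : Subgroup (C ⧸ zpowers zC)) := fun ha =>
    h.sub.mk_mem_qSylow (by rw [Sylow.coe_subtype, mem_subgroupOf]; exact ha)
  set cq : C ⧸ zpowers zC := ((⟨c, hc⟩ : C) : C ⧸ zpowers zC)
  have hcq : cq * ((⟨x, h.P_le hx⟩ : C) : C ⧸ zpowers zC) * cq⁻¹ =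
      ((⟨y, h.P_le hy⟩ : C) : C ⧸ zpowers zC) := by
    simp only [cq, ← QuotientGroup.mk_inv, ← QuotientGroup.mk_mul]
    exact congrArg QuotientGroup.mk (Subtype.ext hcxy)
  obtain ⟨n, hn, e⟩ := H22.burnside_fusion_central Qb (hcen _ (hmem hx)) cq
    (hcq ▸ hcen _ (hmem hy))
  have hnc := (relIndex_eq_one.1 hctx.index) hn
  rw [hcq, ← mem_centralizer_iff.1 hnc _ (hmem hx), mul_inv_cancel_right] at e
  have hw : x⁻¹ * y ∈ zpowers z := h.mem_zpowers_sub.1 (QuotientGroup.eq.1 e)
  obtain ⟨p, hpP, hpx⟩ := h.exists_conj_eq_mul hx hxZ hw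
  exact ⟨p, hpP, by rw [hpx, mul_inv_cancel_left]⟩

omit h in
theorem card_conjClasses_congr {A B : Type*} [Monoid A] [Monoid B] (f : A ≃* B) :
    Nat.card (ConjClasses A) = Nat.card (ConjClasses B) :=
  Nat.card_congr
    { toFun := ConjClasses.map f.toMonoidHom
      invFun := ConjClasses.map f.symm.toMonoidHom
      left_inv := fun a => by
        obtain ⟨a, rfl⟩ := ConjClasses.mk_surjective a
        exact congrArg ConjClasses.mk (f.symm_apply_apply a)
      right_inv := fun a => by
        obtain ⟨a, rfl⟩ := ConjClasses.mk_surjective a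
        exact congrArg ConjClasses.mk (f.apply_symm_apply a) }

/-- `P` has eleven classes. -/
theorem card_conjClasses : Nat.card (ConjClasses (P : Subgroup G)) = 11 := by
  classical
  have e1 := card_comm_eq_card_conjClasses_mul_card (P : Subgroup G)
  have hcard : ∀ a : (P : Subgroup G), Nat.card {b : (P : Subgroup G) // Commute a b} =
      if (a : G) ∈ zpowers z then 27 else 9 := by
    intro a
    split_ifs with ha
    · rw [Nat.card_congr (Equiv.subtypeUnivEquiv fun b : (P : Subgroup G) =>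
        show Commute a b from Subtype.ext (h.commute_of_mem_Z b.2 ha).eq.symm), h.card]
    · rw [← h.card_cP a.2 ha]
      exact Nat.card_congr
        { toFun := fun b => ⟨b.1, b.1.2, mem_centralizer_singleton_iff.2 (congrArg Subtype.val b.2.eq).symm⟩
          invFun := fun b => ⟨⟨b.1, b.2.1⟩, Subtype.ext (mem_centralizer_singleton_iff.1 b.2.2).symm⟩
          left_inv := fun _ => rfl
          right_inv := fun _ => rfl }
  have hZ : (Finset.univ.filter fun a : (P : Subgroup G) => (a : G) ∈ zpowers z).card = 3 := by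
    rw [← Fintype.card_subtype, ← Nat.card_eq_fintype_card]
    exact (Nat.card_congr (Subgroup.subgroupOfEquivOfLe h.Z_le).toEquiv).trans h.card_Z
  have hP : Fintype.card (P : Subgroup G) = 27 := Nat.card_eq_fintype_card.symm.trans h.card
  have hnZ : (Finset.univ.filter fun a : (P : Subgroup G) => (a : G) ∉ zpowers z).card = 24 := by
    rw [Finset.filter_not, Finset.card_sdiff, Finset.inter_univ, Finset.card_univ, hP, hZ]
  rw [Nat.card_congr (Equiv.subtypeProdEquivSigmaSubtype fun a b : (P : Subgroup G) => Commute a b),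
    Nat.card_sigma, Finset.sum_congr rfl fun a _ => hcard a, Finset.sum_ite, Finset.sum_const,
    Finset.sum_const, hZ, hnZ, h.card] at e1
  simp only [smul_eq_mul] at e1
  omega

/-- The derived subgroup of `P` has index nine. -/
theorem index_commutator : (commutator (P : Subgroup G)).index = 9 := by
  have hle : commutator (P : Subgroup G) ≤ (zpowers z).subgroupOf (P : Subgroup G) := by
    rw [_root_.commutator_def, Subgroup.commutator_le]
    intro a _ b _
    exact h.derived a a.2 b b.2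
  have hne : commutator (P : Subgroup G) ≠ ⊥ := by
    intro e
    obtain ⟨y, hy, hyZ⟩ : ∃ y ∈ (P : Subgroup G), y ∉ zpowers z := by
      by_contra hc
      push Not at hc
      have := card_le_of_le (show (P : Subgroup G) ≤ zpowers z from hc)
      rw [h.card, h.card_Z] at this
      omega
    refine hyZ (h.center y hy fun v hv => ?_)
    have h1 : ⁅(⟨y, hy⟩ : (P : Subgroup G)), ⟨v, hv⟩⁆ ∈ commutator (P : Subgroup G) :=
      commutator_mem_commutator (mem_top _) (mem_top _)
    rw [e, mem_bot, commutatorElement_eq_one_iff_mul_comm] at h1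
    exact congrArg Subtype.val h1
  have h3 : Nat.card ((zpowers z).subgroupOf (P : Subgroup G)) = 3 :=
    (Nat.card_congr (Subgroup.subgroupOfEquivOfLe h.Z_le).toEquiv).trans h.card_Z
  have hd := card_dvd_of_le hle
  rw [h3] at hd
  have hc : Nat.card (commutator (P : Subgroup G)) = 3 :=
    ((Nat.dvd_prime Nat.prime_three).1 hd).resolve_left fun e => hne (eq_bot_of_card_eq _ e)
  have := (commutator (P : Subgroup G)).card_mul_index
  rw [hc, h.card] at this
  omega

/-- The invariants for a trivial inertial quotient. -/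
theorem counts_one (hM : Cfsg.IsPModular 3 M)
    (he : ((P : Subgroup G) ⊔ centralizer ((P : Subgroup G) : Set G)).relIndex
      (normalizer ((P : Subgroup G) : Set G)) = 1) :
    Nat.card (Cfsg.principalBlock M G) = 11 ∧
      Cfsg.blockRank 3 (Cfsg.principalBlock M G) = 1 ∧
      Nat.card {χ : Cfsg.IrrCharacter G // χ ∈ Cfsg.principalBlock M G ∧
        Cfsg.blockHeight 3 (Cfsg.principalBlock M G) (χ : G → ℂ) = 0} = 9 := by
  classical
  haveI := hM.2.1
  obtain ⟨N, hN, hc⟩ := (S0079.result (P : Subgroup G) P.2.isNilpotent P.card_coprime_index).2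
    fun x hx y hy ⟨g, hg⟩ => h.conj_of_trivial he hx hy hg
  have hnpc : Cfsg.HasNormalPComplement 3 G := ⟨P, N, hN, hc⟩
  refine ⟨?_, (H32.blockRank_principal_eq_one_iff hM).2 hnpc, ?_⟩
  all_goals
    have hn : ¬ 3 ∣ Nat.card N := by
      rw [← hc.index_eq_card]
      exact P.not_dvd_index
    let f : G ⧸ N ≃* (P : Subgroup G) := hc.symm.QuotientMulEquiv
    haveI : Fintype (G ⧸ N) := Fintype.ofFinite _
    have hQp : IsPGroup 3 (G ⧸ N) := P.2.of_equiv f.symm
    haveI : Group.IsNilpotent (G ⧸ N) := hQp.isNilpotent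
    have hcore : Cfsg.pPrimeCore 3 (G ⧸ N) = ⊥ := by
      refine eq_bot_of_card_eq _ (Nat.eq_one_of_dvd_coprimes
        (a := Nat.card (Cfsg.pPrimeCore 3 (G ⧸ N))) ((H19.pPrimeCore_coprime 3 (G := G ⧸ N)).pow_right 3)
        dvd_rfl ?_)
      rw [show (3 : ℕ) ^ 3 = 27 from rfl, ← h.card, ← Nat.card_congr f.toEquiv]
      exact card_subgroup_dvd_card _
    have huniv : ∀ ψ : Cfsg.IrrCharacter (G ⧸ N), ψ ∈ Cfsg.principalBlock M (G ⧸ N) := fun ψ =>
      (H42.mem_principalBlock_iff_of_solvable hM ψ).2 fun n hn' => by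
        rw [hcore, mem_bot] at hn'
        rw [hn']
    have hin : ∀ ψ : Cfsg.IrrCharacter (G ⧸ N), inflate N ψ ∈ Cfsg.principalBlock M G := fun ψ =>
      (H32.mem_principalBlock_iff_inflate hM N hn _).2 ⟨ψ, huniv ψ, rfl⟩
  · rw [← h.card_conjClasses, ← card_conjClasses_congr f, ← H26.card_irr_eq_card_conjClasses]
    refine (Nat.card_eq_of_bijective (fun ψ => (⟨inflate N ψ, hin ψ⟩ : Cfsg.principalBlock M G))
      ⟨fun a b e => H44.inflate_injective N (congrArg Subtype.val e), fun χ => ?_⟩).symm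
    obtain ⟨ψ, -, hψ⟩ := (H32.mem_principalBlock_iff_inflate hM N hn χ.1).1 χ.2
    exact ⟨ψ, Subtype.ext hψ⟩
  · have h0 : sInf ((fun χ : Cfsg.IrrCharacter G =>
        (Cfsg.charDegree (χ : G → ℂ)).factorization 3) '' Cfsg.principalBlock M G) = 0 := by
      refine Nat.sInf_eq_zero.2 (Or.inl ⟨H26.oneIrr G, H26.oneIrr_mem_principalBlock G, ?_⟩)
      simp [Cfsg.charDegree, H26.oneIrr_val]
    have hlin : ∀ ψ : Cfsg.IrrCharacter (G ⧸ N),
        Cfsg.blockHeight 3 (Cfsg.principalBlock M G) (inflate N ψ : G → ℂ) = 0 ↔ ψ.1 1 = 1 := by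
      intro ψ
      have hdeg : Cfsg.charDegree (inflate N ψ : G → ℂ) = Cfsg.charDegree (ψ : G ⧸ N → ℂ) := rfl
      rw [Cfsg.blockHeight, h0, Nat.sub_zero]
      constructor
      · intro e
        rw [H42.irr_one_eq, ← hdeg, H45.linear_of_hasNormalPComplement hM hnpc (hin ψ) fun hd => ?_,
          Nat.cast_one]
        have hpos : 0 < Cfsg.charDegree (inflate N ψ : G → ℂ) := H42.charDegree_pos _
        have := Nat.Prime.factorization_pos_of_dvd hp.out hpos.ne' hd
        omega
      · intro e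
        rw [hdeg, show Cfsg.charDegree (ψ : G ⧸ N → ℂ) = 1 by simp [Cfsg.charDegree, e]]
        simp
    rw [← h.index_commutator, ← Subgroup.index_map_equiv _ f.symm,
      show (commutator (P : Subgroup G)).map (f.symm : (P : Subgroup G) →* G ⧸ N) =
        commutator (G ⧸ N) by
        rw [_root_.commutator_def, _root_.commutator_def, map_commutator, map_top_of_surjective _ f.symm.surjective],
      ← H26.card_linear_irr]
    refine (Nat.card_eq_of_bijective (fun ψ : {ψ : Cfsg.IrrCharacter (G ⧸ N) // ψ.1 1 = 1} =>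
      (⟨inflate N ψ.1, hin ψ.1, (hlin _).2 ψ.2⟩ : {χ : Cfsg.IrrCharacter G //
        χ ∈ Cfsg.principalBlock M G ∧
          Cfsg.blockHeight 3 (Cfsg.principalBlock M G) (χ : G → ℂ) = 0}))
      ⟨fun a b e => Subtype.ext (H44.inflate_injective N (congrArg Subtype.val e)), fun χ => ?_⟩).symm
    obtain ⟨ψ, -, hψ⟩ := (H32.mem_principalBlock_iff_inflate hM N hn χ.1).1 χ.2.1
    exact ⟨⟨ψ, (hlin ψ).1 (by rw [hψ]; exact χ.2.2)⟩, Subtype.ext hψ⟩

end Setup

end Cfsg.Agent.H31.Extra27
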