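import Cfsg.Agent.H27.Dual
import Cfsg.Agent.H43.IntCong
import Cfsg.Agent.H45.IntMod
import Cfsg.Agent.H57.VChar
import Cfsg.Agent.H26.CharBasic

/-!
# Values on elements of order three conjugate to their inverses
-/

set_option autoImplicit false

open scoped ComplexConjugate

namespace Cfsg.Agent.H31.Extra27

variable {G : Type*} [Group G] [Finite G]

/-- Summation over the powers of an element of order three. -/
theorem sum_zpowers_three {g : G} (hg : orderOf g = 3) [Fintype (Subgroup.zpowers g)] (F : G → ℂ) :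
    ∑ w : Subgroup.zpowers g, F w = F 1 + F g + F g⁻¹ := by
  have e : g ^ 2 = g⁻¹ := by
    refine eq_inv_of_mul_eq_one_left ?_
    rw [← pow_succ, show 2 + 1 = orderOf g from hg.symm, pow_orderOf_eq_one]
  let eq := finEquivZPowers (isOfFinOrder_of_finite g)
  rw [← Fintype.sum_equiv ((finCongr hg.symm).trans eq) (fun i : Fin 3 => F (g ^ (i : ℕ))) _
    (fun i => by simp [eq, finEquivZPowers_apply]), Fin.sum_univ_three]
  simp [e]

/-- A generalized character takes, at an element of order three conjugate to its inverse, an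
integer congruent to the degree modulo three. -/
theorem exists_int_value {f : G → ℂ} (hf : Cfsg.IsGeneralizedCharacter G f) {g : G} (hg : g ^ 3 = 1)
    (hinv : f g⁻¹ = f g) : ∃ n d : ℤ, f g = n ∧ f 1 = d ∧ 3 ∣ d - n := by
  classical
  obtain ⟨a, b, ha, hb, rfl⟩ := hf
  obtain ⟨k, ρ, rfl⟩ := ha
  obtain ⟨l, σ, rfl⟩ := hb
  obtain ⟨na, hna⟩ : ∃ n : ℕ, ρ.character 1 = n := ⟨_, ρ.char_one⟩
  obtain ⟨nb, hnb⟩ : ∃ n : ℕ, σ.character 1 = n := ⟨_, σ.char_one⟩
  by_cases h1 : g = 1
  · refine ⟨(na : ℤ) - nb, (na : ℤ) - nb, ?_, ?_, by simp⟩ <;> simp [h1, hna, hnb]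
  have h3 : orderOf g = 3 := orderOf_eq_prime (hp := ⟨Nat.prime_three⟩) hg h1
  haveI := Fintype.ofFinite (Subgroup.zpowers g)
  have key : ∀ (n : ℕ) (τ : Representation ℂ G (Fin n → ℂ)), ∃ m : ℕ,
      τ.character 1 + τ.character g + τ.character g⁻¹ = 3 * (m : ℂ) := by
    intro n τ
    obtain ⟨m, hm⟩ := H27.exists_nat_inner_linear (τ.comp (Subgroup.zpowers g).subtype) 1
    refine ⟨m, ?_⟩
    rw [Nat.card_zpowers, h3, inv_mul_eq_iff_eq_mul₀ (by norm_num)] at hm
    simp only [MonoidHom.one_apply, Units.val_one, mul_one] at hm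
    rw [Finset.sum_congr rfl fun w _ => show Representation.character
      (τ.comp (Subgroup.zpowers g).subtype) w = τ.character (w : G) from rfl,
      sum_zpowers_three h3] at hm
    exact_mod_cast hm
  obtain ⟨ma, hma⟩ := key k ρ
  obtain ⟨mb, hmb⟩ := key l σ
  simp only [Pi.sub_apply] at hinv ⊢
  set v := ρ.character g - σ.character g with hv
  have hval : v = (((3 * ((ma : ℤ) - mb) - ((na : ℤ) - nb) : ℤ) : ℚ) / 2 : ℚ) := by
    push_cast
    rw [eq_div_iff (by norm_num)]
    linear_combination hma - hmb - hna + hnb - hinv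
  have hint : IsIntegral ℤ v := (H25.isIntegral_char ρ g).sub (H25.isIntegral_char σ g)
  rw [hval] at hint
  obtain ⟨n, hn⟩ := H43.exists_int_of_isIntegral hint
  refine ⟨n, (na : ℤ) - nb, ?_, by simp [hna, hnb], ?_⟩
  · rw [hval, ← hn]; simp
  · refine ⟨(ma : ℤ) - mb - n, ?_⟩
    rw [eq_div_iff (by norm_num)] at hn
    have : n * 2 = 3 * ((ma : ℤ) - mb) - ((na : ℤ) - nb) := by exact_mod_cast hn
    linarith

end Cfsg.Agent.H31.Extra27
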