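import Cfsg.Agent.H28.AbelianExceptional
import Cfsg.Agent.H31.Extra27.Values

/-!
# The principal block over an elementary abelian Sylow subgroup of order nine
-/

set_option autoImplicit false
set_option linter.unusedSectionVars false

open scoped ComplexConjugate

namespace Cfsg.Agent.H31.Extra27

open H28.Ab

variable {H : Type*} [Group H] [Finite H] [hp : Fact (Nat.Prime 3)] {Q : Sylow 3 H} {e : ℕ}
  {M : Ideal Cfsg.AlgInt}

/-- An element of the normaliser inverting `Q`. -/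
theorem exists_inverting (h : Ctx Q e) (he : 2 ∣ e) :
    ∃ n ∈ Subgroup.normalizer ((Q : Subgroup H) : Set H),
      ∀ y : ↥(Q : Subgroup H), ((y⁻¹ : ↥(Q : Subgroup H)) : H) = n * y * n⁻¹ := by
  classical
  haveI := Fact.mk Nat.prime_two
  set N := Subgroup.normalizer ((Q : Subgroup H) : Set H) with hN
  set C := Subgroup.centralizer ((Q : Subgroup H) : Set H) with hC
  obtain ⟨T⟩ : Nonempty (Sylow 2 N) := inferInstance
  obtain ⟨t, htT, htC⟩ : ∃ t ∈ (T : Subgroup N), (t : H) ∉ C := by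
    by_contra hc
    push Not at hc
    have h2 : ¬ 2 ∣ (T : Subgroup N).index := T.not_dvd_index
    refine h2 (dvd_trans ?_ (Subgroup.index_dvd_of_le (H := (T : Subgroup N)) (K := C.subgroupOf N) hc))
    rw [show (C.subgroupOf N).index = e from h.index]
    exact he
  obtain ⟨k, hk⟩ := IsPGroup.iff_orderOf.1 T.2 ⟨t, htT⟩
  have hex : ∃ i, (t : H) ^ 2 ^ i ∈ C := ⟨k, by
    rw [← Subgroup.orderOf_coe, Subgroup.coe_mk, ← Subgroup.orderOf_coe] at hk
    rw [← hk, pow_orderOf_eq_one]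
    exact one_mem _⟩
  obtain ⟨i, hi⟩ : ∃ i, Nat.find hex = i + 1 :=
    Nat.exists_eq_succ_of_ne_zero fun h0 => htC (by simpa [h0] using Nat.find_spec hex)
  set n := (t : H) ^ 2 ^ i with hn
  have hnC : n ∉ C := Nat.find_min hex (by omega)
  have hn2 : n * n ∈ C := by
    have := Nat.find_spec hex
    rw [hi, pow_succ, pow_mul, sq] at this
    exact this
  have hnN : n ∈ N := pow_mem t.2 _
  refine ⟨n, hnN, fun y => ?_⟩
  have hmem : ∀ a ∈ (Q : Subgroup H), n * a * n⁻¹ ∈ (Q : Subgroup H) := fun a ha =>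
    (Subgroup.mem_normalizer_iff.1 hnN a).1 ha
  have hcomm : ∀ a ∈ (Q : Subgroup H), ∀ b ∈ (Q : Subgroup H), a * b = b * a := fun a ha b hb =>
    congrArg Subtype.val (h.comm.is_comm.comm (⟨a, ha⟩ : ↥(Q : Subgroup H)) ⟨b, hb⟩)
  rw [Subgroup.coe_inv]
  symm
  refine eq_inv_of_mul_eq_one_right ?_
  by_contra hw
  refine hnC ((h.free _ (mul_mem y.2 (hmem _ y.2)) hw).le ⟨?_, hnN⟩)
  refine Subgroup.mem_centralizer_singleton_iff.2 ?_
  have e1 : n * n * y = y * (n * n) := (Subgroup.mem_centralizer_iff.1 hn2 _ y.2).symm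
  have e2 : n * (n * y * n⁻¹) * n⁻¹ = y := by
    rw [show n * (n * y * n⁻¹) * n⁻¹ = n * n * y * (n * n)⁻¹ by group, e1, mul_inv_cancel_right]
  rw [← mul_inv_eq_iff_eq_mul]
  calc n * (y * (n * y * n⁻¹)) * n⁻¹ = (n * y * n⁻¹) * (n * (n * y * n⁻¹) * n⁻¹) := by group
    _ = y * (n * y * n⁻¹) := by rw [e2, hcomm _ (hmem _ y.2) _ y.2]

/-- An invariant function takes the same value at inverse elements. -/
theorem inv_apply_inv {α : Type*} (h : Ctx Q e) (he : 2 ∣ e) {f : ↥(Q : Subgroup H) → α}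
    (hf : Inv Q f) (y : ↥(Q : Subgroup H)) : f y⁻¹ = f y := by
  obtain ⟨n, hn, hn'⟩ := exists_inverting h he
  exact hf n hn y y⁻¹ (hn' y)

/-- A character is real on `Q`. -/
theorem irr_inv_eq (h : Ctx Q e) (he : 2 ∣ e) (χ : Cfsg.IrrCharacter H) (y : ↥(Q : Subgroup H)) :
    χ.1 ((y : H)⁻¹) = χ.1 (y : H) := by
  have := inv_apply_inv h he (res_inv χ) y
  simpa [res] using this

/-- Characters are integers on `Q`. -/
theorem exists_int_irr (h : Ctx Q e) (he : 2 ∣ e) (hexp : ∀ y : ↥(Q : Subgroup H), y ^ 3 = 1)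
    (χ : Cfsg.IrrCharacter H) (y : ↥(Q : Subgroup H)) : ∃ n : ℤ, χ.1 (y : H) = n := by
  obtain ⟨n, -, hn, -⟩ := exists_int_value (H57.gen_of_irr χ.2)
    (show (y : H) ^ 3 = 1 by exact_mod_cast congrArg Subtype.val (hexp y)) (irr_inv_eq h he χ y)
  exact ⟨n, hn⟩

/-- Orbit sums are integers congruent to their degree. -/
theorem exists_int_psi (h : Ctx Q e) (he : 2 ∣ e) (hexp : ∀ y : ↥(Q : Subgroup H), y ^ 3 = 1)
    {ψ : ↥(Q : Subgroup H) →* ℂˣ} (hψ : ψ ≠ 1) (y : ↥(Q : Subgroup H)) :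
    ∃ n : ℤ, psi Q ψ y = n ∧ (3 : ℤ) ∣ (e : ℤ) - n := by
  obtain ⟨n, d, hn, hd, hdvd⟩ := exists_int_value (psi_gen ψ) (hexp y)
    (inv_apply_inv h he (psi_inv ψ) y)
  rw [h.psi_one hψ] at hd
  obtain rfl : d = (e : ℤ) := by exact_mod_cast hd.symm
  exact ⟨n, hn, hdvd⟩

open scoped Classical in
/-- The principal block: `J` with values `±1` on `Q`, and `r` characters `X i`. -/
structure HData (M : Ideal Cfsg.AlgInt) (Q : Sylow 3 H) (e : ℕ) where
  r : ℕ
  X : Fin r → Cfsg.IrrCharacter H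
  J : Finset (Cfsg.IrrCharacter H)
  δ : Cfsg.IrrCharacter H → ℤ
  η : ℤ
  Δ : Fin r → ↥(Q : Subgroup H) → ℤ
  r_pos : 1 ≤ r
  card_block : J.card + r = 6
  two_le : 2 ≤ J.card
  cond : 2 ≤ r ∨ 3 ≤ J.card
  card_classes : r * e + 1 = 9
  X_inj : Function.Injective X
  block : Cfsg.principalBlock M H = ↑J ∪ Set.range X
  notMem : ∀ i, X i ∉ J
  one_mem : H26.oneIrr H ∈ J
  δ_unit : ∀ χ, δ χ = 1 ∨ δ χ = -1
  δ_one : δ (H26.oneIrr H) = 1
  η_unit : η = 1 ∨ η = -1
  val_J : ∀ χ ∈ J, ∀ y : ↥(Q : Subgroup H), y ≠ 1 → χ.1 (y : H) = (δ χ : ℂ)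
  val_X : ∀ i, ∀ y : ↥(Q : Subgroup H), y ≠ 1 → (η : ℂ) * (X i).1 (y : H) = (Δ i y : ℂ) - 1
  Δ_inv : ∀ i, Inv Q (Δ i)
  dvd : ∀ i, ∀ y : ↥(Q : Subgroup H), y ≠ 1 → (3 : ℤ) ∣ Δ i y
  sum_Δ : ∀ y : ↥(Q : Subgroup H), y ≠ 1 → ∑ i, Δ i y = 3
  sq_Δ : ∀ y : ↥(Q : Subgroup H), y ≠ 1 → ∑ i, Δ i y * Δ i y = 9
  orth : ∀ [Fintype ↥(Q : Subgroup H)], ∀ i j, ∑ y : ↥(Q : Subgroup H),
    (if y = 1 then 0 else Δ i y * Δ j y) = if i = j then 9 * (e : ℤ) else 0
  reg : ∀ i j, ∀ g : H, ¬ 3 ∣ orderOf g → (X i).1 g = (X j).1 g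
  rel : ∀ i, ∀ g : H, ¬ 3 ∣ orderOf g →
    ∑ χ ∈ J, (δ χ : ℂ) * χ.1 g + (3 - (r : ℂ)) * ((η : ℂ) * (X i).1 g) = 0
  complete : ∀ [Fintype ↥(Q : Subgroup H)], ∀ f : ↥(Q : Subgroup H) → ℂ, Inv Q f → f 1 = 0 →
    (∀ i, ∑ y, f y * (Δ i y : ℂ) = 0) → ∑ y, f y = 0 → f = 0

open scoped Classical in
/-- The derived fields. -/
theorem exists_hData [Fintype H] (h : Ctx Q e) (hcard : Nat.card Q = 9)
    (hM : Cfsg.IsPModular 3 M) (he : 2 ∣ e) {r : ℕ} (hr : r * e + 1 = 9) (hr1 : 1 ≤ r)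
    (X : Fin r → Cfsg.IrrCharacter H) (J : Finset (Cfsg.IrrCharacter H))
    (hblock : Cfsg.principalBlock M H = ↑J ∪ Set.range X) (hXinj : Function.Injective X)
    (hnot : ∀ i, X i ∉ J) (hone : H26.oneIrr H ∈ J) (hcardB : J.card + r = 6) (hJ2 : 2 ≤ J.card)
    (hcond : 2 ≤ r ∨ 3 ≤ J.card)
    (a : Cfsg.IrrCharacter H → ℤ) (ha : ∀ χ ∈ J, a χ = 1 ∨ a χ = -1)
    (haJ : ∀ χ ∈ J, ∀ y : ↥(Q : Subgroup H), y ≠ 1 → χ.1 (y : H) = (a χ : ℂ))
    (η : ℤ) (hη : η = 1 ∨ η = -1) (Δ : Fin r → ↥(Q : Subgroup H) → ℤ)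
    (hval : ∀ i, ∀ y : ↥(Q : Subgroup H), y ≠ 1 → (η : ℂ) * (X i).1 (y : H) = (Δ i y : ℂ) - 1)
    (hinv : ∀ i, Inv Q (Δ i)) (hdvd : ∀ i, ∀ y : ↥(Q : Subgroup H), y ≠ 1 → (3 : ℤ) ∣ Δ i y)
    (hsum : ∀ y : ↥(Q : Subgroup H), y ≠ 1 → ∑ i, Δ i y = 3)
    (horth : ∀ [Fintype ↥(Q : Subgroup H)], ∀ i j, ∑ y : ↥(Q : Subgroup H),
      (if y = 1 then 0 else Δ i y * Δ j y) = if i = j then 9 * (e : ℤ) else 0)
    (hreg : ∀ i j, ∀ g : H, ¬ 3 ∣ orderOf g → (X i).1 g = (X j).1 g)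
    (hcompl : ∀ [Fintype ↥(Q : Subgroup H)], ∀ f : ↥(Q : Subgroup H) → ℂ, Inv Q f → f 1 = 0 →
      (∀ i, ∑ y, f y * (Δ i y : ℂ) = 0) → ∑ y, f y = 0 → f = 0) :
    Nonempty (HData M Q e) := by
  haveI := hM.2.1
  obtain ⟨y₀, hy₀⟩ : ∃ y : ↥(Q : Subgroup H), y ≠ 1 :=
    haveI : Nontrivial ↥(Q : Subgroup H) := Finite.one_lt_card_iff_nontrivial.1
      (show 1 < Nat.card Q by omega)
    exists_ne 1
  have hsplit : ∀ F : Cfsg.IrrCharacter H → ℂ,
      ∑ χ ∈ Finset.univ.filter (· ∈ Cfsg.principalBlock M H), F χ = ∑ χ ∈ J, F χ + ∑ i, F (X i) := by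
    intro F
    rw [← Finset.sum_image (f := F) (fun i _ j _ hij => hXinj hij), ← Finset.sum_union]
    · refine Finset.sum_congr ?_ fun _ _ => rfl
      ext χ
      simp [hblock]
    · rw [Finset.disjoint_left]
      intro χ hχ hi
      obtain ⟨i, -, rfl⟩ := Finset.mem_image.1 hi
      exact hnot i hχ
  have hη2 : (η : ℂ) * η = 1 := by rcases hη with rfl | rfl <;> simp
  have hXval : ∀ i, ∀ y : ↥(Q : Subgroup H), y ≠ 1 →
      (X i).1 (y : H) = ((η * (Δ i y - 1) : ℤ) : ℂ) := fun i y hy => by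
    push_cast
    rw [← hval i y hy, ← mul_assoc, hη2, one_mul]
  let δ : Cfsg.IrrCharacter H → ℤ := fun χ => if χ ∈ J then a χ else 1
  have hδ : ∀ χ ∈ J, δ χ = a χ := fun χ hχ => if_pos hχ
  have haone : a (H26.oneIrr H) = 1 := by
    have := haJ _ hone y₀ hy₀
    rw [H26.oneIrr_val] at this
    exact_mod_cast this.symm
  refine ⟨{
    r := r, X := X, J := J, δ := δ, η := η, Δ := Δ, r_pos := hr1, card_block := hcardB
    two_le := hJ2, cond := hcond, card_classes := hr, X_inj := hXinj, block := hblock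
    notMem := hnot, one_mem := hone, δ_unit := ?_, δ_one := by rw [hδ _ hone, haone]
    η_unit := hη, val_J := fun χ hχ y hy => by rw [hδ χ hχ]; exact haJ χ hχ y hy
    val_X := hval, Δ_inv := hinv, dvd := hdvd, sum_Δ := hsum, sq_Δ := ?_, orth := horth
    reg := hreg, rel := ?_, complete := hcompl }⟩
  · intro χ
    by_cases hχ : χ ∈ J
    · rw [hδ χ hχ]; exact ha χ hχ
    · exact Or.inl (if_neg hχ)
  · intro y hy
    have h1 := h.block_norm hM hy
    rw [hsplit, hcard, Finset.sum_congr (s₁ := J) rfl fun χ hχ =>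
      show χ.1 (y : H) * conj (χ.1 (y : H)) = (1 : ℂ) by
        rw [haJ χ hχ y hy, map_intCast]
        rcases ha χ hχ with e | e <;> simp [e],
      Finset.sum_congr (s₁ := (Finset.univ : Finset (Fin r))) rfl fun i _ =>
      show (X i).1 (y : H) * conj ((X i).1 (y : H)) =
          ((η * (Δ i y - 1) * (η * (Δ i y - 1)) : ℤ) : ℂ) by
        simp only [hXval i y hy, map_mul, map_intCast, Int.cast_mul], Finset.sum_const, nsmul_eq_mul, mul_one] at h1
    have h2 : (J.card : ℤ) + ∑ i, (η * (Δ i y - 1)) * (η * (Δ i y - 1)) = 9 := by exact_mod_cast h1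
    have h3 : ∀ i, (η * (Δ i y - 1)) * (η * (Δ i y - 1)) = Δ i y * Δ i y - 2 * Δ i y + 1 := by
      intro i; rcases hη with rfl | rfl <;> ring
    simp only [h3, Finset.sum_add_distrib, Finset.sum_sub_distrib, ← Finset.mul_sum, hsum y hy,
      Finset.sum_const, Finset.card_univ, Fintype.card_fin, nsmul_eq_mul, mul_one] at h2
    omega
  · intro i g hg
    have hdvd' : 3 ∣ orderOf (y₀ : H) :=
      dvd_orderOf_of_ne_one y₀.2 fun ee => hy₀ (Subtype.ext ee)
    have h1 := H40.sum_block_mul_conj_eq_zero hM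
      (H41.isPBlock_principalBlock (G := H) (M := M)) hg hdvd'
    rw [hsplit, Finset.sum_congr rfl fun χ hχ =>
      show χ.1 g * conj (χ.1 (y₀ : H)) = (δ χ : ℂ) * χ.1 g by
        rw [haJ χ hχ y₀ hy₀, hδ χ hχ, map_intCast, mul_comm],
      Finset.sum_congr rfl fun j _ =>
      show (X j).1 g * conj ((X j).1 (y₀ : H)) = ((Δ j y₀ - 1 : ℤ) : ℂ) * ((η : ℂ) * (X i).1 g) by
        rw [hreg j i g hg, hXval j y₀ hy₀, map_intCast]; push_cast; ring,
      ← Finset.sum_mul, ← Int.cast_sum, Finset.sum_sub_distrib, hsum y₀ hy₀] at h1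
    simpa using h1

open scoped Classical in
/-- Orbit sums with an affine change. -/
theorem orth_affine [Fintype ↥(Q : Subgroup H)] (h : Ctx Q e) (he : 2 ∣ e)
    (hexp : ∀ y : ↥(Q : Subgroup H), y ^ 3 = 1) (hcard : Nat.card Q = 9) {r : ℕ} (R : Reps Q r)
    (A s : ℤ) (hs : s * s = 1) (hA : 8 * A * A - 2 * A * s * e - (e : ℤ) * e = 0) (i j : Fin r) :
    ∑ y : ↥(Q : Subgroup H), (if y = 1 then (0 : ℂ) else
        ((A : ℂ) + s * psi Q (R.rep i) y) * ((A : ℂ) + s * psi Q (R.rep j) y)) =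
      if i = j then 9 * (e : ℂ) else 0 := by
  have hreal : ∀ y, conj (psi Q (R.rep j) y) = psi Q (R.rep j) y := fun y => by
    obtain ⟨n, hn, -⟩ := exists_int_psi h he hexp (R.ne_one j) y
    rw [hn, map_intCast]
  have h2 : ∑ y, psi Q (R.rep i) y * psi Q (R.rep j) y = if i = j then 9 * (e : ℂ) else 0 := by
    rw [← Finset.sum_congr rfl (fun y _ => by rw [hreal y] :
      ∀ y ∈ Finset.univ, psi Q (R.rep i) y * conj (psi Q (R.rep j) y) = _),
      h.sum_psi_mul_conj_psi (R.ne_one i) (R.ne_one j)]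
    simp only [R.mem_orb_rep_iff, hcard]
    push_cast
    rw [mul_comm (e : ℂ)]
  have h9 : (Fintype.card ↥(Q : Subgroup H) : ℂ) = 9 := by
    rw [← Nat.card_eq_fintype_card]; exact_mod_cast hcard
  have hs' : (s : ℂ) * s = 1 := by exact_mod_cast hs
  have hA' : 8 * (A : ℂ) * A - 2 * A * s * e - (e : ℂ) * e = 0 := by exact_mod_cast hA
  rw [← Finset.add_sum_erase Finset.univ _ (Finset.mem_univ 1), if_pos rfl, zero_add,
    Finset.sum_congr rfl fun y hy => if_neg (Finset.mem_erase.1 hy).1,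
    Finset.sum_erase_eq_sub (Finset.mem_univ _),
    Finset.sum_congr rfl fun y _ =>
      show ((A : ℂ) + s * psi Q (R.rep i) y) * ((A : ℂ) + s * psi Q (R.rep j) y) =
        ((A : ℂ) * A + (A * s) * psi Q (R.rep i) y) +
          ((A * s) * psi Q (R.rep j) y + (s * s) * (psi Q (R.rep i) y * psi Q (R.rep j) y)) by ring,
    Finset.sum_add_distrib, Finset.sum_add_distrib, Finset.sum_add_distrib, Finset.sum_const,
    ← Finset.mul_sum, ← Finset.mul_sum, ← Finset.mul_sum, sum_psi (R.ne_one i), sum_psi (R.ne_one j), h2,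
    Finset.card_univ, nsmul_eq_mul, h9, h.psi_one (R.ne_one i),
    h.psi_one (R.ne_one j), hs']
  linear_combination hA' - (e : ℂ) * e * hs'

open scoped Classical in
/-- Invariant functions are spanned by affine changes of orbit sums. -/
theorem complete_affine [Fintype ↥(Q : Subgroup H)] (h : Ctx Q e) (he : 2 ∣ e)
    (hexp : ∀ y : ↥(Q : Subgroup H), y ^ 3 = 1) {r : ℕ} (R : Reps Q r) (i₀ : Fin r)
    (A s : ℤ) (hs : s * s = 1) (Δ : Fin r → ↥(Q : Subgroup H) → ℤ)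
    (hΔ : ∀ i, ∀ y, y ≠ 1 → (Δ i y : ℂ) = A + s * psi Q (R.rep i) y)
    {f : ↥(Q : Subgroup H) → ℂ} (hf : Inv Q f) (h1 : f 1 = 0)
    (hD : ∀ i, ∑ y, f y * (Δ i y : ℂ) = 0) (hsum : ∑ y, f y = 0) : f = 0 := by
  have hpsi : ∀ i, ∑ y, f y * conj (psi Q (R.rep i) y) = 0 := by
    intro i
    have e1 : ∀ y, f y * (Δ i y : ℂ) = (A : ℂ) * f y + (s : ℂ) * (f y * conj (psi Q (R.rep i) y)) := by
      intro y
      by_cases hy : y = 1
      · simp [hy, h1]
      · obtain ⟨n, hn, -⟩ := exists_int_psi h he hexp (R.ne_one i) y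
        rw [hΔ i y hy, hn, map_intCast]; ring
    have h2 := hD i
    simp only [e1, Finset.sum_add_distrib, ← Finset.mul_sum, hsum, mul_zero, zero_add,
      mul_eq_zero] at h2
    refine h2.resolve_left fun hc => ?_
    rw [Int.cast_eq_zero] at hc
    simp [hc] at hs
  funext y
  by_cases hy : y = 1
  · rw [hy, h1, Pi.zero_apply]
  have h3 := h.eq_const R hf i₀ (fun i => by rw [hpsi i, hpsi i₀]) hy
  have h4 := h.sum_mul_conj_psi hf (R.ne_one i₀)
  rw [hpsi i₀, eq_comm, mul_eq_zero] at h4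
  rw [h3, hsum, h4.resolve_left (Nat.cast_ne_zero.2 h.pos.ne'), mul_zero, sub_zero, Pi.zero_apply]

open scoped Classical in
/-- The data from the exceptional decomposition with orbit sums of at least two kinds. -/
theorem exists_hData_of_exc [Fintype H] (h : Ctx Q e) (hcard : Nat.card Q = 9)
    (hexp : ∀ y : ↥(Q : Subgroup H), y ^ 3 = 1) (hM : Cfsg.IsPModular 3 M) (he : 2 ∣ e) {r : ℕ}
    (E : Exc M Q e r) (A s η : ℤ) (hs : s * s = 1) (hη : η = 1 ∨ η = -1)
    (hd : η * E.d = A - 1) (he' : η * E.e = s) (hA1 : A * r - s = 3)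
    (hA2 : 8 * A * A - 2 * A * s * e - (e : ℤ) * e = 0) (hA3 : (3 : ℤ) ∣ A + s * e)
    (hu : ∀ χ ∈ E.X, E.a χ = 1 ∨ E.a χ = -1) (hc : E.X.card + r = 6) (hc2 : 2 ≤ E.X.card) :
    Nonempty (HData M Q e) := by
  choose n hn hn3 using fun i => exists_int_psi h he hexp (E.R.ne_one i)
  let Δ : Fin r → ↥(Q : Subgroup H) → ℤ := fun i y => A + s * n i y
  have hΔ : ∀ i y, (Δ i y : ℂ) = A + s * psi Q (E.R.rep i) y := fun i y => by
    simp [Δ, hn]
  have hd' : (η : ℂ) * E.d = A - 1 := by exact_mod_cast hd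
  have he'' : (η : ℂ) * E.e = s := by exact_mod_cast he'
  have hA1' : (A : ℂ) * r - s = 3 := by exact_mod_cast hA1
  have hcard9 := E.card
  rw [hcard] at hcard9
  refine exists_hData h hcard hM he hcard9 (le_trans one_le_two E.two_le) E.mu E.X E.block
    E.mu_inj E.notMem E.one_mem hc hc2 (Or.inl E.two_le) E.a hu E.val_X η hη Δ ?_ ?_ ?_ ?_ ?_ E.reg ?_
  · intro i y hy
    rw [E.val_mu i y hy, hΔ]
    linear_combination hd' + psi Q (E.R.rep i) y * he''
  · intro i m hm w w' ew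
    have := psi_inv (E.R.rep i) m hm w w' ew
    rw [hn, hn] at this
    simp only [Δ]
    rw [show n i w' = n i w from by exact_mod_cast this]
  · intro i y _
    have : Δ i y = (A + s * e) - s * ((e : ℤ) - n i y) := by simp only [Δ]; ring
    rw [this]
    exact dvd_sub hA3 (dvd_mul_of_dvd_right (hn3 i y) s)
  · intro y hy
    apply Int.cast_injective (α := ℂ)
    push_cast
    simp only [hΔ, Finset.sum_add_distrib, Finset.sum_const, Finset.card_univ, Fintype.card_fin,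
      nsmul_eq_mul, ← Finset.mul_sum, h.sum_reps_psi E.R hy]
    linear_combination hA1'
  · intro _ i j
    apply Int.cast_injective (α := ℂ)
    have := orth_affine h he hexp hcard E.R A s hs hA2 i j
    push_cast [apply_ite (Int.cast : ℤ → ℂ)]
    rw [← this]
    exact Finset.sum_congr rfl fun y _ => by rw [hΔ, hΔ]
  · intro _ f hf h1 hD hsum
    exact complete_affine h he hexp E.R ⟨0, by have := E.two_le; omega⟩ A s hs Δ
      (fun i y _ => hΔ i y) hf h1 hD hsum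

/-- Squares summing to at most three are units. -/
theorem unit_of_sum_sq {ι : Type*} [DecidableEq ι] {S : Finset ι} {a : ι → ℤ} {m : ℕ} (hm : m ≤ 4)
    {o : ι} (ho : o ∈ S) (ha1 : a o = 1) (ha : ∀ χ ∈ S, a χ ≠ 0)
    (hs : ∑ χ ∈ S, a χ ^ 2 = (m : ℤ)) : (∀ χ ∈ S, a χ = 1 ∨ a χ = -1) ∧ S.card = m := by
  have hu : ∀ χ ∈ S, a χ = 1 ∨ a χ = -1 := by
    intro χ hχ
    by_cases hχo : χ = o
    · exact Or.inl (hχo ▸ ha1)
    have h1 : a o ^ 2 + a χ ^ 2 ≤ (m : ℤ) := by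
      rw [← hs, ← Finset.sum_pair (f := fun x => a x ^ 2) (Ne.symm hχo)]
      exact Finset.sum_le_sum_of_subset_of_nonneg
        (Finset.insert_subset_iff.2 ⟨ho, Finset.singleton_subset_iff.2 hχ⟩) fun x _ _ => sq_nonneg _
    rw [ha1] at h1
    have h2 : a χ ^ 2 ≤ 3 := by
      have : (m : ℤ) ≤ 4 := by exact_mod_cast hm
      linarith
    have h3 : a χ ≤ 1 := by nlinarith
    have h4 : -1 ≤ a χ := by nlinarith
    have := ha χ hχ
    omega
  refine ⟨hu, ?_⟩
  rw [Finset.sum_congr rfl fun χ hχ => show a χ ^ 2 = 1 by rcases hu χ hχ with e | e <;> simp [e],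
    Finset.sum_const, nsmul_eq_mul, mul_one] at hs
  exact_mod_cast hs

open scoped Classical in
/-- Automiser of order two or four. -/
theorem exists_hData_small [Fintype H] (h : Ctx Q e) (hcard : Nat.card Q = 9)
    (hexp : ∀ y : ↥(Q : Subgroup H), y ^ 3 = 1) (hM : Cfsg.IsPModular 3 M) (he : e = 2 ∨ e = 4) :
    Nonempty (HData M Q e) := by
  obtain ⟨r, ⟨E⟩⟩ := h.exists_exc hM (by omega)
  have hc := E.card
  rw [hcard] at hc
  have hX0 : ∀ χ ∈ E.X, 0 ≤ E.a χ ^ 2 := fun χ _ => sq_nonneg _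
  have hpos : 1 ≤ ∑ χ ∈ E.X, E.a χ ^ 2 := by
    have := Finset.single_le_sum hX0 E.one_mem
    rwa [E.a_one, one_pow] at this
  rcases he with rfl | rfl
  · obtain rfl : r = 4 := by omega
    have hn := E.norm
    push_cast at hn
    have hd : E.d = 0 := by
      rcases E.e_unit with e1 | e1 <;> rw [e1] at hn <;>
        (have : E.d ≤ 0 := by nlinarith
         have : 0 ≤ E.d := by nlinarith
         omega)
    rw [hd] at hn
    obtain ⟨hu, hcX⟩ := unit_of_sum_sq (m := 2) (by norm_num) E.one_mem E.a_one E.a_ne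
      (by push_cast; linarith)
    exact exists_hData_of_exc h hcard hexp hM (by norm_num) E 1 1 E.e (by norm_num) E.e_unit
      (by rw [hd]; ring) (by rcases E.e_unit with e1 | e1 <;> simp [e1]) (by norm_num) (by norm_num)
      (by norm_num) hu (by omega) (by omega)
  · obtain rfl : r = 2 := by omega
    have hn := E.norm
    push_cast at hn
    have hd : E.d = 0 ∨ E.d = E.e := by
      rcases E.e_unit with e1 | e1 <;> rw [e1] at hn ⊢
      · have : E.d ≤ 1 := by nlinarith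
        have : 0 ≤ E.d := by nlinarith
        omega
      · have : E.d ≤ 0 := by nlinarith
        have : -1 ≤ E.d := by nlinarith
        omega
    have hee : E.e * E.e = 1 := by rcases E.e_unit with e1 | e1 <;> simp [e1]
    have hsq : ∑ χ ∈ E.X, E.a χ ^ 2 = 4 := by
      rcases hd with hd | hd <;> rw [hd] at hn <;> nlinarith
    obtain ⟨hu, hcX⟩ := unit_of_sum_sq (m := 4) le_rfl E.one_mem E.a_one E.a_ne (by exact_mod_cast hsq)
    rcases hd with hd | hd
    · exact exists_hData_of_exc h hcard hexp hM (by norm_num) E 1 (-1) (-E.e) (by norm_num)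
        (by rcases E.e_unit with e1 | e1 <;> simp [e1])
        (by rw [hd]; ring) (by linarith) (by norm_num) (by norm_num)
        (by norm_num) hu (by omega) (by omega)
    · exact exists_hData_of_exc h hcard hexp hM (by norm_num) E 2 1 E.e (by norm_num) E.e_unit
        (by rw [hd]; linarith) hee (by norm_num) (by norm_num)
        (by norm_num) hu (by omega) (by omega)

open scoped Classical in
/-- Automiser of order eight: six members, or every member is `±1` on `Q`. -/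
theorem exists_hData_eight [Fintype H] (h : Ctx Q 8) (hcard : Nat.card Q = 9)
    (hexp : ∀ y : ↥(Q : Subgroup H), y ^ 3 = 1) (hM : Cfsg.IsPModular 3 M) :
    Nonempty (HData M Q 8) ∨ ∃ a : Cfsg.IrrCharacter H → ℤ, Nat.card (Cfsg.principalBlock M H) = 9 ∧
      ∀ χ ∈ Cfsg.principalBlock M H, (a χ = 1 ∨ a χ = -1) ∧
        ∀ y : ↥(Q : Subgroup H), y ≠ 1 → χ.1 (y : H) = (a χ : ℂ) := by
  haveI := hM.2.1
  haveI := Fintype.ofFinite ↥(Q : Subgroup H)
  obtain ⟨y₀, hy₀⟩ : ∃ y : ↥(Q : Subgroup H), y ≠ 1 :=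
    haveI : Nontrivial ↥(Q : Subgroup H) := Finite.one_lt_card_iff_nontrivial.1
      (show 1 < Nat.card Q by omega)
    exists_ne 1
  have hconj : ∀ y : ↥(Q : Subgroup H), y ≠ 1 → IsConj (y₀ : H) (y : H) := by
    intro y hy
    have h1 := h.card_conj hy₀
    rw [Nat.card_eq_fintype_card, Fintype.card_subtype] at h1
    have hsub : (Finset.univ.filter fun z : ↥(Q : Subgroup H) => IsConj (y₀ : H) (z : H)) ⊆
        Finset.univ.erase 1 := by
      intro z hz
      refine Finset.mem_erase.2 ⟨fun e1 => hy₀ (Subtype.ext ?_), Finset.mem_univ _⟩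
      have h2 := (Finset.mem_filter.1 hz).2
      rw [e1] at h2
      simpa using h2
    have h3 := Finset.eq_of_subset_of_card_le hsub (by
      rw [h1, Finset.card_erase_of_mem (Finset.mem_univ _), Finset.card_univ,
        ← Nat.card_eq_fintype_card]
      omega)
    exact (Finset.mem_filter.1 (h3.ge (Finset.mem_erase.2 ⟨hy, Finset.mem_univ y⟩))).2
  choose d hd using fun χ => exists_int_irr h (by norm_num) hexp χ y₀
  have hval : ∀ χ : Cfsg.IrrCharacter H, ∀ y : ↥(Q : Subgroup H), y ≠ 1 → χ.1 (y : H) = (d χ : ℂ) :=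
    fun χ y hy => (H26.irr_eq_of_isConj χ (hconj y hy)).symm.trans (hd χ)
  set B := Finset.univ.filter (· ∈ Cfsg.principalBlock M H) with hBdef
  have hmemB : ∀ {χ}, χ ∈ B ↔ χ ∈ Cfsg.principalBlock M H := by simp [hBdef]
  have hB : Cfsg.IsPBlock M (Cfsg.principalBlock M H) := H41.isPBlock_principalBlock
  have hone : H26.oneIrr H ∈ B := hmemB.2 (by rw [H41.principalBlock_eq]; exact H41.mem_blockOf_self _)
  have hd1 : d (H26.oneIrr H) = 1 := by
    have := hd (H26.oneIrr H)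
    rw [H26.oneIrr_val] at this
    exact_mod_cast this.symm
  have hne : ∀ χ ∈ B, d χ ≠ 0 := by
    intro χ hχ h0
    have hvan : ∀ g : H, g ≠ 1 → (∃ j, orderOf g = 3 ^ j) → χ.1 g = 0 := by
      intro g hg ⟨j, hj⟩
      obtain ⟨y, x, hx, hxy⟩ := exists_rep Q g
      have hxg : Cfsg.IsPPart 3 g g :=
        ⟨1, mul_one _, Commute.one_right _, ⟨j, hj⟩, by simp⟩
      rw [H40.isPPart_unique hx hxg] at hxy
      have hy : y ≠ 1 := fun ee => hg (by subst ee; simpa using hxy)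
      rw [H26.irr_eq_of_isConj χ hxy, hval χ y hy, h0, Int.cast_zero]
    have hsing := H40.blockOf_eq_singleton hM χ (H40.factorization_eq_of_vanish χ hvan).ge
    rw [← H41.eq_blockOf_of_mem hB (hmemB.1 hχ)] at hsing
    have h1 := hmemB.1 hone
    rw [hsing] at h1
    rw [← Set.mem_singleton_iff.1 h1, hd1] at h0
    omega
  have hnorm : ∑ χ ∈ B, d χ ^ 2 = 9 := by
    apply Int.cast_injective (α := ℂ)
    push_cast
    rw [← show ((Nat.card Q : ℕ) : ℂ) = 9 by exact_mod_cast hcard, ← h.block_norm hM hy₀]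
    exact Finset.sum_congr rfl fun χ _ => by rw [hd, map_intCast, sq]
  by_cases hall : ∀ χ ∈ B, d χ ^ 2 = 1
  · refine Or.inr ⟨d, ?_, fun χ hχ => ⟨sq_eq_one_iff.1 (hall χ (hmemB.2 hχ)), hval χ⟩⟩
    rw [Finset.sum_congr rfl hall, Finset.sum_const, nsmul_eq_mul, mul_one] at hnorm
    rw [Nat.card_eq_fintype_card, Fintype.card_subtype]
    exact_mod_cast hnorm
  push Not at hall
  obtain ⟨X₀, hX₀, hX₀'⟩ := hall
  have hX1 : X₀ ≠ H26.oneIrr H := fun e1 => hX₀' (by rw [e1, hd1]; norm_num)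
  have hdX : d X₀ = 2 ∨ d X₀ = -2 := by
    have h1 : d (H26.oneIrr H) ^ 2 + d X₀ ^ 2 ≤ 9 := by
      rw [← hnorm, ← Finset.sum_pair (f := fun χ => d χ ^ 2) (Ne.symm hX1)]
      exact Finset.sum_le_sum_of_subset_of_nonneg
        (Finset.insert_subset_iff.2 ⟨hone, Finset.singleton_subset_iff.2 hX₀⟩) fun x _ _ => sq_nonneg _
    rw [hd1] at h1
    have h3 : d X₀ ≤ 2 := by nlinarith
    have h4 : -2 ≤ d X₀ := by nlinarith
    have := hne X₀ hX₀
    have : d X₀ ≠ 1 := fun e1 => hX₀' (by rw [e1]; norm_num)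
    have : d X₀ ≠ -1 := fun e1 => hX₀' (by rw [e1]; norm_num)
    omega
  have hsq4 : d X₀ ^ 2 = 4 := by rcases hdX with e1 | e1 <;> rw [e1] <;> norm_num
  set J := B.erase X₀ with hJ
  have honeJ : H26.oneIrr H ∈ J := Finset.mem_erase.2 ⟨Ne.symm hX1, hone⟩
  have hnJ : ∑ χ ∈ J, d χ ^ 2 = 5 := by
    have := Finset.add_sum_erase B (fun χ => d χ ^ 2) hX₀
    rw [hnorm, hsq4] at this
    linarith
  have hunit : ∀ χ ∈ J, d χ = 1 ∨ d χ = -1 := by
    intro χ hχ
    by_contra hc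
    have hχ1 : χ ≠ H26.oneIrr H := fun e1 => hc (Or.inl (by rw [e1, hd1]))
    have h1 := Finset.add_sum_erase J (fun x => d x ^ 2) honeJ
    rw [hnJ, hd1] at h1
    have hχ' : χ ∈ J.erase (H26.oneIrr H) := Finset.mem_erase.2 ⟨hχ1, hχ⟩
    have h2 := Finset.add_sum_erase (J.erase (H26.oneIrr H)) (fun x => d x ^ 2) hχ'
    have h3 : 4 ≤ d χ ^ 2 := by
      have := hne χ (Finset.mem_erase.1 hχ).2
      have h5 : d χ ≤ -2 ∨ 2 ≤ d χ := by omega
      rcases h5 with h5 | h5 <;> nlinarith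
    have hrest : ∀ x ∈ (J.erase (H26.oneIrr H)).erase χ, d x ^ 2 = 0 := by
      refine (Finset.sum_eq_zero_iff_of_nonneg fun x _ => sq_nonneg _).1 (le_antisymm ?_ ?_)
      · linarith
      · exact Finset.sum_nonneg fun x _ => sq_nonneg _
    have hempty : (J.erase (H26.oneIrr H)).erase χ = ∅ := by
      refine Finset.eq_empty_of_forall_notMem fun x hx => hne x ?_ ?_
      · exact (Finset.mem_erase.1 (Finset.mem_erase.1 (Finset.mem_erase.1 hx).2).2).2
      · exact pow_eq_zero_iff two_ne_zero |>.1 (hrest x hx)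
    -- parity of the degrees
    have hrel := H40.sum_block_mul_conj_eq_zero hM hB (x := 1) (y := (y₀ : H))
      (by simp) (dvd_orderOf_of_ne_one y₀.2 fun ee => hy₀ (Subtype.ext ee))
    rw [← Finset.add_sum_erase _ _ hX₀, show (Finset.univ.filter (· ∈ Cfsg.principalBlock M H)).erase X₀ = J
      from rfl, ← Finset.add_sum_erase _ _ honeJ, ← Finset.add_sum_erase _ _ hχ', hempty,
      Finset.sum_empty, add_zero] at hrel
    simp only [hd, map_intCast, H26.oneIrr_val, hd1] at hrel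
    obtain ⟨n1, -, hn1⟩ := H44.exists_degree X₀
    obtain ⟨n2, -, hn2⟩ := H44.exists_degree χ
    rw [hn1, hn2] at hrel
    have hrel' : (n1 : ℤ) * d X₀ + (1 * 1 + (n2 : ℤ) * d χ) = 0 := by exact_mod_cast hrel
    have hdχ : d χ = 2 ∨ d χ = -2 := by
      have h6 : d χ ^ 2 = 4 := by
        rw [hempty, Finset.sum_empty, add_zero] at h2
        linarith
      have : d χ ≤ 2 := by nlinarith
      have : -2 ≤ d χ := by nlinarith
      have := hne χ (Finset.mem_erase.1 hχ).2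
      have : d χ ≠ 1 := fun e1 => by rw [e1] at h6; norm_num at h6
      have : d χ ≠ -1 := fun e1 => by rw [e1] at h6; norm_num at h6
      omega
    rcases hdX with e1 | e1 <;> rcases hdχ with e2 | e2 <;> rw [e1, e2] at hrel' <;> omega
  have hJcard : J.card = 5 := by
    rw [Finset.sum_congr rfl fun χ hχ => show d χ ^ 2 = 1 by
      rcases hunit χ hχ with e1 | e1 <;> simp [e1], Finset.sum_const, nsmul_eq_mul, mul_one] at hnJ
    exact_mod_cast hnJ
  obtain ⟨η, hη, hηd⟩ : ∃ η : ℤ, (η = 1 ∨ η = -1) ∧ η * d X₀ = 2 := by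
    rcases hdX with e1 | e1
    exacts [⟨1, Or.inl rfl, by rw [e1]; rfl⟩, ⟨-1, Or.inr rfl, by rw [e1]; rfl⟩]
  refine Or.inl (exists_hData h hcard hM (by norm_num) (r := 1) (by norm_num) le_rfl (fun _ => X₀) J ?_
    (fun i j _ => Subsingleton.elim i j) (fun _ => by simp [hJ]) honeJ (by omega) (by omega)
    (Or.inr (by omega)) d hunit (fun χ _ => hval χ) η hη (fun _ _ => 3) ?_ (fun _ _ _ _ _ _ => rfl)
    (fun _ _ _ => dvd_rfl) (fun _ _ => by simp) ?_ (fun _ _ _ _ => rfl) ?_)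
  · ext χ
    simp only [Set.mem_union, Finset.mem_coe, hJ, Finset.mem_erase, hmemB, Set.mem_range]
    constructor
    · intro hχ
      by_cases e1 : χ = X₀
      exacts [Or.inr ⟨0, e1.symm⟩, Or.inl ⟨e1, hχ⟩]
    · rintro (⟨-, hχ⟩ | ⟨-, rfl⟩)
      exacts [hχ, hmemB.1 hX₀]
  · intro _ y hy
    rw [hval X₀ y hy, ← Int.cast_mul, hηd]
    norm_num
  · intro _ i j
    rw [if_pos (Subsingleton.elim i j), ← Finset.add_sum_erase Finset.univ _ (Finset.mem_univ 1),
      if_pos rfl, Finset.sum_congr rfl fun y hy => if_neg (Finset.mem_erase.1 hy).1,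
      Finset.sum_const, Finset.card_erase_of_mem (Finset.mem_univ _), Finset.card_univ,
      ← Nat.card_eq_fintype_card]
    rw [show Nat.card ↥(Q : Subgroup H) = 9 from hcard]
    norm_num
  · intro _ f hf h1 _ hsum
    funext y
    by_cases hy : y = 1
    · rw [hy, h1, Pi.zero_apply]
    have hconst : ∀ z : ↥(Q : Subgroup H), z ≠ 1 → f z = f y := fun z hz =>
      h.inv_eq hf ((hconj y hy).symm.trans (hconj z hz))
    rw [← Finset.add_sum_erase Finset.univ _ (Finset.mem_univ 1), h1, zero_add,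
      Finset.sum_congr rfl fun z hz => hconst z (Finset.mem_erase.1 hz).1, Finset.sum_const,
      Finset.card_erase_of_mem (Finset.mem_univ _), Finset.card_univ, nsmul_eq_mul,
      ← Nat.card_eq_fintype_card, show Nat.card ↥(Q : Subgroup H) = 9 from hcard] at hsum
    simpa using hsum

end Cfsg.Agent.H31.Extra27
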