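import Cfsg.Agent.H31.Extra27.Phi
import Cfsg.Agent.H31.Extra27.Quotient
import Cfsg.Agent.H40.CentralQuotient
import Cfsg.Agent.H41.RegularInner

/-!
# Inner products on the centraliser of the centre
-/

set_option autoImplicit false
set_option linter.unusedSectionVars false

open Subgroup
open scoped ComplexConjugate
open Cfsg.Agent.H44 (inflate)

namespace Cfsg.Agent.H31.Extra27

section Roots

theorem conj_eq_inv {ζ : ℂ} (hζ : ζ ^ 3 = 1) : conj ζ = ζ⁻¹ := by
  refine eq_inv_of_mul_eq_one_left ?_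
  rw [mul_comm, Complex.mul_conj', Complex.norm_eq_one_of_pow_eq_one hζ (by norm_num)]
  norm_num

theorem root_add {ζ : ℂ} (hζ : ζ ^ 3 = 1) (hζ1 : ζ ≠ 1) : ζ + ζ⁻¹ = -1 := by
  have hne : ζ ≠ 0 := fun e => by simp [e] at hζ
  have h0 : (ζ - 1) * (1 + ζ + ζ * ζ) = 0 := by linear_combination hζ
  have h1 := (mul_eq_zero.1 h0).resolve_left (sub_ne_zero.2 hζ1)
  have h2 : ζ⁻¹ = ζ * ζ := inv_eq_of_mul_eq_one_right (by rw [← hζ]; ring)
  rw [h2]
  linear_combination h1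

theorem exists_root : ∃ ζ : ℂ, ζ ^ 3 = 1 ∧ ζ ≠ 1 := by
  have h := Complex.isPrimitiveRoot_exp 3 (by norm_num)
  exact ⟨_, h.pow_eq_one, h.ne_one (by norm_num)⟩

/-- The two pairings of the differences from one. -/
theorem root_self {ζ : ℂ} (hζ : ζ ^ 3 = 1) (hζ1 : ζ ≠ 1) :
    (ζ - 1) * conj (ζ - 1) + (ζ⁻¹ - 1) * conj (ζ⁻¹ - 1) = 6 ∧
      (ζ - 1) * conj (ζ⁻¹ - 1) + (ζ⁻¹ - 1) * conj ((ζ⁻¹)⁻¹ - 1) = 3 := by
  have hne : ζ ≠ 0 := fun e => by simp [e] at hζ
  have h1 := root_add hζ hζ1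
  have h2 : ζ * ζ⁻¹ = 1 := mul_inv_cancel₀ hne
  simp only [map_sub, map_one, map_inv₀, conj_eq_inv hζ, inv_inv]
  constructor
  · linear_combination (-2 : ℂ) * h1 + 2 * h2
  · linear_combination (ζ + ζ⁻¹ - 3) * h1 - 2 * h2

end Roots

variable {K : Type*} [Group K] [Fintype K] [hp : Fact (Nat.Prime 3)] {P : Sylow 3 K} {z : K}
  {M : Ideal Cfsg.AlgInt}

namespace Setup

variable (h : Setup P z) (hc : ∀ w : K, w * z = z * w) [(zpowers z).Normal]
include h hc

theorem isPGroup_Z : IsPGroup 3 (zpowers z) :=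
  IsPGroup.of_card (n := 1) (by rw [h.card_Z]; norm_num)

theorem sup_centralizer_Z : zpowers z ⊔ centralizer ((zpowers z : Subgroup K) : Set K) = ⊤ := by
  refine eq_top_iff.2 fun g _ => mem_sup_right (mem_centralizer_iff.2 fun w hw => ?_)
  obtain ⟨i, rfl⟩ := mem_zpowers_iff.1 hw
  exact ((show Commute g z from hc g).zpow_right i).eq.symm

theorem regular_mk {g : K} (hg : ¬ 3 ∣ orderOf g) : ¬ 3 ∣ orderOf (g : K ⧸ zpowers z) :=
  fun hh => hg (hh.trans (orderOf_map_dvd (QuotientGroup.mk' (zpowers z)) g))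

open scoped Classical in
/-- Regular elements of the group and of the quotient. -/
theorem sum_regular_quot [Fintype (K ⧸ zpowers z)] (f : K ⧸ zpowers z → ℂ) :
    ∑ s ∈ Finset.univ.filter (fun s : K => Cfsg.IsPRegular 3 s), f (s : K ⧸ zpowers z) =
      ∑ q ∈ Finset.univ.filter (fun q : K ⧸ zpowers z => Cfsg.IsPRegular 3 q), f q := by
  refine Finset.sum_nbij (fun s : K => (s : K ⧸ zpowers z)) ?_ ?_ ?_ fun _ _ => rfl
  · exact fun s hs => Finset.mem_filter.2
      ⟨Finset.mem_univ _, h.regular_mk hc (Finset.mem_filter.1 hs).2⟩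
  · intro a ha b hb hab
    exact H40.regular_lift_unique (h.isPGroup_Z hc) (h.sup_centralizer_Z hc)
      (Finset.mem_filter.1 ha).2 (Finset.mem_filter.1 hb).2 hab
  · intro q hq
    obtain ⟨g, hg, hgq⟩ := H40.exists_regular_lift (h.isPGroup_Z hc) (Finset.mem_filter.1 hq).2
    exact ⟨g, Finset.mem_filter.2 ⟨Finset.mem_univ _, hg⟩, hgq⟩

/-- Inflation respects the principal block. -/
theorem inflate_mem_iff (hM : Cfsg.IsPModular 3 M) (χ : Cfsg.IrrCharacter (K ⧸ zpowers z)) :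
    inflate (zpowers z) χ ∈ Cfsg.principalBlock M K ↔
      χ ∈ Cfsg.principalBlock M (K ⧸ zpowers z) := by
  haveI := Fintype.ofFinite (K ⧸ zpowers z)
  have hone : (inflate (zpowers z) (H26.oneIrr (K ⧸ zpowers z)) : K → ℂ) = fun _ => 1 :=
    funext fun g => by rw [H44.inflate_apply, H26.oneIrr_val]
  have hone' : ((H26.oneIrr (K ⧸ zpowers z)) : K ⧸ zpowers z → ℂ) = fun _ => 1 :=
    funext fun g => H26.oneIrr_val g
  show Cfsg.SameBlock M (fun _ : K => (1 : ℂ)) (inflate (zpowers z) χ : K → ℂ) ↔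
    Cfsg.SameBlock M (fun _ : K ⧸ zpowers z => (1 : ℂ)) (χ : K ⧸ zpowers z → ℂ)
  rw [← hone, ← hone']
  exact H40.sameBlock_inflate_iff hM (h.isPGroup_Z hc) (h.sup_centralizer_Z hc) _ χ

open scoped Classical in
/-- Inflations are orthogonal on the regular elements to characters of other blocks. -/
theorem sum_inflate_eq_zero (hM : Cfsg.IsPModular 3 M) {χ : Cfsg.IrrCharacter (K ⧸ zpowers z)}
    {ψ : Cfsg.IrrCharacter K}
    (hne : ¬ (χ ∈ Cfsg.principalBlock M (K ⧸ zpowers z) ↔ ψ ∈ Cfsg.principalBlock M K)) :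
    ∑ s ∈ Finset.univ.filter (fun s : K => Cfsg.IsPRegular 3 s),
      χ.1 (s : K ⧸ zpowers z) * conj (ψ.1 s) = 0 := by
  haveI := hM.2.1
  refine Eq.trans ?_ (H41.sum_regular_mul_conj_eq_zero hM (χ := inflate (zpowers z) χ) (ψ := ψ)
    fun hsame => hne ?_)
  · exact Finset.sum_congr (Finset.filter_congr fun _ _ => Iff.rfl) fun s _ => rfl
  · rw [← h.inflate_mem_iff hc hM χ]
    have e := H41.blockOf_eq_of_sameBlock hsame
    constructor <;> intro hm
    · rw [H41.eq_blockOf_of_mem H41.isPBlock_principalBlock hm, e]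
      exact H41.mem_blockOf_self ψ
    · rw [H41.eq_blockOf_of_mem H41.isPBlock_principalBlock hm, ← e]
      exact H41.mem_blockOf_self _

open scoped Classical in
/-- A class function orthogonal on regular elements to all inflations vanishes there. -/
theorem eq_zero_of_orth [Fintype (K ⧸ zpowers z)] {θ : K → ℂ} (hθ : Cfsg.IsClassFunction K θ)
    (horth : ∀ χ : Cfsg.IrrCharacter (K ⧸ zpowers z),
      ∑ s ∈ Finset.univ.filter (fun s : K => Cfsg.IsPRegular 3 s),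
        θ s * conj (χ.1 (s : K ⧸ zpowers z)) = 0) {s : K} (hs : ¬ 3 ∣ orderOf s) : θ s = 0 := by
  have huniq : ∀ {a b : K}, ¬ 3 ∣ orderOf a → ¬ 3 ∣ orderOf b →
      (a : K ⧸ zpowers z) = b → a = b := fun ha hb hab =>
    H40.regular_lift_unique (h.isPGroup_Z hc) (h.sup_centralizer_Z hc) ha hb hab
  let f : K ⧸ zpowers z → ℂ := fun q =>
    if hq : 3 ∣ orderOf q then 0 else θ (H40.exists_regular_lift (h.isPGroup_Z hc) hq).choose
  have hfs : ∀ a : K, ¬ 3 ∣ orderOf a → f (a : K ⧸ zpowers z) = θ a := by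
    intro a ha
    have hq := h.regular_mk hc ha
    obtain ⟨h1, h2⟩ := (H40.exists_regular_lift (h.isPGroup_Z hc) hq).choose_spec
    simp only [f, dif_neg hq]
    rw [huniq h1 ha h2]
  have hfc : Cfsg.IsClassFunction (K ⧸ zpowers z) f := by
    intro q c
    have ho : orderOf (c * q * c⁻¹) = orderOf q := by
      rw [← MulAut.conj_apply, MulEquiv.orderOf_eq]
    by_cases hq : 3 ∣ orderOf q
    · simp [f, hq, ho]
    · obtain ⟨a, ha, rfl⟩ := H40.exists_regular_lift (h.isPGroup_Z hc) hq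
      obtain ⟨u, rfl⟩ := QuotientGroup.mk_surjective c
      rw [← QuotientGroup.mk_inv, ← QuotientGroup.mk_mul, ← QuotientGroup.mk_mul, hfs a ha,
        hfs _ (by rwa [← MulAut.conj_apply, MulEquiv.orderOf_eq]), hθ a u]
  have hin : ∀ χ : Cfsg.IrrCharacter (K ⧸ zpowers z), Cfsg.classInner f χ.1 = 0 := by
    intro χ
    rw [Cfsg.classInner]
    refine mul_eq_zero_of_right _ ?_
    rw [← Finset.sum_filter_add_sum_filter_not Finset.univ
      (fun q : K ⧸ zpowers z => Cfsg.IsPRegular 3 q),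
      ← h.sum_regular_quot hc (fun q => f q * conj (χ.1 q)),
      Finset.sum_eq_zero (s := Finset.univ.filter fun q : K ⧸ zpowers z => ¬ Cfsg.IsPRegular 3 q)
        fun q hq => by
          have hq' : 3 ∣ orderOf q := not_not.1 (Finset.mem_filter.1 hq).2
          simp [f, hq'], add_zero]
    rw [← horth χ]
    exact Finset.sum_congr rfl fun a ha => by rw [hfs a (Finset.mem_filter.1 ha).2]
  have e := congrFun (H26.class_function_expansion f hfc) (s : K ⧸ zpowers z)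
  rw [hfs s hs, Finset.sum_apply] at e
  rw [e]
  exact Finset.sum_eq_zero fun χ _ => by simp [hin χ]

open scoped Classical in
/-- Values on `Qbar` read on `P`. -/
noncomputable def qval (f : ↥(qSylow P z : Subgroup (K ⧸ zpowers z)) → ℂ) (y : K) : ℂ :=
  if hy : (y : K ⧸ zpowers z) ∈ (qSylow P z : Subgroup (K ⧸ zpowers z)) then f ⟨_, hy⟩ else 0

theorem qval_eq (f : ↥(qSylow P z : Subgroup (K ⧸ zpowers z)) → ℂ) {y : K}
    (hy : y ∈ (P : Subgroup K)) :
    qval (P := P) (z := z) f y = f ⟨_, h.mk_mem_qSylow hy⟩ := by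
  classical
  exact dif_pos (h.mk_mem_qSylow hy)

variable {e : ℕ} (hctx : H28.Ab.Ctx (qSylow P z) e)
include hctx

open scoped Classical in
/-- Sums over the representatives. -/
theorem sum_T [Fintype ↥(qSylow P z : Subgroup (K ⧸ zpowers z))] {T : Finset K}
    (hT : IsReps P z T) {f : ↥(qSylow P z : Subgroup (K ⧸ zpowers z)) → ℂ}
    (hf : H28.Ab.Inv (qSylow P z) f) (h1 : f 1 = 0) :
    (e : ℂ) * ∑ t ∈ T, qval (P := P) (z := z) f t = ∑ q, f q := by
  rw [h.sum_reps_mul hc hctx hT.mem hT.notMem hT.exists_conj hT.unique hf, h1, zero_add,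
    ← Finset.sum_attach T]
  congr 1
  exact Finset.sum_congr rfl fun t _ => h.qval_eq hc f (hT.mem t.1 t.2)

theorem phi_shift {ζ : ℂ} (hζ : ζ ^ 3 = 1) (θ : K ⧸ zpowers z → ℂ) {s : K}
    (hs : ¬ 3 ∣ orderOf s) :
    phi z ζ θ (z * s) = (ζ - 1) * θ (s : K ⧸ zpowers z) ∧
      phi z ζ θ (z⁻¹ * s) = (ζ⁻¹ - 1) * θ (s : K ⧸ zpowers z) := by
  have key : ∀ i : ℤ, phi z ζ θ (z ^ i * s) = (ζ ^ i - 1) * θ (s : K ⧸ zpowers z) := by
    intro i
    have hpart : pp (z ^ i * s) = z ^ i := pp_eq ⟨s, rfl,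
      ((show Commute s z from hc s).zpow_right i).symm,
      h.exists_pow_three (h.Z_le (zpow_mem (mem_zpowers z) i)), hs⟩
    rw [phi, lam_of_eq hζ h hpart, QuotientGroup.mk_mul,
      (QuotientGroup.eq_one_iff (z ^ i)).2 (zpow_mem (mem_zpowers z) i), one_mul]
  exact ⟨by simpa using key 1, by simpa using key (-1)⟩

open scoped Classical in
/-- Pairing with a function flat on noncentral sections. -/
theorem inner_phi [Fintype ↥(qSylow P z : Subgroup (K ⧸ zpowers z))] {ζ : ℂ} (hζ : ζ ^ 3 = 1)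
    (hζ1 : ζ ≠ 1) {θ : K ⧸ zpowers z → ℂ}
    {F : ↥(qSylow P z : Subgroup (K ⧸ zpowers z)) → ℤ} (hn : Nice P z θ F) {T : Finset K}
    (hT : IsReps P z T) {L : K → ℂ} (hL : Cfsg.IsClassFunction K L) (hLflat : Flat P z L) :
    Cfsg.classInner (phi z ζ θ) L =
      (Nat.card K : ℂ)⁻¹ * ∑ s ∈ Finset.univ.filter (fun s : K => Cfsg.IsPRegular 3 s),
        θ (s : K ⧸ zpowers z) *
          ((ζ - 1) * conj (L (z * s)) + (ζ⁻¹ - 1) * conj (L (z⁻¹ * s))) -
      (1 / 9 : ℂ) * ∑ t ∈ T, qval (P := P) (z := z) (fun q => (F q : ℂ)) t * conj (L t) := by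
  have hcl : Cfsg.IsClassFunction K fun g => phi z ζ θ g * conj (L g) := fun g a => by
    show phi z ζ θ (a * g * a⁻¹) * conj (L (a * g * a⁻¹)) = phi z ζ θ g * conj (L g)
    rw [H57.gen_classFunction (h.gen_phi hc hctx hζ hζ1 hn) g a, hL g a]
  have hfl : Flat P z fun g => phi z ζ θ g * conj (L g) := fun g x y hx hy hyZ hxy => by
    show phi z ζ θ g * conj (L g) = phi z ζ θ y * conj (L y)
    rw [h.flat_phi hc hctx hn g x y hx hy hyZ hxy, hLflat g x y hx hy hyZ hxy]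
  have htop : centralizer ({z} : Set K) = ⊤ := by
    ext g
    simp only [mem_centralizer_singleton_iff, mem_top, iff_true]
    exact hc g
  have hK : (Nat.card K : ℂ) ≠ 0 := Nat.cast_ne_zero.2 Nat.card_pos.ne'
  rw [Cfsg.classInner, h.sum_eq hT hcl hfl, htop, Subgroup.card_top, div_self hK, one_mul,
    sum_top_subgroup rfl fun g => phi z ζ θ (z * g) * conj (L (z * g)) +
      phi z ζ θ (z⁻¹ * g) * conj (L (z⁻¹ * g)),
    Finset.sum_eq_zero (s := Finset.univ.filter fun g : K => Cfsg.IsPRegular 3 g)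
      (f := fun g => phi z ζ θ g * conj (L g)) fun g hg => by
        rw [h.phi_regular hc hζ θ (Finset.mem_filter.1 hg).2, zero_mul], zero_add,
    Finset.sum_congr rfl fun s hs => show phi z ζ θ (z * s) * conj (L (z * s)) +
        phi z ζ θ (z⁻¹ * s) * conj (L (z⁻¹ * s)) =
      θ (s : K ⧸ zpowers z) * ((ζ - 1) * conj (L (z * s)) + (ζ⁻¹ - 1) * conj (L (z⁻¹ * s))) by
      obtain ⟨e1, e2⟩ := h.phi_shift hc hctx hζ θ (Finset.mem_filter.1 hs).2
      rw [e1, e2]; ring,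
    Finset.sum_congr (s₁ := T) rfl fun t ht => show phi z ζ θ t * conj (L t) =
        -(qval (P := P) (z := z) (fun q => (F q : ℂ)) t * conj (L t)) by
      rw [h.phi_section hc hctx hn (h.isPPart_self (hT.mem t ht)) (hT.mem t ht) (hT.notMem t ht)
        (IsConj.refl t), h.qval_eq hc _ (hT.mem t ht)]
      ring,
    Finset.sum_neg_distrib]
  field_simp
  ring

open scoped Classical in
/-- The regular part of an inner product on the quotient. -/
theorem sum_regular_theta [Fintype (K ⧸ zpowers z)]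
    [Fintype ↥(qSylow P z : Subgroup (K ⧸ zpowers z))] {θ θ' : K ⧸ zpowers z → ℂ}
    {F F' : ↥(qSylow P z : Subgroup (K ⧸ zpowers z)) → ℤ} (hn : Nice P z θ F)
    (hn' : Nice P z θ' F') :
    ∑ s ∈ Finset.univ.filter (fun s : K => Cfsg.IsPRegular 3 s),
        θ (s : K ⧸ zpowers z) * conj (θ' (s : K ⧸ zpowers z)) =
      (Nat.card (K ⧸ zpowers z) : ℂ) * (Cfsg.classInner θ θ' -
        ((e : ℂ) * 9)⁻¹ * ∑ q, ((F q * F' q : ℤ) : ℂ)) := by
  rw [h.sum_regular_quot hc (fun q => θ q * conj (θ' q))]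
  have hinv : H28.Ab.Inv (qSylow P z) fun q => ((F q * F' q : ℤ) : ℂ) := fun n hn0 a b e' => by
    simp only [hn.inv n hn0 a b e', hn'.inv n hn0 a b e']
  have h0 : ((F 1 * F' 1 : ℤ) : ℂ) = 0 := by rw [hn.one, zero_mul, Int.cast_zero]
  have hsum := hctx.sum_lift (φ := fun q => ((F q * F' q : ℤ) : ℂ)) hinv h0
  have hsing : ∑ q ∈ Finset.univ.filter (fun q : K ⧸ zpowers z => ¬ Cfsg.IsPRegular 3 q),
      θ q * conj (θ' q) = ∑ q, H28.Ab.lift (qSylow P z) (fun q => ((F q * F' q : ℤ) : ℂ)) q := by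
    rw [← Finset.sum_filter_add_sum_filter_not Finset.univ
      (fun q : K ⧸ zpowers z => Cfsg.IsPRegular 3 q) (fun q =>
        H28.Ab.lift (qSylow P z) (fun q => ((F q * F' q : ℤ) : ℂ)) q),
      Finset.sum_eq_zero (s := Finset.univ.filter fun q : K ⧸ zpowers z => Cfsg.IsPRegular 3 q)
        fun q hq => by
          rw [hctx.lift_regular hinv (Finset.mem_filter.1 hq).2]
          exact h0,
      zero_add]
    refine Finset.sum_congr rfl fun q hq => ?_
    have hq' : 3 ∣ orderOf q := not_not.1 (Finset.mem_filter.1 hq).2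
    obtain ⟨y, x, hx, hxy⟩ := H28.Ab.exists_rep (qSylow P z) q
    rw [hn.val q hq', hn'.val q hq',
      hctx.lift_eq (fun n hn0 a b e' => by simp only [hn.inv n hn0 a b e']) hx hxy,
      hctx.lift_eq (fun n hn0 a b e' => by simp only [hn'.inv n hn0 a b e']) hx hxy,
      hctx.lift_eq hinv hx hxy]
    push_cast
    rw [map_intCast]
  rw [h.card_qSylow] at hsum
  have hH : (Nat.card (K ⧸ zpowers z) : ℂ) ≠ 0 := Nat.cast_ne_zero.2 Nat.card_pos.ne'
  have he : (e : ℂ) ≠ 0 := Nat.cast_ne_zero.2 hctx.pos.ne'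
  have hsplit : Cfsg.classInner θ θ' = (Nat.card (K ⧸ zpowers z) : ℂ)⁻¹ *
      (∑ q ∈ Finset.univ.filter (fun q : K ⧸ zpowers z => Cfsg.IsPRegular 3 q), θ q * conj (θ' q) +
        ∑ q ∈ Finset.univ.filter (fun q : K ⧸ zpowers z => ¬ Cfsg.IsPRegular 3 q),
          θ q * conj (θ' q)) := by
    rw [Finset.sum_filter_add_sum_filter_not]
    rfl
  rw [hsplit, hsing]
  push_cast at hsum ⊢
  field_simp
  linear_combination -hsum

open scoped Classical in
/-- The inner products of the exceptional functions. -/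
theorem gram [Fintype (K ⧸ zpowers z)] [Fintype ↥(qSylow P z : Subgroup (K ⧸ zpowers z))]
    {ζ ζ' : ℂ} (hζ : ζ ^ 3 = 1) (hζ1 : ζ ≠ 1) (hζ' : ζ' ^ 3 = 1) (hζ'1 : ζ' ≠ 1)
    {θ θ' : K ⧸ zpowers z → ℂ} {F F' : ↥(qSylow P z : Subgroup (K ⧸ zpowers z)) → ℤ}
    (hn : Nice P z θ F) (hn' : Nice P z θ' F') :
    Cfsg.classInner (phi z ζ θ) (phi z ζ' θ') =
      ((ζ - 1) * conj (ζ' - 1) + (ζ⁻¹ - 1) * conj (ζ'⁻¹ - 1)) / 3 *
          (Cfsg.classInner θ θ' - ((e : ℂ) * 9)⁻¹ * ∑ q, ((F q * F' q : ℤ) : ℂ)) +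
        ((e : ℂ) * 9)⁻¹ * ∑ q, ((F q * F' q : ℤ) : ℂ) := by
  obtain ⟨T, hT⟩ := exists_isReps P z
  rw [h.inner_phi hc hctx hζ hζ1 hn hT (H57.gen_classFunction (h.gen_phi hc hctx hζ' hζ'1 hn'))
    (h.flat_phi hc hctx hn'),
    Finset.sum_congr rfl fun (s : K) hs => show θ (s : K ⧸ zpowers z) *
        ((ζ - 1) * conj (phi z ζ' θ' (z * s)) + (ζ⁻¹ - 1) * conj (phi z ζ' θ' (z⁻¹ * s))) =
      ((ζ - 1) * conj (ζ' - 1) + (ζ⁻¹ - 1) * conj (ζ'⁻¹ - 1)) *
        (θ (s : K ⧸ zpowers z) * conj (θ' (s : K ⧸ zpowers z))) by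
      obtain ⟨e1, e2⟩ := h.phi_shift hc hctx hζ' θ' (Finset.mem_filter.1 hs).2
      rw [e1, e2]; simp only [map_mul]; ring,
    ← Finset.mul_sum, h.sum_regular_theta hc hctx hn hn']
  have hterm : ∀ t ∈ T, qval (P := P) (z := z) (fun q => (F q : ℂ)) t * conj (phi z ζ' θ' t) =
      -qval (P := P) (z := z) (fun q => ((F q * F' q : ℤ) : ℂ)) t := by
    intro t ht
    rw [h.phi_section hc hctx hn' (h.isPPart_self (hT.mem t ht)) (hT.mem t ht) (hT.notMem t ht)
      (IsConj.refl t), h.qval_eq hc _ (hT.mem t ht), h.qval_eq hc _ (hT.mem t ht)]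
    simp
  have hsum := h.sum_T hc hctx hT (f := fun q => ((F q * F' q : ℤ) : ℂ))
    (fun n hn0 a b e' => by simp only [hn.inv n hn0 a b e', hn'.inv n hn0 a b e'])
    (by rw [hn.one, zero_mul, Int.cast_zero])
  have hcard : (Nat.card K : ℂ) = 3 * (Nat.card (K ⧸ zpowers z) : ℂ) := by
    rw [Subgroup.card_eq_card_quotient_mul_card_subgroup (zpowers z), h.card_Z]
    push_cast; ring
  have hH : (Nat.card (K ⧸ zpowers z) : ℂ) ≠ 0 := Nat.cast_ne_zero.2 Nat.card_pos.ne'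
  have he : (e : ℂ) ≠ 0 := Nat.cast_ne_zero.2 hctx.pos.ne'
  rw [Finset.sum_congr rfl hterm, Finset.sum_neg_distrib, hcard, ← hsum]
  field_simp
  ring

omit hctx in
theorem flat_one : Flat P z (fun _ => (1 : ℂ)) := fun _ _ _ _ _ _ _ => rfl

open scoped Classical in
/-- The inner product with the trivial character. -/
theorem inner_phi_one [Fintype (K ⧸ zpowers z)]
    [Fintype ↥(qSylow P z : Subgroup (K ⧸ zpowers z))]
    {ζ : ℂ} (hζ : ζ ^ 3 = 1) (hζ1 : ζ ≠ 1) {θ : K ⧸ zpowers z → ℂ}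
    {F : ↥(qSylow P z : Subgroup (K ⧸ zpowers z)) → ℤ} (hn : Nice P z θ F) :
    Cfsg.classInner (phi z ζ θ) (fun _ => 1) = -Cfsg.classInner θ (fun _ => 1) := by
  obtain ⟨T, hT⟩ := exists_isReps P z
  rw [h.inner_phi hc hctx hζ hζ1 hn hT (fun _ _ => rfl) (h.flat_one hc)]
  simp only [map_one, mul_one]
  rw [show (ζ - 1) + (ζ⁻¹ - 1) = -3 by linear_combination root_add hζ hζ1, ← Finset.sum_mul,
    h.sum_regular_quot hc θ]
  have hinv : H28.Ab.Inv (qSylow P z) fun q => ((F q : ℤ) : ℂ) := fun n hn0 a b e' => by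
    simp only [hn.inv n hn0 a b e']
  have h0 : ((F 1 : ℤ) : ℂ) = 0 := by rw [hn.one, Int.cast_zero]
  have hsum := h.sum_T hc hctx hT (f := fun q => ((F q : ℤ) : ℂ)) hinv h0
  have hlift := hctx.sum_lift (φ := fun q => ((F q : ℤ) : ℂ)) hinv h0
  have hsing : ∑ q ∈ Finset.univ.filter (fun q : K ⧸ zpowers z => ¬ Cfsg.IsPRegular 3 q), θ q =
      ∑ q, H28.Ab.lift (qSylow P z) (fun q => ((F q : ℤ) : ℂ)) q := by
    rw [← Finset.sum_filter_add_sum_filter_not Finset.univ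
      (fun q : K ⧸ zpowers z => Cfsg.IsPRegular 3 q) (fun q =>
        H28.Ab.lift (qSylow P z) (fun q => ((F q : ℤ) : ℂ)) q),
      Finset.sum_eq_zero (s := Finset.univ.filter fun q : K ⧸ zpowers z => Cfsg.IsPRegular 3 q)
        fun q hq => by
          rw [hctx.lift_regular hinv (Finset.mem_filter.1 hq).2]
          exact h0,
      zero_add]
    exact Finset.sum_congr rfl fun q hq => hn.val q (not_not.1 (Finset.mem_filter.1 hq).2)
  rw [h.card_qSylow, ← hsing, ← hsum] at hlift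
  have hcard : (Nat.card K : ℂ) = 3 * (Nat.card (K ⧸ zpowers z) : ℂ) := by
    rw [Subgroup.card_eq_card_quotient_mul_card_subgroup (zpowers z), h.card_Z]
    push_cast; ring
  have hH : (Nat.card (K ⧸ zpowers z) : ℂ) ≠ 0 := Nat.cast_ne_zero.2 Nat.card_pos.ne'
  have he : (e : ℂ) ≠ 0 := Nat.cast_ne_zero.2 hctx.pos.ne'
  have hsplit : Cfsg.classInner θ (fun _ => 1) = (Nat.card (K ⧸ zpowers z) : ℂ)⁻¹ *
      (∑ q ∈ Finset.univ.filter (fun q : K ⧸ zpowers z => Cfsg.IsPRegular 3 q), θ q +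
        ∑ q ∈ Finset.univ.filter (fun q : K ⧸ zpowers z => ¬ Cfsg.IsPRegular 3 q), θ q) := by
    rw [Finset.sum_filter_add_sum_filter_not, Cfsg.classInner]
    simp
  rw [hsplit, hcard]
  push_cast at hlift
  field_simp
  refine mul_left_cancel₀ he ?_
  linear_combination hlift

end Setup

end Cfsg.Agent.H31.Extra27
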