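import Cfsg.Agent.H31.Extra27.Sections
import Cfsg.Agent.H31.Extra27.Center
import Cfsg.Agent.H31.Extra27.Values
import Cfsg.Agent.H57.VChar
import Cfsg.Agent.H27.Induction
import Cfsg.Agent.H28.AbelianDual

/-!
# The exceptional generalized characters of the centraliser of the centre
-/

set_option autoImplicit false
set_option linter.unusedSectionVars false

open Subgroup
open scoped ComplexConjugate

namespace Cfsg.Agent.H31.Extra27

section Parts

variable {G : Type*} [Group G] [Finite G] [hp : Fact (Nat.Prime 3)]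

/-- The `3`-part. -/
noncomputable def pp (g : G) : G := (H40.exists_isPPart 3 g).choose

theorem pp_spec (g : G) : Cfsg.IsPPart 3 g (pp g) := (H40.exists_isPPart 3 g).choose_spec

theorem pp_eq {g x : G} (hx : Cfsg.IsPPart 3 g x) : pp g = x := H40.isPPart_unique (pp_spec g) hx

theorem pp_conj (g c : G) : pp (c * g * c⁻¹) = c * pp g * c⁻¹ :=
  pp_eq (H40.isPPart_conj c (pp_spec g))

theorem pp_of_regular {g : G} (hg : ¬ 3 ∣ orderOf g) : pp g = 1 := pp_eq (H40.isPPart_of_regular hg)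

theorem exists_pow_pp (g : G) : ∃ k : ℕ, orderOf (pp g) = 3 ^ k := by
  obtain ⟨-, -, -, hk, -⟩ := pp_spec g
  exact hk

/-- The regular part. -/
noncomputable def rp (g : G) : G := (pp g)⁻¹ * g

theorem pp_mul_rp (g : G) : pp g * rp g = g := mul_inv_cancel_left _ _

theorem commute_pp_rp (g : G) : Commute (pp g) (rp g) := by
  obtain ⟨y, hy, hc, -, -⟩ := pp_spec g
  have : rp g = y := by
    show (pp g)⁻¹ * g = y
    conv_lhs => arg 2; rw [← hy]
    rw [inv_mul_cancel_left]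
  rwa [this]

theorem regular_rp (g : G) : ¬ 3 ∣ orderOf (rp g) := by
  obtain ⟨y, hy, hc, -, hreg⟩ := pp_spec g
  have : rp g = y := by
    show (pp g)⁻¹ * g = y
    conv_lhs => arg 2; rw [← hy]
    rw [inv_mul_cancel_left]
  rwa [this]

/-- In an elementary subgroup an element of `3`-power order commutes with a regular one. -/
theorem commute_of_isElementary {q : ℕ} (hq : q.Prime) {E : Subgroup G}
    (hE : Cfsg.IsElementary q E) {x y : E} {k : ℕ} (hx : orderOf x = 3 ^ k)
    (hy : ¬ 3 ∣ orderOf y) : Commute x y := by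
  obtain ⟨c, hc, hcq, n, hn⟩ := hE
  set L := zpowers c
  have hLc : L ≤ Subgroup.center E := zpowers_le.2 hc
  haveI : L.Normal := by
    refine ⟨fun a ha g => ?_⟩
    rw [Subgroup.mem_center_iff.1 (hLc ha) g, mul_inv_cancel_right]
    exact ha
  have key : ∀ v : E, (orderOf v).Coprime q → v ∈ L := by
    intro v hv
    have h1 : v ^ q ^ n ∈ L := by
      rw [← hn]
      exact L.pow_index_mem v
    obtain ⟨a, ha⟩ := exists_pow_eq_self_of_coprime
      (show Nat.Coprime (q ^ n) (orderOf v) from (hv.symm).pow_left n)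
    rw [← ha]
    exact pow_mem h1 a
  by_cases h3 : q = 3
  · have := key y (by
      rw [h3]
      exact ((Nat.prime_three.coprime_iff_not_dvd).2 hy).symm)
    exact Subgroup.mem_center_iff.1 (hLc this) x
  · have := key x (by
      rw [hx]
      exact ((Nat.coprime_primes Nat.prime_three hq).2 (Ne.symm h3)).pow_left k)
    exact (Subgroup.mem_center_iff.1 (hLc this) y).symm

/-- The `3`-part and the regular part of an elementary subgroup. -/
theorem exists_parts_hom {q : ℕ} (hq : q.Prime) {E : Subgroup G} (hE : Cfsg.IsElementary q E) :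
    ∃ ρ σ : E →* G, (∀ e, ρ e = pp (e : G)) ∧ (∀ e, σ e = rp (e : G)) ∧
      IsPGroup 3 ρ.range ∧ ∀ a b : E, Commute (ρ a) (σ b) := by
  obtain ⟨k, hk, hk'⟩ := H40.exists_pPart_exponent 3 G
  have hpp : ∀ g : G, pp g = g ^ k := fun g => (hk g _ (pp_spec g)).symm
  let ρ : E →* G :=
    { toFun := fun e => (e : G) ^ k
      map_one' := by simp
      map_mul' := fun a b => H28.Ab.pow_mul_of_isElementary hq hE hk a b }
  have hρE : ∀ a : E, ρ a ∈ E := fun a => pow_mem a.2 k
  have hσE : ∀ a : E, rp (a : G) ∈ E := fun a => by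
    rw [rp, hpp]
    exact mul_mem (inv_mem (hρE a)) a.2
  have hcomm : ∀ a b : E, Commute (ρ a) (rp (b : G)) := by
    intro a b
    obtain ⟨j, hj⟩ := exists_pow_pp (a : G)
    rw [hpp] at hj
    have := commute_of_isElementary hq hE (x := ⟨ρ a, hρE a⟩) (y := ⟨_, hσE b⟩) (k := j)
      (by rw [Subgroup.orderOf_mk]; exact hj) (by rw [Subgroup.orderOf_mk]; exact regular_rp _)
    exact congrArg Subtype.val this.eq
  let σ : E →* G :=
    { toFun := fun e => rp (e : G)
      map_one' := by simp [rp, hpp]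
      map_mul' := fun a b => by
        have e1 : rp ((a * b : E) : G) = (ρ a * ρ b)⁻¹ * ((a : G) * b) := by
          rw [rp, hpp, ← Subgroup.coe_mul, ← map_mul]
          rfl
        have e2 : ∀ e : E, (e : G) = ρ e * rp (e : G) := fun e => by
          show (e : G) = (e : G) ^ k * rp (e : G)
          rw [← hpp, pp_mul_rp]
        show rp ((a * b : E) : G) = rp (a : G) * rp (b : G)
        rw [e1]
        conv_lhs => arg 2; rw [e2 a, e2 b]
        calc (ρ a * ρ b)⁻¹ * (ρ a * rp (a : G) * (ρ b * rp (b : G)))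
            = (ρ b)⁻¹ * (rp (a : G) * ρ b) * rp (b : G) := by group
          _ = (ρ b)⁻¹ * (ρ b * rp (a : G)) * rp (b : G) := by rw [(hcomm b a).eq]
          _ = rp (a : G) * rp (b : G) := by rw [inv_mul_cancel_left] }
  refine ⟨ρ, σ, fun e => (hpp _).symm, fun e => rfl, ?_, hcomm⟩
  rw [IsPGroup.iff_orderOf]
  rintro ⟨_, e, rfl⟩
  obtain ⟨j, hj⟩ := exists_pow_pp (e : G)
  exact ⟨j, (Subgroup.orderOf_coe _).symm.trans ((congrArg orderOf (hpp _)).symm.trans hj)⟩

end Parts

section Prod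

variable {V : Type*} [Group V] [Finite V]

/-- Products of generalized characters. -/
theorem gen_mul {f g : V → ℂ} (hf : Cfsg.IsGeneralizedCharacter V f)
    (hg : Cfsg.IsGeneralizedCharacter V g) :
    Cfsg.IsGeneralizedCharacter V (fun v => f v * g v) := by
  obtain ⟨a, b, ha, hb, rfl⟩ := hf
  obtain ⟨c, d, hc, hd, rfl⟩ := hg
  refine ⟨a * c + b * d, a * d + b * c, H26.isCharacter_add (H26.isCharacter_mul ha hc)
    (H26.isCharacter_mul hb hd), H26.isCharacter_add (H26.isCharacter_mul ha hd)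
    (H26.isCharacter_mul hb hc), funext fun v => ?_⟩
  simp only [Pi.sub_apply, Pi.add_apply, Pi.mul_apply]
  ring

/-- Composition of generalized characters with a homomorphism. -/
theorem gen_comp {W : Type*} [Group W] [Finite W] {f : W → ℂ}
    (hf : Cfsg.IsGeneralizedCharacter W f) (φ : V →* W) :
    Cfsg.IsGeneralizedCharacter V (fun v => f (φ v)) := by
  obtain ⟨a, b, ha, hb, rfl⟩ := hf
  exact ⟨a ∘ φ, b ∘ φ, H26.isCharacter_comp ha φ, H26.isCharacter_comp hb φ, rfl⟩

/-- A class function with integral coefficients. -/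
theorem gen_of_int_inner [Fintype V] {f : V → ℂ} (hf : Cfsg.IsClassFunction V f)
    (hint : ∀ χ : Cfsg.IrrCharacter V, ∃ n : ℤ, Cfsg.classInner f χ.1 = n) :
    Cfsg.IsGeneralizedCharacter V f := by
  classical
  choose n hn using hint
  rw [show f = ∑ χ : Cfsg.IrrCharacter V, n χ • (χ : V → ℂ) by
    conv_lhs => rw [H26.class_function_expansion f hf]
    refine Finset.sum_congr rfl fun χ _ => ?_
    rw [hn χ]
    funext v
    simp [zsmul_eq_mul]]
  exact H57.gen_sum fun χ _ => H57.gen_zsmul (H57.gen_of_irr χ.2) _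

/-- A generalized character of a direct product with three, with values divisible by three off
the regular factor, is three times one of that factor. -/
theorem exists_third {A : Type*} [Group A] [Finite A] {a : A} (ha : orderOf a = 3)
    (hgen : ∀ x : A, x ∈ zpowers a) {g : A × V → ℂ} (hg : Cfsg.IsGeneralizedCharacter (A × V) g)
    (hdiv : ∀ x : A, x ≠ 1 → ∃ n : ℤ, ∀ v, g (x, v) = 3 * (n : ℂ)) :
    Cfsg.IsGeneralizedCharacter V (fun v => g (1, v) / 3) := by
  classical
  haveI := Fintype.ofFinite V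
  haveI := Fintype.ofFinite A
  have hclass := H57.gen_classFunction hg
  refine gen_of_int_inner (fun v w => ?_) fun χ => ?_
  · have := hclass (1, v) (1, w)
    simp only [Prod.mk_mul_mk, Prod.inv_mk, mul_one, inv_one] at this
    simp only [this]
  obtain ⟨N, hN⟩ := H57.gen_inner_int hg
    (H57.gen_of_char (H26.isCharacter_comp (H26.irr_isCharacter χ) (MonoidHom.snd A V)))
  obtain ⟨c, hc⟩ : ∃ c : ℤ, Cfsg.classInner (fun _ : V => (1 : ℂ)) χ.1 = c := by
    have := H26.classInner_irr (H26.oneIrr V) χ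
    refine ⟨if H26.oneIrr V = χ then 1 else 0, ?_⟩
    rw [show (fun _ : V => (1 : ℂ)) = (H26.oneIrr V).1 from funext fun v => (H26.oneIrr_val v).symm,
      this]
    split_ifs <;> simp
  choose n' hn' using hdiv
  obtain ⟨n, hn⟩ : ∃ n : A → ℤ, ∀ x : A, x ≠ 1 → ∀ v, g (x, v) = 3 * (n x : ℂ) :=
    ⟨fun x => if hx : x ≠ 1 then n' x hx else 0, fun x hx v => by simp only [dif_pos hx, hn' x hx v]⟩
  have hA : Nat.card A = 3 := by
    rw [← ha, ← Nat.card_zpowers]
    exact Nat.card_congr (Equiv.subtypeUnivEquiv hgen).symm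
  set S : ℤ := ∑ x ∈ Finset.univ.erase (1 : A), n x with hSdef
  refine ⟨N - c * S, ?_⟩
  have hVne : (Nat.card V : ℂ) ≠ 0 := Nat.cast_ne_zero.2 Nat.card_pos.ne'
  rw [Cfsg.classInner, inv_mul_eq_iff_eq_mul₀ hVne] at hc
  have h1 : Cfsg.classInner g (fun v : A × V => χ.1 v.2) = N := hN
  have hrest : ∀ x ∈ Finset.univ.erase (1 : A), ∑ v : V, g (x, v) * conj (χ.1 v) =
      3 * (n x : ℂ) * ((Nat.card V : ℂ) * c) := by
    intro x hx
    rw [← hc, Finset.mul_sum]
    exact Finset.sum_congr rfl fun v _ => by rw [hn x (Finset.mem_erase.1 hx).1 v, one_mul]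
  rw [Cfsg.classInner, Nat.card_prod, hA, inv_mul_eq_iff_eq_mul₀
    (Nat.cast_ne_zero.2 (Nat.mul_pos (by norm_num) Nat.card_pos).ne'), Fintype.sum_prod_type,
    ← Finset.add_sum_erase Finset.univ _ (Finset.mem_univ (1 : A))] at h1
  rw [Finset.sum_congr rfl hrest, ← Finset.sum_mul, ← Finset.mul_sum] at h1
  have hS : ∑ x ∈ Finset.univ.erase (1 : A), (n x : ℂ) = (S : ℂ) := by
    simp only [hSdef, Int.cast_sum]
  rw [hS] at h1
  push_cast at h1
  rw [Cfsg.classInner, inv_mul_eq_iff_eq_mul₀ hVne]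
  simp only [div_mul_eq_mul_div]
  rw [← Finset.sum_div]
  field_simp
  push_cast
  linear_combination h1

end Prod

section Centre

variable {K : Type*} [Group K] [Finite K] [hp : Fact (Nat.Prime 3)] {P : Sylow 3 K} {z : K}

open scoped Classical in
/-- The linear character of `⟨z⟩` with `z ↦ ζ`, extended by zero and read on `3`-parts. -/
noncomputable def lam (z : K) (ζ : ℂ) (w : K) : ℂ :=
  if hw : pp w ∈ zpowers z then ζ ^ (mem_zpowers_iff.1 hw).choose else 0

theorem lam_of_eq {ζ : ℂ} (hζ : ζ ^ 3 = 1) (h : Setup P z) {w : K} {i : ℤ} (hw : pp w = z ^ i) :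
    lam z ζ w = ζ ^ i := by
  classical
  have hm : pp w ∈ zpowers z := hw ▸ zpow_mem (mem_zpowers z) i
  rw [lam, dif_pos hm]
  have hsp := (mem_zpowers_iff.1 hm).choose_spec
  set c := (mem_zpowers_iff.1 hm).choose
  rw [hw, zpow_eq_zpow_iff_modEq, h.orderOf_z] at hsp
  obtain ⟨d, hd⟩ := Int.ModEq.dvd hsp
  have hne : ζ ≠ 0 := fun e => by simp [e] at hζ
  have h3 : ζ ^ (3 : ℤ) = 1 := by rw [show (3 : ℤ) = ((3 : ℕ) : ℤ) from rfl, zpow_natCast, hζ]
  rw [show i = c + ((3 : ℕ) : ℤ) * d by omega, zpow_add₀ hne, zpow_mul, zpow_natCast, hζ, one_zpow,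
    mul_one]

theorem lam_of_notMem {ζ : ℂ} {w : K} (hw : pp w ∉ zpowers z) : lam z ζ w = 0 := by
  classical
  rw [lam, dif_neg hw]

theorem lam_regular {ζ : ℂ} (hζ : ζ ^ 3 = 1) (h : Setup P z) {w : K} (hw : ¬ 3 ∣ orderOf w) :
    lam z ζ w = 1 := by
  rw [lam_of_eq hζ h (i := 0) (by rw [pp_of_regular hw, zpow_zero]), zpow_zero]

namespace Setup

variable (h : Setup P z) (hc : ∀ w : K, w * z = z * w)
include h hc

theorem conj_mem_zpowers_iff {v c : K} : c * v * c⁻¹ ∈ zpowers z ↔ v ∈ zpowers z := by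
  haveI := normal_zpowers hc
  refine ⟨fun hv => ?_, fun hv => Subgroup.Normal.conj_mem inferInstance v hv c⟩
  have := Subgroup.Normal.conj_mem (H := zpowers z) inferInstance _ hv c⁻¹
  rwa [show c⁻¹ * (c * v * c⁻¹) * c⁻¹⁻¹ = v by group] at this

theorem lam_class {ζ : ℂ} (hζ : ζ ^ 3 = 1) (w c : K) : lam z ζ (c * w * c⁻¹) = lam z ζ w := by
  by_cases hw : pp w ∈ zpowers z
  · obtain ⟨i, hi⟩ := mem_zpowers_iff.1 hw
    rw [lam_of_eq hζ h hi.symm, lam_of_eq hζ h (i := i) (by
      rw [pp_conj, ← hi, ((show Commute c z from hc c).zpow_right i).eq, mul_inv_cancel_right])]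
  · rw [lam_of_notMem hw, lam_of_notMem fun hh => hw ?_]
    rwa [pp_conj, h.conj_mem_zpowers_iff hc] at hh

open scoped Classical in
/-- Three times the extension by zero of a nontrivial central character of `P`. -/
theorem gen_three_lam {ζ : ℂ} (hζ : ζ ^ 3 = 1) (hζ1 : ζ ≠ 1) :
    Cfsg.IsGeneralizedCharacter ↥(P : Subgroup K) (fun a => 3 * lam z ζ (a : K)) := by
  haveI := Fintype.ofFinite ↥(P : Subgroup K)
  refine gen_of_int_inner (fun a c => ?_) fun χ => ?_
  · show 3 * lam z ζ ((c * a * c⁻¹ : ↥(P : Subgroup K)) : K) = _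
    rw [Subgroup.coe_mul, Subgroup.coe_mul, Subgroup.coe_inv, h.lam_class hc hζ]
  set zP : ↥(P : Subgroup K) := ⟨z, h.z_mem⟩
  have hzP : zP ∈ Subgroup.center ↥(P : Subgroup K) :=
    Subgroup.mem_center_iff.2 fun g => Subtype.ext (hc g)
  have hpp : ∀ a : ↥(P : Subgroup K), pp (a : K) = a := fun a => pp_eq (h.isPPart_self a.2)
  have hzp3 : orderOf zP = 3 := by rw [Subgroup.orderOf_mk, h.orderOf_z]
  set ω := χ.1 zP / χ.1 1 with hω
  have hmul : ∀ g, χ.1 (zP * g) = ω * χ.1 g := fun g => H42.irr_central_mul χ hzP g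
  have hd : χ.1 1 ≠ 0 := H26.irr_one_ne_zero χ
  have hzsum : ∀ F : ↥(P : Subgroup K) → ℂ, (∀ a : ↥(P : Subgroup K), (a : K) ∉ zpowers z → F a = 0) →
      ∑ a, F a = F 1 + F zP + F zP⁻¹ := by
    intro F hF
    haveI := Fintype.ofFinite (zpowers zP)
    rw [← sum_zpowers_three hzp3 F]
    rw [← Finset.sum_subset (Finset.subset_univ (Finset.univ.filter fun a => a ∈ zpowers zP))
      fun a _ ha => hF a fun hh => ha (Finset.mem_filter.2 ⟨Finset.mem_univ _, ?_⟩)]
    · exact Finset.sum_subtype _ (by simp) F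
    · obtain ⟨i, hi⟩ := mem_zpowers_iff.1 hh
      exact mem_zpowers_iff.2 ⟨i, Subtype.ext (by simpa [zP] using hi)⟩
  have hzinv : zP⁻¹ = zP * zP := by
    refine inv_eq_of_mul_eq_one_right ?_
    have := pow_orderOf_eq_one zP
    rwa [hzp3, pow_succ, pow_two, mul_assoc] at this
  have hω3 : ω ^ 3 = 1 := by
    have h1 : χ.1 (zP * (zP * (zP * 1))) = ω * (ω * (ω * χ.1 1)) := by rw [hmul, hmul, hmul]
    rw [mul_one, ← hzinv, mul_inv_cancel] at h1
    refine mul_right_cancel₀ hd ?_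
    rw [one_mul]
    conv_rhs => rw [h1]
    ring
  have hl1 : lam z ζ ((1 : ↥(P : Subgroup K)) : K) = 1 :=
    lam_regular hζ h (by simp)
  have hlz : lam z ζ (zP : K) = ζ := by
    rw [lam_of_eq hζ h (i := 1) (by rw [hpp, zpow_one]), zpow_one]
  have hli : lam z ζ ((zP⁻¹ : ↥(P : Subgroup K)) : K) = ζ⁻¹ := by
    rw [lam_of_eq hζ h (i := -1) (by rw [hpp]; simp [zP]), zpow_neg_one]
  have hcard : (Nat.card ↥(P : Subgroup K) : ℂ) = 27 := by rw [h.card]; norm_num
  have hinner : Cfsg.classInner (fun a : ↥(P : Subgroup K) => 3 * lam z ζ (a : K)) χ.1 =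
      conj (χ.1 1) / 9 * (1 + ζ * conj ω + ζ⁻¹ * conj (ω * ω)) := by
    rw [Cfsg.classInner, hzsum _ fun a ha => by
      rw [lam_of_notMem (by rwa [hpp]), mul_zero, zero_mul], hl1, hlz, hli, hzinv,
      show χ.1 zP = ω * χ.1 1 by rw [hω, div_mul_cancel₀ _ hd],
      show χ.1 (zP * zP) = ω * (ω * χ.1 1) by rw [hmul, ← mul_one zP, hmul],
      hcard, map_mul, map_mul, map_mul, map_mul]
    field_simp
    ring
  have hζ0 : ζ ≠ 0 := fun e => by simp [e] at hζ
  have hζi : ζ⁻¹ = ζ * ζ := inv_eq_of_mul_eq_one_right (by rw [← hζ]; ring)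
  by_cases hω1 : ω = 1
  · refine ⟨0, ?_⟩
    rw [hinner, hω1, hζi]
    simp only [map_mul, map_one, mul_one, Int.cast_zero]
    have h0 : (ζ - 1) * (1 + ζ + ζ * ζ) = 0 := by linear_combination hζ
    rw [(mul_eq_zero.1 h0).resolve_left (sub_ne_zero.2 hζ1), mul_zero]
  · -- the character lies over the central character and has degree three
    have hvan : ∀ a : ↥(P : Subgroup K), (a : K) ∉ zpowers z → χ.1 a = 0 := by
      intro a ha
      obtain ⟨x, hx, hxa⟩ := h.exists_conj_eq_mul a.2 ha (mem_zpowers z)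
      have e1 : (⟨x, hx⟩ : ↥(P : Subgroup K)) * a * (⟨x, hx⟩)⁻¹ = zP * a := Subtype.ext (by
        simp only [Subgroup.coe_mul, Subgroup.coe_inv]
        rw [hxa]
        exact hc _)
      have e2 := H26.irr_conj χ a ⟨x, hx⟩
      rw [e1, hmul] at e2
      by_contra hne
      exact hω1 (mul_eq_right₀ hne |>.1 e2)
    have hconj : ω * conj ω = 1 := by
      rw [Complex.mul_conj', Complex.norm_eq_one_of_pow_eq_one hω3 (by norm_num)]
      norm_num
    obtain ⟨d, hd'⟩ := H57.irr_degree χ.2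
    have hnorm := H57.irr_inner_self χ.2
    rw [Cfsg.classInner, hzsum _ fun a ha => by rw [hvan a ha, zero_mul], hzinv,
      show χ.1 zP = ω * χ.1 1 by rw [hω, div_mul_cancel₀ _ hd],
      show χ.1 (zP * zP) = ω * (ω * χ.1 1) by rw [hmul, ← mul_one zP, hmul], hd'.2, hcard,
      map_mul, map_mul, map_mul, Complex.conj_natCast, inv_mul_eq_iff_eq_mul₀ (by norm_num)] at hnorm
    have hd9 : (d : ℂ) * d = 9 := by
      have : (3 : ℂ) * ((d : ℂ) * d) = 27 := by
        linear_combination hnorm - (d : ℂ) * d * (1 + 1 + ω * conj ω) * hconj + 0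
      linear_combination this / 3
    have hd3 : d = 3 := by
      have : d * d = 3 * 3 := by exact_mod_cast hd9
      exact Nat.mul_self_inj.1 this
    have hx3 : (ζ * conj ω) ^ 3 = 1 := by rw [mul_pow, hζ, ← map_pow, hω3, map_one, one_mul]
    refine ⟨if ζ * conj ω = 1 then 1 else 0, ?_⟩
    rw [hinner, hd'.2, Complex.conj_natCast, hd3, map_mul, hζi]
    split_ifs with hx
    · push_cast
      linear_combination ((1 : ℂ) / 3) * (1 + (ζ * conj ω + 1)) * hx
    · push_cast
      have h0 : (ζ * conj ω - 1) * (1 + ζ * conj ω + (ζ * conj ω) * (ζ * conj ω)) = 0 := by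
        linear_combination hx3
      linear_combination ((1 : ℂ) / 3) * (mul_eq_zero.1 h0).resolve_left (sub_ne_zero.2 hx)

variable [(zpowers z).Normal]

/-- A class function of the quotient divisible by three on the singular elements. -/
structure Nice (P : Sylow 3 K) (z : K) [(zpowers z).Normal] (θ : K ⧸ zpowers z → ℂ)
    (F : ↥(qSylow P z : Subgroup (K ⧸ zpowers z)) → ℤ) : Prop where
  gen : Cfsg.IsGeneralizedCharacter (K ⧸ zpowers z) θ
  inv : H28.Ab.Inv (qSylow P z) F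
  one : F 1 = 0
  dvd : ∀ y, (3 : ℤ) ∣ F y
  val : ∀ g : K ⧸ zpowers z, 3 ∣ orderOf g →
    θ g = H28.Ab.lift (qSylow P z) (fun y => (F y : ℂ)) g

/-- The value at an element with `3`-part conjugate to `y` of `P`. -/
theorem nice_value {e : ℕ} (hctx : H28.Ab.Ctx (qSylow P z) e) {θ : K ⧸ zpowers z → ℂ}
    {F : ↥(qSylow P z : Subgroup (K ⧸ zpowers z)) → ℤ} (hn : Nice P z θ F) {w x y : K}
    (hx : Cfsg.IsPPart 3 w x) (hy : y ∈ (P : Subgroup K)) (hyZ : y ∉ zpowers z)
    (hxy : IsConj x y) :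
    θ (w : K ⧸ zpowers z) = (F ⟨_, h.mk_mem_qSylow hy⟩ : ℂ) := by
  have hxZ : x ∉ zpowers z := fun hh => by
    obtain ⟨c, hc'⟩ := isConj_iff.1 hxy
    exact hyZ (hc' ▸ (h.conj_mem_zpowers_iff hc).2 hh)
  have hpart : Cfsg.IsPPart 3 (w : K ⧸ zpowers z) (x : K ⧸ zpowers z) := by
    obtain ⟨v, hv, hcv, ⟨j, hj⟩, hreg⟩ := id hx
    refine ⟨v, by rw [← QuotientGroup.mk_mul, hv], hcv.map (QuotientGroup.mk' (zpowers z)), ?_,
      fun hd => hreg (hd.trans (orderOf_map_dvd (QuotientGroup.mk' (zpowers z)) v))⟩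
    have hdx : orderOf (x : K ⧸ zpowers z) ∣ orderOf x :=
      orderOf_map_dvd (QuotientGroup.mk' (zpowers z)) x
    rw [hj] at hdx
    obtain ⟨i, -, hi⟩ := (Nat.dvd_prime_pow Nat.prime_three).1 hdx
    exact ⟨i, hi⟩
  have hsing : 3 ∣ orderOf (w : K ⧸ zpowers z) := by
    by_contra hh
    have := H40.isPPart_unique hpart (H40.isPPart_of_regular hh)
    exact hxZ ((QuotientGroup.eq_one_iff x).1 this)
  rw [hn.val _ hsing, hctx.lift_eq (fun n hn' a b e' => by simp only [hn.inv n hn' a b e']) hpart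
    (y := ⟨_, h.mk_mem_qSylow hy⟩) (MonoidHom.map_isConj (QuotientGroup.mk' (zpowers z)) hxy)]

/-- `Λ θ` is a generalized character. -/
theorem gen_lam_mul {e : ℕ} (hctx : H28.Ab.Ctx (qSylow P z) e) {ζ : ℂ} (hζ : ζ ^ 3 = 1)
    (hζ1 : ζ ≠ 1) {θ : K ⧸ zpowers z → ℂ}
    {F : ↥(qSylow P z : Subgroup (K ⧸ zpowers z)) → ℤ} (hn : Nice P z θ F) :
    Cfsg.IsGeneralizedCharacter K (fun w => lam z ζ w * θ (w : K ⧸ zpowers z)) := by
  classical
  haveI := Fintype.ofFinite K
  have hπ : ∀ w c : K, θ ((c * w * c⁻¹ : K) : K ⧸ zpowers z) = θ (w : K ⧸ zpowers z) := fun w c => by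
    rw [QuotientGroup.mk_mul, QuotientGroup.mk_mul, QuotientGroup.mk_inv]
    exact H57.gen_classFunction hn.gen _ _
  refine H27.mem_genChars_of_elementary (fun w c => by
    simp only [h.lam_class hc hζ, hπ]) fun E q hq hE => ?_
  obtain ⟨ρ, σ, hρ, hσ, hR, hcomm⟩ := exists_parts_hom hq hE
  have hdec : ∀ a : E, (a : K) = ρ a * σ a := fun a => by rw [hρ, hσ, pp_mul_rp]
  by_cases hall : ∀ a : E, ρ a ∈ zpowers z
  · -- a linear character times a restriction
    have hne : ζ ≠ 0 := fun e' => by simp [e'] at hζ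
    have hlmul : ∀ a b : E, lam z ζ ((a * b : E) : K) = lam z ζ (a : K) * lam z ζ (b : K) := by
      intro a b
      obtain ⟨i, hi⟩ := mem_zpowers_iff.1 (hall a)
      obtain ⟨j, hj⟩ := mem_zpowers_iff.1 (hall b)
      rw [lam_of_eq hζ h (w := ((a * b : E) : K)) (i := i + j)
          (by rw [← hρ, map_mul, zpow_add, hi, hj]),
        lam_of_eq hζ h (w := (a : K)) (i := i) (by rw [← hρ, hi]),
        lam_of_eq hζ h (w := (b : K)) (i := j) (by rw [← hρ, hj]), zpow_add₀ hne]
    have hl1 : lam z ζ ((1 : E) : K) = 1 := lam_regular hζ h (by simp)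
    let lE : E →* ℂˣ := MonoidHom.toHomUnits
      { toFun := fun a => lam z ζ (a : K), map_one' := hl1, map_mul' := hlmul }
    have h1 : Cfsg.IsGeneralizedCharacter E (fun a => lam z ζ (a : K)) :=
      H57.gen_of_irr (H26.isIrrCharacter_hom lE)
    exact gen_mul h1 (gen_comp hn.gen ((QuotientGroup.mk' (zpowers z)).comp E.subtype))
  push Not at hall
  obtain ⟨a₀, ha₀⟩ := hall
  set a := ρ a₀ with hadef
  obtain ⟨S, hS⟩ := hR.exists_le_sylow
  obtain ⟨c, hcS⟩ := MulAction.exists_smul_eq K S P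
  have hcP : ∀ b : E, c * ρ b * c⁻¹ ∈ (P : Subgroup K) := fun b => by
    rw [← hcS]
    exact H22.conj_mem_smul_sylow (hS ⟨b, rfl⟩)
  have ha3 : a ^ 3 = 1 := by
    have := h.exp _ (hcP a₀)
    rw [conj_pow] at this
    exact conj_eq_one_iff.1 this
  have haord : orderOf a = 3 := orderOf_eq_prime ha3 fun e' => ha₀ (e' ▸ one_mem _)
  -- the product of `⟨a⟩` with the regular elements
  let ψ : ↥(zpowers a) × ↥σ.range →* K :=
    MonoidHom.noncommCoprod (zpowers a).subtype σ.range.subtype fun x y => by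
      obtain ⟨i, hi⟩ := mem_zpowers_iff.1 x.2
      obtain ⟨b, hb⟩ := y.2
      show Commute (x : K) (y : K)
      rw [← hi, ← hb]
      exact (hcomm a₀ b).zpow_left i
  have hregV : ∀ v : ↥σ.range, ¬ 3 ∣ orderOf (v : K) := by
    rintro ⟨_, b, rfl⟩
    show ¬ 3 ∣ orderOf (σ b)
    rw [hσ]
    exact regular_rp _
  have hthird := exists_third (a := (⟨a, mem_zpowers a⟩ : zpowers a))
    (by rw [Subgroup.orderOf_mk, haord])
    (fun x => by
      obtain ⟨i, hi⟩ := mem_zpowers_iff.1 x.2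
      exact mem_zpowers_iff.2 ⟨i, Subtype.ext (by simpa using hi)⟩)
    (gen_comp hn.gen ((QuotientGroup.mk' (zpowers z)).comp ψ)) fun x hx => ?_
  · -- assemble
    have hL : Cfsg.IsGeneralizedCharacter E (fun b => 3 * lam z ζ (b : K)) := by
      let φ : E →* ↥(P : Subgroup K) :=
        ((MulAut.conj c).toMonoidHom.comp ρ).codRestrict (P : Subgroup K) hcP
      have := gen_comp (h.gen_three_lam hc hζ hζ1) φ
      refine (congrArg (Cfsg.IsGeneralizedCharacter E) (funext fun b => ?_)).mp this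
      show 3 * lam z ζ (c * ρ b * c⁻¹) = 3 * lam z ζ (b : K)
      rw [h.lam_class hc hζ]
      congr 1
      have hpr : pp (ρ b) = ρ b := by
        refine pp_eq ⟨1, mul_one _, Commute.one_right _, ?_, by simp⟩
        rw [hρ]
        exact exists_pow_pp _
      by_cases hb : ρ b ∈ zpowers z
      · obtain ⟨i, hi⟩ := mem_zpowers_iff.1 hb
        rw [lam_of_eq hζ h (hpr.trans hi.symm), lam_of_eq hζ h ((hρ b).symm.trans hi.symm)]
      · rw [lam_of_notMem (by rwa [hpr]), lam_of_notMem (by rwa [← hρ])]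
    have hV := gen_comp hthird σ.rangeRestrict
    refine (congrArg (Cfsg.IsGeneralizedCharacter E) (funext fun b => ?_)).mp (gen_mul hL hV)
    show 3 * lam z ζ (b : K) * (θ ((ψ (1, σ.rangeRestrict b) : K) : K ⧸ zpowers z) / 3) = _
    have e1 : ψ (1, σ.rangeRestrict b) = σ b := by simp [ψ]
    rw [e1]
    by_cases hb : ρ b ∈ zpowers z
    · have : (b : K ⧸ zpowers z) = ((σ b : K) : K ⧸ zpowers z) := by
        rw [hdec b, QuotientGroup.mk_mul, (QuotientGroup.eq_one_iff _).2 hb, one_mul]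
      rw [this]
      ring
    · rw [lam_of_notMem (by rwa [← hρ]), mul_zero, zero_mul, zero_mul]
  · have hxZ : (x : K) ∉ zpowers z := by
      intro hh
      obtain ⟨i, hi⟩ := mem_zpowers_iff.1 (mem_zpowers_of_prime_card (p := 3)
        (by rw [Nat.card_zpowers, haord]) (g := x) (g' := ⟨a, mem_zpowers a⟩) hx)
      have e2 : (x : K) ^ i = a := by simpa using congrArg Subtype.val hi
      exact ha₀ (e2 ▸ zpow_mem hh i)
    obtain ⟨i, hi⟩ := mem_zpowers_iff.1 x.2
    have hxP : c * (x : K) * c⁻¹ ∈ (P : Subgroup K) := by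
      rw [← hi, ← conj_zpow]
      exact zpow_mem (hcP a₀) i
    have hxZ' : c * (x : K) * c⁻¹ ∉ zpowers z := fun hh => hxZ ((h.conj_mem_zpowers_iff hc).1 hh)
    obtain ⟨n, hn'⟩ := hn.dvd ⟨_, h.mk_mem_qSylow hxP⟩
    refine ⟨n, fun v => ?_⟩
    show θ ((ψ (x, v) : K) : K ⧸ zpowers z) = _
    have e1 : ψ (x, v) = (x : K) * (v : K) := rfl
    have hpart : Cfsg.IsPPart 3 ((x : K) * v) x := by
      obtain ⟨b, hb⟩ := v.2
      refine ⟨v, rfl, ?_, ?_, hregV v⟩
      · rw [← hi, ← hb]; exact (hcomm a₀ b).zpow_left i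
      · have hd : orderOf (x : K) ∣ 3 ^ 1 := by
          rw [pow_one]
          exact orderOf_dvd_of_pow_eq_one (by
            rw [← hi, ← zpow_natCast, ← zpow_mul, mul_comm, zpow_mul, zpow_natCast, ha3, one_zpow])
        obtain ⟨j, -, hj⟩ := (Nat.dvd_prime_pow Nat.prime_three).1 hd
        exact ⟨j, hj⟩
    rw [e1, h.nice_value hc hctx hn hpart hxP hxZ' (isConj_iff.2 ⟨c, rfl⟩), hn']
    push_cast
    rfl

/-- `(Λ - 1) θ`, zero on the regular elements. -/
noncomputable def phi (z : K) [(zpowers z).Normal] (ζ : ℂ) (θ : K ⧸ zpowers z → ℂ) (w : K) : ℂ :=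
  (lam z ζ w - 1) * θ (w : K ⧸ zpowers z)

theorem phi_regular {ζ : ℂ} (hζ : ζ ^ 3 = 1) (θ : K ⧸ zpowers z → ℂ) {w : K}
    (hw : ¬ 3 ∣ orderOf w) : phi z ζ θ w = 0 := by
  rw [phi, lam_regular hζ h hw, sub_self, zero_mul]

variable {e : ℕ} (hctx : H28.Ab.Ctx (qSylow P z) e) {ζ : ℂ} {θ : K ⧸ zpowers z → ℂ}
  {F : ↥(qSylow P z : Subgroup (K ⧸ zpowers z)) → ℤ}
include hctx

theorem gen_phi (hζ : ζ ^ 3 = 1) (hζ1 : ζ ≠ 1) (hn : Nice P z θ F) :
    Cfsg.IsGeneralizedCharacter K (phi z ζ θ) := by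
  refine (congrArg (Cfsg.IsGeneralizedCharacter K) (funext fun w => ?_)).mp
    (H57.gen_sub (h.gen_lam_mul hc hctx hζ hζ1 hn)
      (gen_comp hn.gen (QuotientGroup.mk' (zpowers z))))
  simp only [Pi.sub_apply, phi, QuotientGroup.mk'_apply]
  ring

theorem phi_section (hn : Nice P z θ F) {w x y : K} (hx : Cfsg.IsPPart 3 w x)
    (hy : y ∈ (P : Subgroup K)) (hyZ : y ∉ zpowers z) (hxy : IsConj x y) :
    phi z ζ θ w = -(F ⟨_, h.mk_mem_qSylow hy⟩ : ℂ) := by
  have hxZ : pp w ∉ zpowers z := fun hh => by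
    rw [pp_eq hx] at hh
    obtain ⟨c, hc'⟩ := isConj_iff.1 hxy
    exact hyZ (hc' ▸ (h.conj_mem_zpowers_iff hc).2 hh)
  rw [phi, lam_of_notMem hxZ, h.nice_value hc hctx hn hx hy hyZ hxy]
  ring

theorem flat_phi (hn : Nice P z θ F) : Flat P z (phi z ζ θ) := fun g x y hx hy hyZ hxy => by
  rw [h.phi_section hc hctx hn hx hy hyZ hxy,
    h.phi_section hc hctx hn (h.isPPart_self hy) hy hyZ (IsConj.refl y)]

end Setup

end Centre

end Cfsg.Agent.H31.Extra27
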