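import Cfsg.Agent.H31.Extra27.Twist

/-!
# The principal block for an extraspecial Sylow subgroup of order 27
-/

set_option autoImplicit false
set_option linter.unusedSectionVars false

open Subgroup
open scoped ComplexConjugate
open Cfsg.Agent.H44 (inflate)

namespace Cfsg.Agent.H31.Extra27

set_option maxHeartbeats 1600000

variable {G : Type*} [Group G] [Fintype G] [hp : Fact (Nat.Prime 3)] {P : Sylow 3 G} {z : G}
  {M : Ideal Cfsg.AlgInt} {e : ℕ}

namespace Setup

variable (h : Setup P z)
include h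

/-- The index in the centraliser of `z` is that in the group. -/
theorem relIndex_sub
    (he : ((P : Subgroup G) ⊔ centralizer ((P : Subgroup G) : Set G)).relIndex
      (normalizer ((P : Subgroup G) : Set G)) = e) :
    (((P.subtype h.P_le) : Subgroup (centralizer ({z} : Set G))) ⊔
      centralizer (((P.subtype h.P_le) : Subgroup (centralizer ({z} : Set G))) :
        Set (centralizer ({z} : Set G)))).relIndex
      (normalizer (((P.subtype h.P_le) : Subgroup (centralizer ({z} : Set G))) :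
        Set (centralizer ({z} : Set G)))) = e := by
  set C := centralizer ({z} : Set G)
  set PC : Subgroup C := ((P.subtype h.P_le) : Subgroup C) with hPC
  have hmem : ∀ x : C, x ∈ PC ↔ (x : G) ∈ (P : Subgroup G) := fun x => by
    rw [hPC, Sylow.coe_subtype, mem_subgroupOf]
  have h1 : PC.map C.subtype = (P : Subgroup G) := by
    ext x
    exact ⟨fun ⟨a, ha, hax⟩ => hax ▸ (hmem a).1 ha,
      fun hx => ⟨⟨x, h.P_le hx⟩, (hmem _).2 hx, rfl⟩⟩
  have h2 : (centralizer (PC : Set C)).map C.subtype = centralizer ((P : Subgroup G) : Set G) := by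
    ext x
    constructor
    · rintro ⟨a, ha, rfl⟩
      exact mem_centralizer_iff.2 fun w hw => congrArg Subtype.val
        (mem_centralizer_iff.1 ha ⟨w, h.P_le hw⟩ ((hmem _).2 hw))
    · intro hx
      refine ⟨⟨x, mem_centralizer_singleton_iff.2 (mem_centralizer_iff.1 hx z h.z_mem).symm⟩,
        mem_centralizer_iff.2 fun w hw => Subtype.ext ?_, rfl⟩
      exact mem_centralizer_iff.1 hx (w : G) ((hmem w).1 hw)
  have h3 : (normalizer (PC : Set C)).map C.subtype = normalizer ((P : Subgroup G) : Set G) := by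
    ext x
    constructor
    · rintro ⟨a, ha, rfl⟩
      refine mem_normalizer_iff.2 fun w => ?_
      constructor
      · intro hw
        have := (mem_normalizer_iff.1 ha ⟨w, h.P_le hw⟩).1 ((hmem _).2 hw)
        exact (hmem _).1 this
      · intro hw
        have hwC : w ∈ C := by
          have := mul_mem (mul_mem (inv_mem a.2) (h.P_le hw)) a.2
          simpa [mul_assoc] using this
        exact (hmem ⟨w, hwC⟩).1 ((mem_normalizer_iff.1 ha ⟨w, hwC⟩).2 ((hmem _).2 hw))
    · intro hx
      refine ⟨⟨x, mem_centralizer_singleton_iff.2 (h.norm x hx)⟩, mem_normalizer_iff.2 fun w => ?_,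
        rfl⟩
      rw [hmem, hmem]
      exact mem_normalizer_iff.1 hx (w : G)
  rw [← relIndex_map_map_of_injective (f := C.subtype) _ _ Subtype.val_injective, Subgroup.map_sup,
    h1, h2, h3, he]

open scoped Classical in
/-- Values at noncentral elements are integers congruent to the degree. -/
theorem exists_int_noncentral [(zpowers (⟨z, h.P_le h.z_mem⟩ : centralizer ({z} : Set G))).Normal]
    (hctx : H28.Ab.Ctx (qSylow (P.subtype h.P_le)
      (⟨z, h.P_le h.z_mem⟩ : centralizer ({z} : Set G))) e) (he : 2 ∣ e) {y : G}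
    (hy : y ∈ (P : Subgroup G)) (hyZ : y ∉ zpowers z) :
    IsConj y y⁻¹ ∧ ∀ χ : Cfsg.IrrCharacter G, ∃ n : ℤ, χ.1 y = n ∧
      (3 : ℤ) ∣ (Cfsg.charDegree (χ : G → ℂ) : ℤ) - n := by
  have hyC : (⟨y, h.P_le hy⟩ : centralizer ({z} : Set G)) ∈
      ((P.subtype h.P_le) : Subgroup (centralizer ({z} : Set G))) := by
    rw [Sylow.coe_subtype, mem_subgroupOf]
    exact hy
  obtain ⟨n, -, hn⟩ := exists_inverting hctx he
  have hq := hn ⟨_, h.sub.mk_mem_qSylow hyC⟩
  have hc1 : IsConj (⟨y, h.P_le hy⟩ : centralizer ({z} : Set G)) (⟨y, h.P_le hy⟩)⁻¹ := by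
    refine h.sub.isConj_of_mk h.sub_central (inv_mem hyC) (fun hh => hyZ ?_) (isConj_iff.2 ⟨n, ?_⟩)
    · have := h.mem_zpowers_sub.1 hh
      simpa using this
    · rw [QuotientGroup.mk_inv]
      exact hq.symm
  have hconj : IsConj y y⁻¹ := MonoidHom.map_isConj (centralizer ({z} : Set G)).subtype hc1
  refine ⟨hconj, fun χ => ?_⟩
  obtain ⟨n, d, hn, hd, hdvd⟩ := exists_int_value (H57.gen_of_irr χ.2) (h.exp y hy)
    (H26.irr_eq_of_isConj χ hconj).symm
  refine ⟨n, hn, ?_⟩
  have : (Cfsg.charDegree (χ : G → ℂ) : ℤ) = d := by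
    rw [H42.irr_one_eq] at hd
    exact_mod_cast hd
  rwa [this]

open scoped Classical in
/-- The square sum of the principal block on a central section. -/
theorem sum_central_section (hM : Cfsg.IsPModular 3 M) {v : G} (hv : v = z ∨ v = z⁻¹)
    {s : centralizer ({z} : Set G)} (hs : ¬ 3 ∣ orderOf s) :
    ∑ χ ∈ Finset.univ.filter (· ∈ Cfsg.principalBlock M G),
        χ.1 (v * s) * conj (χ.1 (v * s)) =
      ∑ ψ ∈ Finset.univ.filter (· ∈ Cfsg.principalBlock M (centralizer ({z} : Set G))),
        ψ.1 s * conj (ψ.1 s) := by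
  have hvP : v ∈ (P : Subgroup G) := by
    rcases hv with rfl | rfl
    exacts [h.z_mem, inv_mem h.z_mem]
  have hC : centralizer ({z} : Set G) = centralizer ({v} : Set G) := by
    rcases hv with rfl | rfl
    · rfl
    · ext g
      simp only [mem_centralizer_singleton_iff]
      exact ⟨fun e => (Commute.inv_right (show Commute g z from e)).eq,
        fun e => by simpa using (Commute.inv_right (show Commute g z⁻¹ from e)).eq⟩
  have main : ∀ (L : Subgroup G), L = centralizer ({v} : Set G) → ∀ s : L, ¬ 3 ∣ orderOf s →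
      ∑ χ ∈ Finset.univ.filter (· ∈ Cfsg.principalBlock M G),
          χ.1 (v * s) * conj (χ.1 (v * s)) =
        ∑ ψ ∈ Finset.univ.filter (· ∈ Cfsg.principalBlock M L), ψ.1 s * conj (ψ.1 s) := by
    intro L hL
    subst hL
    intro s hs
    set vL : centralizer ({v} : Set G) := ⟨v, mem_centralizer_singleton_iff.2 rfl⟩
    have hpart : Cfsg.IsPPart 3 ((vL * s : centralizer ({v} : Set G)) : G) v :=
      ⟨s, rfl, (mem_centralizer_singleton_iff.1 s.2).symm, h.exists_pow_three hvP,
        by rwa [Subgroup.orderOf_coe]⟩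
    refine (H41.sum_principalBlock_section hM (h.exists_pow_three hvP) hpart).trans ?_
    refine Finset.sum_congr rfl fun ψ _ => ?_
    have hcent : vL ∈ Subgroup.center (centralizer ({v} : Set G)) :=
      Subgroup.mem_center_iff.2 fun g => Subtype.ext (mem_centralizer_singleton_iff.1 g.2)
    rw [Complex.mul_conj', Complex.mul_conj']
    exact congrArg (fun r : ℝ => ((r : ℂ)) ^ 2) (H41.norm_central_mul ψ hcent s)
  exact main _ hC s hs

open scoped Classical in
/-- Sums over a noncentral class of characters outside the principal block, in section form. -/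
theorem inner_ind_notMem (hM : Cfsg.IsPModular 3 M) {φ : centralizer ({z} : Set G) → ℂ}
    (hφ : Local h φ) {η : Cfsg.IrrCharacter G} (hη : η ∉ Cfsg.principalBlock M G)
    (hprin : ∀ v : G, v = z ∨ v = z⁻¹ →
      ∑ s ∈ Finset.univ.filter (fun s : centralizer ({z} : Set G) => Cfsg.IsPRegular 3 s),
        h.ind φ (v * s) * conj (η.1 (v * s)) = 0) :
    Cfsg.classInner (h.ind φ) η.1 = 0 := by
  obtain ⟨T, hT⟩ := exists_isReps P z
  obtain ⟨hX, hXrep⟩ := h.sections_reps hT
  have hcl : Cfsg.IsClassFunction G fun g => h.ind φ g * conj (η.1 g) := fun g c => by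
    show h.ind φ (c * g * c⁻¹) * conj (η.1 (c * g * c⁻¹)) = h.ind φ g * conj (η.1 g)
    rw [h.ind_class hφ g c, H26.irr_conj]
  rw [Cfsg.classInner, H32.sum_eq_sum_sections hX hXrep hcl]
  refine mul_eq_zero_of_right _ (Finset.sum_eq_zero fun x hx => mul_eq_zero_of_right _ ?_)
  simp only [Finset.mem_union, Finset.mem_insert, Finset.mem_singleton] at hx
  have hinv : centralizer ({z⁻¹} : Set G) = centralizer ({z} : Set G) := by
    ext g
    simp only [mem_centralizer_singleton_iff]
    exact ⟨fun e => by simpa using (Commute.inv_right (show Commute g z⁻¹ from e)).eq,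
      fun e => (Commute.inv_right (show Commute g z from e)).eq⟩
  rcases hx with (e' | e' | e') | hxT
  · subst e'
    refine Finset.sum_eq_zero fun s hs => ?_
    rw [one_mul, h.ind_regular φ (by rw [Subgroup.orderOf_coe]; exact (Finset.mem_filter.1 hs).2),
      zero_mul]
  · rw [sum_subgroup_congr (show centralizer ({x} : Set G) = centralizer ({z} : Set G) by rw [e'])
      (fun g => h.ind φ (x * g) * conj (η.1 (x * g)))]
    exact hprin x (Or.inl e')
  · rw [sum_subgroup_congr (show centralizer ({x} : Set G) = centralizer ({z} : Set G) by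
      rw [e', hinv]) (fun g => h.ind φ (x * g) * conj (η.1 (x * g)))]
    exact hprin x (Or.inr e')
  · rw [Finset.sum_congr rfl fun s hs => by
      rw [h.ind_flat hφ (x * s) x x ⟨s, rfl, (mem_centralizer_singleton_iff.1 s.2).symm,
        h.exists_pow_three (hT.mem x hxT), by
          rw [Subgroup.orderOf_coe]; exact (Finset.mem_filter.1 hs).2⟩ (hT.mem x hxT)
        (hT.notMem x hxT) (IsConj.refl x)],
      ← Finset.mul_sum, ← map_sum, h.sum_section_eq_zero hM hη (hT.mem x hxT) (hT.notMem x hxT),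
      map_zero, mul_zero]

open scoped Classical in
/-- The invariants. -/
theorem counts (hM : Cfsg.IsPModular 3 M)
    (he : ((P : Subgroup G) ⊔ centralizer ((P : Subgroup G) : Set G)).relIndex
      (normalizer ((P : Subgroup G) : Set G)) = e) (hev : e = 2 ∨ e = 4 ∨ e = 8) :
    ∃ m r : ℕ, m + r = 6 ∧ r * e + 1 = 9 ∧
      Nat.card (Cfsg.principalBlock M G) = 3 * m + r ∧
      Cfsg.blockRank 3 (Cfsg.principalBlock M G) = m ∧
      Nat.card {χ : Cfsg.IrrCharacter G // χ ∈ Cfsg.principalBlock M G ∧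
        Cfsg.blockHeight 3 (Cfsg.principalBlock M G) (χ : G → ℂ) = 0} = 6 := by
  haveI := hM.2.1
  set zC : centralizer ({z} : Set G) := ⟨z, h.P_le h.z_mem⟩ with hzC
  haveI : (zpowers zC).Normal := normal_zpowers h.sub_central
  haveI : Fintype (centralizer ({z} : Set G) ⧸ zpowers zC) := Fintype.ofFinite _
  haveI : Fintype ↥(qSylow (P.subtype h.P_le) zC :
    Subgroup (centralizer ({z} : Set G) ⧸ zpowers zC)) := Fintype.ofFinite _
  have hS := h.sub
  have hcC := h.sub_central
  have hctx := hS.ctx_quotient hcC (h.relIndex_sub he)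
  have he2 : 2 ∣ e := by rcases hev with rfl | rfl | rfl <;> norm_num
  obtain ⟨D⟩ := hS.exists_hData hcC hctx hM hev
  obtain ⟨ζ, hζ, hζ1⟩ := exists_root
  have hζi : ζ⁻¹ ^ 3 = 1 := by rw [inv_pow, hζ, inv_one]
  have hζi1 : ζ⁻¹ ≠ 1 := fun e' => hζ1 (inv_eq_one.1 e')
  have hζne : ζ ≠ ζ⁻¹ := by
    intro e'
    have h1 := root_add hζ hζ1
    rw [← e'] at h1
    have h2 : ζ = -1 / 2 := by linear_combination h1 / 2
    rw [h2] at hζ
    norm_num at hζ
  obtain ⟨k₁, hk₁, hkk, hparts⟩ := exists_twist G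
  -- the family
  let φ : ℂ → {χ // χ ∈ D.J} → Fin D.r → centralizer ({z} : Set G) → ℂ := fun ω j i =>
    Setup.phi zC ω (Setup.theta D j i)
  have hnice := fun j i => hS.nice_theta hcC hctx hM D j i
  have hLoc : ∀ ω, ω ^ 3 = 1 → ω ≠ 1 → ∀ j i, Local h (φ ω j i) := fun ω hω hω1 j i =>
    ⟨H57.gen_classFunction (hS.gen_phi hcC hctx hω hω1 (hnice j i)),
      fun w hw => hS.phi_regular hcC hω _ hw, hS.flat_phi hcC hctx (hnice j i)⟩
  have hFgen : ∀ j i, Cfsg.IsGeneralizedCharacter G (h.ind (φ ζ j i)) := fun j i =>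
    h.ind_gen (hLoc ζ hζ hζ1 j i) (hS.gen_phi hcC hctx hζ hζ1 (hnice j i))
  choose u hu using fun j i => H57.gen_exists_coef (hFgen j i)
  have hin : ∀ j i χ, Cfsg.classInner (h.ind (φ ζ j i)) χ.1 = (u j i χ : ℂ) := fun j i χ => by
    rw [hu j i, H57.inner_coef]
  -- the twist
  let σf : Cfsg.IrrCharacter G → Cfsg.IrrCharacter G := H45.galIrr hk₁
  have hσval : ∀ χ g, (σf χ).1 g = χ.1 (g ^ k₁) := fun χ g => rfl
  have hσσ : ∀ χ, σf (σf χ) = χ := fun χ => Subtype.ext (funext fun g => by
    rw [hσval, hσval, ← pow_mul, hkk])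
  let σ : Cfsg.IrrCharacter G ≃ Cfsg.IrrCharacter G := Function.Involutive.toPerm σf hσσ
  have hFtw : ∀ j i g, h.ind (φ ζ⁻¹ j i) g = h.ind (φ ζ j i) (g ^ k₁) := fun j i g =>
    h.ind_twist (hLoc ζ hζ hζ1 j i) (hLoc _ hζi hζi1 j i) hparts
      (fun w => by
        have hc : ∀ v : centralizer ({z} : Set G), ((pp v : centralizer ({z} : Set G)) : G) = pp (v : G) :=
          fun v => (pp_eq (H40.isPPart_coe_iff.2 (pp_spec v))).symm
        have hr : ∀ v : centralizer ({z} : Set G), ((rp v : centralizer ({z} : Set G)) : G) = rp (v : G) :=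
          fun v => by simp only [rp, Subgroup.coe_mul, Subgroup.coe_inv, hc]
        refine hS.phi_twist hcC hctx he2 hζ (hnice j i) (Subtype.ext ?_) (Subtype.ext ?_)
        · rw [hc, Subgroup.coe_inv, hc, SubmonoidClass.coe_pow, (hparts (w : G)).1]
        · rw [hr, hr, SubmonoidClass.coe_pow, (hparts (w : G)).2]) g
  have hinσ : ∀ j i χ, Cfsg.classInner (h.ind (φ ζ⁻¹ j i)) χ.1 = (u j i (σf χ) : ℂ) := by
    intro j i χ
    rw [← hin j i (σf χ), Cfsg.classInner, Cfsg.classInner]
    congr 1
    refine Fintype.sum_bijective (fun g : G => g ^ k₁) (Function.Involutive.bijective fun g => ?_)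
      _ _ fun g => ?_
    · rw [← pow_mul, hkk]
    · rw [hFtw, hσval, ← pow_mul, hkk]
  -- outside the block
  have huB : ∀ χ, χ ∉ Cfsg.principalBlock M G → ∀ j i, u j i χ = 0 := by
    intro χ hχ j i
    refine (Int.cast_eq_zero (α := ℂ)).1 ?_
    rw [← hin]
    refine h.inner_ind_notMem hM (hLoc ζ hζ hζ1 j i) hχ fun v hv => ?_
    have hjB : j.1 ∈ Cfsg.principalBlock M (centralizer ({z} : Set G) ⧸ zpowers zC) := by
      rw [D.block]; exact Or.inl j.2
    have hXB : D.X i ∈ Cfsg.principalBlock M (centralizer ({z} : Set G) ⧸ zpowers zC) := by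
      rw [D.block]; exact Or.inr ⟨i, rfl⟩
    obtain ⟨c, hc⟩ : ∃ c : ℂ, ∀ s : centralizer ({z} : Set G), ¬ 3 ∣ orderOf s →
        h.ind (φ ζ j i) (v * s) = c * Setup.theta D j i (s : _ ⧸ zpowers zC) := by
      rcases hv with rfl | rfl
      · exact ⟨ζ - 1, fun s hs => by
          rw [show v * (s : G) = ((zC * s : centralizer ({v} : Set G)) : G) from rfl,
            h.ind_coe (hLoc ζ hζ hζ1 j i)]
          exact (hS.phi_shift hcC hctx hζ _ hs).1⟩
      · exact ⟨ζ⁻¹ - 1, fun s hs => by
          rw [show z⁻¹ * (s : G) = ((zC⁻¹ * s : centralizer ({z} : Set G)) : G) from rfl,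
            h.ind_coe (hLoc ζ hζ hζ1 j i)]
          exact (hS.phi_shift hcC hctx hζ _ hs).2⟩
    have key : ∀ χ' : Cfsg.IrrCharacter (centralizer ({z} : Set G) ⧸ zpowers zC),
        χ' ∈ Cfsg.principalBlock M (centralizer ({z} : Set G) ⧸ zpowers zC) →
        ∑ s ∈ Finset.univ.filter (fun s : centralizer ({z} : Set G) => Cfsg.IsPRegular 3 s),
          χ'.1 (s : _ ⧸ zpowers zC) * conj (χ.1 (v * (s : G))) = 0 := by
      intro χ' hχ'
      have e1 := congrArg (starRingEnd ℂ) (h.sum_center_eq_zero hM (η := χ) hv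
        (ψ := inflate (zpowers zC) χ') fun hiff => hχ (hiff.2 ((hS.inflate_mem_iff hcC hM χ').2 hχ')))
      rw [map_sum, map_zero] at e1
      rw [← e1]
      refine Finset.sum_congr rfl fun s _ => ?_
      rw [map_mul, Complex.conj_conj, mul_comm]
      rfl
    rw [Finset.sum_congr rfl fun (s : centralizer ({z} : Set G)) hs =>
      show h.ind (φ ζ j i) (v * (s : G)) * conj (χ.1 (v * (s : G))) =
        c * ((D.δ j.1 : ℂ) * (j.1.1 (s : _ ⧸ zpowers zC) * conj (χ.1 (v * (s : G))))) +
          c * ((D.η : ℂ) * ((D.X i).1 (s : _ ⧸ zpowers zC) * conj (χ.1 (v * (s : G))))) by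
        rw [hc s (Finset.mem_filter.1 hs).2]
        simp only [Setup.theta, Pi.add_apply, Pi.smul_apply]
        simp only [zsmul_eq_mul]
        ring,
      Finset.sum_add_distrib, ← Finset.mul_sum, ← Finset.mul_sum, ← Finset.mul_sum,
      ← Finset.mul_sum, key _ hjB, key _ hXB]
    simp
  -- the inner products
  have hpair : ∀ ω, ω ^ 3 = 1 → ω ≠ 1 → ∀ j i k l,
      Cfsg.classInner (h.ind (φ ζ j i)) (h.ind (φ ω k l)) =
        Cfsg.classInner (φ ζ j i) (φ ω k l) := by
    intro ω hω hω1 j i k l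
    rw [h.inner_ind (hLoc ζ hζ hζ1 j i) (h.ind_class (hLoc ω hω hω1 k l))
      (h.ind_flat (hLoc ω hω hω1 k l))]
    congr 1
    exact funext fun w => h.ind_coe (hLoc ω hω hω1 k l) w
  have hG : ∀ j i k l, ∑ x, u j i x * u k l x =
      2 * (if j = k then 1 else 0) + (if i = l then 1 else 0) := by
    intro j i k l
    apply Int.cast_injective (α := ℂ)
    push_cast
    rw [← (hS.gram_theta hcC hctx hM D hζ hζ1 j k i l).1, ← hpair ζ hζ hζ1 j i k l]
    conv_rhs => arg 2; rw [hu k l]
    rw [H26.classInner_sum_right]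
    refine Finset.sum_congr rfl fun x _ => ?_
    rw [H57.classInner_zsmul_right, hin]
    ring
  have hG' : ∀ j i k l, ∑ x, u j i x * u k l (σ x) =
      (if j = k then 1 else 0) + (if i = l then 1 else 0) := by
    intro j i k l
    apply Int.cast_injective (α := ℂ)
    push_cast
    rw [← (hS.gram_theta hcC hctx hM D hζ hζ1 j k i l).2, ← hpair _ hζi hζi1 j i k l,
      H26.classInner_comm]
    conv_rhs => arg 2; arg 2; rw [hu j i]
    rw [H26.classInner_sum_right, map_sum]
    refine Finset.sum_congr rfl fun x _ => ?_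
    rw [H57.classInner_zsmul_right, hinσ, map_mul, map_intCast, map_intCast]
    rfl
  set o : Cfsg.IrrCharacter G := H26.oneIrr G with ho_def
  have ho : σ o = o := Subtype.ext (funext fun g => by
    show (σf o).1 g = o.1 g
    rw [hσval, ho_def, H26.oneIrr_val, H26.oneIrr_val])
  let j₀ : {χ // χ ∈ D.J} := ⟨_, D.one_mem⟩
  have huo : ∀ j i, u j i o = if j = j₀ then -1 else 0 := by
    intro j i
    apply Int.cast_injective (α := ℂ)
    rw [← hin, show (o.1 : G → ℂ) = fun _ => 1 from funext fun g => H26.oneIrr_val g,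
      h.inner_ind (hLoc ζ hζ hζ1 j i) (fun _ _ => rfl) (fun _ _ _ _ _ _ _ => rfl),
      hS.phi_theta_one hcC hctx hM D hζ hζ1 j i]
    push_cast [apply_ite (Int.cast : ℤ → ℂ)]
    simp only [j₀, Subtype.ext_iff]
  have hJcard : Fintype.card {χ // χ ∈ D.J} = D.J.card := Fintype.card_coe _
  obtain ⟨S⟩ := exists_shape σ hσσ o j₀ ho u hG hG' huo (by rw [hJcard]; exact D.two_le)
    (by rw [Fintype.card_fin]; exact D.r_pos) (by rw [hJcard, Fintype.card_fin]; exact D.cond)
  set emb := Sum.elim (Sum.elim S.a (σ ∘ S.a)) (Sum.elim S.B S.C) with hemb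
  have hsep : ∀ {x y}, x ≠ y → emb x ≠ emb y := fun hxy e' => hxy (S.inj e')
  have hu_a : ∀ j i, u j i (S.a j) = S.s j := by
    intro j i
    rw [S.eq, Pi.add_apply, Pi.add_apply, pt_self,
      pt_ne (S.b i) (show (S.a j) ≠ (S.B i) from hsep (x := Sum.inl (Sum.inl j)) (y := Sum.inr (Sum.inl i)) (by simp)),
      pt_ne (S.g j) (show (S.a j) ≠ (S.C j) from hsep (x := Sum.inl (Sum.inl j)) (y := Sum.inr (Sum.inr j)) (by simp))]
    ring
  have hu_B : ∀ j i, u j i (S.B i) = S.b i := by
    intro j i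
    rw [S.eq, Pi.add_apply, Pi.add_apply, pt_self,
      pt_ne (S.s j) (show (S.B i) ≠ (S.a j) from hsep (x := Sum.inr (Sum.inl i)) (y := Sum.inl (Sum.inl j)) (by simp)),
      pt_ne (S.g j) (show (S.B i) ≠ (S.C j) from hsep (x := Sum.inr (Sum.inl i)) (y := Sum.inr (Sum.inr j)) (by simp))]
    ring
  have hu_C : ∀ j i, u j i (S.C j) = S.g j := by
    intro j i
    rw [S.eq, Pi.add_apply, Pi.add_apply, pt_self,
      pt_ne (S.s j) (show (S.C j) ≠ (S.a j) from hsep (x := Sum.inr (Sum.inr j)) (y := Sum.inl (Sum.inl j)) (by simp)),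
      pt_ne (S.b i) (show (S.C j) ≠ (S.B i) from hsep (x := Sum.inr (Sum.inr j)) (y := Sum.inr (Sum.inl i)) (by simp))]
    ring
  obtain ⟨i₀⟩ : Nonempty (Fin D.r) := ⟨⟨0, D.r_pos⟩⟩
  have hne0 : ∀ {s : ℤ}, (s = 1 ∨ s = -1) → s ≠ 0 := fun hs => by omega
  have hblockσ : ∀ j i χ, χ ∉ Cfsg.principalBlock M G → u j i (σf χ) = 0 := by
    intro j i χ hχ
    refine (Int.cast_eq_zero (α := ℂ)).1 ?_
    rw [← hinσ]
    refine h.inner_ind_notMem hM (hLoc _ hζi hζi1 j i) hχ fun v hv => ?_
    -- the twisted function is a multiple on each central section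
    obtain ⟨c, hc⟩ : ∃ c : ℂ, ∀ s : centralizer ({z} : Set G), ¬ 3 ∣ orderOf s →
        h.ind (φ ζ⁻¹ j i) (v * s) = c * h.ind (φ ζ j i) (v * s) := by
      rcases hv with rfl | rfl
      · exact ⟨(ζ⁻¹ - 1) / (ζ - 1), fun s hs => by
          rw [show v * (s : G) = ((zC * s : centralizer ({v} : Set G)) : G) from rfl,
            h.ind_coe (hLoc ζ hζ hζ1 j i), h.ind_coe (hLoc _ hζi hζi1 j i)]
          show Setup.phi zC ζ⁻¹ _ _ = _ * Setup.phi zC ζ _ _
          rw [(hS.phi_shift hcC hctx hζi _ hs).1, (hS.phi_shift hcC hctx hζ _ hs).1, ← mul_assoc,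
            div_mul_cancel₀ _ (sub_ne_zero.2 hζ1)]⟩
      · exact ⟨(ζ - 1) / (ζ⁻¹ - 1), fun s hs => by
          rw [show z⁻¹ * (s : G) = ((zC⁻¹ * s : centralizer ({z} : Set G)) : G) from rfl,
            h.ind_coe (hLoc ζ hζ hζ1 j i), h.ind_coe (hLoc _ hζi hζi1 j i)]
          show Setup.phi zC ζ⁻¹ _ _ = _ * Setup.phi zC ζ _ _
          rw [(hS.phi_shift hcC hctx hζi _ hs).2, (hS.phi_shift hcC hctx hζ _ hs).2, inv_inv,
            ← mul_assoc, div_mul_cancel₀ _ (sub_ne_zero.2 hζi1)]⟩
    have hjB : j.1 ∈ Cfsg.principalBlock M (centralizer ({z} : Set G) ⧸ zpowers zC) := by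
      rw [D.block]; exact Or.inl j.2
    have hXB : D.X i ∈ Cfsg.principalBlock M (centralizer ({z} : Set G) ⧸ zpowers zC) := by
      rw [D.block]; exact Or.inr ⟨i, rfl⟩
    obtain ⟨c', hc'⟩ : ∃ c' : ℂ, ∀ s : centralizer ({z} : Set G), ¬ 3 ∣ orderOf s →
        h.ind (φ ζ j i) (v * s) = c' * Setup.theta D j i (s : _ ⧸ zpowers zC) := by
      rcases hv with rfl | rfl
      · exact ⟨ζ - 1, fun s hs => by
          rw [show v * (s : G) = ((zC * s : centralizer ({v} : Set G)) : G) from rfl,
            h.ind_coe (hLoc ζ hζ hζ1 j i)]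
          exact (hS.phi_shift hcC hctx hζ _ hs).1⟩
      · exact ⟨ζ⁻¹ - 1, fun s hs => by
          rw [show z⁻¹ * (s : G) = ((zC⁻¹ * s : centralizer ({z} : Set G)) : G) from rfl,
            h.ind_coe (hLoc ζ hζ hζ1 j i)]
          exact (hS.phi_shift hcC hctx hζ _ hs).2⟩
    have key : ∀ χ' : Cfsg.IrrCharacter (centralizer ({z} : Set G) ⧸ zpowers zC),
        χ' ∈ Cfsg.principalBlock M (centralizer ({z} : Set G) ⧸ zpowers zC) →
        ∑ s ∈ Finset.univ.filter (fun s : centralizer ({z} : Set G) => Cfsg.IsPRegular 3 s),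
          χ'.1 (s : _ ⧸ zpowers zC) * conj (χ.1 (v * (s : G))) = 0 := by
      intro χ' hχ'
      have e1 := congrArg (starRingEnd ℂ) (h.sum_center_eq_zero hM (η := χ) hv
        (ψ := inflate (zpowers zC) χ') fun hiff => hχ (hiff.2 ((hS.inflate_mem_iff hcC hM χ').2 hχ')))
      rw [map_sum, map_zero] at e1
      rw [← e1]
      refine Finset.sum_congr rfl fun s _ => ?_
      rw [map_mul, Complex.conj_conj, mul_comm]
      rfl
    rw [Finset.sum_congr rfl fun (s : centralizer ({z} : Set G)) hs =>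
      show h.ind (φ ζ⁻¹ j i) (v * (s : G)) * conj (χ.1 (v * (s : G))) =
        c * c' * ((D.δ j.1 : ℂ) * (j.1.1 (s : _ ⧸ zpowers zC) * conj (χ.1 (v * (s : G))))) +
          c * c' * ((D.η : ℂ) * ((D.X i).1 (s : _ ⧸ zpowers zC) * conj (χ.1 (v * (s : G))))) by
        rw [hc s (Finset.mem_filter.1 hs).2, hc' s (Finset.mem_filter.1 hs).2]
        simp only [Setup.theta, Pi.add_apply, Pi.smul_apply]
        simp only [zsmul_eq_mul]
        ring,
      Finset.sum_add_distrib, ← Finset.mul_sum, ← Finset.mul_sum, ← Finset.mul_sum,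
      ← Finset.mul_sum, key _ hjB, key _ hXB]
    simp
  set A := Finset.univ.image emb with hA
  have hAcard : A.card = 3 * D.J.card + D.r := by
    rw [hA, Finset.card_image_of_injective _ S.inj, Finset.card_univ, Fintype.card_sum,
      Fintype.card_sum, Fintype.card_sum, hJcard, Fintype.card_fin]
    ring
  have hAB : ∀ χ ∈ A, χ ∈ Cfsg.principalBlock M G := by
    intro χ hχ
    by_contra hn
    obtain ⟨x, -, rfl⟩ := Finset.mem_image.1 hχ
    rcases x with (j | j) | (i | j)
    · exact hne0 (S.s_unit j) ((hu_a j i₀).symm.trans (huB _ hn j i₀))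
    · have := hblockσ j i₀ _ hn
      rw [show σf (emb (Sum.inl (Sum.inr j))) = S.a j from hσσ _] at this
      exact hne0 (S.s_unit j) ((hu_a j i₀).symm.trans this)
    · exact hne0 (S.b_unit i) ((hu_B j₀ i).symm.trans (huB _ hn j₀ i))
    · exact hne0 (S.g_unit j) ((hu_C j i₀).symm.trans (huB _ hn j i₀))
  have hAσ : ∀ χ, σf χ ∈ A → χ ∈ A := by
    intro χ hχ
    obtain ⟨x, -, hx⟩ := Finset.mem_image.1 hχ
    have hχ' : χ = σf (emb x) := by rw [hx, hσσ]
    rcases x with (j | j) | (i | j)
    · exact Finset.mem_image.2 ⟨Sum.inl (Sum.inr j), Finset.mem_univ _, hχ'.symm⟩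
    · exact Finset.mem_image.2 ⟨Sum.inl (Sum.inl j), Finset.mem_univ _,
        by rw [hχ']; exact (hσσ (S.a j)).symm⟩
    · exact Finset.mem_image.2 ⟨Sum.inr (Sum.inl i), Finset.mem_univ _,
        by rw [hχ']; exact (S.B_fix i).symm⟩
    · exact Finset.mem_image.2 ⟨Sum.inr (Sum.inr j), Finset.mem_univ _,
        by rw [hχ']; exact (S.C_fix j).symm⟩
  have hupt : ∀ j i x, x ∉ A → u j i x = 0 := by
    intro j i x hx
    have : ∀ y, x ≠ emb y := fun y e' => hx (Finset.mem_image.2 ⟨y, Finset.mem_univ _, e'.symm⟩)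
    rw [S.eq, Pi.add_apply, Pi.add_apply, pt_ne _ (a := S.a j) (this (Sum.inl (Sum.inl j))),
      pt_ne _ (a := S.B i) (this (Sum.inr (Sum.inl i))),
      pt_ne _ (a := S.C j) (this (Sum.inr (Sum.inr j)))]
    rfl
  obtain ⟨T, hT⟩ := exists_isReps P z
  have hTC := h.isReps_sub hT
  -- the number of representatives
  have hTr : T.card = D.r := by
    have hs := hS.sum_T hcC hctx hTC (f := fun q => if q = 1 then 0 else 1)
      (fun n hn a b e' => by
        have : b = 1 ↔ a = 1 := by
          constructor <;> rintro rfl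
          · exact Subtype.ext (by simpa using e'.symm)
          · exact Subtype.ext (by simpa using e')
        simp only [this]) (if_pos rfl)
    rw [Finset.sum_ite, Finset.sum_const_zero, zero_add, Finset.sum_const,
      Finset.filter_ne' Finset.univ, Finset.card_erase_of_mem (Finset.mem_univ _), Finset.card_univ,
      ← Nat.card_eq_fintype_card, hS.card_qSylow,
      Finset.sum_congr (s₁ := T.subtype (· ∈ centralizer ({z} : Set G))) rfl fun t ht => by
        rw [hS.qval_eq hcC _ (hTC.mem t ht), if_neg fun e' => hTC.notMem t ht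
          ((QuotientGroup.eq_one_iff t).1 (congrArg Subtype.val e'))],
      Finset.sum_const, Finset.card_subtype,
      Finset.filter_true_of_mem fun t ht => h.P_le (hT.mem t ht)] at hs
    simp only [nsmul_eq_mul, mul_one] at hs
    have hs' : e * T.card = 9 - 1 := by exact_mod_cast hs
    have := D.card_classes
    have he0 := hctx.pos
    nlinarith
  -- the columns
  choose col hcol hcolmod using fun (t : {t // t ∈ T}) (χ : Cfsg.IrrCharacter G) =>
    (h.exists_int_noncentral hctx he2 (hT.mem t.1 t.2) (hT.notMem t.1 t.2)).2 χ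
  have hcolσ : ∀ t χ, col t (σf χ) = col t χ := by
    intro t χ
    apply Int.cast_injective (α := ℂ)
    rw [← hcol, ← hcol, hσval]
    obtain ⟨h1, h2⟩ := hparts (t.1 : G)
    have hself : pp (t.1 : G) = t.1 := pp_eq (h.isPPart_self (hT.mem t.1 t.2))
    have hr : rp (t.1 : G) = 1 := by rw [rp, hself, inv_mul_cancel]
    rw [← pp_mul_rp ((t.1 : G) ^ k₁), h1, h2, hr, mul_one, hself]
    exact (H26.irr_eq_of_isConj χ
      (h.exists_int_noncentral hctx he2 (hT.mem t.1 t.2) (hT.notMem t.1 t.2)).1).symm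
  have hcolone : ∀ t, col t o = 1 := fun t => by
    apply Int.cast_injective (α := ℂ)
    rw [← hcol, ho_def, H26.oneIrr_val, Int.cast_one]
  have hcolumns : ∀ t : {t // t ∈ T}, (∀ j, col t (S.a j) = 0) ∧
      (∀ j, col t (S.C j) = 1 ∨ col t (S.C j) = -1) ∧ (∀ i, ¬ (3 : ℤ) ∣ col t (S.B i)) ∧
      ∀ χ ∈ Cfsg.principalBlock M G, χ ∉ A → col t χ = 0 := by
    intro t
    have hy := hT.mem t.1 t.2
    have hyZ := hT.notMem t.1 t.2
    have hyC : (⟨t.1, h.P_le hy⟩ : centralizer ({z} : Set G)) ∈
        ((P.subtype h.P_le) : Subgroup (centralizer ({z} : Set G))) := by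
      rw [Sylow.coe_subtype, mem_subgroupOf]; exact hy
    set q : ↥(qSylow (P.subtype h.P_le) zC : Subgroup (centralizer ({z} : Set G) ⧸ zpowers zC)) :=
      ⟨_, hS.mk_mem_qSylow hyC⟩
    have hq : q ≠ 1 := fun e' => hyZ (h.mem_zpowers_sub.1
      ((QuotientGroup.eq_one_iff _).1 (congrArg Subtype.val e')))
    have hval : ∀ j i, h.ind (φ ζ j i) t.1 = -(D.Δ i q : ℂ) := by
      intro j i
      have e1 := h.ind_coe (hLoc ζ hζ hζ1 j i) ⟨t.1, h.P_le hy⟩
      refine e1.trans ?_
      show Setup.phi zC ζ _ _ = _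
      rw [hS.phi_section hcC hctx (hnice j i) (hS.isPPart_self hyC) hyC
        (fun e' => hyZ (h.mem_zpowers_sub.1 e')) (IsConj.refl _)]
      show -(((if q = 1 then 0 else D.Δ i q : ℤ)) : ℂ) = _
      rw [if_neg hq]
    let α : {χ // χ ∈ D.J} → ℤ := fun j => S.s j * col t (S.a j)
    let β : Fin D.r → ℤ := fun i => S.b i * col t (S.B i)
    let γ : {χ // χ ∈ D.J} → ℤ := fun j => S.g j * col t (S.C j)
    have heq : ∀ j i, α j + β i + γ j = -D.Δ i q := by
      intro j i
      have e1 : ∑ x, u j i x * col t x = -D.Δ i q := by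
        apply Int.cast_injective (α := ℂ)
        push_cast
        rw [← hval j i, hu j i, Finset.sum_apply]
        refine Finset.sum_congr rfl fun x _ => ?_
        rw [Pi.smul_apply, zsmul_eq_mul, hcol]
      rw [← e1, S.eq j i]
      simp only [Pi.add_apply, add_mul, Finset.sum_add_distrib, sum_pt_mul]
      rfl
    have hsumA : ∑ x ∈ A, col t x * col t x =
        ∑ i, β i * β i + ∑ j, (2 * (α j * α j) + γ j * γ j) := by
      rw [hA, Finset.sum_image fun x _ y _ hxy => S.inj hxy, Fintype.sum_sum_type,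
        Fintype.sum_sum_type, Fintype.sum_sum_type]
      simp only [hemb, Sum.elim_inl, Sum.elim_inr, Function.comp_apply, α, β, γ,
        Finset.sum_add_distrib, ← Finset.mul_sum]
      rw [Finset.sum_congr (s₁ := (Finset.univ : Finset {χ // χ ∈ D.J})) rfl fun j _ =>
          show col t (σ (S.a j)) * col t (σ (S.a j)) = col t (S.a j) * col t (S.a j) by
            rw [show σ (S.a j) = σf (S.a j) from rfl, hcolσ],
        Finset.sum_congr (s₁ := (Finset.univ : Finset {χ // χ ∈ D.J}))
          (f := fun j => S.s j * col t (S.a j) * (S.s j * col t (S.a j))) rfl fun j _ =>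
          show S.s j * col t (S.a j) * (S.s j * col t (S.a j)) = col t (S.a j) * col t (S.a j) by
            rcases S.s_unit j with e' | e' <;> rw [e'] <;> ring,
        Finset.sum_congr (s₁ := (Finset.univ : Finset (Fin D.r)))
          (f := fun i => S.b i * col t (S.B i) * (S.b i * col t (S.B i))) rfl fun i _ =>
          show S.b i * col t (S.B i) * (S.b i * col t (S.B i)) = col t (S.B i) * col t (S.B i) by
            rcases S.b_unit i with e' | e' <;> rw [e'] <;> ring,
        Finset.sum_congr (s₁ := (Finset.univ : Finset {χ // χ ∈ D.J}))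
          (f := fun j => S.g j * col t (S.C j) * (S.g j * col t (S.C j))) rfl fun j _ =>
          show S.g j * col t (S.C j) * (S.g j * col t (S.C j)) = col t (S.C j) * col t (S.C j) by
            rcases S.g_unit j with e' | e' <;> rw [e'] <;> ring]
      ring
    have hB9 : ∑ x ∈ Finset.univ.filter (· ∈ Cfsg.principalBlock M G), col t x * col t x = 9 := by
      apply Int.cast_injective (α := ℂ)
      push_cast
      rw [← h.block_norm hM hy hyZ]
      exact Finset.sum_congr rfl fun x _ => by rw [hcol t x, map_intCast]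
    have hsub : A ⊆ Finset.univ.filter (· ∈ Cfsg.principalBlock M G) := fun x hx =>
      Finset.mem_filter.2 ⟨Finset.mem_univ _, hAB x hx⟩
    have hle : ∑ x ∈ A, col t x * col t x ≤ 9 := hB9 ▸
      Finset.sum_le_sum_of_subset_of_nonneg hsub fun x _ _ => mul_self_nonneg _
    have hcardJX : Fintype.card {χ // χ ∈ D.J} + Fintype.card (Fin D.r) = 6 := by
      rw [hJcard, Fintype.card_fin]; exact D.card_block
    have hγ : γ j₀ = -1 := by
      show S.g j₀ * col t (S.C j₀) = -1
      rw [S.g_zero, S.C_zero, hcolone, mul_one]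
    obtain ⟨hα, hγ', hβ⟩ := column_eq j₀ hcardJX (by rw [Fintype.card_fin]; exact D.r_pos)
      (fun i => D.Δ i q) β α γ (D.sum_Δ q hq) (D.sq_Δ q hq) hγ heq (hsumA ▸ hle)
    refine ⟨fun j => ?_, fun j => ?_, fun i hdvd => ?_, fun χ hχ hχA => ?_⟩
    · exact (mul_eq_zero.1 (hα j)).resolve_left (hne0 (S.s_unit j))
    · have e1 : S.g j * col t (S.C j) = -1 := hγ' j
      rcases S.g_unit j with e' | e' <;> rw [e'] at e1 <;> [right; left] <;> linarith
    · have e1 : S.b i * col t (S.B i) = 1 - D.Δ i q := hβ i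
      have h3 : (3 : ℤ) ∣ 1 - D.Δ i q := e1 ▸ hdvd.mul_left _
      have := D.dvd i q hq
      omega
    · have h9 := column_norm hcardJX (fun i => D.Δ i q) β α γ (D.sum_Δ q hq) (D.sq_Δ q hq)
        hα hγ' hβ
      rw [← hsumA] at h9
      have h0 := Finset.sum_sdiff (f := fun x => col t x * col t x) hsub
      rw [hB9, h9, add_eq_right] at h0
      exact mul_self_eq_zero.1 ((Finset.sum_eq_zero_iff_of_nonneg fun x _ => mul_self_nonneg _).1 h0 χ
        (Finset.mem_sdiff.2 ⟨Finset.mem_filter.2 ⟨Finset.mem_univ _, hχ⟩, hχA⟩))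
  -- completeness
  have hall : ∀ χ ∈ Cfsg.principalBlock M G, χ ∈ A := by
    intro χ hχ
    by_contra hχA
    have hvT : ∀ t ∈ T, χ.1 t = 0 := fun t ht => by
      rw [hcol ⟨t, ht⟩, (hcolumns ⟨t, ht⟩).2.2.2 χ hχ hχA, Int.cast_zero]
    have hχK : Flat P z χ.1 := h.flat_irr hM hχ
    set L : centralizer ({z} : Set G) → ℂ := fun w => χ.1 (w : G) with hL
    have hLc : Cfsg.IsClassFunction _ L := fun w a => by
      simp only [hL, Subgroup.coe_mul, Subgroup.coe_inv, H26.irr_conj]
    have hLflat : Flat (P.subtype h.P_le) zC L := fun w x y hx hy hyZ hxy =>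
      hχK (w : G) x y (H40.isPPart_coe_iff.2 hx)
        (by rwa [Sylow.coe_subtype, mem_subgroupOf] at hy) (fun e' => hyZ (h.mem_zpowers_sub.2 e'))
        (MonoidHom.map_isConj (centralizer ({z} : Set G)).subtype hxy)
    -- the pairings with the regular parts
    set Aplus : (centralizer ({z} : Set G) → ℂ) → ℂ := fun f =>
      ∑ s ∈ Finset.univ.filter (fun s : centralizer ({z} : Set G) => Cfsg.IsPRegular 3 s),
        f s * conj (L (zC * s)) with hAp
    set Aminus : (centralizer ({z} : Set G) → ℂ) → ℂ := fun f =>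
      ∑ s ∈ Finset.univ.filter (fun s : centralizer ({z} : Set G) => Cfsg.IsPRegular 3 s),
        f s * conj (L (zC⁻¹ * s)) with hAm
    have hzero : ∀ j i, ∀ ω, (ω = ζ ∨ ω = ζ⁻¹) →
        (ω - 1) * Aplus (fun s => Setup.theta D j i (s : _ ⧸ zpowers zC)) +
          (ω⁻¹ - 1) * Aminus (fun s => Setup.theta D j i (s : _ ⧸ zpowers zC)) = 0 := by
      intro j i ω hω
      have hω3 : ω ^ 3 = 1 := by rcases hω with e' | e' <;> rw [e'] <;> assumption
      have hω1 : ω ≠ 1 := by rcases hω with e' | e' <;> rw [e'] <;> assumption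
      have h0 : Cfsg.classInner (h.ind (φ ω j i)) χ.1 = 0 := by
        rcases hω with e' | e' <;> rw [e']
        · rw [hin, hupt j i χ hχA, Int.cast_zero]
        · rw [hinσ, hupt j i _ (fun e'' => hχA (hAσ χ e'')), Int.cast_zero]
      rw [h.inner_ind (hLoc ω hω3 hω1 j i) (fun g a => H26.irr_conj χ g a) hχK,
        hS.inner_phi hcC hctx hω3 hω1 (hnice j i) hTC hLc hLflat,
        Finset.sum_eq_zero (s := T.subtype (· ∈ centralizer ({z} : Set G))) fun t ht => by
          rw [show L t = 0 from hvT _ (Finset.mem_subtype.1 ht), map_zero, mul_zero],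
        mul_zero, sub_zero, mul_eq_zero] at h0
      have h1 := h0.resolve_left (inv_ne_zero (Nat.cast_ne_zero.2 Nat.card_pos.ne'))
      rw [← h1, hAp, hAm, Finset.mul_sum, Finset.mul_sum, ← Finset.sum_add_distrib]
      exact Finset.sum_congr rfl fun s _ => by ring
    have hA0 : ∀ j i, Aplus (fun s => Setup.theta D j i (s : _ ⧸ zpowers zC)) = 0 ∧
        Aminus (fun s => Setup.theta D j i (s : _ ⧸ zpowers zC)) = 0 := by
      intro j i
      have e1 := hzero j i ζ (Or.inl rfl)
      have e2 := hzero j i ζ⁻¹ (Or.inr rfl)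
      rw [inv_inv] at e2
      set a := Aplus (fun s => Setup.theta D j i (s : _ ⧸ zpowers zC))
      set b := Aminus (fun s => Setup.theta D j i (s : _ ⧸ zpowers zC))
      have hdiff : (ζ - ζ⁻¹) * (a - b) = 0 := by linear_combination e1 - e2
      have hab : a = b :=
        sub_eq_zero.1 ((mul_eq_zero.1 hdiff).resolve_left (sub_ne_zero.2 hζne))
      have h3 : (-3 : ℂ) * a = 0 := by
        linear_combination e1 + (ζ⁻¹ - 1) * hab - a * root_add hζ hζ1
      have ha0 := (mul_eq_zero.1 h3).resolve_left (by norm_num)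
      exact ⟨ha0, hab ▸ ha0⟩
    -- vanishing on both central sections
    have hcentral : ∀ v : centralizer ({z} : Set G), (v = zC ∨ v = zC⁻¹) →
        ∀ s : centralizer ({z} : Set G), ¬ 3 ∣ orderOf s → L (v * s) = 0 := by
      intro v hv s hs
      set Av : (centralizer ({z} : Set G) → ℂ) → ℂ := fun f =>
        ∑ s ∈ Finset.univ.filter (fun s : centralizer ({z} : Set G) => Cfsg.IsPRegular 3 s),
          f s * conj (L (v * s)) with hAv
      have hAv0 : ∀ j i, Av (fun s => Setup.theta D j i (s : _ ⧸ zpowers zC)) = 0 := by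
        intro j i
        rcases hv with e' | e' <;> rw [hAv, e']
        exacts [(hA0 j i).1, (hA0 j i).2]
      let J' : Cfsg.IrrCharacter (centralizer ({z} : Set G) ⧸ zpowers zC) → ℂ := fun χ' =>
        Av (fun s => χ'.1 (s : _ ⧸ zpowers zC))
      have hlin : ∀ (j : {χ // χ ∈ D.J}) (i : Fin D.r), (D.δ j.1 : ℂ) * J' j.1 + (D.η : ℂ) * J' (D.X i) = 0 := by
        intro j i
        rw [← hAv0 j i]
        simp only [J', hAv, Finset.mul_sum, ← Finset.sum_add_distrib]
        refine Finset.sum_congr rfl fun x _ => ?_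
        simp only [Setup.theta, Pi.add_apply, Pi.smul_apply]
        simp only [zsmul_eq_mul]
        ring
      have hX0 : ∀ i, (D.η : ℂ) * J' (D.X i) = 0 := by
        intro i
        have hrel : ∑ χ' ∈ D.J, (D.δ χ' : ℂ) * J' χ' +
            (3 - (D.r : ℂ)) * ((D.η : ℂ) * J' (D.X i)) = 0 := by
          simp only [J', hAv, Finset.mul_sum]
          rw [Finset.sum_comm, ← Finset.sum_add_distrib]
          refine Finset.sum_eq_zero fun x hx => ?_
          have := D.rel i (x : _ ⧸ zpowers zC) (hS.regular_mk hcC (Finset.mem_filter.1 hx).2)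
          calc ∑ χ' ∈ D.J, (D.δ χ' : ℂ) * (χ'.1 (x : _ ⧸ zpowers zC) * conj (L (v * x))) +
                (3 - (D.r : ℂ)) * ((D.η : ℂ) * ((D.X i).1 (x : _ ⧸ zpowers zC) * conj (L (v * x))))
              = (∑ χ' ∈ D.J, (D.δ χ' : ℂ) * χ'.1 (x : _ ⧸ zpowers zC) +
                (3 - (D.r : ℂ)) * ((D.η : ℂ) * (D.X i).1 (x : _ ⧸ zpowers zC))) *
                  conj (L (v * x)) := by
                rw [add_mul, Finset.sum_mul]
                congr 1
                · exact Finset.sum_congr rfl fun _ _ => by ring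
                · ring
            _ = 0 := by rw [this, zero_mul]
        rw [Finset.sum_congr rfl fun χ' hχ' => show (D.δ χ' : ℂ) * J' χ' =
          -((D.η : ℂ) * J' (D.X i)) from eq_neg_of_add_eq_zero_left (hlin ⟨χ', hχ'⟩ i),
          Finset.sum_const, nsmul_eq_mul] at hrel
        have hm : (D.J.card : ℂ) + D.r = 6 := by exact_mod_cast D.card_block
        have h3 : (-3 : ℂ) * ((D.η : ℂ) * J' (D.X i)) = 0 := by
          linear_combination hrel + ((D.η : ℂ) * J' (D.X i)) * hm
        exact (mul_eq_zero.1 h3).resolve_left (by norm_num)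
      have hunit : ∀ {a : ℤ}, (a = 1 ∨ a = -1) → ∀ {x : ℂ}, (a : ℂ) * x = 0 → x = 0 :=
        fun ha x hx => (mul_eq_zero.1 hx).resolve_left (Int.cast_ne_zero.2 (hne0 ha))
      have hJ0 : ∀ χ' ∈ Cfsg.principalBlock M (centralizer ({z} : Set G) ⧸ zpowers zC),
          J' χ' = 0 := by
        intro χ' hχ'
        rw [D.block] at hχ'
        rcases hχ' with hχ' | ⟨i, rfl⟩
        · have := hlin ⟨χ', hχ'⟩ i₀
          rw [hX0 i₀, add_zero] at this
          exact hunit (D.δ_unit χ') this
        · exact hunit D.η_unit (hX0 i)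
      have hvG : (v : G) = z ∨ (v : G) = z⁻¹ := by
        rcases hv with e' | e' <;> rw [e']
        exacts [Or.inl rfl, Or.inr rfl]
      have hcentv : ∀ a : centralizer ({z} : Set G), a * v = v * a := fun a => by
        rcases hv with e' | e' <;> rw [e']
        exacts [hcC a, (Commute.inv_right (show Commute a zC from hcC a)).eq]
      refine hS.eq_zero_of_orth hcC (θ := fun s => L (v * s)) (fun x a => ?_) (fun χ' => ?_) hs
      · show L (v * (a * x * a⁻¹)) = L (v * x)
        rw [← hLc (v * x) a]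
        congr 1
        calc v * (a * x * a⁻¹) = (v * a) * x * a⁻¹ := by group
          _ = (a * v) * x * a⁻¹ := by rw [hcentv]
          _ = a * (v * x) * a⁻¹ := by group
      · by_cases hχ' : χ' ∈ Cfsg.principalBlock M (centralizer ({z} : Set G) ⧸ zpowers zC)
        · have e1 := congrArg (starRingEnd ℂ) (hJ0 χ' hχ')
          simp only [J', hAv, map_sum, map_mul, Complex.conj_conj, map_zero] at e1
          rw [← e1]
          exact Finset.sum_congr rfl fun x _ => mul_comm _ _
        · exact h.sum_center_eq_zero hM (η := χ) hvG (ψ := inflate (zpowers zC) χ')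
            fun hiff => hχ' ((hS.inflate_mem_iff hcC hM χ').1 (hiff.1 hχ))
    have hvan : ∀ g : G, g ≠ 1 → (∃ j, orderOf g = 3 ^ j) → χ.1 g = 0 := by
      intro g hg ⟨j, hj⟩
      have hgpart : pp g = g := pp_eq ⟨1, mul_one _, Commute.one_right _, ⟨j, hj⟩, by simp⟩
      obtain ⟨c, hc⟩ := h.exists_conj_pp g
      rw [hgpart] at hc
      rw [← H26.irr_conj χ g c]
      by_cases hcZ : c * g * c⁻¹ ∈ zpowers z
      · have hz3 : c * g * c⁻¹ = z ∨ c * g * c⁻¹ = z⁻¹ := by
          obtain ⟨i, hi⟩ := mem_zpowers_iff.1 hcZ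
          have hi0 : i % 3 ≠ 0 := fun e' => hg (by
            rw [← zpow_mod_orderOf, h.orderOf_z, Nat.cast_ofNat, e', zpow_zero] at hi
            exact conj_eq_one_iff.1 hi.symm)
          have hrange : i % 3 = 1 ∨ i % 3 = 2 := by
            have := Int.emod_nonneg i (show (3 : ℤ) ≠ 0 by norm_num)
            have := Int.emod_lt_of_pos i (show (0 : ℤ) < 3 by norm_num)
            omega
          rw [← zpow_mod_orderOf, h.orderOf_z, Nat.cast_ofNat] at hi
          rcases hrange with e' | e' <;> rw [e'] at hi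
          · exact Or.inl (by simpa using hi.symm)
          · refine Or.inr (hi.symm.trans (eq_inv_of_mul_eq_one_left ?_))
            rw [show (2 : ℤ) = ((2 : ℕ) : ℤ) from rfl, zpow_natCast, ← pow_succ, h.exp z h.z_mem]
        rcases hz3 with e' | e' <;> rw [e']
        · have := hcentral zC (Or.inl rfl) 1 (by simp)
          simpa [hL, hzC] using this
        · have := hcentral zC⁻¹ (Or.inr rfl) 1 (by simp)
          simpa [hL, hzC] using this
      · obtain ⟨t, ht, hyt⟩ := hT.exists_conj _ hc hcZ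
        rw [H26.irr_eq_of_isConj χ hyt]
        exact hvT t ht
    have hsing := H40.blockOf_eq_singleton hM χ (H40.factorization_eq_of_vanish χ hvan).ge
    rw [← H41.eq_blockOf_of_mem H41.isPBlock_principalBlock hχ] at hsing
    have hoA : o ∈ A := Finset.mem_image.2 ⟨Sum.inr (Sum.inr j₀), Finset.mem_univ _, S.C_zero⟩
    have h1 := hAB o hoA
    rw [hsing] at h1
    exact hχA (Set.mem_singleton_iff.1 h1 ▸ hoA)
  have hblock : Finset.univ.filter (· ∈ Cfsg.principalBlock M G) = A :=
    Finset.ext fun χ => ⟨fun hχ => hall χ (Finset.mem_filter.1 hχ).2,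
      fun hχ => Finset.mem_filter.2 ⟨Finset.mem_univ _, hAB χ hχ⟩⟩
  have hcard : Nat.card (Cfsg.principalBlock M G) = 3 * D.J.card + D.r := by
    rw [Nat.card_eq_fintype_card, Fintype.card_subtype, ← hAcard, ← hblock]
  refine ⟨D.J.card, D.r, D.card_block, D.card_classes, hcard, ?_, ?_⟩
  · -- the rank
    have hquot : Cfsg.blockRank 3 (Cfsg.principalBlock M (centralizer ({z} : Set G))) = D.J.card := by
      rw [H40.blockRank_principal_quotient hM (hS.isPGroup_Z hcC) (hS.sup_centralizer_Z hcC)]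
      have h1 := card_principal_eq hctx hS.card_qSylow hM D.card_classes
      have h2 : Nat.card (Cfsg.principalBlock M (centralizer ({z} : Set G) ⧸ zpowers zC)) =
          D.J.card + D.r := by
        rw [D.block, Nat.card_coe_set_eq, Set.ncard_union_eq ?_ (Finset.finite_toSet _)
          (Set.finite_range _), Set.ncard_coe_finset, Set.ncard_range_of_injective D.X_inj,
          Nat.card_fin]
        rw [Set.disjoint_left]
        rintro _ hx ⟨i, rfl⟩
        exact D.notMem i hx
      exact Nat.add_right_cancel (h1.symm.trans h2)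
    set f : G → ℂ := fun g => ∑ χ ∈ Finset.univ.filter (· ∈ Cfsg.principalBlock M G),
      χ.1 g * conj (χ.1 g) with hf
    have hfc : Cfsg.IsClassFunction G f := fun g a => by simp only [hf, H26.irr_conj]
    have hfl : Flat P z f := fun g x y hx hy hyZ hxy => by
      simp only [hf]
      exact Finset.sum_congr rfl fun χ hχ => by
        rw [h.flat_irr hM (Finset.mem_filter.1 hχ).2 g x y hx hy hyZ hxy]
    have hk : (Nat.card (Cfsg.principalBlock M G) : ℂ) * (Nat.card G : ℂ) = ∑ g, f g := by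
      simp only [hf]
      rw [Finset.sum_comm, Finset.sum_congr rfl fun χ _ => show ∑ g : G, χ.1 g * conj (χ.1 g) =
        (Nat.card G : ℂ) by
          have e1 := H57.irr_inner_self χ.2
          rwa [Cfsg.classInner, inv_mul_eq_iff_eq_mul₀ (Nat.cast_ne_zero.2 Nat.card_pos.ne'),
            mul_one] at e1,
        Finset.sum_const, nsmul_eq_mul, Nat.card_eq_fintype_card, Fintype.card_subtype]
    rw [h.sum_eq hT hfc hfl,
      Finset.sum_congr (s₁ := T) rfl fun t ht => show f t = 9 from
        h.block_norm hM (hT.mem t ht) (hT.notMem t ht),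
      Finset.sum_congr (s₁ := Finset.univ.filter
          fun s : centralizer ({z} : Set G) => Cfsg.IsPRegular 3 s) rfl fun s hs =>
        show f (z * s) + f (z⁻¹ * s) = 2 * ∑ ψ ∈ Finset.univ.filter
            (· ∈ Cfsg.principalBlock M (centralizer ({z} : Set G))), ψ.1 s * conj (ψ.1 s) by
          simp only [hf]
          rw [h.sum_central_section hM (Or.inl rfl) (Finset.mem_filter.1 hs).2,
            h.sum_central_section hM (Or.inr rfl) (Finset.mem_filter.1 hs).2, two_mul],
      ← Finset.mul_sum, sum_regular_block_sq hM H41.isPBlock_principalBlock,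
      sum_regular_block_sq hM H41.isPBlock_principalBlock, Finset.sum_const, nsmul_eq_mul, hTr,
      hquot, hcard] at hk
    have hG0 : (Nat.card G : ℂ) ≠ 0 := Nat.cast_ne_zero.2 Nat.card_pos.ne'
    have hC0 : (Nat.card (centralizer ({z} : Set G)) : ℂ) ≠ 0 :=
      Nat.cast_ne_zero.2 Nat.card_pos.ne'
    apply Nat.cast_injective (R := ℂ)
    push_cast at hk
    field_simp at hk
    linear_combination -hk
  · -- the characters of height zero
    have hoB : o ∈ Cfsg.principalBlock M G :=
      hAB o (Finset.mem_image.2 ⟨Sum.inr (Sum.inr j₀), Finset.mem_univ _, S.C_zero⟩)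
    have hinf : sInf ((fun ψ : Cfsg.IrrCharacter G =>
        (Cfsg.charDegree (ψ : G → ℂ)).factorization 3) '' Cfsg.principalBlock M G) = 0 := by
      refine Nat.sInf_eq_zero.2 (Or.inl ⟨o, hoB, ?_⟩)
      show (Cfsg.charDegree (o : G → ℂ)).factorization 3 = 0
      rw [H42.charDegree_of_eq_nat (n := 1) (by simp [ho_def, H26.oneIrr_val]),
        Nat.factorization_one]
      rfl
    have hzero : ∀ χ : Cfsg.IrrCharacter G,
        Cfsg.blockHeight 3 (Cfsg.principalBlock M G) (χ : G → ℂ) = 0 ↔
          ¬ 3 ∣ Cfsg.charDegree (χ : G → ℂ) := by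
      intro χ
      rw [Cfsg.blockHeight, hinf, Nat.sub_zero, Nat.factorization_eq_zero_iff]
      have := (H42.charDegree_pos χ).ne'
      simp [Nat.prime_three, this]
    obtain ⟨t₀, ht₀⟩ : T.Nonempty := Finset.card_pos.1 (hTr ▸ D.r_pos)
    obtain ⟨ha, hC, hB, -⟩ := hcolumns ⟨t₀, ht₀⟩
    have hmodt : ∀ χ : Cfsg.IrrCharacter G, (3 : ℤ) ∣ (Cfsg.charDegree (χ : G → ℂ) : ℤ) - col ⟨t₀, ht₀⟩ χ := fun χ =>
      hcolmod ⟨t₀, ht₀⟩ χ
    let Y := Finset.univ.image fun x : Fin D.r ⊕ {χ // χ ∈ D.J} => emb (Sum.inr x)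
    have hY : ∀ χ, χ ∈ Cfsg.principalBlock M G ∧
        Cfsg.blockHeight 3 (Cfsg.principalBlock M G) (χ : G → ℂ) = 0 ↔ χ ∈ Y := by
      intro χ
      rw [hzero]
      constructor
      · rintro ⟨hχ, hd⟩
        obtain ⟨x, -, rfl⟩ := Finset.mem_image.1 (hall χ hχ)
        rcases x with (j | j) | y
        · refine absurd ?_ hd
          have := hmodt (emb (Sum.inl (Sum.inl j)))
          rw [show col ⟨t₀, ht₀⟩ (emb (Sum.inl (Sum.inl j))) = 0 from ha j, sub_zero] at this
          exact_mod_cast this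
        · refine absurd ?_ hd
          have := hmodt (emb (Sum.inl (Sum.inr j)))
          rw [show col ⟨t₀, ht₀⟩ (emb (Sum.inl (Sum.inr j))) = 0 from
            (hcolσ _ (S.a j)).trans (ha j), sub_zero] at this
          exact_mod_cast this
        · exact Finset.mem_image.2 ⟨y, Finset.mem_univ _, rfl⟩
      · intro hχ
        obtain ⟨y, -, rfl⟩ := Finset.mem_image.1 hχ
        refine ⟨hAB _ (Finset.mem_image.2 ⟨_, Finset.mem_univ _, rfl⟩), fun hd => ?_⟩
        have hd' : (3 : ℤ) ∣ (Cfsg.charDegree (emb (Sum.inr y) : G → ℂ) : ℤ) := by exact_mod_cast hd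
        have h3 := dvd_sub hd' (hmodt (emb (Sum.inr y)))
        rw [sub_sub_cancel] at h3
        rcases y with i | j
        · exact hB i h3
        · rcases hC j with e' | e' <;>
            rw [show col ⟨t₀, ht₀⟩ (emb (Sum.inr (Sum.inr j))) = col ⟨t₀, ht₀⟩ (S.C j) from rfl,
              e'] at h3 <;> norm_num at h3
    rw [Nat.card_congr (Equiv.subtypeEquivRight hY), Nat.card_eq_fintype_card, Fintype.card_coe,
      Finset.card_image_of_injective _ (f := fun x : Fin D.r ⊕ {χ // χ ∈ D.J} => emb (Sum.inr x))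
        (fun a b hab => Sum.inr_injective (S.inj hab)), Finset.card_univ,
      Fintype.card_sum, Fintype.card_fin, hJcard, add_comm]
    exact D.card_block

end Setup

end Cfsg.Agent.H31.Extra27
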