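import Cfsg.Agent.H31.Extra27.Fusion
import Cfsg.Agent.H28.AbelianSection
import Cfsg.Agent.H32.BlockCount
import Cfsg.Agent.H41.PrincipalSection
import Cfsg.Agent.S0942
import Cfsg.Agent.S0947

/-!
# The 3-sections of a group with extraspecial Sylow subgroup of order 27
-/

set_option autoImplicit false
set_option linter.unusedSectionVars false

open Subgroup
open scoped ComplexConjugate

namespace Cfsg.Agent.H31.Extra27

variable {G : Type*} [Group G] [Finite G] {P : Sylow 3 G} {z : G} {M : Ideal Cfsg.AlgInt}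

/-- A function with one value on each section of a noncentral element. -/
def Flat (P : Sylow 3 G) (z : G) (f : G → ℂ) : Prop :=
  ∀ g x y : G, Cfsg.IsPPart 3 g x → y ∈ (P : Subgroup G) → y ∉ zpowers z → IsConj x y → f g = f y

/-- Representatives of the noncentral classes of `P`. -/
structure IsReps (P : Sylow 3 G) (z : G) (T : Finset G) : Prop where
  mem : ∀ t ∈ T, t ∈ (P : Subgroup G)
  notMem : ∀ t ∈ T, t ∉ zpowers z
  exists_conj : ∀ y ∈ (P : Subgroup G), y ∉ zpowers z → ∃ t ∈ T, IsConj y t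
  unique : ∀ t ∈ T, ∀ t' ∈ T, IsConj t t' → t = t'

theorem exists_isReps (P : Sylow 3 G) (z : G) : ∃ T : Finset G, IsReps P z T := by
  classical
  haveI := Fintype.ofFinite G
  set S := (Finset.univ.filter fun g : G => g ∈ (P : Subgroup G) ∧ g ∉ zpowers z)
  have hsec : ∀ c ∈ S.image ConjClasses.mk, ∃ g ∈ S, ConjClasses.mk g = c := fun c hc =>
    Finset.mem_image.1 hc
  choose F hF hF' using hsec
  refine ⟨(S.image ConjClasses.mk).attach.image fun c => F c.1 c.2, ?_, ?_, ?_, ?_⟩
  · intro t ht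
    obtain ⟨c, -, rfl⟩ := Finset.mem_image.1 ht
    exact (Finset.mem_filter.1 (hF c.1 c.2)).2.1
  · intro t ht
    obtain ⟨c, -, rfl⟩ := Finset.mem_image.1 ht
    exact (Finset.mem_filter.1 (hF c.1 c.2)).2.2
  · intro y hy hyZ
    have hc : ConjClasses.mk y ∈ S.image ConjClasses.mk :=
      Finset.mem_image_of_mem _ (Finset.mem_filter.2 ⟨Finset.mem_univ _, hy, hyZ⟩)
    exact ⟨F _ hc, Finset.mem_image.2 ⟨⟨_, hc⟩, Finset.mem_attach _ _, rfl⟩,
      ConjClasses.mk_eq_mk_iff_isConj.1 (hF' _ hc).symm⟩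
  · intro t ht t' ht' htt
    obtain ⟨⟨c, hc⟩, -, rfl⟩ := Finset.mem_image.1 ht
    obtain ⟨⟨c', hc'⟩, -, rfl⟩ := Finset.mem_image.1 ht'
    have := ConjClasses.mk_eq_mk_iff_isConj.2 htt
    rw [hF' c hc, hF' c' hc'] at this
    subst this
    rfl

open scoped Classical in
theorem sum_subgroup_congr [Fintype G] {K K' : Subgroup G} (e : K = K') (f : G → ℂ) :
    ∑ s ∈ Finset.univ.filter (fun s : K => Cfsg.IsPRegular 3 s), f s =
      ∑ s ∈ Finset.univ.filter (fun s : K' => Cfsg.IsPRegular 3 s), f s := by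
  subst e
  rfl

open scoped Classical in
theorem sum_top_subgroup [Fintype G] {K : Subgroup G} (e : K = ⊤) (f : G → ℂ) :
    ∑ s ∈ Finset.univ.filter (fun s : K => Cfsg.IsPRegular 3 s), f s =
      ∑ g ∈ Finset.univ.filter (fun g : G => Cfsg.IsPRegular 3 g), f g := by
  refine Finset.sum_nbij (fun s : K => (s : G)) ?_ ?_ ?_ fun _ _ => rfl
  · intro s hs
    refine Finset.mem_filter.2 ⟨Finset.mem_univ _, ?_⟩
    have := (Finset.mem_filter.1 hs).2
    rwa [Cfsg.IsPRegular, ← Subgroup.orderOf_coe] at this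
  · intro a _ b _ hab
    exact Subtype.ext hab
  · intro g hg
    refine ⟨⟨g, e ▸ mem_top g⟩, ?_, rfl⟩
    refine Finset.mem_filter.2 ⟨Finset.mem_univ _, ?_⟩
    rw [Cfsg.IsPRegular, ← Subgroup.orderOf_coe]
    exact (Finset.mem_filter.1 hg).2

namespace Setup

variable (h : Setup P z)
include h

theorem exists_pow_three {y : G} (hy : y ∈ (P : Subgroup G)) : ∃ k : ℕ, orderOf y = 3 ^ k :=
  H28.Ab.exists_orderOf (⟨y, hy⟩ : ↥(P : Subgroup G))

theorem ne_one_of_notMem {y : G} (hyZ : y ∉ zpowers z) : y ≠ 1 := fun e => hyZ (e ▸ one_mem _)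

theorem isPPart_self {y : G} (hy : y ∈ (P : Subgroup G)) : Cfsg.IsPPart 3 y y :=
  haveI := Fact.mk Nat.prime_three
  H28.Ab.isPPart_self (⟨y, hy⟩ : ↥(P : Subgroup G))

/-- The regular elements of a noncentral centralizer. -/
theorem regular_iff_mem {y : G} (hy : y ∈ (P : Subgroup G)) (hyZ : y ∉ zpowers z) :
    ∃ O : Subgroup (centralizer ({y} : Set G)), O.Normal ∧ ¬ 3 ∣ Nat.card O ∧ O.index = 9 ∧
      ∀ s : centralizer ({y} : Set G), ¬ 3 ∣ orderOf s ↔ s ∈ O := by
  haveI := Fact.mk Nat.prime_three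
  obtain ⟨O, hOn, hOp, hOi⟩ := h.exists_complement hy hyZ
  refine ⟨O, hOn, hOp, hOi, fun s => ⟨fun hs => ?_, fun hs hd => ?_⟩⟩
  · haveI := Fintype.ofFinite (centralizer ({y} : Set G))
    exact H41.mem_of_regular_of_index O ⟨2, hOi.trans (by norm_num)⟩ (g := s) hs
  · refine hOp (hd.trans ?_)
    have := orderOf_dvd_natCard (⟨s, hs⟩ : O)
    rwa [Subgroup.orderOf_mk] at this

open scoped Classical in
theorem card_regular_mul [Fintype G] {y : G} (hy : y ∈ (P : Subgroup G)) (hyZ : y ∉ zpowers z) :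
    (Finset.univ.filter fun s : centralizer ({y} : Set G) => Cfsg.IsPRegular 3 s).card * 9 =
      Nat.card (centralizer ({y} : Set G)) := by
  obtain ⟨O, -, -, hOi, hO⟩ := h.regular_iff_mem hy hyZ
  rw [← O.card_mul_index, hOi, Nat.card_eq_fintype_card (α := O), Fintype.card_subtype]
  congr 2
  ext s
  simp [Cfsg.IsPRegular, hO]

/-- A member of the principal block is constant on noncentral sections. -/
theorem flat_irr (hM : Cfsg.IsPModular 3 M) {χ : Cfsg.IrrCharacter G}
    (hχ : χ ∈ Cfsg.principalBlock M G) : Flat P z χ.1 := by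
  haveI := Fact.mk Nat.prime_three
  intro g x y hx hy hyZ hxy
  obtain ⟨c, hc⟩ := isConj_iff.1 hxy
  obtain ⟨v, hv, hcv, hord, hreg⟩ := H40.isPPart_conj c hx
  rw [hc] at hv hcv hord
  obtain ⟨O, hOn, hOp, -, hO⟩ := h.regular_iff_mem hy hyZ
  have hvC : v ∈ centralizer ({y} : Set G) :=
    Subgroup.mem_centralizer_singleton_iff.2 hcv.eq.symm
  haveI := Fintype.ofFinite (centralizer ({y} : Set G))
  have hvO : (⟨v, hvC⟩ : centralizer ({y} : Set G)) ∈ O := (hO _).1 (by rwa [Subgroup.orderOf_mk])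
  have hcore : v ∈ Cfsg.centralizerPPrimeCore 3 y :=
    ⟨⟨v, hvC⟩, H19.le_pPrimeCore hOn
      ((Nat.Prime.coprime_iff_not_dvd Fact.out).2 hOp).symm hvO, rfl⟩
  rw [← H26.irr_conj χ g c, ← hv]
  exact S0942.result 3 M hM y hord v hcore χ hχ

open scoped Classical in
/-- The square norm of the principal block at a noncentral element is nine. -/
theorem block_norm (hM : Cfsg.IsPModular 3 M) {y : G} (hy : y ∈ (P : Subgroup G))
    (hyZ : y ∉ zpowers z) [Fintype G] :
    ∑ χ ∈ Finset.univ.filter (· ∈ Cfsg.principalBlock M G), χ.1 y * conj (χ.1 y) = 9 := by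
  haveI := Fact.mk Nat.prime_three
  obtain ⟨O, hOn, hOp, hOi, -⟩ := h.regular_iff_mem hy hyZ
  have hidx : ∃ j, (Cfsg.pPrimeCore 3 (centralizer ({y} : Set G))).index = 3 ^ j := by
    have hdvd := Subgroup.index_dvd_of_le (H19.le_pPrimeCore hOn
      ((Nat.Prime.coprime_iff_not_dvd Fact.out).2 hOp).symm)
    rw [hOi, show 9 = 3 ^ 2 from rfl] at hdvd
    obtain ⟨j, -, hj⟩ := (Nat.dvd_prime_pow Fact.out).1 hdvd
    exact ⟨j, hj⟩
  have hfac : 3 ^ (Nat.card (centralizer ({y} : Set G))).factorization 3 = 9 := by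
    rw [← O.card_mul_index, hOi, show 9 = 3 ^ 2 from rfl,
      Nat.factorization_mul Nat.card_pos.ne' (by norm_num), Finsupp.add_apply,
      Nat.factorization_eq_zero_of_not_dvd hOp, Nat.prime_three.factorization_pow,
      Finsupp.single_eq_same, zero_add]
  have := (S0947.result 3 M hM y (h.exists_pow_three hy) (h.ne_one_of_notMem hyZ) 1
    (by simp)).2 hidx
  rw [hfac, finsum_mem_eq_finite_toFinset_sum _ (Set.toFinite _)] at this
  have h2 := congrArg (fun x : ℝ => (x : ℂ)) this
  simp only [OneMemClass.coe_one, mul_one, Complex.ofReal_sum, Complex.ofReal_pow,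
    Complex.ofReal_natCast] at h2
  rw [← show ((9 : ℕ) : ℂ) = 9 by norm_num, ← h2]
  refine Finset.sum_congr (by ext; simp) fun χ _ => ?_
  rw [Complex.mul_conj']

open scoped Classical in
/-- The representatives of all classes of 3-elements. -/
theorem sections_reps [Fintype G] {T : Finset G} (hT : IsReps P z T) :
    (∀ x ∈ {1, z, z⁻¹} ∪ T, ∃ k : ℕ, orderOf x = 3 ^ k) ∧
      ∀ g : G, (∃ k : ℕ, orderOf g = 3 ^ k) →
        ∃! x, x ∈ ({1, z, z⁻¹} : Finset G) ∪ T ∧ IsConj g x := by
  haveI := Fact.mk Nat.prime_three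
  have hmem : ∀ x ∈ ({1, z, z⁻¹} : Finset G) ∪ T, x ∈ (P : Subgroup G) := by
    intro x hx
    simp only [Finset.mem_union, Finset.mem_insert, Finset.mem_singleton] at hx
    rcases hx with (e | e | e) | hx
    exacts [e ▸ one_mem _, e ▸ h.z_mem, e ▸ inv_mem h.z_mem, hT.mem x hx]
  have hZ : ∀ x ∈ zpowers z, x ∈ ({1, z, z⁻¹} : Finset G) := by
    intro x hx
    obtain ⟨i, rfl⟩ := mem_zpowers_iff.1 hx
    rw [← zpow_mod_orderOf, h.orderOf_z]
    push_cast
    have h1 := Int.emod_nonneg i (show (3 : ℤ) ≠ 0 by norm_num)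
    have h2 := Int.emod_lt_of_pos i (show (0 : ℤ) < 3 by norm_num)
    have h3 : i % 3 = 0 ∨ i % 3 = 1 ∨ i % 3 = 2 := by omega
    rcases h3 with e | e | e <;> rw [e]
    · simp
    · simp
    · have : z ^ (2 : ℤ) = z⁻¹ := by
        refine eq_inv_of_mul_eq_one_left ?_
        rw [show (2 : ℤ) = ((2 : ℕ) : ℤ) from rfl, zpow_natCast, ← pow_succ, h.exp z h.z_mem]
      simp [this]
  have hZ' : ∀ x ∈ ({1, z, z⁻¹} : Finset G), x ∈ zpowers z := by
    intro x hx
    simp only [Finset.mem_insert, Finset.mem_singleton] at hx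
    rcases hx with e | e | e <;> rw [e]
    exacts [one_mem _, mem_zpowers z, inv_mem (mem_zpowers z)]
  refine ⟨fun x hx => h.exists_pow_three (hmem x hx), fun g ⟨k, hk⟩ => ?_⟩
  obtain ⟨y, x, hx, hxy⟩ := H28.Ab.exists_rep P g
  have hgx : g = x := H40.isPPart_unique ⟨1, mul_one _, Commute.one_right _, ⟨k, hk⟩, by simp⟩ hx
  subst hgx
  by_cases hyZ : (y : G) ∈ zpowers z
  · refine ⟨y, ⟨Finset.mem_union_left _ (hZ _ hyZ), hxy⟩, ?_⟩
    rintro x' ⟨hx', hgx'⟩
    have hc : IsConj (y : G) x' := hxy.symm.trans hgx'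
    obtain ⟨c, hc'⟩ := isConj_iff.1 hc
    by_cases hx'Z : x' ∈ zpowers z
    · exact (h.eq_of_conj_Z hyZ hx'Z hc').symm
    · exact absurd hc (h.not_conj_Z (hmem x' hx') hx'Z hyZ)
  · obtain ⟨t, ht, hyt⟩ := hT.exists_conj y y.2 hyZ
    refine ⟨t, ⟨Finset.mem_union_right _ ht, hxy.trans hyt⟩, ?_⟩
    rintro x' ⟨hx', hgx'⟩
    have hc : IsConj t x' := (hxy.trans hyt).symm.trans hgx'
    rcases Finset.mem_union.1 hx' with hx' | hx'
    · exact absurd hc.symm (h.not_conj_Z (hT.mem t ht) (hT.notMem t ht) (hZ' x' hx'))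
    · exact (hT.unique t ht x' hx' hc).symm

open scoped Classical in
/-- Summation of a class function over the three kinds of sections. -/
theorem sum_eq [Fintype G] {T : Finset G} (hT : IsReps P z T) {f : G → ℂ}
    (hf : Cfsg.IsClassFunction G f) (hflat : Flat P z f) :
    ∑ g, f g = ∑ g ∈ Finset.univ.filter (fun g : G => Cfsg.IsPRegular 3 g), f g +
      (Nat.card G : ℂ) / (Nat.card (centralizer ({z} : Set G)) : ℂ) *
        ∑ s ∈ Finset.univ.filter (fun s : centralizer ({z} : Set G) => Cfsg.IsPRegular 3 s),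
          (f (z * s) + f (z⁻¹ * s)) +
      (Nat.card G : ℂ) / 9 * ∑ t ∈ T, f t := by
  haveI := Fact.mk Nat.prime_three
  obtain ⟨h1, h2⟩ := h.sections_reps hT
  rw [H32.sum_eq_sum_sections h1 h2 hf]
  have hdisj : Disjoint ({1, z, z⁻¹} : Finset G) T := by
    rw [Finset.disjoint_left]
    intro x hx hxT
    refine hT.notMem x hxT ?_
    simp only [Finset.mem_insert, Finset.mem_singleton] at hx
    rcases hx with e | e | e <;> rw [e]
    exacts [one_mem _, mem_zpowers z, inv_mem (mem_zpowers z)]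
  have hzz : z ≠ z⁻¹ := by
    intro e
    refine h.z_ne ?_
    calc z = z ^ 3 * (z * z)⁻¹ := by group
      _ = 1 := by rw [h.exp z h.z_mem]; nth_rw 2 [e]; simp
  have hGne : (Nat.card G : ℂ) ≠ 0 := Nat.cast_ne_zero.2 Nat.card_pos.ne'
  rw [Finset.sum_union hdisj, Finset.sum_insert (by simp [h.z_ne, h.z_ne.symm]),
    Finset.sum_insert (by simp [hzz]), Finset.sum_singleton]
  have hinv : centralizer ({z⁻¹} : Set G) = centralizer ({z} : Set G) := by
    ext g
    simp only [mem_centralizer_singleton_iff]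
    exact ⟨fun e => by simpa using (Commute.inv_right (show Commute g z⁻¹ from e)).eq,
      fun e => (Commute.inv_right (show Commute g z from e)).eq⟩
  have htop : centralizer ({(1 : G)} : Set G) = ⊤ := by
    ext g
    simp [mem_centralizer_singleton_iff]
  congr 1
  · rw [sum_subgroup_congr hinv (fun g => f (z⁻¹ * g)), hinv,
      sum_top_subgroup htop (fun g => f (1 * g)), htop, Subgroup.card_top, div_self hGne, one_mul,
      Finset.sum_add_distrib, mul_add]
    simp only [one_mul]
  · rw [Finset.mul_sum]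
    refine Finset.sum_congr rfl fun t ht => ?_
    have hval : ∀ s ∈ Finset.univ.filter
        (fun s : centralizer ({t} : Set G) => Cfsg.IsPRegular 3 s), f (t * s) = f t := by
      intro s hs
      refine hflat _ t t ⟨s, rfl, (mem_centralizer_singleton_iff.1 s.2).symm,
        h.exists_pow_three (hT.mem t ht), ?_⟩ (hT.mem t ht) (hT.notMem t ht) (IsConj.refl t)
      rw [Subgroup.orderOf_coe]
      exact (Finset.mem_filter.1 hs).2
    rw [Finset.sum_congr rfl hval, Finset.sum_const, nsmul_eq_mul]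
    have hc := h.card_regular_mul (hT.mem t ht) (hT.notMem t ht)
    have hc' : ((Finset.univ.filter
        fun s : centralizer ({t} : Set G) => Cfsg.IsPRegular 3 s).card : ℂ) * 9 =
        (Nat.card (centralizer ({t} : Set G)) : ℂ) := by exact_mod_cast hc
    have hne : (Nat.card (centralizer ({t} : Set G)) : ℂ) ≠ 0 :=
      Nat.cast_ne_zero.2 Nat.card_pos.ne'
    field_simp
    linear_combination f t * hc'

open scoped Classical in
/-- A function flat on noncentral sections is flat after multiplication with a block member. -/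
theorem flat_mul_conj (hM : Cfsg.IsPModular 3 M) {χ : Cfsg.IrrCharacter G}
    (hχ : χ ∈ Cfsg.principalBlock M G) {f : G → ℂ} (hf : Flat P z f) :
    Flat P z (fun g => f g * conj (χ.1 g)) := fun g x y hx hy hyZ hxy => by
  show f g * conj (χ.1 g) = f y * conj (χ.1 y)
  rw [hf g x y hx hy hyZ hxy, h.flat_irr hM hχ g x y hx hy hyZ hxy]

open scoped Classical in
/-- Characters outside the principal block sum to zero over noncentral sections. -/
theorem sum_section_eq_zero [Fintype G] (hM : Cfsg.IsPModular 3 M) {η : Cfsg.IrrCharacter G}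
    (hη : η ∉ Cfsg.principalBlock M G) {y : G} (hy : y ∈ (P : Subgroup G)) (hyZ : y ∉ zpowers z) :
    ∑ s ∈ Finset.univ.filter (fun s : centralizer ({y} : Set G) => Cfsg.IsPRegular 3 s),
      η.1 (y * s) = 0 := by
  haveI := Fact.mk Nat.prime_three
  set f : G → ℂ := fun g => if ∃ x, Cfsg.IsPPart 3 g x ∧ IsConj x y then 1 else 0 with hfdef
  have hiff : ∀ {g x : G}, Cfsg.IsPPart 3 g x →
      ((∃ x, Cfsg.IsPPart 3 g x ∧ IsConj x y) ↔ IsConj x y) := fun {g x} hx =>
    ⟨fun ⟨x', hx', e⟩ => H40.isPPart_unique hx' hx ▸ e, fun e => ⟨x, hx, e⟩⟩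
  have hf : Cfsg.IsClassFunction G f := by
    intro g c
    obtain ⟨x, hx⟩ := H40.exists_isPPart 3 g
    simp only [hfdef]
    rw [if_congr (hiff hx) rfl rfl, if_congr (hiff (H40.isPPart_conj c hx)) rfl rfl]
    exact if_congr ⟨fun e => (isConj_iff.2 ⟨c, rfl⟩ : IsConj x _).trans e,
      fun e => (isConj_iff.2 ⟨c, rfl⟩ : IsConj x _).symm.trans e⟩ rfl rfl
  obtain ⟨T₀, hT₀⟩ := exists_isReps P z
  obtain ⟨t₀, ht₀, hyt₀⟩ := hT₀.exists_conj y hy hyZ
  -- representatives containing `y`
  set T := insert y (T₀.erase t₀)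
  have hT : IsReps P z T := by
    refine ⟨?_, ?_, ?_, ?_⟩
    · intro t ht
      rcases Finset.mem_insert.1 ht with rfl | ht
      exacts [hy, hT₀.mem t (Finset.mem_erase.1 ht).2]
    · intro t ht
      rcases Finset.mem_insert.1 ht with rfl | ht
      exacts [hyZ, hT₀.notMem t (Finset.mem_erase.1 ht).2]
    · intro v hv hvZ
      obtain ⟨t, ht, hvt⟩ := hT₀.exists_conj v hv hvZ
      by_cases e : t = t₀
      · exact ⟨y, Finset.mem_insert_self _ _, hvt.trans (e ▸ hyt₀.symm)⟩
      · exact ⟨t, Finset.mem_insert_of_mem (Finset.mem_erase.2 ⟨e, ht⟩), hvt⟩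
    · intro t ht t' ht' htt
      rcases Finset.mem_insert.1 ht with e | e <;> rcases Finset.mem_insert.1 ht' with e' | e'
      · rw [e, e']
      · rw [e] at htt
        exact absurd (hT₀.unique _ (Finset.mem_erase.1 e').2 _ ht₀ (htt.symm.trans hyt₀))
          (Finset.mem_erase.1 e').1
      · rw [e'] at htt
        exact absurd (hT₀.unique _ (Finset.mem_erase.1 e).2 _ ht₀ (htt.trans hyt₀))
          (Finset.mem_erase.1 e).1
      · exact hT₀.unique _ (Finset.mem_erase.1 e).2 _ (Finset.mem_erase.1 e').2 htt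
  obtain ⟨hX, hXrep⟩ := h.sections_reps hT
  -- the pairing with any character is the sum over the section
  have hin : ∀ χ : Cfsg.IrrCharacter G, Cfsg.classInner f χ.1 =
      (Nat.card (centralizer ({y} : Set G)) : ℂ)⁻¹ *
        conj (∑ s ∈ Finset.univ.filter (fun s : centralizer ({y} : Set G) => Cfsg.IsPRegular 3 s),
          χ.1 (y * s)) := by
    intro χ
    have hcl : Cfsg.IsClassFunction G fun g => f g * conj (χ.1 g) := fun g c => by
      simp only [hf g c, H26.irr_conj]
    rw [Cfsg.classInner, H32.sum_eq_sum_sections hX hXrep hcl,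
      Finset.sum_eq_single y, map_sum]
    · rw [Finset.sum_congr rfl fun s hs => by
        rw [show f (y * s) = 1 from if_pos ⟨y, ⟨s, rfl,
          (mem_centralizer_singleton_iff.1 s.2).symm, h.exists_pow_three hy, by
            rw [Subgroup.orderOf_coe]; exact (Finset.mem_filter.1 hs).2⟩, IsConj.refl y⟩, one_mul]]
      have hGne : (Nat.card G : ℂ) ≠ 0 := Nat.cast_ne_zero.2 Nat.card_pos.ne'
      field_simp
    · intro x hxX hxy
      refine mul_eq_zero_of_right _ (Finset.sum_eq_zero fun s hs => ?_)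
      have hpart : Cfsg.IsPPart 3 (x * s) x := ⟨s, rfl,
        (mem_centralizer_singleton_iff.1 s.2).symm, hX x hxX, by
          rw [Subgroup.orderOf_coe]; exact (Finset.mem_filter.1 hs).2⟩
      have hno : ¬ IsConj x y := fun e => hxy ((hXrep x (hX x hxX)).unique ⟨hxX, IsConj.refl x⟩
        ⟨Finset.mem_union_right _ (Finset.mem_insert_self _ _), e⟩)
      rw [show f (x * s) = 0 from if_neg (fun e => hno ((hiff hpart).1 e)), zero_mul]
    · intro hh
      exact absurd (Finset.mem_union_right _ (Finset.mem_insert_self _ _)) hh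
  have hc : ((Finset.univ.filter
      fun s : centralizer ({y} : Set G) => Cfsg.IsPRegular 3 s).card : ℂ) * 9 =
      (Nat.card (centralizer ({y} : Set G)) : ℂ) := by exact_mod_cast h.card_regular_mul hy hyZ
  have hCne : (Nat.card (centralizer ({y} : Set G)) : ℂ) ≠ 0 :=
    Nat.cast_ne_zero.2 Nat.card_pos.ne'
  have hB : ∀ χ ∈ Finset.univ.filter (· ∈ Cfsg.principalBlock M G),
      Cfsg.classInner f χ.1 = (1 / 9 : ℂ) * conj (χ.1 y) := by
    intro χ hχ
    rw [hin, Finset.sum_congr (s₁ := Finset.univ.filter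
      fun s : centralizer ({y} : Set G) => Cfsg.IsPRegular 3 s) rfl fun s hs => h.flat_irr hM (Finset.mem_filter.1 hχ).2 _ y y
      ⟨s, rfl, (mem_centralizer_singleton_iff.1 s.2).symm, h.exists_pow_three hy, by
        rw [Subgroup.orderOf_coe]; exact (Finset.mem_filter.1 hs).2⟩ hy hyZ (IsConj.refl y),
      Finset.sum_const, nsmul_eq_mul, map_mul, Complex.conj_natCast, ← hc]
    have : ((Finset.univ.filter
        fun s : centralizer ({y} : Set G) => Cfsg.IsPRegular 3 s).card : ℂ) ≠ 0 := by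
      intro e
      rw [e, zero_mul] at hc
      exact hCne hc.symm
    field_simp
  have hself : Cfsg.classInner f f = 1 / 9 := by
    have hcl : Cfsg.IsClassFunction G fun g => f g * conj (f g) := fun g c => by
      simp only [hf g c]
    rw [Cfsg.classInner, H32.sum_eq_sum_sections hX hXrep hcl, Finset.sum_eq_single y]
    · rw [Finset.sum_congr rfl fun s hs => by
        rw [show f (y * s) = 1 from if_pos ⟨y, ⟨s, rfl,
          (mem_centralizer_singleton_iff.1 s.2).symm, h.exists_pow_three hy, by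
            rw [Subgroup.orderOf_coe]; exact (Finset.mem_filter.1 hs).2⟩, IsConj.refl y⟩, map_one,
          one_mul], Finset.sum_const, nsmul_eq_mul, mul_one, ← hc]
      have hGne : (Nat.card G : ℂ) ≠ 0 := Nat.cast_ne_zero.2 Nat.card_pos.ne'
      have : ((Finset.univ.filter
          fun s : centralizer ({y} : Set G) => Cfsg.IsPRegular 3 s).card : ℂ) ≠ 0 := by
        intro e
        rw [e, zero_mul] at hc
        exact hCne hc.symm
      field_simp
    · intro x hxX hxy
      refine mul_eq_zero_of_right _ (Finset.sum_eq_zero fun s hs => ?_)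
      have hpart : Cfsg.IsPPart 3 (x * s) x := ⟨s, rfl,
        (mem_centralizer_singleton_iff.1 s.2).symm, hX x hxX, by
          rw [Subgroup.orderOf_coe]; exact (Finset.mem_filter.1 hs).2⟩
      have hno : ¬ IsConj x y := fun e => hxy ((hXrep x (hX x hxX)).unique ⟨hxX, IsConj.refl x⟩
        ⟨Finset.mem_union_right _ (Finset.mem_insert_self _ _), e⟩)
      rw [show f (x * s) = 0 from if_neg (fun e => hno ((hiff hpart).1 e)), zero_mul]
    · intro hh
      exact absurd (Finset.mem_union_right _ (Finset.mem_insert_self _ _)) hh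
  have hpar : Cfsg.classInner f f =
      ∑ χ : Cfsg.IrrCharacter G, Cfsg.classInner f χ.1 * conj (Cfsg.classInner f χ.1) := by
    conv_lhs => arg 1; rw [H26.class_function_expansion f hf]
    rw [H26.classInner_sum_left]
    exact Finset.sum_congr rfl fun χ _ => by rw [H26.classInner_smul_left, H26.classInner_comm f χ.1]
  have hBsum : ∑ χ ∈ Finset.univ.filter (· ∈ Cfsg.principalBlock M G),
      Cfsg.classInner f χ.1 * conj (Cfsg.classInner f χ.1) = 1 / 9 := by
    rw [Finset.sum_congr rfl fun χ hχ => show _ = (1 / 81 : ℂ) * (χ.1 y * conj (χ.1 y)) by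
      rw [hB χ hχ]; simp only [map_mul, map_div₀, map_one, map_ofNat, Complex.conj_conj]; ring,
      ← Finset.mul_sum, h.block_norm hM hy hyZ]
    norm_num
  rw [hself, ← Finset.sum_filter_add_sum_filter_not Finset.univ (· ∈ Cfsg.principalBlock M G),
    hBsum, left_eq_add] at hpar
  simp only [Complex.mul_conj] at hpar
  rw [← Complex.ofReal_sum, Complex.ofReal_eq_zero, Finset.sum_eq_zero_iff_of_nonneg
    fun χ _ => Complex.normSq_nonneg _] at hpar
  have := Complex.normSq_eq_zero.1 (hpar η (by simp [hη]))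
  rw [hin, mul_eq_zero] at this
  exact (map_eq_zero _).1 (this.resolve_left (inv_ne_zero hCne))

end Setup

end Cfsg.Agent.H31.Extra27
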