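import Cfsg.Agent.H31.Extra27.Pairing
import Cfsg.Agent.H31.Extra27.Arith

/-!
# The principal block data of the quotient and the exceptional family
-/

set_option autoImplicit false
set_option linter.unusedSectionVars false

open Subgroup
open scoped ComplexConjugate
open Cfsg.Agent.H44 (inflate)

namespace Cfsg.Agent.H31.Extra27

open scoped Classical in
/-- The regular elements carry the rank of a block. -/
theorem sum_regular_block_sq {G : Type*} [Group G] [Fintype G] {p : ℕ} [Fact p.Prime]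
    {M : Ideal Cfsg.AlgInt} (hM : Cfsg.IsPModular p M) {B : Set (Cfsg.IrrCharacter G)}
    (hB : Cfsg.IsPBlock M B) :
    ∑ s ∈ Finset.univ.filter (fun s : G => Cfsg.IsPRegular p s),
      ∑ χ ∈ Finset.univ.filter (· ∈ B), χ.1 s * conj (χ.1 s) =
      (Nat.card G : ℂ) * (Cfsg.blockRank p B : ℂ) := by
  have hG : (Nat.card G : ℂ) ≠ 0 := Nat.cast_ne_zero.2 Nat.card_pos.ne'
  rw [← H32.trace_projKernel (H32.weakOrthogonal_of_isPBlock hM hB), Finset.mul_sum,
    Finset.sum_filter]
  refine Finset.sum_congr rfl fun s _ => ?_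
  simp only [H32.projKernel, Matrix.of_apply]
  split_ifs with hs
  · rw [← mul_assoc, mul_inv_cancel₀ hG, one_mul]
  · rw [mul_zero]

open scoped Classical in
/-- The count in a group with abelian Sylow subgroup of order nine. -/
theorem card_principal_eq {H : Type*} [Group H] [Fintype H] [Fact (Nat.Prime 3)] {Q : Sylow 3 H}
    {e r : ℕ} {M : Ideal Cfsg.AlgInt} (hctx : H28.Ab.Ctx Q e)
    (hcard : Nat.card (Q : Subgroup H) = 9) (hM : Cfsg.IsPModular 3 M) (hr : r * e + 1 = 9) :
    Nat.card (Cfsg.principalBlock M H) = Cfsg.blockRank 3 (Cfsg.principalBlock M H) + r := by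
  haveI := hM.2.1
  haveI := Fintype.ofFinite ↥(Q : Subgroup H)
  set B := Finset.univ.filter (· ∈ Cfsg.principalBlock M H)
  have hk : (Nat.card (Cfsg.principalBlock M H) : ℂ) * (Nat.card H : ℂ) =
      ∑ g : H, ∑ χ ∈ B, χ.1 g * conj (χ.1 g) := by
    rw [Finset.sum_comm, Finset.sum_congr rfl fun χ _ => show ∑ g : H, χ.1 g * conj (χ.1 g) =
      (Nat.card H : ℂ) by
        have e1 := H57.irr_inner_self χ.2
        rwa [Cfsg.classInner, inv_mul_eq_iff_eq_mul₀ (Nat.cast_ne_zero.2 Nat.card_pos.ne'),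
          mul_one] at e1,
      Finset.sum_const, nsmul_eq_mul, Nat.card_eq_fintype_card, Fintype.card_subtype]
  let f : ↥(Q : Subgroup H) → ℂ := fun y => if y = 1 then 0 else 9
  have hf : H28.Ab.Inv Q f := by
    intro n hn a b e'
    have : b = 1 ↔ a = 1 := by
      constructor <;> rintro rfl
      · exact Subtype.ext (by simpa using e'.symm)
      · exact Subtype.ext (by simpa using e')
    simp only [f, this]
  have hsing : ∀ g : H, ¬ Cfsg.IsPRegular 3 g →
      ∑ χ ∈ B, χ.1 g * conj (χ.1 g) = H28.Ab.lift Q f g := by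
    intro g hg
    obtain ⟨y, x, hx, hxy⟩ := H28.Ab.exists_rep Q g
    have hy : y ≠ 1 := fun e' => hg (by
      subst e'
      exact (H40.regular_iff_pPart_eq_one hx).2 (by simpa using hxy))
    rw [hctx.lift_eq hf hx hxy, show f y = 9 from if_neg hy,
      Finset.sum_congr rfl fun χ hχ => by
        rw [hctx.block_value hM (Finset.mem_filter.1 hχ).2 hy hx hxy],
      hctx.block_norm hM hy, hcard]
    norm_num
  have hlift := hctx.sum_lift hf (if_pos rfl)
  have hfsum : ∑ y, f y = 72 := by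
    simp only [f]
    rw [Finset.sum_ite, Finset.sum_const_zero, zero_add, Finset.sum_const,
      Finset.filter_ne' Finset.univ (1 : ↥(Q : Subgroup H)),
      Finset.card_erase_of_mem (Finset.mem_univ _), Finset.card_univ, ← Nat.card_eq_fintype_card,
      hcard]
    norm_num
  have hsum : ∑ g ∈ Finset.univ.filter (fun g : H => ¬ Cfsg.IsPRegular 3 g),
      ∑ χ ∈ B, χ.1 g * conj (χ.1 g) = ∑ g, H28.Ab.lift Q f g := by
    rw [← Finset.sum_filter_add_sum_filter_not Finset.univ (fun g : H => Cfsg.IsPRegular 3 g)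
      (fun g => H28.Ab.lift Q f g),
      Finset.sum_eq_zero (s := Finset.univ.filter fun g : H => Cfsg.IsPRegular 3 g) fun g hg => by
        rw [hctx.lift_regular hf (Finset.mem_filter.1 hg).2]
        exact if_pos rfl,
      zero_add]
    exact Finset.sum_congr rfl fun g hg => hsing g (Finset.mem_filter.1 hg).2
  rw [hfsum, hcard, ← hsum] at hlift
  rw [← Finset.sum_filter_add_sum_filter_not Finset.univ (fun g : H => Cfsg.IsPRegular 3 g),
    sum_regular_block_sq hM H41.isPBlock_principalBlock] at hk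
  have hH : (Nat.card H : ℂ) ≠ 0 := Nat.cast_ne_zero.2 Nat.card_pos.ne'
  have he : (e : ℂ) ≠ 0 := Nat.cast_ne_zero.2 hctx.pos.ne'
  have hr' : (r : ℂ) * e + 1 = 9 := by exact_mod_cast hr
  push_cast at hlift
  refine Nat.cast_injective (R := ℂ) ?_
  push_cast
  refine mul_right_cancel₀ hH (mul_left_cancel₀ (mul_ne_zero he (by norm_num : (9 : ℂ) ≠ 0)) ?_)
  linear_combination ((e : ℂ) * 9) * hk + hlift - 9 * (Nat.card H : ℂ) * hr'

variable {K : Type*} [Group K] [Fintype K] [hp : Fact (Nat.Prime 3)] {P : Sylow 3 K} {z : K}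
  {M : Ideal Cfsg.AlgInt}

namespace Setup

variable (h : Setup P z) (hc : ∀ w : K, w * z = z * w) [(zpowers z).Normal]
include h hc

theorem lam_z_mul {ζ : ℂ} (hζ : ζ ^ 3 = 1) (w : K) : lam z ζ (z * w) = ζ * lam z ζ w := by
  have hz : Commute z (pp w) := (show Commute (pp w) z from hc _).symm
  have hpart : pp (z * w) = z * pp w := by
    refine pp_eq ⟨rp w, by rw [mul_assoc, pp_mul_rp], ?_, ?_, regular_rp w⟩
    · exact ((show Commute (rp w) z from hc _).symm).mul_left (commute_pp_rp w)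
    · obtain ⟨k, hk⟩ := exists_pow_pp w
      have : (z * pp w) ^ 3 ^ (k + 1) = 1 := by
        rw [hz.mul_pow, pow_succ', pow_mul, h.exp z h.z_mem, one_pow, one_mul, mul_comm, pow_mul,
          ← hk, pow_orderOf_eq_one, one_pow]
      obtain ⟨i, -, hi⟩ := (Nat.dvd_prime_pow Nat.prime_three).1 (orderOf_dvd_of_pow_eq_one this)
      exact ⟨i, hi⟩
  by_cases hw : pp w ∈ zpowers z
  · obtain ⟨i, hi⟩ := mem_zpowers_iff.1 hw
    rw [lam_of_eq hζ h (w := z * w) (i := 1 + i) (by rw [hpart, zpow_add, zpow_one, hi]),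
      lam_of_eq hζ h (w := w) hi.symm, zpow_add₀ (fun e' => by simp [e'] at hζ), zpow_one]
  · rw [lam_of_notMem hw, lam_of_notMem fun hh => hw ?_, mul_zero]
    rw [hpart] at hh
    have := mul_mem (inv_mem (mem_zpowers z)) hh
    rwa [inv_mul_cancel_left] at this

variable {e : ℕ} (hctx : H28.Ab.Ctx (qSylow P z) e)
include hctx

open scoped Classical in
/-- In the quotient some member of the principal block is not of unit value. -/
theorem exists_hData [Fintype (K ⧸ zpowers z)] (hM : Cfsg.IsPModular 3 M)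
    (he : e = 2 ∨ e = 4 ∨ e = 8) : Nonempty (HData M (qSylow P z) e) := by
  haveI := hM.2.1
  rcases he with he | he | he
  · exact exists_hData_small hctx h.card_qSylow h.exp_qSylow hM (Or.inl he)
  · exact exists_hData_small hctx h.card_qSylow h.exp_qSylow hM (Or.inr he)
  subst he
  rcases exists_hData_eight hctx h.card_qSylow h.exp_qSylow hM with hD | ⟨a, hcard, ha⟩
  · exact hD
  exfalso
  haveI := Fintype.ofFinite ↥(qSylow P z : Subgroup (K ⧸ zpowers z))
  obtain ⟨ζ, hζ, hζ1⟩ := exists_root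
  obtain ⟨T, hT⟩ := exists_isReps P z
  set B := Finset.univ.filter (· ∈ Cfsg.principalBlock M (K ⧸ zpowers z)) with hBdef
  have hmemB : ∀ {χ}, χ ∈ B ↔ χ ∈ Cfsg.principalBlock M (K ⧸ zpowers z) := by simp [hBdef]
  have honeB : H26.oneIrr (K ⧸ zpowers z) ∈ B :=
    hmemB.2 (by rw [H41.principalBlock_eq]; exact H41.mem_blockOf_self _)
  have hBcard : B.card = 9 := by
    rw [← hcard, Nat.card_eq_fintype_card, Fintype.card_subtype]
  let ι := {χ // χ ∈ B.erase (H26.oneIrr (K ⧸ zpowers z))}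
  let θ : ι → K ⧸ zpowers z → ℂ := fun χ =>
    (H26.oneIrr (K ⧸ zpowers z)).1 - a χ.1 • (χ.1.1 : K ⧸ zpowers z → ℂ)
  have hnice : ∀ χ : ι, Nice P z (θ χ) (fun _ => 0) := by
    intro χ
    refine ⟨H57.gen_sub (H57.gen_of_irr (H26.oneIrr _).2) (H57.gen_zsmul (H57.gen_of_irr χ.1.2) _),
      fun _ _ _ _ _ => rfl, rfl, fun _ => dvd_zero _, fun g hg => ?_⟩
    have hχB := hmemB.1 (Finset.mem_of_mem_erase χ.2)
    obtain ⟨hu, hval⟩ := ha χ.1 hχB
    obtain ⟨y, x, hx, hxy⟩ := H28.Ab.exists_rep (qSylow P z) g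
    have hy : y ≠ 1 := fun e' => by
      subst e'
      exact (H40.regular_iff_pPart_eq_one hx).2 (by simpa using hxy) hg
    rw [hctx.lift_eq (fun _ _ _ _ _ => rfl) hx hxy]
    simp only [θ, Pi.sub_apply, Pi.smul_apply, H26.oneIrr_val, Int.cast_zero]
    rw [hctx.block_value hM hχB hy hx hxy, hval y hy]
    rcases hu with hu | hu <;> simp [hu]
  let f : ι → K → ℂ := fun χ w => lam z ζ w * θ χ (w : K ⧸ zpowers z)
  have hgen : ∀ χ, Cfsg.IsGeneralizedCharacter K (f χ) := fun χ =>
    h.gen_lam_mul hc hctx hζ hζ1 (hnice χ)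
  choose v hv using fun χ => H57.gen_exists_coef (hgen χ)
  -- the inner products
  have hθin : ∀ χ χ' : ι, Cfsg.classInner (θ χ) (θ χ') = if χ = χ' then 2 else 1 := by
    intro χ χ'
    have hne : ∀ χ : ι, H26.oneIrr (K ⧸ zpowers z) ≠ χ.1 := fun χ e' =>
      (Finset.mem_erase.1 χ.2).1 e'.symm
    simp only [θ, H26.classInner_sub_left, H26.classInner_sub_right, H57.classInner_zsmul_left,
      H57.classInner_zsmul_right, H26.classInner_irr, hne χ, hne χ', Ne.symm (hne χ),
      if_true, if_false, mul_zero, sub_zero, zero_sub, Subtype.coe_inj]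
    obtain ⟨hu, -⟩ := ha χ.1 (hmemB.1 (Finset.mem_of_mem_erase χ.2))
    by_cases e' : χ = χ'
    · subst e'
      rcases hu with hu | hu <;> simp [hu] <;> norm_num
    · simp [e']
  have hvin : ∀ χ χ' : ι, ∑ ψ, v χ ψ * v χ' ψ = if χ = χ' then 2 else 1 := by
    intro χ χ'
    apply Int.cast_injective (α := ℂ)
    have e1 : Cfsg.classInner (f χ) (f χ') = ((∑ ψ, v χ ψ * v χ' ψ : ℤ) : ℂ) := by
      rw [hv χ, hv χ', H26.classInner_sum_right]
      simp only [H57.classInner_zsmul_right, H57.inner_coef]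
      push_cast
      exact Finset.sum_congr rfl fun ψ _ => by ring
    rw [← e1]
    push_cast [apply_ite (Int.cast : ℤ → ℂ)]
    rw [← hθin]
    have hcl : Cfsg.IsClassFunction K fun g => f χ g * conj (f χ' g) := fun g b => by
      show f χ (b * g * b⁻¹) * conj (f χ' (b * g * b⁻¹)) = f χ g * conj (f χ' g)
      rw [H57.gen_classFunction (hgen χ) g b, H57.gen_classFunction (hgen χ') g b]
    have hzero : ∀ χ : ι, ∀ g x y : K, Cfsg.IsPPart 3 g x → y ∈ (P : Subgroup K) →
        y ∉ zpowers z → IsConj x y → f χ g = 0 := fun χ g x y hx hy hyZ hxy => by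
      show lam z ζ g * _ = 0
      rw [h.nice_value hc hctx (hnice χ) hx hy hyZ hxy, Int.cast_zero, mul_zero]
    have hfl : Flat P z fun g => f χ g * conj (f χ' g) := fun g x y hx hy hyZ hxy => by
      show f χ g * conj (f χ' g) = f χ y * conj (f χ' y)
      rw [hzero χ g x y hx hy hyZ hxy,
        hzero χ y y y (h.isPPart_self hy) hy hyZ (IsConj.refl y), zero_mul, zero_mul]
    have htop : centralizer ({z} : Set K) = ⊤ := by
      ext g
      simp only [mem_centralizer_singleton_iff, mem_top, iff_true]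
      exact hc g
    have hK : (Nat.card K : ℂ) ≠ 0 := Nat.cast_ne_zero.2 Nat.card_pos.ne'
    have hζ0 : ζ ≠ 0 := fun e' => by simp [e'] at hζ
    have hl : ∀ s : K, ¬ 3 ∣ orderOf s → ∀ χ : ι, f χ s = θ χ (s : K ⧸ zpowers z) ∧
        f χ (z * s) = ζ * θ χ (s : K ⧸ zpowers z) ∧
        f χ (z⁻¹ * s) = ζ⁻¹ * θ χ (s : K ⧸ zpowers z) := by
      intro s hs χ
      have h1 : lam z ζ s = 1 := lam_regular hζ h hs
      have h2 : lam z ζ (z⁻¹ * s) = ζ⁻¹ := by
        have := h.lam_z_mul hc hζ (z⁻¹ * s)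
        rw [mul_inv_cancel_left, h1] at this
        exact eq_inv_of_mul_eq_one_right this.symm
      have hz1 : (z : K ⧸ zpowers z) = 1 := (QuotientGroup.eq_one_iff z).2 (mem_zpowers z)
      refine ⟨?_, ?_, ?_⟩
      · show lam z ζ s * _ = _
        rw [h1, one_mul]
      · show lam z ζ (z * s) * _ = _
        rw [h.lam_z_mul hc hζ, h1, mul_one, QuotientGroup.mk_mul, hz1, one_mul]
      · show lam z ζ (z⁻¹ * s) * _ = _
        rw [h2, QuotientGroup.mk_mul, QuotientGroup.mk_inv, hz1, inv_one, one_mul]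
    rw [Cfsg.classInner, h.sum_eq hT hcl hfl, htop, Subgroup.card_top, div_self hK, one_mul,
      sum_top_subgroup rfl fun g => f χ (z * g) * conj (f χ' (z * g)) +
        f χ (z⁻¹ * g) * conj (f χ' (z⁻¹ * g)),
      Finset.sum_eq_zero (s := T) fun t ht => by
        rw [hzero χ t t t (h.isPPart_self (hT.mem t ht)) (hT.mem t ht) (hT.notMem t ht)
          (IsConj.refl t), zero_mul],
      mul_zero, add_zero, ← Finset.sum_add_distrib,
      Finset.sum_congr rfl fun (s : K) hs => show f χ s * conj (f χ' s) +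
          (f χ (z * s) * conj (f χ' (z * s)) + f χ (z⁻¹ * s) * conj (f χ' (z⁻¹ * s))) =
        3 * (θ χ (s : K ⧸ zpowers z) * conj (θ χ' (s : K ⧸ zpowers z))) by
        obtain ⟨a0, a1, a2⟩ := hl s (Finset.mem_filter.1 hs).2 χ
        obtain ⟨b0, b1, b2⟩ := hl s (Finset.mem_filter.1 hs).2 χ'
        rw [a0, a1, a2, b0, b1, b2]
        simp only [map_mul, map_inv₀, conj_eq_inv hζ, inv_inv]
        have hzz : ζ * ζ⁻¹ = 1 := mul_inv_cancel₀ hζ0
        linear_combination 2 * (θ χ (s : K ⧸ zpowers z) * conj (θ χ' (s : K ⧸ zpowers z))) * hzz,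
      ← Finset.mul_sum, h.sum_regular_theta hc hctx (hnice χ) (hnice χ')]
    have hH : (Nat.card (K ⧸ zpowers z) : ℂ) ≠ 0 := Nat.cast_ne_zero.2 Nat.card_pos.ne'
    rw [Subgroup.card_eq_card_quotient_mul_card_subgroup (zpowers z), h.card_Z]
    push_cast
    simp only [mul_zero, Finset.sum_const_zero, sub_zero]
    field_simp
  have hι : Fintype.card ι = 8 := by
    rw [Fintype.card_coe, Finset.card_erase_of_mem honeB, hBcard]
  have h9 := nine_le_card_support v (by omega) hvin
  rw [hι] at h9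
  set S := Finset.univ.filter fun ψ : Cfsg.IrrCharacter K => ∃ χ, v χ ψ ≠ 0 with hSdef
  -- the constituents lie over `ζ` in the principal block
  have hzC : z ∈ Subgroup.center K := Subgroup.mem_center_iff.2 hc
  have hcoef : ∀ χ ψ, Cfsg.classInner (f χ) ψ.1 = v χ ψ := fun χ ψ => by
    rw [hv χ, H57.inner_coef]
  have hω : ∀ ψ ∈ S, ∀ g, ψ.1 (z * g) = ζ * ψ.1 g := by
    intro ψ hψ g
    obtain ⟨χ, hχ⟩ := (Finset.mem_filter.1 hψ).2
    set ω := ψ.1 z / ψ.1 1 with hωdef
    have hmul : ∀ g, ψ.1 (z * g) = ω * ψ.1 g := fun g => H42.irr_central_mul ψ hzC g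
    suffices hω' : ω = ζ by rw [hmul, hω']
    have hω3 : ω ^ 3 = 1 := by
      refine mul_right_cancel₀ (H26.irr_one_ne_zero ψ) ?_
      rw [one_mul]
      have h1 : ψ.1 (z * (z * (z * 1))) = ω * (ω * (ω * ψ.1 1)) := by rw [hmul, hmul, hmul]
      rw [mul_one, ← mul_assoc, ← pow_two, ← pow_succ, h.exp z h.z_mem] at h1
      linear_combination -h1
    have hshift : Cfsg.classInner (f χ) ψ.1 = ζ * conj ω * Cfsg.classInner (f χ) ψ.1 := by
      rw [Cfsg.classInner, ← mul_assoc, mul_comm (ζ * conj ω), mul_assoc]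
      congr 1
      rw [Finset.mul_sum]
      refine (Fintype.sum_equiv (Equiv.mulLeft z) _ _ fun g => ?_).symm
      show ζ * conj ω * (f χ g * conj (ψ.1 g)) = f χ (z * g) * conj (ψ.1 (z * g))
      show _ = lam z ζ (z * g) * θ χ ((z * g : K) : K ⧸ zpowers z) * conj (ψ.1 (z * g))
      rw [h.lam_z_mul hc hζ, hmul, QuotientGroup.mk_mul,
        (QuotientGroup.eq_one_iff z).2 (mem_zpowers z), one_mul, map_mul]
      show ζ * conj ω * (lam z ζ g * θ χ (g : K ⧸ zpowers z) * conj (ψ.1 g)) = _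
      ring
    rw [hcoef] at hshift
    have h1 : ζ * conj ω = 1 := by
      refine mul_right_cancel₀ (show (v χ ψ : ℂ) ≠ 0 from Int.cast_ne_zero.2 hχ) ?_
      rw [one_mul]
      exact hshift.symm
    rw [conj_eq_inv hω3] at h1
    field_simp [show ω ≠ 0 from fun e' => by simp [e'] at hω3] at h1
    exact h1.symm
  have hblk : ∀ ψ ∈ S, ψ ∈ Cfsg.principalBlock M K := by
    intro ψ hψ
    obtain ⟨χ, hχ⟩ := (Finset.mem_filter.1 hψ).2
    by_contra hnot
    refine hχ ((Int.cast_eq_zero (α := ℂ)).1 ?_)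
    rw [← hcoef]
    have hχB := hmemB.1 (Finset.mem_of_mem_erase χ.2)
    have hcl : Cfsg.IsClassFunction K fun g => f χ g * conj (ψ.1 g) := fun g b => by
      show f χ (b * g * b⁻¹) * conj (ψ.1 (b * g * b⁻¹)) = f χ g * conj (ψ.1 g)
      rw [H57.gen_classFunction (hgen χ) g b, H26.irr_conj]
    have hfl : Flat P z fun g => f χ g * conj (ψ.1 g) := fun g x y hx hy hyZ hxy => by
      show lam z ζ g * _ * _ = lam z ζ y * _ * _
      rw [h.nice_value hc hctx (hnice χ) hx hy hyZ hxy,
        h.nice_value hc hctx (hnice χ) (h.isPPart_self hy) hy hyZ (IsConj.refl y), Int.cast_zero,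
        mul_zero, mul_zero, zero_mul, zero_mul]
    have htop : centralizer ({z} : Set K) = ⊤ := by
      ext g
      simp only [mem_centralizer_singleton_iff, mem_top, iff_true]
      exact hc g
    have hK : (Nat.card K : ℂ) ≠ 0 := Nat.cast_ne_zero.2 Nat.card_pos.ne'
    set ω := ψ.1 z / ψ.1 1 with hωdef
    have hmul : ∀ g, ψ.1 (z * g) = ω * ψ.1 g := fun g => H42.irr_central_mul ψ hzC g
    have hreg : ∀ s : K, ¬ 3 ∣ orderOf s → f χ (z * s) = ζ * f χ s ∧
        f χ (z⁻¹ * s) = ζ⁻¹ * f χ s ∧ ψ.1 (z⁻¹ * s) = ω⁻¹ * ψ.1 s ∧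
        f χ s = θ χ (s : K ⧸ zpowers z) := by
      intro s hs
      have hz1 : (z : K ⧸ zpowers z) = 1 := (QuotientGroup.eq_one_iff z).2 (mem_zpowers z)
      have e1 : ∀ w, f χ (z * w) = ζ * f χ w := fun w => by
        show lam z ζ (z * w) * _ = ζ * (lam z ζ w * _)
        rw [h.lam_z_mul hc hζ, QuotientGroup.mk_mul, hz1, one_mul, mul_assoc]
      have e2 := e1 (z⁻¹ * s)
      rw [mul_inv_cancel_left] at e2
      have e3 := hmul (z⁻¹ * s)
      rw [mul_inv_cancel_left] at e3
      have hω0 : ω ≠ 0 := fun e' => by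
        have := hmul (z⁻¹ * 1)
        rw [mul_inv_cancel_left, e', zero_mul] at this
        exact H26.irr_one_ne_zero ψ this
      refine ⟨e1 s, ?_, ?_, by show lam z ζ s * _ = _; rw [lam_regular hζ h hs, one_mul]⟩
      · rw [e2, inv_mul_cancel_left₀ (fun e' => by simp [e'] at hζ)]
      · rw [e3, inv_mul_cancel_left₀ hω0]
    rw [Cfsg.classInner, h.sum_eq hT hcl hfl, htop, Subgroup.card_top, div_self hK, one_mul,
      sum_top_subgroup rfl fun g => f χ (z * g) * conj (ψ.1 (z * g)) +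
        f χ (z⁻¹ * g) * conj (ψ.1 (z⁻¹ * g)),
      Finset.sum_eq_zero (s := T) fun t ht => by
        show lam z ζ t * _ * _ = 0
        rw [h.nice_value hc hctx (hnice χ) (h.isPPart_self (hT.mem t ht)) (hT.mem t ht)
          (hT.notMem t ht) (IsConj.refl t), Int.cast_zero, mul_zero, zero_mul],
      mul_zero, add_zero, ← Finset.sum_add_distrib,
      Finset.sum_congr rfl fun (s : K) hs => show f χ s * conj (ψ.1 s) +
          (f χ (z * s) * conj (ψ.1 (z * s)) + f χ (z⁻¹ * s) * conj (ψ.1 (z⁻¹ * s))) =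
        (1 + ζ * conj ω + ζ⁻¹ * conj ω⁻¹) * (θ χ (s : K ⧸ zpowers z) * conj (ψ.1 s)) by
        obtain ⟨e1, e2, e3, e4⟩ := hreg s (Finset.mem_filter.1 hs).2
        rw [e1, e2, e3, hmul, e4, map_mul, map_mul]
        ring,
      ← Finset.mul_sum]
    refine mul_eq_zero_of_right _ (mul_eq_zero_of_right _ ?_)
    simp only [θ, Pi.sub_apply, Pi.smul_apply]
    simp only [zsmul_eq_mul, sub_mul, mul_assoc, Finset.sum_sub_distrib, ← Finset.mul_sum]
    rw [h.sum_inflate_eq_zero hc hM (fun hiff => hnot (hiff.1 (hmemB.1 honeB))),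
      h.sum_inflate_eq_zero hc hM (fun hiff => hnot (hiff.1 hχB))]
    simp
  -- their regular parts are independent
  have hrank : Cfsg.blockRank 3 (Cfsg.principalBlock M K) = 8 := by
    rw [H40.blockRank_principal_quotient hM (h.isPGroup_Z hc) (h.sup_centralizer_Z hc)]
    have := card_principal_eq hctx h.card_qSylow hM (r := 1) (by norm_num)
    omega
  have hli : LinearIndependent ℂ fun ψ : S => Cfsg.pRegularPart 3 (ψ.1.1 : K → ℂ) := by
    rw [Fintype.linearIndependent_iff]
    intro c hc0 ψ₀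
    have hall : ∀ g : K, ∑ ψ : S, c ψ * ψ.1.1 g = 0 := by
      intro g
      by_cases hg : pp g ∈ zpowers z
      · obtain ⟨i, hi⟩ := mem_zpowers_iff.1 hg
        have e1 := congrFun hc0 (rp g)
        simp only [Finset.sum_apply, Pi.smul_apply, smul_eq_mul, Pi.zero_apply, Cfsg.pRegularPart,
          Cfsg.IsPRegular, regular_rp g, not_false_eq_true, if_true] at e1
        have hpow : ∀ (j : ℕ) (ψ : S) (w : K), ψ.1.1 (z ^ j * w) = ζ ^ j * ψ.1.1 w := by
          intro j ψ w
          induction j generalizing w with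
          | zero => simp
          | succ j ih =>
            rw [pow_succ, mul_assoc, ih, hω ψ.1 ψ.2, pow_succ, mul_assoc]
        obtain ⟨j, hj⟩ : ∃ j : ℕ, z ^ j = pp g := by
          refine ⟨(i % 3).toNat, ?_⟩
          rw [← hi, ← zpow_natCast, Int.toNat_of_nonneg (Int.emod_nonneg i (by norm_num))]
          conv_rhs => rw [← zpow_mod_orderOf, h.orderOf_z]
          rfl
        conv_lhs => rw [← pp_mul_rp g, ← hj]
        simp only [hpow, mul_left_comm _ (ζ ^ j), ← Finset.mul_sum, e1, mul_zero]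
      · obtain ⟨y, x, hx, hxy⟩ := H28.Ab.exists_rep P g
        have hyZ : (y : K) ∉ zpowers z := fun hy => hg (by
          obtain ⟨b, hb⟩ := isConj_iff.1 hxy
          rw [pp_eq hx]
          exact (h.conj_mem_zpowers_iff hc).1 (hb.symm ▸ hy))
        refine Finset.sum_eq_zero fun ψ _ => mul_eq_zero_of_right _ ?_
        rw [h.flat_irr hM (hblk ψ.1 ψ.2) g x y hx y.2 hyZ hxy]
        obtain ⟨b, -, hb⟩ := h.exists_conj_eq_mul y.2 hyZ (mem_zpowers z)
        have e1 := H26.irr_conj ψ.1 (y : K) b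
        rw [hb, hc, hω ψ.1 ψ.2] at e1
        have : (ζ - 1) * ψ.1.1 (y : K) = 0 := by linear_combination e1
        exact (mul_eq_zero.1 this).resolve_left (sub_ne_zero.2 hζ1)
    have := Fintype.linearIndependent_iff.1
      ((H26.irr_linearIndependent (G := K)).comp (fun ψ : S => ψ.1) Subtype.val_injective) c
      (funext fun g => by simpa [Finset.sum_apply] using hall g) ψ₀
    exact this
  have hle := finrank_span_eq_card hli
  have hmono := Submodule.finrank_mono (show Submodule.span ℂ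
      (Set.range fun ψ : S => Cfsg.pRegularPart 3 (ψ.1.1 : K → ℂ)) ≤
    Submodule.span ℂ ((fun χ : Cfsg.IrrCharacter K => Cfsg.pRegularPart 3 (χ : K → ℂ)) ''
      Cfsg.principalBlock M K) from Submodule.span_mono (by
        rintro _ ⟨ψ, rfl⟩
        exact ⟨ψ.1, hblk ψ.1 ψ.2, rfl⟩))
  rw [hle, Fintype.card_coe] at hmono
  have : S.card ≤ 8 := hmono.trans_eq hrank
  omega

omit hctx

/-- The class functions of the family on the quotient. -/
noncomputable def theta (D : HData M (qSylow P z) e) (j : {χ // χ ∈ D.J}) (i : Fin D.r) :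
    K ⧸ zpowers z → ℂ :=
  D.δ j.1 • (j.1.1 : K ⧸ zpowers z → ℂ) + D.η • ((D.X i).1 : K ⧸ zpowers z → ℂ)

open scoped Classical in
/-- The values on the singular elements. -/
noncomputable def delta (D : HData M (qSylow P z) e) (i : Fin D.r)
    (y : ↥(qSylow P z : Subgroup (K ⧸ zpowers z))) : ℤ :=
  if y = 1 then 0 else D.Δ i y

include hctx

theorem nice_theta (hM : Cfsg.IsPModular 3 M) (D : HData M (qSylow P z) e)
    (j : {χ // χ ∈ D.J}) (i : Fin D.r) : Nice P z (theta D j i) (delta D i) := by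
  classical
  refine ⟨H57.gen_add (H57.gen_zsmul (H57.gen_of_irr j.1.2) _)
    (H57.gen_zsmul (H57.gen_of_irr (D.X i).2) _), fun n hn a b e' => ?_, if_pos rfl, fun y => ?_,
    fun g hg => ?_⟩
  · have : b = 1 ↔ a = 1 := by
      constructor <;> rintro rfl
      · exact Subtype.ext (by simpa using e'.symm)
      · exact Subtype.ext (by simpa using e')
    simp only [delta, this, D.Δ_inv i n hn a b e']
  · unfold delta
    split_ifs with hy
    exacts [dvd_zero _, D.dvd i y hy]
  obtain ⟨y, x, hx, hxy⟩ := H28.Ab.exists_rep (qSylow P z) g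
  have hy : y ≠ 1 := fun e' => by
    subst e'
    exact (H40.regular_iff_pPart_eq_one hx).2 (by simpa using hxy) hg
  have hinv : H28.Ab.Inv (qSylow P z) fun y => ((delta D i y : ℤ) : ℂ) := by
    intro n hn a b e'
    have : b = 1 ↔ a = 1 := by
      constructor <;> rintro rfl
      · exact Subtype.ext (by simpa using e'.symm)
      · exact Subtype.ext (by simpa using e')
    simp only [delta, this, D.Δ_inv i n hn a b e']
  have hjB : j.1 ∈ Cfsg.principalBlock M (K ⧸ zpowers z) := by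
    rw [D.block]; exact Or.inl j.2
  have hXB : D.X i ∈ Cfsg.principalBlock M (K ⧸ zpowers z) := by
    rw [D.block]; exact Or.inr ⟨i, rfl⟩
  rw [hctx.lift_eq hinv hx hxy]
  simp only [theta, delta, if_neg hy, Pi.add_apply, Pi.smul_apply]
  simp only [zsmul_eq_mul]
  rw [hctx.block_value hM hjB hy hx hxy, hctx.block_value hM hXB hy hx hxy, D.val_J j.1 j.2 y hy,
    D.val_X i y hy]
  rcases D.δ_unit j.1 with e' | e' <;> simp [e']

open scoped Classical in
/-- Inner products on the quotient. -/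
theorem inner_theta [Fintype (K ⧸ zpowers z)] (D : HData M (qSylow P z) e)
    (j k : {χ // χ ∈ D.J}) (i l : Fin D.r) :
    Cfsg.classInner (theta D j i) (theta D k l) =
      (if j = k then 1 else 0) + (if i = l then 1 else 0) := by
  have h1 : ∀ (j : {χ // χ ∈ D.J}) (i : Fin D.r), (j.1 : Cfsg.IrrCharacter _) ≠ D.X i :=
    fun j i e' => D.notMem i (e' ▸ j.2)
  have hη : (D.η : ℂ) * D.η = 1 := by rcases D.η_unit with e' | e' <;> simp [e']
  simp only [theta, H26.classInner_add_left, H26.classInner_add_right, H57.classInner_zsmul_left,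
    H57.classInner_zsmul_right, H26.classInner_irr, h1, Ne.symm (h1 _ _), if_false, mul_zero,
    add_zero, zero_add, Subtype.coe_inj, D.X_inj.eq_iff]
  by_cases e1 : j = k <;> by_cases e2 : i = l <;> simp [e1, e2, hη] <;>
    rcases D.δ_unit k.1 with e' | e' <;> simp [e']

open scoped Classical in
theorem sum_delta [Fintype ↥(qSylow P z : Subgroup (K ⧸ zpowers z))]
    (D : HData M (qSylow P z) e) (i l : Fin D.r) :
    ∑ q, ((delta D i q * delta D l q : ℤ) : ℂ) =
      if i = l then 9 * (e : ℂ) else 0 := by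
  have h1 := congrArg (Int.cast : ℤ → ℂ) (D.orth i l)
  push_cast [apply_ite (Int.cast : ℤ → ℂ)] at h1
  rw [← h1]
  refine Finset.sum_congr rfl fun q _ => ?_
  simp only [delta]
  by_cases hq : q = 1
  · rw [if_pos hq, if_pos hq, if_pos hq]; simp
  · rw [if_neg hq, if_neg hq, if_neg hq, Int.cast_mul]

open scoped Classical in
/-- The Gram matrix. -/
theorem gram_theta [Fintype (K ⧸ zpowers z)] (hM : Cfsg.IsPModular 3 M)
    (D : HData M (qSylow P z) e) {ζ : ℂ} (hζ : ζ ^ 3 = 1) (hζ1 : ζ ≠ 1)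
    (j k : {χ // χ ∈ D.J}) (i l : Fin D.r) :
    Cfsg.classInner (phi z ζ (theta D j i))
        (phi z ζ (theta D k l)) =
      2 * (if j = k then 1 else 0) + (if i = l then 1 else 0) ∧
    Cfsg.classInner (phi z ζ (theta D j i))
        (phi z ζ⁻¹ (theta D k l)) =
      (if j = k then 1 else 0) + (if i = l then 1 else 0) := by
  haveI := Fintype.ofFinite ↥(qSylow P z : Subgroup (K ⧸ zpowers z))
  have hne : ζ ≠ 0 := fun e' => by simp [e'] at hζ
  have hζi : ζ⁻¹ ^ 3 = 1 := by rw [inv_pow, hζ, inv_one]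
  have hζi1 : ζ⁻¹ ≠ 1 := fun e' => hζ1 (inv_eq_one.1 e')
  have he : (e : ℂ) ≠ 0 := Nat.cast_ne_zero.2 hctx.pos.ne'
  have hfrac : ((e : ℂ) * 9)⁻¹ * (if i = l then 9 * (e : ℂ) else 0) = if i = l then 1 else 0 := by
    split_ifs
    · field_simp
    · rw [mul_zero]
  constructor
  · rw [h.gram hc hctx hζ hζ1 hζ hζ1 (h.nice_theta hc hctx hM D j i) (h.nice_theta hc hctx hM D k l),
      h.inner_theta hc hctx D, h.sum_delta hc hctx D, hfrac, (root_self hζ hζ1).1]
    ring
  · rw [h.gram hc hctx hζ hζ1 hζi hζi1 (h.nice_theta hc hctx hM D j i)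
      (h.nice_theta hc hctx hM D k l), h.inner_theta hc hctx D, h.sum_delta hc hctx D, hfrac,
      (root_self hζ hζ1).2]
    ring

open scoped Classical in
/-- The pairing with the trivial character. -/
theorem phi_theta_one [Fintype (K ⧸ zpowers z)] (hM : Cfsg.IsPModular 3 M)
    (D : HData M (qSylow P z) e) {ζ : ℂ} (hζ : ζ ^ 3 = 1) (hζ1 : ζ ≠ 1)
    (j : {χ // χ ∈ D.J}) (i : Fin D.r) :
    Cfsg.classInner (phi z ζ (theta D j i)) (fun _ => 1) =
      if j.1 = H26.oneIrr (K ⧸ zpowers z) then -1 else 0 := by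
  haveI := Fintype.ofFinite ↥(qSylow P z : Subgroup (K ⧸ zpowers z))
  rw [h.inner_phi_one hc hctx hζ hζ1 (h.nice_theta hc hctx hM D j i),
    show (fun _ => (1 : ℂ)) = ((H26.oneIrr (K ⧸ zpowers z)).1 : K ⧸ zpowers z → ℂ) from
      funext fun g => (H26.oneIrr_val g).symm]
  have h1 : D.X i ≠ H26.oneIrr (K ⧸ zpowers z) := fun e' => D.notMem i (e' ▸ D.one_mem)
  simp only [theta, H26.classInner_add_left, H57.classInner_zsmul_left, H26.classInner_irr, h1,
    if_false, mul_zero, add_zero]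
  split_ifs with hj
  · rw [hj, D.δ_one]; simp
  · simp

end Setup

end Cfsg.Agent.H31.Extra27
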