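import Cfsg.Agent.H31.Extra27.Induce
import Cfsg.Agent.H31.Extra27.Theta
import Cfsg.Agent.H45.Galois

/-!
# The Galois twist inverting the 3-parts
-/

set_option autoImplicit false
set_option linter.unusedSectionVars false

open Subgroup
open scoped ComplexConjugate

namespace Cfsg.Agent.H31.Extra27

variable {G : Type*} [Group G] [Finite G] [hp : Fact (Nat.Prime 3)]

/-- An exponent inverting the 3-parts and fixing the regular parts. -/
theorem exists_twist (G : Type*) [Group G] [Finite G] : ∃ k : ℕ, k.Coprime (Nat.card G) ∧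
    (∀ g : G, g ^ (k * k) = g) ∧ ∀ g : G, pp (g ^ k) = (pp g)⁻¹ ∧ rp (g ^ k) = rp g := by
  set N := Nat.card G
  set v := N.factorization 3
  set a := 3 ^ v with hadef
  set m := N / a with hmdef
  have hN : N ≠ 0 := Nat.card_pos.ne'
  have ham : a * m = N := Nat.ordProj_mul_ordCompl_eq_self N 3
  have hm3 : ¬ 3 ∣ m := Nat.not_dvd_ordCompl Nat.prime_three hN
  have hco : a.Coprime m := (Nat.prime_three.coprime_iff_not_dvd.2 hm3).pow_left v
  obtain ⟨k, hka, hkm⟩ := Nat.chineseRemainder hco (a - 1) 1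
  have ha1 : 1 ≤ a := Nat.one_le_pow _ _ (by norm_num)
  have hsucc : k + 1 ≡ 0 [MOD a] := by
    have := hka.add_right 1
    rw [Nat.sub_add_cancel ha1] at this
    exact this.trans (Nat.modEq_zero_iff_dvd.2 dvd_rfl)
  have hx : ∀ g : G, (pp g) ^ k = (pp g)⁻¹ := by
    intro g
    refine eq_inv_of_mul_eq_one_left ?_
    rw [← pow_succ]
    obtain ⟨j, hj⟩ := exists_pow_pp g
    refine orderOf_dvd_iff_pow_eq_one.1 (dvd_trans ?_ (Nat.modEq_zero_iff_dvd.1 hsucc))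
    rw [hadef, hj]
    exact pow_dvd_pow 3 (((Nat.prime_three.pow_dvd_iff_le_factorization hN).1
      (hj ▸ orderOf_dvd_natCard (pp g))))
  have hs : ∀ g : G, (rp g) ^ k = rp g := by
    intro g
    have hd : orderOf (rp g) ∣ m := by
      refine (Nat.Coprime.dvd_of_dvd_mul_left (m := a) ?_ (by rw [ham]; exact orderOf_dvd_natCard (rp g)))
      exact ((Nat.prime_three.coprime_iff_not_dvd.2 (regular_rp g)).pow_left v).symm
    conv_rhs => rw [← pow_one (rp g)]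
    exact pow_eq_pow_iff_modEq.2 (Nat.ModEq.of_dvd hd hkm)
  have hparts : ∀ g : G, pp (g ^ k) = (pp g)⁻¹ ∧ rp (g ^ k) = rp g := by
    intro g
    have e : g ^ k = (pp g)⁻¹ * rp g := by
      conv_lhs => rw [← pp_mul_rp g]
      rw [(commute_pp_rp g).mul_pow, hx, hs]
    obtain ⟨j, hj⟩ := exists_pow_pp g
    have hpart : pp (g ^ k) = (pp g)⁻¹ := pp_eq ⟨rp g, e.symm, (commute_pp_rp g).inv_left,
      ⟨j, by rw [orderOf_inv, hj]⟩, regular_rp g⟩
    refine ⟨hpart, ?_⟩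
    show (pp (g ^ k))⁻¹ * g ^ k = rp g
    rw [hpart, e, inv_inv, mul_inv_cancel_left]
  have hkk : ∀ g : G, g ^ (k * k) = g := by
    intro g
    obtain ⟨h1, h2⟩ := hparts g
    rw [pow_mul, ← pp_mul_rp (g ^ k), h1, h2, ((commute_pp_rp g).inv_left).mul_pow, inv_pow, hx, hs,
      inv_inv, pp_mul_rp]
  have hkka : k * k ≡ 1 [MOD a] := by
    have hZ : ((k : ℤ) + 1) ≡ 0 [ZMOD (a : ℤ)] := by exact_mod_cast Int.natCast_modEq_iff.2 hsucc
    rw [← Int.natCast_modEq_iff]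
    push_cast
    obtain ⟨t, ht⟩ := Int.modEq_zero_iff_dvd.1 hZ
    refine Int.modEq_iff_dvd.2 ⟨-(t * ((k : ℤ) - 1)), ?_⟩
    linear_combination (-((k : ℤ) - 1)) * ht
  have hkkN : k * k ≡ 1 [MOD N] := by
    rw [← ham]
    exact (Nat.modEq_and_modEq_iff_modEq_mul hco).1 ⟨hkka, by simpa using hkm.mul hkm⟩
  refine ⟨k, ?_, hkk, hparts⟩
  have := hkkN.gcd_eq
  rw [Nat.gcd_one_left] at this
  exact Nat.Coprime.coprime_dvd_left (dvd_mul_right k k) this

namespace Setup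

variable {P : Sylow 3 G} {z : G} (h : Setup P z)
include h

/-- The transfer commutes with the twist. -/
theorem ind_twist {φ φ' : centralizer ({z} : Set G) → ℂ} (hφ : Local h φ) (hφ' : Local h φ')
    {k : ℕ} (hparts : ∀ g : G, pp (g ^ k) = (pp g)⁻¹ ∧ rp (g ^ k) = rp g)
    (heq : ∀ w : centralizer ({z} : Set G), φ' w = φ (w ^ k)) (g : G) :
    h.ind φ' g = h.ind φ (g ^ k) := by
  by_cases hg : 3 ∣ orderOf g
  swap
  · rw [h.ind_regular φ' hg, h.ind_regular φ fun hh => hg (hh.trans (orderOf_pow_dvd k))]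
  obtain ⟨c, hc⟩ := h.exists_conj_pp g
  set g' := c * g * c⁻¹ with hg'
  have hpp' : pp g' = c * pp g * c⁻¹ := pp_conj g c
  have hconj : ∀ (ψ : centralizer ({z} : Set G) → ℂ), Local h ψ → ∀ w : G,
      h.ind ψ (c * w * c⁻¹) = h.ind ψ w := fun ψ hψ w => h.ind_class hψ w c
  rw [← hconj φ' hφ' g, ← hconj φ hφ (g ^ k), ← conj_pow, ← hg']
  rw [← hpp'] at hc
  by_cases hZ : pp g' ∈ zpowers z
  · have hne : pp g' ≠ 1 := fun e => by
      rw [hpp', conj_eq_one_iff] at e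
      exact ((H40.regular_iff_pPart_eq_one (pp_spec g)).2 e) hg
    have hmem : g' ∈ centralizer ({z} : Set G) := by
      refine h.mem_centralizer_of_commute hZ hne ?_
      obtain ⟨v, hv, hcv, -, -⟩ := pp_spec g'
      conv_lhs => rw [← hv]
      exact (Commute.refl _).mul_left hcv.symm
    have e1 := h.ind_coe hφ' ⟨g', hmem⟩
    have e2 := h.ind_coe hφ (⟨g', hmem⟩ ^ k)
    simp only [SubmonoidClass.coe_pow] at e1 e2
    rw [e1, e2, heq]
  · have hy := h.P_le hc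
    have hZ' : (pp g')⁻¹ ∉ zpowers z := fun e => hZ (inv_mem_iff.1 e)
    have e1 := h.ind_flat hφ' g' (pp g') (pp g') (pp_spec g') hc hZ (IsConj.refl _)
    have e2 := h.ind_flat hφ (g' ^ k) (pp g')⁻¹ (pp g')⁻¹
      ((hparts g').1 ▸ pp_spec (g' ^ k)) (inv_mem hc) hZ' (IsConj.refl _)
    have e3 := h.ind_coe hφ' ⟨pp g', hy⟩
    have e4 := h.ind_coe hφ ⟨(pp g')⁻¹, inv_mem hy⟩
    rw [e1, e2]
    rw [e3, e4, heq]
    congr 1
    refine Subtype.ext ?_
    rw [SubmonoidClass.coe_pow]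
    show pp g' ^ k = (pp g')⁻¹
    obtain ⟨h1, -⟩ := hparts (pp g')
    have hself : pp (pp g') = pp g' := pp_eq (h.isPPart_self hc)
    have hr : rp (pp g') = 1 := by rw [rp, hself, inv_mul_cancel]
    rw [← pp_mul_rp (pp g' ^ k), h1, (hparts (pp g')).2, hr, mul_one, hself]

end Setup

section Centre

variable {K : Type*} [Group K] [Finite K] {P : Sylow 3 K} {z : K} (h : Setup P z)
  (hc : ∀ w : K, w * z = z * w) [(zpowers z).Normal] {e : ℕ}
  (hctx : H28.Ab.Ctx (qSylow P z) e)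
include h hc hctx

/-- The twist of an exceptional function is that of the inverse root. -/
theorem Setup.phi_twist (he : 2 ∣ e) {ζ : ℂ} (hζ : ζ ^ 3 = 1) {θ : K ⧸ zpowers z → ℂ}
    {F : ↥(qSylow P z : Subgroup (K ⧸ zpowers z)) → ℤ} (hn : Setup.Nice P z θ F) {k : ℕ} {w : K}
    (hpk : pp (w ^ k) = (pp w)⁻¹) (hrk : rp (w ^ k) = rp w) :
    Setup.phi z ζ⁻¹ θ w = Setup.phi z ζ θ (w ^ k) := by
  have hζi : ζ⁻¹ ^ 3 = 1 := by rw [inv_pow, hζ, inv_one]
  by_cases hw : pp w ∈ zpowers z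
  · obtain ⟨i, hi⟩ := mem_zpowers_iff.1 hw
    have hmk : ∀ v : K, pp v ∈ zpowers z → (v : K ⧸ zpowers z) = ((rp v : K) : K ⧸ zpowers z) := fun v hv => by
      conv_lhs => rw [← pp_mul_rp v, QuotientGroup.mk_mul, (QuotientGroup.eq_one_iff _).2 hv, one_mul]
    rw [Setup.phi, Setup.phi, lam_of_eq hζi h hi.symm,
      lam_of_eq hζ h (w := w ^ k) (i := -i) (by rw [hpk, zpow_neg, hi]), inv_zpow', hmk w hw,
      hmk (w ^ k) (by rw [hpk]; exact inv_mem hw), hrk]
  · have hw' : pp (w ^ k) ∉ zpowers z := fun hh => hw (inv_mem_iff.1 (hpk ▸ hh))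
    obtain ⟨y, x, hx, hxy⟩ := H28.Ab.exists_rep P w
    obtain ⟨b, hb⟩ := isConj_iff.1 hxy
    have hyZ : (y : K) ∉ zpowers z := fun hy => hw (by
      rw [pp_eq hx]
      exact (h.conj_mem_zpowers_iff hc).1 (hb.symm ▸ hy))
    have hx' : Cfsg.IsPPart 3 (w ^ k) x⁻¹ := by
      have := pp_spec (w ^ k)
      rwa [hpk, pp_eq hx] at this
    rw [h.phi_section hc hctx hn hx y.2 hyZ hxy,
      h.phi_section hc hctx hn hx' (inv_mem y.2) (fun hh => hyZ (inv_mem_iff.1 hh))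
        (isConj_iff.2 ⟨b, by rw [← hb]; group⟩)]
    have hinv := inv_apply_inv hctx he hn.inv ⟨_, h.mk_mem_qSylow y.2⟩
    rw [← hinv]
    rfl

end Centre

end Cfsg.Agent.H31.Extra27
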